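import Cfsg.Agent.Lib.Chev.Group

set_option autoImplicit false
set_option maxHeartbeats 400000

namespace Cfsg.Agent.Lib.Chev
open Matrix Cfsg.Lie
open scoped MatrixGroups

noncomputable section

lemma RS.exchange {Φ : Type} {l : ℕ} (R : RS Φ l) (w : List (Fin l)) {r : Φ} (hr : R.pos r)
    (h : ¬ R.pos (R.inv w r)) : ∃ A j B, w = A ++ j :: B ∧ R.inv A r = R.sim j := by
  induction w generalizing r with
  | nil => exact absurd hr h
  | cons j w ih =>
    by_cases h1 : r = R.sim j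
    · exact ⟨[], j, w, rfl, h1⟩
    · obtain ⟨A, k, B, rfl, h2⟩ := ih (R.pos_refl hr h1).1 h
      exact ⟨j :: A, k, B, rfl, h2⟩

lemma Fold.peel_bot {Φ : Type} {l : ℕ} {R : RS Φ l} {Γ : Type*} [Group Γ] (A : Fold R Γ) [Finite Φ]
    (P : Γ → Prop) (hP : ∀ i, ∀ x ∈ A.X (R.sim i), ∀ u ∈ US A.X (R.P' i), P (x * u) →
      x = 1 ∧ P ((A.n i)⁻¹ * u * A.n i)) : ∀ g ∈ A.U, P g → g = 1 := by
  have key : ∀ w, ∀ g ∈ US A.X (R.Inv w), P g → g = 1 := by
    refine R.Inv_induction (fun w => ∀ g ∈ US A.X (R.Inv w), P g → g = 1) ?_ ?_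
    · intro w hw g hg _
      have : R.Inv w = ∅ := Set.eq_empty_of_forall_notMem fun r hr => hr.2 (hw r hr.1)
      rwa [this, US_empty, Subgroup.mem_bot] at hg
    · intro w i hi ih g hg hPg
      obtain ⟨x, hx, u, hu, rfl⟩ := A.split (R.closed_Inv w i hi) hg
      obtain ⟨h1, h2⟩ := hP i x hx u (US_mono (S' := R.P' i) (fun r hr => ⟨hr.1.1, hr.2⟩) hu) hPg
      have h3 : (A.n i)⁻¹ * u * A.n i ∈ US A.X (R.Inv (i :: w)) := by
        have := US_conj (A.n i)⁻¹ (K := US A.X (R.Inv (i :: w))) (fun r hr z hz => ?_) hu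
        · simpa using this
        · rw [← R.Inv_cons_image w i hi] at hr
          obtain ⟨s, hs, rfl⟩ := hr
          have := A.conj' i _ z hz
          rw [R.refl_refl] at this
          simpa using le_US (X := A.X) hs this
      have h4 := ih _ h3 h2
      have : u = A.n i * ((A.n i)⁻¹ * u * A.n i) * (A.n i)⁻¹ := by group
      rw [this, h4, h1]; simp
  obtain ⟨w, hw⟩ := R.exists_w0
  intro g hg
  exact key w g (US_mono (S' := R.Inv w) (fun r hr => ⟨hr, hw r hr⟩) hg)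

namespace Cert
variable {D : ChevalleyDatum} (K : Cert D) {F : Type*} [Field F]

abbrev nW (F : Type*) [Field F] (w : List (Fin D.rank)) : GL D.Idx F := (K.full F).nW w

lemma nW_cons (i : Fin D.rank) (w : List (Fin D.rank)) : K.nW F (i :: w) = K.n F i * K.nW F w :=
  (K.full F).nW_cons i w

/-- the group is generated by the root elements of the simple roots and their negatives -/
lemma le_of_simple (H : Subgroup (GL D.Idx F)) (h1 : ∀ i t, K.x (K.R.sim i) t ∈ H)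
    (h2 : ∀ i t, K.x (K.R.neg (K.R.sim i)) t ∈ H) : D.group F ≤ H := by
  rw [K.group_eq]
  refine US_le fun r _ g hg => ?_
  obtain ⟨w, i, hw⟩ := K.R.exists_inv_eq_sim r
  have h3 := (K.full F).conjW w r hg
  rw [hw] at h3
  obtain ⟨t, ht⟩ := h3
  have hn : K.nW F w ∈ H := (K.full F).nW_mem (fun i => mul_mem (mul_mem (h1 i _) (h2 i _)) (h1 i _)) w
  have : g = K.nW F w * ((K.nW F w)⁻¹ * g * K.nW F w) * (K.nW F w)⁻¹ := by group
  rw [this, ht]
  exact mul_mem (mul_mem hn (h1 i t)) (inv_mem hn)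

lemma hom_ext {M : Type*} [Monoid M] (f g : D.group F →* M)
    (h1 : ∀ i t, f ⟨_, K.x_mem (K.R.sim i) t⟩ = g ⟨_, K.x_mem (K.R.sim i) t⟩)
    (h2 : ∀ i t, f ⟨_, K.x_mem (K.R.neg (K.R.sim i)) t⟩ = g ⟨_, K.x_mem (K.R.neg (K.R.sim i)) t⟩) :
    f = g := by
  ext ⟨a, ha⟩
  obtain ⟨b, hb, rfl⟩ := K.le_of_simple ((f.eqLocus g).map (D.group F).subtype)
    (fun i t => ⟨_, h1 i t, rfl⟩) (fun i t => ⟨_, h2 i t, rfl⟩) ha
  exact hb

lemma n_mulVec (i : Fin D.rank) (r : Fin D.nroots) :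
    (K.n F i : Matrix D.Idx D.Idx F) *ᵥ Pi.single (Sum.inr r) 1 =
      (K.η i r : F) • Pi.single (Sum.inr (K.R.refl i r)) 1 := by
  funext a
  rw [mulVec_single_one, Matrix.col_apply, n_apply_inr]
  simp [Pi.single_apply]

lemma nW_mulVec (w : List (Fin D.rank)) (r : Fin D.nroots) : ∃ ε : F, ε ≠ 0 ∧
    (K.nW F w : Matrix D.Idx D.Idx F) *ᵥ Pi.single (Sum.inr (K.R.inv w r)) 1 =
      ε • Pi.single (Sum.inr r) 1 := by
  induction w generalizing r with
  | nil => exact ⟨1, one_ne_zero, by rw [one_smul]; exact one_mulVec _⟩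
  | cons i w ih =>
    obtain ⟨ε, h0, h⟩ := ih (K.R.refl i r)
    refine ⟨ε * K.η i (K.R.refl i r), mul_ne_zero h0 (left_ne_zero_of_mul_eq_one (K.η_sq _ _)), ?_⟩
    rw [nW_cons, Units.val_mul, ← mulVec_mulVec, RS.inv_cons, h, mulVec_smul, n_mulVec,
      K.R.refl_refl, smul_smul]

lemma nW_inv_mulVec (w : List (Fin D.rank)) (r : Fin D.nroots) : ∃ ε : F, ε ≠ 0 ∧
    (((K.nW F w)⁻¹ : GL D.Idx F) : Matrix D.Idx D.Idx F) *ᵥ Pi.single (Sum.inr r) 1 =
      ε • Pi.single (Sum.inr (K.R.inv w r)) 1 := by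
  obtain ⟨ε, h0, h⟩ := K.nW_mulVec (F := F) w r
  refine ⟨ε⁻¹, inv_ne_zero h0, ?_⟩
  have := congrArg (fun v => (((K.nW F w)⁻¹ : GL D.Idx F) : Matrix D.Idx D.Idx F) *ᵥ v) h
  simp only [mulVec_mulVec, Units.inv_mul, one_mulVec, mulVec_smul] at this
  rw [this, smul_smul, inv_mul_cancel₀ h0, one_smul]

lemma cell_aux {w w' : List (Fin D.rank)} {a a' h h' u u' : GL D.Idx F} (ha : a ∈ (K.full F).U)
    (ha' : a' ∈ (K.full F).U) (hh : h ∈ (K.full F).T) (hh' : h' ∈ (K.full F).T) (hu : u ∈ (K.full F).U)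
    (hu' : u' ∈ (K.full F).U) (e : a * K.nW F w * h * u = a' * K.nW F w' * h' * u')
    (r : Fin D.nroots) : K.R.inv w r = K.R.inv w' r ∨
      RS.ht (K.R.ρ (K.R.inv w' r)) < RS.ht (K.R.ρ (K.R.inv w r)) := by
  obtain ⟨b, hb, c, hc, hbc⟩ := (K.full F).factor w _ (mul_mem (inv_mem ha') ha)
  have hv := inv_mem ((K.full F).conj_Inv hb)
  have hc' := (K.full F).conj_NInv hc
  obtain ⟨χ, hχ⟩ := mul_mem hh (inv_mem hh')
  have hu2 := mul_mem ((K.full F).T_U (inv_mem (mul_mem hh (inv_mem hh'))) hc')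
    ((K.full F).T_U hh' (mul_mem hu (inv_mem hu')))
  set v := ((K.full F).nW w)⁻¹ * b * (K.full F).nW w
  set u2 := (h * h'⁻¹)⁻¹ * (((K.full F).nW w)⁻¹ * c * (K.full F).nW w) * (h * h'⁻¹)⁻¹⁻¹ *
    (h' * (u * u'⁻¹) * h'⁻¹)
  have e2 : v⁻¹ * ((K.nW F w)⁻¹ * K.nW F w') = K.h χ * u2 := by
    have e3 : K.nW F w' = (a'⁻¹ * a) * K.nW F w * h * u * u'⁻¹ * h'⁻¹ := by
      calc _ = a'⁻¹ * (a' * K.nW F w' * h' * u') * u'⁻¹ * h'⁻¹ := by group
        _ = _ := by rw [← e]; group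
    rw [hχ, e3, hbc]; simp only [v, u2, nW]; group
  obtain ⟨ε, h0, h1⟩ := K.nW_mulVec (F := F) w' r
  obtain ⟨ε', h0', h1'⟩ := K.nW_inv_mulVec (F := F) w r
  have e4 := congrArg (fun g : GL D.Idx F => ((g : Matrix D.Idx D.Idx F) *ᵥ
    Pi.single (Sum.inr (K.R.inv w' r)) 1) (Sum.inr (K.R.inv w r))) e2
  simp only [Units.val_mul, ← mulVec_mulVec, h1, mulVec_smul, h1'] at e4
  simp only [mulVec_single_one, Pi.smul_apply, Matrix.col_apply, h_val, mulVec_diagonal,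
    smul_eq_mul] at e4
  rw [K.tri_Um hv _ _ (by simp [RS.ht])] at e4
  by_contra hcon
  push Not at hcon
  rw [K.tri_U hu2 _ _ (by
    have := hcon.2
    simp only [Set.mem_ofPred_eq, wt, Sum.elim_inr, RS.ht, Pi.sub_apply, Finset.sum_sub_distrib] at this ⊢
    omega), one_apply_eq, one_apply_ne (by simpa using hcon.1)] at e4
  simp [h0, h0'] at e4

theorem cell_unique {w w' : List (Fin D.rank)} {a a' h h' u u' : GL D.Idx F} (ha : a ∈ (K.full F).U)
    (ha' : a' ∈ (K.full F).U) (hh : h ∈ (K.full F).T) (hh' : h' ∈ (K.full F).T) (hu : u ∈ (K.full F).U)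
    (hu' : u' ∈ (K.full F).U) (e : a * K.nW F w * h * u = a' * K.nW F w' * h' * u') :
    K.R.inv w = K.R.inv w' := by
  funext r
  rcases K.cell_aux ha ha' hh hh' hu hu' e r with h1 | h1
  · exact h1
  · rcases K.cell_aux ha' ha hh' hh hu' hu e.symm r with h2 | h2
    · exact h2.symm
    · omega

def EtaOK : Prop := ∀ i r, K.η i (K.R.neg r) = K.η i r

lemma nW_conj (hη : K.EtaOK) (w : List (Fin D.rank)) (r : Fin D.nroots) : ∃ ε : F, ε * ε = 1 ∧
    (∀ t, (K.nW F w)⁻¹ * K.x r t * K.nW F w = K.x (K.R.inv w r) (ε * t)) ∧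
    (∀ t, (K.nW F w)⁻¹ * K.x (K.R.neg r) t * K.nW F w = K.x (K.R.neg (K.R.inv w r)) (ε * t)) := by
  induction w generalizing r with
  | nil => exact ⟨1, by simp, by simp, by simp⟩
  | cons i w ih =>
    obtain ⟨ε, h0, h1, h2⟩ := ih (K.R.refl i r)
    refine ⟨ε * K.η i (K.R.refl i r), ?_, fun t => ?_, fun t => ?_⟩
    · rw [mul_mul_mul_comm, h0, K.η_sq, one_mul]
    · rw [RS.inv_cons, mul_assoc ε, ← h1, ← n_conj', nW_cons]; group
    · rw [RS.inv_cons, mul_assoc ε, ← h2, ← hη, ← K.R.refl_neg, ← n_conj', nW_cons]; group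

theorem nW_mem_T (hη : K.EtaOK) (w : List (Fin D.rank))
    (hw : ∀ r, K.R.pos r → K.R.pos (K.R.inv w r)) : K.nW F w ∈ (K.full F).T := by
  induction' hn : w.length using Nat.strong_induction_on with m ih generalizing w
  cases w with
  | nil => exact one_mem _
  | cons i w =>
    obtain ⟨A, j, B, rfl, hA⟩ := K.R.exchange w (K.R.pos_sim i)
      ((K.R.pos_inv_cons_sim w i).1 (hw _ (K.R.pos_sim i)))
    obtain ⟨ε, h0, h1, h2⟩ := K.nW_conj (F := F) hη A (K.R.sim i)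
    rw [hA] at h1 h2
    let e : Fˣ := ⟨ε, ε, h0, h0⟩
    have h3 : (K.nW F A)⁻¹ * K.n F i * K.nW F A = K.h (K.κ j e) * K.n F j := by
      rw [← n_t]
      have a1 := h1 1
      have a2 := h2 (-1)
      rw [mul_one] at a1
      rw [mul_neg_one] at a2
      change _ = K.x _ ε * K.x _ (-ε) * K.x _ ε
      rw [← a1, ← a2, n]; group
    obtain ⟨k, hk, hk'⟩ := (K.full F).n_inv j
    have hk2 : K.n F j * K.n F j = k⁻¹ := by
      have : (K.n F j)⁻¹ = k * K.n F j := hk'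
      rw [eq_inv_iff_mul_eq_one, ← inv_eq_iff_mul_eq_one, _root_.mul_inv_rev, this]
      calc k * K.n F j * (k * K.n F j) = k * (K.n F j * (K.n F j)⁻¹) := by rw [this]; group
        _ = k := by group
    have hT : (K.nW F B)⁻¹ * (K.h (K.κ j e) * k⁻¹) * K.nW F B ∈ (K.full F).T :=
      (K.full F).nW_T B (mul_mem ⟨_, rfl⟩ (inv_mem hk))
    have h4 : K.nW F (i :: (A ++ j :: B)) =
        K.nW F (A ++ B) * ((K.nW F B)⁻¹ * (K.h (K.κ j e) * k⁻¹) * K.nW F B) := by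
      rw [nW_cons, nW, nW, Fold.nW_append, Fold.nW_append, ← hk2, ← mul_assoc (K.h _), ← h3]
      change _ * (_ * K.nW F (j :: B)) = _
      rw [nW_cons]; simp only [nW]; group
    have h5 : K.R.inv (i :: (A ++ j :: B)) = K.R.inv (A ++ B) :=
      K.cell_unique (F := F) (one_mem _) (one_mem _) (one_mem _) hT (one_mem _) (one_mem _)
        (by rw [h4]; group)
    rw [h4]
    refine mul_mem (ih (A ++ B).length (by rw [← hn]; simp) _ (by rwa [← h5]) rfl) hT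

theorem inv_eq_id (hη : K.EtaOK) (w : List (Fin D.rank))
    (hw : ∀ r, K.R.pos r → K.R.pos (K.R.inv w r)) : K.R.inv w = K.R.inv [] :=
  K.cell_unique (F := ℚ) (one_mem _) (one_mem _) (one_mem _) (K.nW_mem_T hη w hw) (one_mem _)
    (one_mem _) (by simp)

theorem nW_eq_of_inv (hη : K.EtaOK) {w w' : List (Fin D.rank)} (h : K.R.inv w = K.R.inv w') :
    ∃ k ∈ (K.full F).T, K.nW F w = K.nW F w' * k := by
  have h1 := K.nW_mem_T (F := F) hη (w'.reverse ++ w) fun r hr => by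
    rwa [RS.inv_append, h, RS.inv_inv_reverse]
  have h2 := K.nW_mem_T (F := F) hη (w'.reverse ++ w') fun r hr => by
    rwa [RS.inv_append, RS.inv_inv_reverse]
  refine ⟨_, mul_mem (inv_mem h2) h1, ?_⟩
  simp only [nW, Fold.nW_append]; group

lemma entry_P'' (i j : Fin D.rank) {g : GL D.Idx F} (hg : g ∈ US (K.X F) (K.R.P' i)) :
    (g : Matrix D.Idx D.Idx F) (Sum.inl j) (Sum.inr (K.R.neg (K.R.sim i))) = 0 := by
  have := K.tri_of_mem (Z := {v | 0 ≤ v ∧ ∃ j, j ≠ i ∧ 0 < v j})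
    (fun v hv w hw => ⟨add_nonneg hv.1 hw.1, by
      obtain ⟨j, hj, hj'⟩ := hv.2
      exact ⟨j, hj, by have := hw.1 j; simp only [Pi.add_apply, Pi.zero_apply] at this ⊢; omega⟩⟩)
    (fun r hr => ⟨hr.1, K.R.exists_coord hr.1 hr.2⟩) hg (Sum.inl j) (Sum.inr (K.R.neg (K.R.sim i))) (by
      rintro ⟨-, j, hj, hj'⟩
      simp [wt, K.R.ρ_neg, K.R.ρ_sim, hj] at hj')
  simpa using this

lemma κ_ev (i : Fin D.rank) (t : Fˣ) (v : Fin D.rank → ℤ) :
    (K.κ i t).ev v = t ^ (∑ j, K.R.cart i j * v j) := by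
  rw [κ, Chr.ev_mk]
  simp only [← _root_.zpow_mul]
  induction (Finset.univ : Finset (Fin D.rank)) using Finset.induction_on with
  | empty => simp
  | insert a s ha ih => rw [Finset.sum_insert ha, Finset.prod_insert ha, _root_.zpow_add, ih]

lemma n_h (χ : Chr D.rank F) (i : Fin D.rank) :
    K.n F i * K.h χ * (K.n F i)⁻¹ = K.h (χ.comp (K.R.sL i)) := by
  have := K.h_n (χ.comp (K.R.sL i)) i
  have h5 : Chr.comp (χ.comp (K.R.sL i)) (K.R.sL i) = χ := Chr.ext' fun j => by simp [RS.sL_sL]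
  rw [h5] at this
  rw [← this]; simp

end Cert

/-! ### rectangular sparse matrices -/
section Rect
variable {ι κ μ : Type} {F : Type*} [CommRing F]

def Mat2 (e1 : ι → ℕ) (e2 : κ → ℕ) (cf : ℕ → Col) (τ : F) : Matrix ι κ F := Matrix.of fun a b =>
  ((cf (e2 b)).map fun e => if e.1 = e1 a then (e.2.1 : F) * τ ^ e.2.2 else 0).sum

def Rep2 (e1 : ι → ℕ) (e2 : κ → ℕ) [Fintype κ] (t u : F) (M : Matrix ι κ F) (f : Vec → Vec) : Prop :=
  ∀ v, M *ᵥ ev e2 t u v = ev e1 t u (f v)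

variable {e1 : ι → ℕ} {e2 : κ → ℕ} {e3 : μ → ℕ} {t u : F} [Fintype κ]

lemma Rep2.mul [Fintype μ] {M : Matrix ι κ F} {N : Matrix κ μ F} {f g : Vec → Vec}
    (hM : Rep2 e1 e2 t u M f) (hN : Rep2 e2 e3 t u N g) : Rep2 e1 e3 t u (M * N) (fun v => f (g v)) :=
  fun v => by rw [← Matrix.mulVec_mulVec, hN, hM]

lemma rep2_appM [DecidableEq κ] (henc : Function.Injective e2) {cf : ℕ → Col}
    (hcf : ∀ b, (∀ a, e2 a ≠ b) → cf b = []) :
    Rep2 e1 e2 t u (Mat2 e1 e2 cf (1 : F)) (appM cf 1 0 0) := by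
  have key : ∀ (z : F) (k : ℕ) (a : ι), (Mat2 e1 e2 cf (1 : F) *ᵥ fun a => if k = e2 a then z else 0) a =
      ((cf k).map fun e => if e.1 = e1 a then (e.2.1 : F) * 1 ^ e.2.2 else 0).sum * z := by
    intro z k a
    by_cases h : ∃ b, e2 b = k
    · obtain ⟨b, rfl⟩ := h
      simp only [Matrix.mulVec, dotProduct, henc.eq_iff]
      rw [Finset.sum_eq_single b] <;> simp +contextual [Mat2, eq_comm]
    · push Not at h
      rw [hcf k h]
      simp [Matrix.mulVec, dotProduct, fun a => (h a).symm]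
  intro v
  induction v with
  | nil => simp [ev_nil, appM]
  | cons e v ih =>
    have : appM cf 1 0 0 (e :: v) = app1 1 0 0 e.2.1 e.2.2.1 e.2.2.2 (cf e.1) (appM cf 1 0 0 v) := rfl
    funext a
    rw [this, ev_app1, ev_cons, Matrix.mulVec_add, Pi.add_apply, ih, key]
    simp

lemma Rep2.eq [DecidableEq κ] (henc : Function.Injective e2) {M N : Matrix ι κ F} {f g : Vec → Vec}
    (hM : Rep2 e1 e2 t u M f) (hN : Rep2 e1 e2 t u N g)
    (h : ∀ b, eqv (f (e0 (e2 b))) (g (e0 (e2 b))) = true) : M = N := by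
  ext a b
  have h1 := congrFun (hM (e0 (e2 b))) a
  have h2 := congrFun (hN (e0 (e2 b))) a
  rw [ev_e0 henc] at h1 h2
  rw [ev_eq_of_eqv e1 t u (h b), ← h2] at h1
  simpa using h1

omit [Fintype κ] in
lemma Mat2_cast (cf : ℕ → Col) (a : ι) (b : κ) :
    Mat2 e1 e2 cf (1 : F) a b = ((Mat2 e1 e2 cf (1 : ℤ) a b : ℤ) : F) := by
  simp only [Mat2, Matrix.of_apply, one_pow, mul_one, Int.cast_list_sum, List.map_map]
  congr 2
  funext x
  simp only [Function.comp]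
  split_ifs <;> simp

end Rect
end
end Cfsg.Agent.Lib.Chev
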