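/- Abstract Chevalley groups with trivial centre: definitions for the automorphism theory.  Owner: helper2. -/
import Cfsg.Agent.Lib.Chev.Weyl

set_option autoImplicit false
set_option linter.unusedSectionVars false

namespace Cfsg.Agent.Lib.Chev

variable {Φ : Type} {l : ℕ}

/-- parametrised root subgroups generating a group with trivial centre -/
structure Chv (R : RS Φ l) (F : Type*) [Field F] (Γ : Type*) [Group Γ] extends Full R Γ where
  x : Φ → F → Γ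
  x_add : ∀ r t u, x r (t + u) = x r t * x r u
  mem_X : ∀ r g, g ∈ X r ↔ ∃ t, g = x r t
  x_inj : ∀ r t, x r t = 1 → t = 0
  gen : US X Set.univ = ⊤
  zent : ∀ g : Γ, (∀ y, g * y = y * g) → g = 1
  diag : ∀ χ : Chr l F, ∃ d : MulAut Γ, ∀ r t, d (x r t) = x r (χ.ev (R.ρ r) * t)
  T_act : ∀ h ∈ T, ∃ χ : Chr l F, ∀ r t, h * x r t * h⁻¹ = x r (χ.ev (R.ρ r) * t)
  n_def : ∀ i, n i = x (R.sim i) 1 * x (R.neg (R.sim i)) (-1) * x (R.sim i) 1
  n_t : ∀ i (t : Fˣ), ∃ h ∈ T, x (R.sim i) t * x (R.neg (R.sim i)) (-((t⁻¹ : Fˣ) : F)) * x (R.sim i) t = h * n i ∧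
    ∀ r u, h * x r u * h⁻¹ = x r ((t ^ (∑ j, R.cart i j * R.ρ r j) : Fˣ) * u)
  n_sim : ∀ i t, n i * x (R.sim i) t * (n i)⁻¹ = x (R.neg (R.sim i)) (-t)
  nW_conj : ∀ (w : List (Fin l)) r, ∃ ε : F, ε * ε = 1 ∧
    (∀ t, ((w.map n).prod)⁻¹ * x r t * (w.map n).prod = x (R.inv w r) (ε * t)) ∧
    (∀ t, ((w.map n).prod)⁻¹ * x (R.neg r) t * (w.map n).prod = x (R.neg (R.inv w r)) (ε * t))
  nW_T' : ∀ w : List (Fin l), (∀ r, R.pos r → R.pos (R.inv w r)) → (w.map n).prod ∈ T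
  cell : ∀ (w w' : List (Fin l)), ∀ a ∈ US X {r | R.pos r}, ∀ a' ∈ US X {r | R.pos r}, ∀ h ∈ T, ∀ h' ∈ T,
    ∀ u ∈ US X {r | R.pos r}, ∀ u' ∈ US X {r | R.pos r},
    a * (w.map n).prod * h * u = a' * (w'.map n).prod * h' * u' → R.inv w = R.inv w'

namespace Chv
variable {R : RS Φ l} {F : Type*} [Field F] {Γ : Type*} [Group Γ] (A : Chv R F Γ)

/-- the Bruhat cell of a word -/
def CellW (w : List (Fin l)) (g : Γ) : Prop := ∃ a ∈ A.U, ∃ h ∈ A.T, ∃ u ∈ A.U, g = a * A.nW w * h * u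

/-- automorphisms normalising `U` and `U⁻` -/
structure Std (δ : MulAut Γ) : Prop where
  U : ∀ g, δ g ∈ A.U ↔ g ∈ A.U
  Um : ∀ g, δ g ∈ A.Um ↔ g ∈ A.Um

/-- `δ` maps `X r`, `X (-r)` to `X s`, `X (-s)` like a diagonal times a field automorphism of `SL₂` -/
def Pair (δ : MulAut Γ) (r s : Φ) : Prop := ∃ (c : Fˣ) (f : F ≃+* F), ∀ t,
  δ (A.x r t) = A.x s (c * f t) ∧ δ (A.x (R.neg r) t) = A.x (R.neg s) ((c⁻¹ : Fˣ) * f t)

/-- the shape of a standard automorphism: `π` permutes the nodes, `θ` the roots -/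
structure Form (δ : MulAut Γ) (π : Equiv.Perm (Fin l)) (θ : Equiv.Perm Φ) : Prop extends A.Std δ where
  sim : ∀ i, θ (R.sim i) = R.sim (π i)
  refl : ∀ i r, θ (R.refl i r) = R.refl (π i) (θ r)
  neg : ∀ r, θ (R.neg r) = R.neg (θ r)
  pos : ∀ r, R.pos (θ r) ↔ R.pos r
  root : ∀ r, A.Pair δ r (θ r)
  T : ∀ h, δ h ∈ A.T ↔ h ∈ A.T
  n : ∀ i, ∃ h ∈ A.T, δ (A.n i) = h * A.n (π i)

/-- a `p'`-group of automorphisms commuting with `β` and normalised by the fixed points of `β` -/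
structure Bal (β : MulAut Γ) (p : ℕ) (N : Subgroup (MulAut Γ)) : Prop where
  nd : ¬ p ∣ Nat.card N
  comm : ∀ ν ∈ N, Commute ν β
  norm : ∀ g, β g = g → ∀ ν ∈ N, MulAut.conj g * ν * (MulAut.conj g)⁻¹ ∈ N

theorem x_mem (r : Φ) (t : F) : A.x r t ∈ A.X r := (A.mem_X r _).2 ⟨t, rfl⟩
@[simp] theorem x_zero (r : Φ) : A.x r 0 = 1 := by simpa using (A.x_add r 0 0).symm
theorem x_neg (r : Φ) (t : F) : A.x r (-t) = (A.x r t)⁻¹ :=
  eq_inv_of_mul_eq_one_left (by rw [← A.x_add, neg_add_cancel, x_zero])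
theorem x_injective (r : Φ) : Function.Injective (A.x r) := fun t u h =>
  sub_eq_zero.1 (A.x_inj r _ (by rw [sub_eq_add_neg, A.x_add, x_neg, h, mul_inv_cancel]))
theorem x_ne (r : Φ) : A.x r 1 ≠ 1 := fun h => one_ne_zero (A.x_inj r 1 h)
theorem x_U {r : Φ} (h : R.pos r) (t : F) : A.x r t ∈ A.U := le_US (S := {r | R.pos r}) h (A.x_mem r t)
theorem x_Um {r : Φ} (h : ¬ R.pos r) (t : F) : A.x r t ∈ A.Um := le_US (S := {r | ¬ R.pos r}) h (A.x_mem r t)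
theorem U_Um {g : Γ} (h : g ∈ A.U) (h' : g ∈ A.Um) : g = 1 := (A.ldu g h' 1 (one_mem _) g h (one_mul g).symm).2
theorem pos_of_mem {r : Φ} (h : A.x r 1 ∈ A.U) : R.pos r := by_contra fun h' => A.x_ne r (A.U_Um h (A.x_Um h' 1))
theorem neg_of_mem {r : Φ} (h : A.x r 1 ∈ A.Um) : ¬ R.pos r := fun h' => A.x_ne r (A.U_Um (A.x_U h' 1) h)
theorem hom_ext {M : Type*} [Group M] {f g : Γ →* M} (h : ∀ r t, f (A.x r t) = g (A.x r t)) : f = g :=
  MonoidHom.ext fun y => (US_le (X := A.X) (S := Set.univ) (K := f.eqLocus g) fun r _ z hz => by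
    obtain ⟨t, rfl⟩ := (A.mem_X r z).1 hz; exact h r t) (A.gen ▸ Subgroup.mem_top y)
include A in
theorem conj_inj {a b : Γ} (h : MulAut.conj a = MulAut.conj b) : a = b :=
  (inv_mul_eq_one.1 (A.zent _ fun y => by
    have := DFunLike.congr_fun h y
    simp only [MulAut.conj_apply] at this
    calc _ = b⁻¹ * (a * y * a⁻¹) * a := by group
      _ = _ := by rw [this]; group)).symm
theorem T_comm {a b : Γ} (ha : a ∈ A.T) (hb : b ∈ A.T) : Commute a b := by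
  obtain ⟨χ, h1⟩ := A.T_act a ha
  obtain ⟨ψ, h2⟩ := A.T_act b hb
  refine A.conj_inj (MulEquiv.toMonoidHom_injective (A.hom_ext fun r t => ?_))
  change a * b * _ * (a * b)⁻¹ = b * a * _ * (b * a)⁻¹
  rw [show ∀ y, a * b * y * (a * b)⁻¹ = a * (b * y * b⁻¹) * a⁻¹ by intro; group,
    show ∀ y, b * a * y * (b * a)⁻¹ = b * (a * y * a⁻¹) * b⁻¹ by intro; group, h1, h2, h2, h1, mul_left_comm]
theorem nW_T'' (w : List (Fin l)) {h : Γ} (hh : h ∈ A.T) [Finite Γ] : A.nW w * h * (A.nW w)⁻¹ ∈ A.T :=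
  (Subgroup.mem_normalizer_iff.1 (inv_mem_iff.1 (Subgroup.mem_normalizer_fintype (S := (A.T : Set Γ))
    (x := (A.nW w)⁻¹) fun y hy => by simpa using A.nW_T w hy)) h).1 hh
theorem CellW.unique {w w' : List (Fin l)} {g : Γ} (h : A.CellW w g) (h' : A.CellW w' g) : R.inv w = R.inv w' := by
  obtain ⟨a, ha, k, hk, u, hu, e⟩ := h
  obtain ⟨a', ha', k', hk', u', hu', e'⟩ := h'
  exact A.cell w w' a ha a' ha' k hk k' hk' u hu u' hu' (e.symm.trans e')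
theorem nW_eq_of_inv {w w' : List (Fin l)} (h : R.inv w = R.inv w') : ∃ k ∈ A.T, A.nW w = A.nW w' * k := by
  have h1 : A.nW (w'.reverse ++ w) ∈ A.T := A.nW_T' _ fun r hr => by rwa [RS.inv_append, h, RS.inv_inv_reverse]
  have h2 : A.nW (w'.reverse ++ w') ∈ A.T := A.nW_T' _ fun r hr => by rwa [RS.inv_append, RS.inv_inv_reverse]
  exact ⟨_, mul_mem (inv_mem h2) h1, by rw [Fold.nW_append, Fold.nW_append]; group⟩

variable [Finite Φ]

theorem bruhat (g : Γ) : ∃ w, ∃ a ∈ US A.X (R.Inv w), ∃ h ∈ A.T, ∃ u ∈ A.U, g = a * A.nW w * h * u :=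
  A.toFull.bruhat (A.gen ▸ Subgroup.mem_top g)

end Chv
end Cfsg.Agent.Lib.Chev
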