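/- Combinatorial hypotheses on root systems used in the automorphism theory.  Owner: helper2. -/
import Cfsg.Agent.Lib.Chev.Abs

set_option autoImplicit false

namespace Cfsg.Agent.Lib.Chev.RS

variable {Φ : Type} {l : ℕ} (R : RS Φ l)

/-- the diagram is connected, every bond has an entry `-1` -/
def Conn : Prop := (∀ i j, R.cart i j ≠ 0 → i = j ∨ ((R.cart i j = -1 ∨ R.cart j i = -1) ∧
    ¬ 0 ≤ R.ρ (R.inv [j, i, j] (R.sim j)) ∧ 0 ≤ R.ρ (R.inv [i, j] (R.sim j)))) ∧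
  ∀ P : Fin l → Bool, ∀ i, P i = true → (∀ i j, P i = true → R.cart i j ≠ 0 → P j = true) → ∀ j, P j = true

/-- decidable form of: no root `a r + b s` with `a ≥ 0`, `b ≥ 1` except `s` -/
def Nc (r s : Φ) : Prop := ∃ i j, R.ρ r i * R.ρ s j - R.ρ r j * R.ρ s i ≠ 0 ∧ ∀ u,
  (∀ k, (R.ρ r i * R.ρ s j - R.ρ r j * R.ρ s i) * R.ρ u k =
    (R.ρ u i * R.ρ s j - R.ρ u j * R.ρ s i) * R.ρ r k + (R.ρ r i * R.ρ u j - R.ρ r j * R.ρ u i) * R.ρ s k) →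
  (R.ρ r i * R.ρ s j - R.ρ r j * R.ρ s i) ∣ (R.ρ u i * R.ρ s j - R.ρ u j * R.ρ s i) →
  (R.ρ r i * R.ρ s j - R.ρ r j * R.ρ s i) ∣ (R.ρ r i * R.ρ u j - R.ρ r j * R.ρ u i) →
  0 ≤ (R.ρ r i * R.ρ s j - R.ρ r j * R.ρ s i) * (R.ρ u i * R.ρ s j - R.ρ u j * R.ρ s i) →
  0 < (R.ρ r i * R.ρ s j - R.ρ r j * R.ρ s i) * (R.ρ r i * R.ρ u j - R.ρ r j * R.ρ u i) → u = s

theorem Nc.cone {r s : Φ} (h : R.Nc r s) : R.cone r s ⊆ {s} := by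
  obtain ⟨i, j, hd, h⟩ := h
  rintro u ⟨a, b, hb, e⟩
  have e1 : ∀ k, R.ρ u k = a * R.ρ r k + b * R.ρ s k := fun k => by simp [e]
  have e2 : R.ρ u i * R.ρ s j - R.ρ u j * R.ρ s i = (R.ρ r i * R.ρ s j - R.ρ r j * R.ρ s i) * a := by rw [e1, e1]; ring
  have e3 : R.ρ r i * R.ρ u j - R.ρ r j * R.ρ u i = (R.ρ r i * R.ρ s j - R.ρ r j * R.ρ s i) * b := by rw [e1, e1]; ring
  have := mul_self_pos.2 hd
  refine h u (fun k => by rw [e2, e3, e1]; ring) (e2 ▸ dvd_mul_right _ _) (e3 ▸ dvd_mul_right _ _) ?_ ?_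
  · rw [e2, ← mul_assoc]; positivity
  · rw [e3, ← mul_assoc]; positivity

theorem Nc.ne {r s : Φ} (h : R.Nc r s) : s ≠ r ∧ s ≠ R.neg r := by
  obtain ⟨i, j, hd, -⟩ := h
  constructor <;> rintro rfl <;> apply hd <;> simp [R.ρ_neg, mul_comm]

/-- strongly orthogonal roots -/
def Orth (r s : Φ) : Prop := R.Nc r s ∧ R.Nc r (R.neg s) ∧ R.Nc (R.neg r) s ∧ R.Nc (R.neg r) (R.neg s)

/-- the `θ`-orbit of `γ` consists of `p` strongly orthogonal roots -/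
def Good (θ : Φ → Φ) (p : ℕ) (γ : Φ) : Prop := ∀ i < p, ∀ j < p, i ≠ j → R.Orth (θ^[i] γ) (θ^[j] γ)

/-- data for a graph automorphism of order `p` -/
def GD (π : Equiv.Perm (Fin l)) (θ : Φ → Φ) (p : ℕ) : Prop :=
  ((∀ γ, 0 ≤ R.ρ γ → θ γ ≠ γ → R.Good θ p γ) ∨ ((∀ i j, ∃ m < p, (π ^ m) i = j) ∧ ∃ γ, 0 ≤ R.ρ γ ∧ R.Good θ p γ)) ∧
  ∃ rk : Fin l → ℕ, ∀ j, π j = j → ∃ i w v, π i ≠ i ∧ (∀ r, R.inv w (θ r) = θ (R.inv w r)) ∧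
    R.inv (v ++ w) (R.sim j) = R.sim i ∧ ∀ m ∈ v, π m ≠ m ∨ rk m < rk j

end Cfsg.Agent.Lib.Chev.RS
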