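import Cfsg.Agent.Lib.Chev.Group
import Cfsg.Agent.Lib.GL.FixedField

set_option autoImplicit false
set_option maxHeartbeats 400000

namespace Cfsg.Agent.Lib.Chev
open Matrix Cfsg.Lie
open scoped MatrixGroups

noncomputable section

namespace Cert
variable {D : ChevalleyDatum} (K : Cert D) {F : Type*} [Field F]

include K in
lemma map_mem {F' : Type*} [Field F'] (f : F →+* F') {g : GL D.Idx F} (hg : g ∈ D.group F) :
    Matrix.GeneralLinearGroup.map f g ∈ D.group F' := by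
  rw [K.group_eq] at hg
  refine US_map _ ?_ hg
  rintro r - _ ⟨t, rfl⟩
  rw [map_x]; exact K.x_mem _ _

theorem fixed_mem (hU : K.Uni) (σ : F →+* F) {F₀ : Type*} [Field F₀] (f : F₀ →+* F)
    (hf : ∀ x, σ x = x → x ∈ f.range) {g : GL D.Idx F} (hg : g ∈ D.group F)
    (hσ : Matrix.GeneralLinearGroup.map σ g = g) :
    g ∈ (D.group F₀).map (Matrix.GeneralLinearGroup.map f) := by
  rw [K.group_eq] at hg
  refine (K.full F).fixed (Matrix.GeneralLinearGroup.map σ) ?_ ?_ (K.map_n σ) _ ?_ ?_ ?_ hg hσ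
  · rintro r _ ⟨t, rfl⟩; exact ⟨_, K.map_x σ r t⟩
  · rintro _ ⟨χ, rfl⟩; exact ⟨_, (K.map_h σ χ).symm⟩
  · intro i; exact ⟨_, K.n_mem F₀ i, K.map_n f i⟩
  · rintro i _ ⟨t, rfl⟩ h
    rw [map_x] at h
    have := congrArg (fun g : GL D.Idx F => (g : Matrix D.Idx D.Idx F) (Sum.inl i)
      (Sum.inr (K.R.neg (K.R.sim i)))) h
    simp only [x_val, x_entry] at this
    obtain ⟨s, rfl⟩ := hf t this
    exact ⟨_, K.x_mem _ s, K.map_x f _ s⟩
  · rintro _ ⟨χ, rfl⟩ h
    have h1 : ∀ j, ∃ s : F₀ˣ, f s = χ.ev (Pi.single j 1) := by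
      intro j
      have := congrArg (fun g : GL D.Idx F => (g : Matrix D.Idx D.Idx F) (Sum.inr (K.R.sim j))
        (Sum.inr (K.R.sim j))) h
      simp only [map_h, h_val, diagonal_apply_eq, wt, Sum.elim_inr, K.R.ρ_sim, Chr.ev_map] at this
      obtain ⟨s, hs⟩ := hf _ this
      have h0 : s ≠ 0 := by rintro rfl; simp at hs; exact Units.ne_zero _ hs.symm
      exact ⟨Units.mk0 s h0, hs⟩
    choose τ hτ using h1
    refine ⟨K.h (Chr.mk τ), K.h_mem hU _, ?_⟩
    rw [map_h]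
    congr 1
    exact Chr.ext' fun j => Units.ext (by rw [Chr.ev_map, Chr.ev_mk_single, hτ])

lemma fieldAut_eq (φ : ↥(D.group F) ≃* ↥(D.group F)) (σ : F →+* F)
    (h : ∀ (g : ↥(D.group F)) (r : ℕ) (t : F), r < D.nroots →
      ((g : GL D.Idx F) : Matrix D.Idx D.Idx F) = D.x F r t →
      ((φ g : GL D.Idx F) : Matrix D.Idx D.Idx F) = D.x F r (σ t)) (K : Cert D) (g : D.group F) :
    (φ g : GL D.Idx F) = Matrix.GeneralLinearGroup.map σ g := by
  obtain ⟨g, hg⟩ := g
  induction hg using Subgroup.closure_induction with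
  | mem g hg =>
    obtain ⟨r, t, hr⟩ := hg
    have h1 : g = K.x r t := Units.ext hr
    subst h1
    rw [map_x]
    exact Units.ext ((h ⟨_, K.x_mem r t⟩ r t r.2 (K.x_val' r t)).trans (K.x_val' r _).symm)
  | one => have : φ ⟨1, one_mem _⟩ = 1 := map_one φ
           rw [this]; simp
  | mul a b ha hb iha ihb =>
    have : φ ⟨a * b, mul_mem ha hb⟩ = φ ⟨a, ha⟩ * φ ⟨b, hb⟩ := map_mul φ ⟨a, ha⟩ ⟨b, hb⟩
    rw [this, Subgroup.coe_mul, iha, ihb]; simp
  | inv a ha iha =>
    have : φ ⟨a⁻¹, inv_mem ha⟩ = (φ ⟨a, ha⟩)⁻¹ := map_inv φ ⟨a, ha⟩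
    rw [this, Subgroup.coe_inv, iha]; simp

theorem field_fixed [Fintype F] (hU : K.Uni) (hl : 0 < D.rank) (φ : MulAut ↥(D.group F))
    (hφ : D.IsFieldAut φ) (r : ℕ) (ho : orderOf φ = r) :
    ∃ (F₀ : Type) (_ : Field F₀) (_ : Fintype F₀), Fintype.card F = Fintype.card F₀ ^ r ∧
      Nonempty (↥((MulEquiv.toMonoidHom φ).eqLocus (MonoidHom.id ↥(D.group F))) ≃* ↥(D.group F₀)) := by
  obtain ⟨σ, hσ⟩ := hφ
  have h1 := fieldAut_eq φ (σ : F →+* F) hσ K
  have h2 : ∀ (k : ℕ) (g : D.group F), ((φ ^ k) g : GL D.Idx F) =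
      Matrix.GeneralLinearGroup.map ((σ ^ k : F ≃+* F) : F →+* F) g := by
    intro k
    induction k with
    | zero => intro g; ext a b; simp
    | succ k ih => intro g; rw [pow_succ', MulAut.mul_apply, h1, ih]; ext a b; simp [pow_succ']
  have h3 : orderOf σ = r := by
    rw [← ho]
    refine (orderOf_eq_orderOf_iff.2 fun k => ⟨fun h => ?_, fun h => ?_⟩)
    · ext g : 2
      rw [h2, h]; ext a b; simp
    · ext t
      let i : Fin D.rank := ⟨0, hl⟩
      have := h2 k ⟨_, K.x_mem (K.R.sim i) t⟩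
      rw [h, map_x] at this
      have := congrArg (fun g : GL D.Idx F => (g : Matrix D.Idx D.Idx F) (Sum.inl i)
        (Sum.inr (K.R.neg (K.R.sim i)))) this
      simp only [MulAut.one_apply, x_val, x_entry] at this
      exact this.symm
  let S := Cfsg.Agent.Lib.GL.H90.fixedSub σ
  let e : Shrink.{0} S ≃+* S := Shrink.ringEquiv.{0} S
  let f : Shrink.{0} S →+* F := S.subtype.comp e
  have : Finite (Shrink.{0} S) := Finite.of_equiv _ e.toEquiv.symm
  refine ⟨Shrink.{0} S, inferInstance, Fintype.ofFinite _, ?_, ?_⟩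
  · rw [← Nat.card_eq_fintype_card, ← @Nat.card_eq_fintype_card _ (Fintype.ofFinite _), Nat.card_congr e.toEquiv, ← h3]
    exact Cfsg.Agent.Lib.GL.H90.card_eq_card_fixedSub_pow σ
  · have hinj := Cfsg.Agent.Lib.GL.H90.gl_map_injective (ι := D.Idx) f f.injective
    have h4 : ((MulEquiv.toMonoidHom φ).eqLocus (MonoidHom.id ↥(D.group F))).map (D.group F).subtype =
        (D.group (Shrink.{0} S)).map (Matrix.GeneralLinearGroup.map f) := by
      apply le_antisymm
      · rintro _ ⟨g, hg, rfl⟩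
        refine K.fixed_mem hU (σ : F →+* F) f (fun x hx => ⟨e.symm ⟨x, hx⟩, by simp [f]⟩) g.2 ?_
        have : φ g = g := hg
        exact (h1 g).symm.trans (congrArg Subtype.val this)
      · rintro _ ⟨g, hg, rfl⟩
        refine ⟨⟨_, K.map_mem f hg⟩, ?_, rfl⟩
        change φ _ = _
        apply Subtype.ext
        rw [h1]
        ext a b
        exact (e _).2
    exact ⟨((Subgroup.equivMapOfInjective _ _ (D.group F).subtype_injective).trans
      (MulEquiv.subgroupCongr h4)).trans (Subgroup.equivMapOfInjective _ _ hinj).symm⟩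

end Cert
end
end Cfsg.Agent.Lib.Chev
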