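import Cfsg.Agent.Lib.Chev.Weyl
import Cfsg.Agent.Lib.Core.Syl

/-! Fusion in the split torus of a Chevalley group; Sylow subgroups for primes not dividing the Weyl group order. -/

set_option autoImplicit false
set_option maxHeartbeats 400000

namespace Cfsg.Agent.Lib.Chev
open Matrix Cfsg.Lie Cfsg.Agent.Lib.Core
open scoped MatrixGroups

noncomputable section

namespace RS
variable {Φ : Type} {l : ℕ} (R : RS Φ l)

/-- the `n`-fold repetition of a word -/
def rep (w : List (Fin l)) : ℕ → List (Fin l)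
  | 0 => []
  | n + 1 => w ++ rep w n

lemma inv_rep (w : List (Fin l)) (n : ℕ) (r : Φ) : R.inv (rep w n) r = (R.inv w)^[n] r := by
  induction n generalizing r with
  | zero => rfl
  | succ n ih => rw [rep, inv_append, ih, Function.iterate_succ_apply]

lemma LW_append (w w' : List (Fin l)) (v : Fin l → ℤ) : R.LW (w ++ w') v = R.LW w' (R.LW w v) := by
  induction w generalizing v with
  | nil => rfl
  | cons i w ih => exact ih _

end RS

namespace Chr
variable {l : ℕ} {F : Type*} [Field F]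

lemma ev_const (ζ : Fˣ) (v : Fin l → ℤ) : (mk fun _ => ζ).ev v = ζ ^ RS.ht v := by
  rw [ev_mk, RS.ht]
  induction (Finset.univ : Finset (Fin l)) using Finset.induction_on with
  | empty => simp
  | insert a s ha ih => rw [Finset.sum_insert ha, Finset.prod_insert ha, _root_.zpow_add, ih]

@[simp] lemma ev_pow (χ : Chr l F) (n : ℕ) (v : Fin l → ℤ) : (χ ^ n).ev v = χ.ev v ^ n := rfl

end Chr

namespace Cert
variable {D : ChevalleyDatum} (K : Cert D) {F : Type*} [Field F]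

lemma nW_h (w : List (Fin D.rank)) (χ : Chr D.rank F) :
    K.nW F w * K.h χ * (K.nW F w)⁻¹ = K.h (χ.comp (K.R.LW w)) := by
  induction w with
  | nil => simp; rfl
  | cons i w ih =>
    rw [nW_cons, show K.n F i * K.nW F w * K.h χ * (K.n F i * K.nW F w)⁻¹ =
      K.n F i * (K.nW F w * K.h χ * (K.nW F w)⁻¹) * (K.n F i)⁻¹ by group, ih, n_h]
    rfl

lemma h_root {χ ψ : Chr D.rank F} (h : K.h χ = K.h ψ) (r : Fin D.nroots) :
    χ.ev (K.R.ρ r) = ψ.ev (K.R.ρ r) := by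
  have := congrArg (fun g : GL D.Idx F => (g : Matrix D.Idx D.Idx F) (Sum.inr r) (Sum.inr r)) h
  simp only [h_val, diagonal_apply_eq] at this
  exact Units.ext this

lemma chr_ext {χ ψ : Chr D.rank F} (h : ∀ r, χ.ev (K.R.ρ r) = ψ.ev (K.R.ρ r)) : χ = ψ :=
  Chr.ext' fun i => by rw [← K.R.ρ_sim]; exact h _

lemma h_inj : Function.Injective (K.h : Chr D.rank F →* GL D.Idx F) := fun _ _ h =>
  K.chr_ext (K.h_root h)

lemma T_comm {a b : GL D.Idx F} (ha : a ∈ (K.full F).T) (hb : b ∈ (K.full F).T) : Commute a b := by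
  obtain ⟨χ, rfl⟩ := ha
  obtain ⟨ψ, rfl⟩ := hb
  exact (Commute.all χ ψ).map K.h

theorem fusion {g : GL D.Idx F} (hg : g ∈ D.group F) : ∃ w a k u, a ∈ (K.full F).Um ∧ k ∈ (K.full F).T ∧
    u ∈ (K.full F).U ∧ g = K.nW F w * a * k * u ∧ ∀ χ χ' : Chr D.rank F, g * K.h χ * g⁻¹ = K.h χ' →
      χ' = χ.comp (K.R.LW w) ∧ Commute u (K.h χ) ∧ Commute a (K.h χ) := by
  rw [K.group_eq] at hg
  obtain ⟨w, a, ha, k, hk, u, hu, rfl⟩ := (K.full F).bruhat hg
  refine ⟨w, _, k, u, (K.full F).conj_Inv ha, hk, hu, by simp only [nW]; group, fun χ χ' e => ?_⟩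
  have hv := (K.full F).conj_Inv ha
  have ht : K.h χ ∈ (K.full F).T := ⟨χ, rfl⟩
  have ht' := (K.full F).nW_T w (show K.h χ' ∈ (K.full F).T from ⟨χ', rfl⟩)
  have e1 : K.h χ' = (K.full F).nW w * (((K.full F).nW w)⁻¹ * K.h χ' * (K.full F).nW w) * ((K.full F).nW w)⁻¹ := by
    group
  generalize hv' : ((K.full F).nW w)⁻¹ * a * (K.full F).nW w = v at hv
  generalize ht'' : ((K.full F).nW w)⁻¹ * K.h χ' * (K.full F).nW w = t at ht' e1
  have e2 : v * (k * K.h χ) * ((K.h χ)⁻¹ * u * (K.h χ)⁻¹⁻¹) = (t * v * t⁻¹) * (t * k) * u := by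
    rw [← hv', ← ht'', ← e]; group
  obtain ⟨h1, h2, h3⟩ := (K.full F).ldu_unique hv ((K.full F).T_US ht' hv) (mul_mem hk ht) (mul_mem ht' hk)
    ((K.full F).T_U (inv_mem ht) hu) hu e2
  have h4 : t = K.h χ := by
    rw [← (K.T_comm hk ht').eq] at h2; exact (mul_left_cancel h2).symm
  refine ⟨K.h_inj ?_, ?_, ?_⟩
  · rw [e1, h4, ← K.nW_h]
  · rw [inv_inv] at h3
    calc u * K.h χ = K.h χ * ((K.h χ)⁻¹ * u * K.h χ) := by group
      _ = _ := by rw [h3]
  · rw [h4] at h1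
    calc v * K.h χ = K.h χ * v * (K.h χ)⁻¹ * K.h χ := by rw [← h1]
      _ = _ := by group

/-- `ζ` separates the heights of the weights -/
def Reg (ζ : Fˣ) : Prop := ∀ a b : D.Idx, ζ ^ RS.ht (K.wt a) = ζ ^ RS.ht (K.wt b) →
  RS.ht (K.wt a) = RS.ht (K.wt b)

lemma eq_one_of_comm {ζ : Fˣ} (hζ : K.Reg ζ) {Z : Set (Fin D.rank → ℤ)} (hZ : ∀ v ∈ Z, RS.ht v ≠ 0)
    {u : GL D.Idx F} (hu : K.Tri Z (u : Matrix D.Idx D.Idx F)) (h : Commute u (K.h (Chr.mk fun _ => ζ))) :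
    u = 1 := by
  apply Units.ext
  ext a b
  by_cases hab : K.wt a - K.wt b ∈ Z
  · have h1 := congrArg (fun g : GL D.Idx F => (g : Matrix D.Idx D.Idx F) a b) h.eq
    simp only [Units.val_mul, h_val, diagonal_mul, mul_diagonal, Chr.ev_const] at h1
    have h2 : RS.ht (K.wt a) ≠ RS.ht (K.wt b) := fun e => hZ _ hab (by
      simp only [RS.ht, Pi.sub_apply, Finset.sum_sub_distrib] at e ⊢; omega)
    have h3 : a ≠ b := fun e => h2 (by rw [e])
    rw [Units.val_one, one_apply_ne h3]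
    by_contra h4
    rw [mul_comm] at h1
    exact h2 (hζ a b (Units.ext (mul_right_cancel₀ h4 h1)).symm)
  · exact hu a b hab

theorem mem_N {ζ : Fˣ} (hζ : K.Reg ζ) {g : GL D.Idx F} (hg : g ∈ D.group F)
    (h : g * K.h (Chr.mk fun _ => ζ) * g⁻¹ ∈ (K.full F).T) : ∃ w, ∃ k ∈ (K.full F).T, g = K.nW F w * k := by
  obtain ⟨w, a, k, u, ha, hk, hu, e, h1⟩ := K.fusion hg
  obtain ⟨χ', h2⟩ := h
  obtain ⟨-, h3, h4⟩ := h1 _ _ h2.symm
  rw [K.eq_one_of_comm hζ (fun v hv => ne_of_gt hv) (K.tri_U hu) h3,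
    K.eq_one_of_comm hζ (fun v hv => ne_of_lt hv) (K.tri_Um ha) h4] at e
  exact ⟨w, k, hk, by simpa using e⟩

lemma pow_N (w : List (Fin D.rank)) {k : GL D.Idx F} (hk : k ∈ (K.full F).T) (n : ℕ) :
    ∃ k' ∈ (K.full F).T, (K.nW F w * k) ^ n = K.nW F (RS.rep w n) * k' := by
  induction n with
  | zero => exact ⟨1, one_mem _, by simp [RS.rep]⟩
  | succ n ih =>
    obtain ⟨k', h1, h2⟩ := ih
    refine ⟨_, mul_mem ((K.full F).nW_T (RS.rep w n) hk) h1, ?_⟩
    rw [_root_.pow_succ', h2, RS.rep, nW, nW, nW, Fold.nW_append]; group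

/-- For a prime `l` prime to an exponent of the Weyl group, with enough `l`-power roots of unity in the field,
a Sylow `l`-subgroup of the torus is Sylow in the group. -/
theorem sylow_torus [Finite F] (hη : K.EtaOK) {l : ℕ} [Fact l.Prime] {ζ : Fˣ} (hζ : K.Reg ζ) {a : ℕ}
    (hζ' : ζ ^ l ^ a = 1) {N : ℕ} (hN : ∀ w r, (K.R.inv w)^[N] r = r) (hl : ¬ l ∣ N)
    {C : Subgroup (GL D.Idx F)} (hTC : (K.full F).T ≤ C) (hC : C ≤ D.group F)
    {P : Subgroup (GL D.Idx F)} (hP : IsPGroup l P) (hPC : P ≤ C) :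
    ∃ y ∈ C, ∀ x ∈ P, y * x * y⁻¹ ∈ (K.full F).T := by
  obtain ⟨S, hS⟩ := exists_isSyl l (K.full F).T
  have h0 : K.h (Chr.mk fun _ => ζ) ∈ S := by
    refine hS.le_of_le_normalizer (Q := Subgroup.zpowers _) (isPGroup_zpowers (k := a) ?_)
      (Subgroup.zpowers_le.2 ⟨_, rfl⟩) (fun s hs => ?_) (Subgroup.mem_zpowers _)
    · rw [← map_pow, ← map_one K.h]
      exact congrArg _ (Chr.ext' fun i => by rw [Chr.ev_pow, Chr.ev_mk_single, hζ', Chr.ev_one])
    · refine Subgroup.centralizer_le_normalizer _ fun t ht => ?_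
      exact (K.T_comm (Subgroup.zpowers_le.2 (show _ ∈ (K.full F).T from ⟨_, rfl⟩) ht) (hS.le hs)).eq
  have hSC : IsSyl l S C := isSyl_of_maximal (hS.le.trans hTC) hS.isPGroup fun Q hQ h1 h2 => by
    by_contra h3
    obtain ⟨g, ⟨hg, hg'⟩, h4⟩ := SetLike.exists_of_lt (lt_inf_normalizer_of_isPGroup hQ (lt_of_le_of_ne h1 (Ne.symm h3)))
    obtain ⟨w, k, hk, rfl⟩ := K.mem_N hζ (hC (h2 hg)) (hS.le ((Subgroup.mem_normalizer_iff.1 hg' _).1 h0))
    obtain ⟨b, hb⟩ := pow_eq_one_of_isPGroup hQ hg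
    obtain ⟨k', h5, h6⟩ := K.pow_N w hk (l ^ b)
    have h7 : K.R.inv (RS.rep w (l ^ b)) = K.R.inv [] := K.cell_unique (F := F) (one_mem _) (one_mem _) h5
      (one_mem _) (one_mem _) (one_mem _) (by rw [one_mul, ← h6, hb]; simp)
    have h8 : ∀ r, K.R.inv w r = r := fun r => by
      have h9 : Function.IsPeriodicPt (K.R.inv w) (l ^ b) r := by
        have := congrFun h7 r; rwa [RS.inv_rep] at this
      have := Function.IsPeriodicPt.gcd h9 (hN w r)
      rwa [Nat.Coprime.gcd_eq_one (Nat.Coprime.pow_left b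
        ((Nat.Prime.coprime_iff_not_dvd Fact.out).2 hl))] at this
    have h9 := mul_mem (K.nW_mem_T (F := F) hη w fun r hr => by rwa [h8]) hk
    refine h4 (hS.le_of_le_normalizer (isPGroup_zpowers hb) (Subgroup.zpowers_le.2 h9) (fun s hs => ?_)
      (Subgroup.mem_zpowers _))
    refine Subgroup.centralizer_le_normalizer _ fun t ht => ?_
    exact (K.T_comm (Subgroup.zpowers_le.2 h9 ht) (hS.le hs)).eq
  obtain ⟨y, hy, h⟩ := hSC.exists_conj_le hP hPC
  exact ⟨y, hy, fun x hx => hS.le (h ⟨x, hx, rfl⟩)⟩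

lemma reg_of_prim {ζ : Fˣ} {n : ℕ} (hζ : IsPrimitiveRoot ζ n) {m : ℤ} (hm : ∀ a, |RS.ht (K.wt a)| ≤ m)
    (hn : 2 * m < n) : K.Reg ζ := fun a b h => by
  have h1 : ζ ^ (RS.ht (K.wt a) - RS.ht (K.wt b)) = 1 := by rw [_root_.zpow_sub, h, mul_inv_cancel]
  rw [hζ.zpow_eq_one_iff_dvd] at h1
  have h2 := abs_le.1 (hm a)
  have h3 := abs_le.1 (hm b)
  have := Int.eq_zero_of_abs_lt_dvd h1 (abs_lt.2 ⟨by omega, by omega⟩)
  omega

lemma comp_rep {χ : Chr D.rank F} {w : List (Fin D.rank)} {j : ℕ} (h : χ ^ j = χ.comp (K.R.LW w)) (n : ℕ)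
    (r : Fin D.nroots) : χ.ev (K.R.ρ ((K.R.inv w)^[n] r)) = χ.ev (K.R.ρ r) ^ j ^ n := by
  induction n generalizing r with
  | zero => simp
  | succ n ih =>
    rw [Function.iterate_succ_apply, ih, K.R.ρ_inv, ← Chr.ev_comp, ← h, Chr.ev_pow, ← pow_mul, _root_.pow_succ']

end Cert

/-- a finite extension containing a primitive `n`-th root of unity -/
theorem exists_ext_prim.{u} (F : Type u) [Field F] [Finite F] (n : ℕ) [NeZero n] (hn : (n : F) ≠ 0) :
    ∃ (E : Type u) (_ : Field E) (_ : Finite E) (_ : F →+* E) (ζ : Eˣ), IsPrimitiveRoot ζ n := by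
  haveI : NeZero (n : F) := ⟨hn⟩
  haveI := IsCyclotomicExtension.finite {n} F (CyclotomicField n F)
  obtain ⟨ζ, hζ⟩ := IsCyclotomicExtension.exists_isPrimitiveRoot F (CyclotomicField n F)
    (Set.mem_singleton n) (NeZero.ne n)
  exact ⟨CyclotomicField n F, inferInstance, Module.finite_of_finite F, algebraMap _ _,
    (hζ.isUnit (NeZero.ne n)).unit, by rwa [← IsPrimitiveRoot.coe_units_iff, IsUnit.unit_spec]⟩

end
end Cfsg.Agent.Lib.Chev
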