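/- The concrete Chevalley group of a certified datum as an abstract `Chv`.  Owner: lead. -/
import Cfsg.Agent.Lib.Chev.Abs
import Cfsg.Agent.Lib.Chev.Torus
import Cfsg.Agent.Lib.Chev.Field
import Cfsg.Prelude.Def_StandardType

set_option autoImplicit false
set_option linter.unusedSectionVars false
set_option maxHeartbeats 400000

namespace Cfsg.Agent.Lib.Chev
open Matrix Cfsg.Lie
open scoped MatrixGroups Pointwise

noncomputable section

variable {Φ : Type} {l : ℕ}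

lemma US_sub {Γ : Type*} [Group Γ] {X : Φ → Subgroup Γ} {H : Subgroup Γ} (hX : ∀ r, X r ≤ H) (S : Set Φ) (g : H) :
    g ∈ US (fun r => (X r).subgroupOf H) S ↔ (g : Γ) ∈ US X S := by
  constructor
  · intro h
    exact US_map H.subtype (fun r hr x hx => le_US hr hx) h
  · intro h
    have : US X S ≤ (US (fun r => (X r).subgroupOf H) S).map H.subtype :=
      US_le fun r hr x hx => ⟨⟨x, hX r hx⟩, le_US (X := fun r => (X r).subgroupOf H) hr hx, rfl⟩
    obtain ⟨y, hy, e⟩ := this h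
    rwa [← Subtype.ext e]

/-- restriction of a `Full` structure to a subgroup containing the root subgroups -/
def Full.sub {R : RS Φ l} {Γ : Type*} [Group Γ] (A : Full R Γ) (H : Subgroup Γ) (hX : ∀ r, A.X r ≤ H)
    (hn : ∀ i, A.n i ∈ H) : Full R H where
  X r := (A.X r).subgroupOf H
  n i := ⟨A.n i, hn i⟩
  conj i r x hx := A.conj i r x hx
  conj' i r x hx := A.conj' i r x hx
  comm i s hs hs' x hx y hy := (US_sub hX _ _).2 (A.comm i s hs hs' x hx y hy)
  indep i x hx h := Subtype.ext (A.indep i x hx ((US_sub hX _ _).1 h))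
  T := A.T.subgroupOf H
  T_conj r h hh x hx := A.T_conj r h hh x hx
  n_T i h hh := A.n_T i h hh
  n_inv i := by
    obtain ⟨h, hh, e⟩ := A.n_inv i
    have : h ∈ H := by
      rw [show h = (A.n i)⁻¹ * (A.n i)⁻¹ by rw [eq_mul_inv_iff_mul_eq, e]]
      exact mul_mem (inv_mem (hn i)) (inv_mem (hn i))
    exact ⟨⟨h, this⟩, hh, Subtype.ext e⟩
  rank1 i x hx := by
    rcases A.rank1 i x hx with h | ⟨a, ha, b, hb, h, hh, e⟩
    · exact Or.inl (Subtype.ext h)
    · have : h ∈ H := by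
        rw [show h = a⁻¹ * x * b⁻¹ * (A.n i)⁻¹ by rw [e]; group]
        exact mul_mem (mul_mem (mul_mem (inv_mem (hX _ ha)) x.2) (inv_mem (hX _ hb))) (inv_mem (hn i))
      exact Or.inr ⟨⟨a, hX _ ha⟩, ha, ⟨b, hX _ hb⟩, hb, ⟨h, this⟩, hh, Subtype.ext e⟩
  ldu v hv h hh u hu e := by
    obtain ⟨h1, h2⟩ := A.ldu v ((US_sub hX _ _).1 hv) h hh u ((US_sub hX _ _).1 hu) (congrArg Subtype.val e)
    exact ⟨Subtype.ext h1, Subtype.ext h2⟩

namespace Cert
variable {D : ChevalleyDatum} (K : Cert D) {F : Type*} [Field F]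

lemma x_entry2 (r : Fin D.nroots) (t : F) : D.xMat F r t (Sum.inr r) (Sum.inr (K.R.neg r)) = -(t ^ 2) := by
  have h1 : K.R.neg r ≠ r := fun h => (K.link_r r.2).2.2.1 (congrArg Fin.val h)
  have h2 : (K.R.neg r).val = D.negIdx.getD r.val 0 := K.neg_val _
  simp only [ChevalleyDatum.xMat, Matrix.of_apply, if_neg h1, if_pos h2, if_neg h1.symm, if_true]

lemma x_inj (r : Fin D.nroots) (t : F) (h : K.x r t = 1) : t = 0 := by
  have h1 : K.R.neg r ≠ r := fun h => (K.link_r r.2).2.2.1 (congrArg Fin.val h)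
  have := K.x_entry2 r t
  rw [← K.x_val, h, Units.val_one, Matrix.one_apply_ne (by simpa using h1.symm)] at this
  simpa using this

lemma X_le (r : Fin D.nroots) : (K.full F).X r ≤ D.group F := by
  rintro _ ⟨t, rfl⟩; exact K.x_mem r t

variable (F) in
/-- the restricted structure -/
def fullG : Full K.R (D.group F) := (K.full F).sub (D.group F) K.X_le (K.n_mem F)

lemma coe_prod (w : List (Fin D.rank)) :
    (((w.map (K.fullG F).n).prod : D.group F) : GL D.Idx F) = K.nW F w := by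
  induction w with
  | nil => rfl
  | cons i w ih => rw [List.map_cons, List.prod_cons, Subgroup.coe_mul, ih]; rfl

variable (F) in
/-- the inner-diagonal group -/
abbrev Hat : Subgroup (GL D.Idx F) := D.group F ⊔ K.h.range

lemma h_norm (χ : Chr D.rank F) {g : GL D.Idx F} (hg : g ∈ D.group F) : K.h χ * g * (K.h χ)⁻¹ ∈ D.group F := by
  rw [K.group_eq] at hg
  refine US_conj _ ?_ hg
  rintro r - _ ⟨t, rfl⟩
  rw [h_conj]; exact K.x_mem _ _

lemma Hat_le : K.Hat F ≤ Subgroup.normalizer (D.group F : Set (GL D.Idx F)) := by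
  refine sup_le Subgroup.le_normalizer ?_
  rintro _ ⟨χ, rfl⟩
  refine Subgroup.mem_normalizer_iff.2 fun g => ⟨K.h_norm χ, fun h => ?_⟩
  have := K.h_norm χ⁻¹ h
  rw [h_inv] at this
  simpa [mul_assoc] using this

lemma mem_Hat {g : GL D.Idx F} (hg : g ∈ K.Hat F) : ∃ k ∈ D.group F, ∃ χ, g = k * K.h χ := by
  have : g ∈ ((D.group F : Set (GL D.Idx F)) * ((K.h (F := F)).range : Set (GL D.Idx F))) := by
    rw [← Subgroup.coe_mul_of_right_le_normalizer_left _ _ (le_sup_right.trans K.Hat_le)]; exact hg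
  obtain ⟨k, hk, _, ⟨χ, rfl⟩, e⟩ := this
  exact ⟨k, hk, χ, e.symm⟩

variable (F) in
/-- conjugation by an element of the inner-diagonal group -/
def cj : K.Hat F →* MulAut (D.group F) :=
  (D.group F).normalizerMonoidHom.comp (Subgroup.inclusion K.Hat_le)

lemma cj_val (a : K.Hat F) (g : D.group F) : (K.cj F a g : GL D.Idx F) = a * g * (a : GL D.Idx F)⁻¹ := rfl

/-- the diagonal element as an element of the inner-diagonal group -/
def hH (χ : Chr D.rank F) : K.Hat F := ⟨K.h χ, Subgroup.mem_sup_right ⟨χ, rfl⟩⟩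
/-- an element of the group as an element of the inner-diagonal group -/
def gH (g : D.group F) : K.Hat F := ⟨g, Subgroup.mem_sup_left g.2⟩

lemma cj_gH (g : D.group F) : K.cj F (K.gH g) = MulAut.conj g := rfl

lemma Hat_eq (a : K.Hat F) : ∃ k χ, a = K.gH k * K.hH χ := by
  obtain ⟨k, hk, χ, e⟩ := K.mem_Hat a.2
  exact ⟨⟨k, hk⟩, χ, Subtype.ext e⟩

/-- root elements of the group -/
def xG (r : Fin D.nroots) (t : F) : D.group F := ⟨K.x r t, K.x_mem r t⟩

lemma cj_hH (χ : Chr D.rank F) (r : Fin D.nroots) (t : F) :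
    K.cj F (K.hH χ) (K.xG r t) = K.xG r (χ.ev (K.R.ρ r) * t) := Subtype.ext (K.h_conj χ r t)

include K in
lemma rank_pos : 0 < D.rank := by
  by_contra h
  have h0 : IsEmpty (Fin D.rank) := ⟨fun i => h (i.pos)⟩
  exact K.R.ne_zero ⟨0, K.npos⟩ (Subsingleton.elim _ _)

include K in
lemma zent (hK : IsSimpleGroup (D.group F)) (g : D.group F) (hg : ∀ y, g * y = y * g) : g = 1 := by
  rcases hK.eq_bot_or_eq_top_of_normal (Subgroup.center (D.group F)) inferInstance with h | h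
  · rw [← Subgroup.mem_bot, ← h]; exact Subgroup.mem_center_iff.2 fun y => (hg y).symm
  · exfalso
    let i : Fin D.rank := ⟨0, K.rank_pos⟩
    have h1 : K.xG (K.R.sim i) (1 : F) ∈ Subgroup.center (D.group F) := h ▸ Subgroup.mem_top _
    have h2 : K.n F i * K.x (K.R.sim i) 1 = K.x (K.R.sim i) 1 * K.n F i :=
      congrArg Subtype.val (Subgroup.mem_center_iff.1 h1 ⟨_, K.n_mem F i⟩)
    have h3 := K.n_conj i (K.R.sim i) (1 : F)
    rw [h2, mul_inv_cancel_right, RS.refl_sim] at h3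
    have h4 : K.x (K.R.sim i) (1 : F) = 1 :=
      ((K.full F).ldu _ (h3 ▸ le_US (S := {r | ¬ K.R.pos r})
        (fun h => (K.R.pos_neg_iff _).1 h (K.R.pos_sim i)) (K.x_mem_X _ _)) 1 (one_mem _) _
        (le_US (S := {r | K.R.pos r}) (K.R.pos_sim i) (K.x_mem_X _ _)) (one_mul _).symm).2
    exact one_ne_zero (K.x_inj _ _ h4)

/-- sign conditions on the certificate -/
structure Sgn : Prop where
  eta : K.EtaOK
  sim : ∀ i, K.η i (K.R.sim i) = -1

/-- the abstract structure on the concrete group -/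
def chv (hs : K.Sgn) (hK : IsSimpleGroup (D.group F)) : Chv K.R F (D.group F) where
  toFull := K.fullG F
  x := K.xG
  x_add r t u := Subtype.ext (K.x_add r t u)
  mem_X r g := ⟨fun ⟨t, e⟩ => ⟨t, Subtype.ext e⟩, fun ⟨t, e⟩ => ⟨t, congrArg Subtype.val e⟩⟩
  x_inj r t h := K.x_inj r t (congrArg Subtype.val h)
  gen := eq_top_iff.2 fun g _ => (US_sub K.X_le _ _).2 (by
    change (g : GL D.Idx F) ∈ US (K.X F) Set.univ
    rw [← K.group_eq]; exact g.2)
  zent := K.zent hK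
  diag χ := ⟨K.cj F (K.hH χ), K.cj_hH χ⟩
  T_act := by
    rintro h ⟨χ, e⟩
    exact ⟨χ, fun r t => Subtype.ext (by
      change (h : GL D.Idx F) * K.x r t * (h : GL D.Idx F)⁻¹ = K.x r _
      rw [← show K.h χ = h from e, K.h_conj])⟩
  n_def i := rfl
  n_t i t := ⟨⟨_, K.h_κ_mem i t⟩, ⟨K.κ i t, rfl⟩, Subtype.ext (K.n_t i t), fun r u => Subtype.ext (by
    change K.h _ * K.x r u * (K.h _)⁻¹ = K.x r _
    rw [K.h_conj, K.κ_ev])⟩
  n_sim i t := Subtype.ext (by
    change K.n F i * K.x _ t * (K.n F i)⁻¹ = K.x _ _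
    rw [K.n_conj, RS.refl_sim, hs.sim]; simp)
  nW_conj w r := by
    obtain ⟨ε, h0, h1, h2⟩ := K.nW_conj (F := F) hs.eta w r
    refine ⟨ε, h0, fun t => Subtype.ext ?_, fun t => Subtype.ext ?_⟩
    · rw [Subgroup.coe_mul, Subgroup.coe_mul, Subgroup.coe_inv, K.coe_prod]; exact h1 t
    · rw [Subgroup.coe_mul, Subgroup.coe_mul, Subgroup.coe_inv, K.coe_prod]; exact h2 t
  nW_T' w hw := by
    change (((w.map (K.fullG F).n).prod : D.group F) : GL D.Idx F) ∈ (K.full F).T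
    rw [K.coe_prod]; exact K.nW_mem_T hs.eta w hw
  cell w w' a ha a' ha' h hh h' hh' u hu u' hu' e := by
    have e' := congrArg Subtype.val e
    simp only [Subgroup.coe_mul, K.coe_prod] at e'
    exact K.cell_unique ((US_sub K.X_le _ _).1 ha) ((US_sub K.X_le _ _).1 ha') hh hh'
      ((US_sub K.X_le _ _).1 hu) ((US_sub K.X_le _ _).1 hu') e'

@[simp] lemma chv_x (hs : K.Sgn) (hK : IsSimpleGroup (D.group F)) : (K.chv hs hK).x = K.xG := rfl

lemma mem_chv_T (hs : K.Sgn) (hK : IsSimpleGroup (D.group F)) (g : D.group F) :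
    g ∈ (K.chv hs hK).T ↔ ∃ χ : Chr D.rank F, K.h χ = g := Iff.rfl

/-- entrywise field automorphisms -/
def fA (σ : F ≃+* F) : MulAut (D.group F) where
  toFun g := ⟨GeneralLinearGroup.map (σ : F →+* F) g, K.map_mem _ g.2⟩
  invFun g := ⟨GeneralLinearGroup.map (σ.symm : F →+* F) g, K.map_mem _ g.2⟩
  left_inv g := by ext a b; simp
  right_inv g := by ext a b; simp
  map_mul' g h := Subtype.ext (map_mul _ _ _)

lemma fA_val (σ : F ≃+* F) (g : D.group F) :
    (K.fA σ g : GL D.Idx F) = GeneralLinearGroup.map (σ : F →+* F) g := rfl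

lemma fA_x (σ : F ≃+* F) (r : Fin D.nroots) (t : F) : K.fA σ (K.xG r t) = K.xG r (σ t) :=
  Subtype.ext (K.map_x (σ : F →+* F) r t)

lemma fA_mul (σ τ : F ≃+* F) : K.fA (σ * τ) = K.fA σ * K.fA τ := by ext g a b; rfl

lemma fA_one : K.fA (1 : F ≃+* F) = 1 := by ext g a b; rfl

lemma fA_pow (σ : F ≃+* F) (n : ℕ) : K.fA (σ ^ n) = K.fA σ ^ n := by
  induction n with
  | zero => rw [pow_zero, pow_zero, fA_one]
  | succ n ih => rw [pow_succ, pow_succ, fA_mul, ih]

lemma map_Hat (σ : F →+* F) {g : GL D.Idx F} (hg : g ∈ K.Hat F) : GeneralLinearGroup.map σ g ∈ K.Hat F := by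
  obtain ⟨k, hk, χ, rfl⟩ := K.mem_Hat hg
  rw [map_mul, map_h]
  exact mul_mem (Subgroup.mem_sup_left (K.map_mem _ hk)) (Subgroup.mem_sup_right ⟨_, rfl⟩)

/-- the field automorphism on the inner-diagonal group -/
def fH (σ : F ≃+* F) (a : K.Hat F) : K.Hat F := ⟨GeneralLinearGroup.map (σ : F →+* F) a, K.map_Hat _ a.2⟩

lemma fA_cj (σ : F ≃+* F) (a : K.Hat F) : K.fA σ * K.cj F a = K.cj F (K.fH σ a) * K.fA σ := by
  refine MulEquiv.ext fun g => Subtype.ext ?_
  change GeneralLinearGroup.map (σ : F →+* F) ((a : GL D.Idx F) * (g : GL D.Idx F) * (a : GL D.Idx F)⁻¹) = _ * _ * _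
  rw [map_mul, map_mul, map_inv]; rfl

/-- the norm map -/
def nrm (σ : F ≃+* F) (g : GL D.Idx F) (n : ℕ) : GL D.Idx F :=
  ((List.range n).map fun i => GeneralLinearGroup.map ((σ ^ i : F ≃+* F) : F →+* F) g).prod

lemma nrm_mem (σ : F ≃+* F) {g : GL D.Idx F} (hg : g ∈ K.Hat F) (n : ℕ) : nrm σ g n ∈ K.Hat F :=
  Subgroup.list_prod_mem _ fun y hy => by
    obtain ⟨i, -, rfl⟩ := List.mem_map.1 hy
    exact K.map_Hat _ hg

lemma cj_fA_pow (σ : F ≃+* F) (a : K.Hat F) (n : ℕ) :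
    (K.cj F a * K.fA σ) ^ n = K.cj F ⟨_, K.nrm_mem σ a.2 n⟩ * K.fA (σ ^ n) := by
  induction n with
  | zero =>
    rw [pow_zero, pow_zero, fA_one, mul_one]
    exact (map_one _).symm
  | succ n ih =>
    rw [pow_succ, ih, mul_assoc, ← mul_assoc (K.fA _), fA_cj, pow_succ, fA_mul, ← mul_assoc, ← mul_assoc,
      ← map_mul, mul_assoc]
    congr 2
    refine Subtype.ext ?_
    change nrm σ _ n * _ = nrm σ _ (n + 1)
    rw [nrm, nrm, List.range_succ, List.map_append, List.prod_append]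
    simp [fH]

/-- the chain table is compatible with the root lattice -/
structure ChainOK : Prop where
  add : ∀ r : Fin D.nroots, ∀ e ∈ (D.chain.getD r #[]).toList, ∀ q ∈ e.2.toList.head?,
    ∃ (hs : e.1 < D.nroots) (hk : q.1 < D.nroots), ∀ j, K.R.ρ ⟨q.1, hk⟩ j = K.R.ρ r j + K.R.ρ ⟨e.1, hs⟩ j
  gen : ∀ k : Fin D.nroots, (∀ j, 0 ≤ K.R.ρ k j) → (∃ i, k = K.R.sim i) ∨
    ∃ i, ∃ e ∈ (D.chain.getD (K.R.sim i) #[]).toList, e.2.toList.head?.map Prod.fst = some k.val ∧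
      ∃ hs : e.1 < D.nroots, (∀ j, 0 ≤ K.R.ρ ⟨e.1, hs⟩ j) ∧ D.chainRoot (K.R.sim i) e.1 1 = some k.val

variable {K} in
lemma ChainOK.add' (hc : K.ChainOK) {r : Fin D.nroots} {s k : ℕ} (h : D.chainRoot r s 1 = some k) :
    ∃ (hs : s < D.nroots) (hk : k < D.nroots), K.R.ρ ⟨k, hk⟩ = K.R.ρ r + K.R.ρ ⟨s, hs⟩ := by
  unfold ChevalleyDatum.chainRoot ChevalleyDatum.chainEntry at h
  split at h
  · simp at h
  · rename_i e he
    have h1 := List.mem_of_find?_eq_some he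
    have h2 := List.find?_some he
    simp only [decide_eq_true_eq] at h2
    obtain ⟨q, hq, rfl⟩ := Option.map_eq_some_iff.1 h
    obtain ⟨e1, e2, e3⟩ := hc.add r e h1 q (by rw [List.head?_eq_getElem?]; exact hq)
    subst h2
    exact ⟨e1, e2, funext e3⟩

variable {K} in
lemma ChainOK.gen' (hc : K.ChainOK) (k : Fin D.nroots) (hk : K.R.pos k) : (∃ i, k = K.R.sim i) ∨
    ∃ i, ∃ s : Fin D.nroots, K.R.pos s ∧ D.chainRoot (K.R.sim i) s 1 = some k.val :=
  (hc.gen k hk).imp id fun ⟨i, e, _, _, hs, h1, h2⟩ => ⟨i, ⟨e.1, hs⟩, h1, h2⟩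

lemma charDiag_eq (χ : ℕ → Fˣ) (ψ : Chr D.rank F) (h : ∀ r : Fin D.nroots, χ r = ψ.ev (K.R.ρ r)) :
    D.charDiag F χ = (K.h ψ : Matrix D.Idx D.Idx F) ∧
      D.charDiag F (fun r => (χ r)⁻¹) = (((K.h ψ)⁻¹ : GL D.Idx F) : Matrix D.Idx D.Idx F) := by
  rw [← h_inv, h_val, h_val]
  constructor <;> (unfold ChevalleyDatum.charDiag; congr 1; funext a; rcases a with a | a <;> simp [wt, h])

theorem innerDiag_iff (hc : K.ChainOK) (β : MulAut (D.group F)) :
    D.IsInnerDiagonalAutOn (D.group F) β ↔ ∃ a, β = K.cj F a := by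
  constructor
  · rintro ⟨g, hg, χ, hχ, e⟩
    let ψ : Chr D.rank F := Chr.mk fun i => χ (K.R.sim i)
    have hp : ∀ (n : ℕ) (k : Fin D.nroots), RS.ht (K.R.ρ k) ≤ n → K.R.pos k → χ k = ψ.ev (K.R.ρ k) := by
      intro n
      induction n with
      | zero => intro k h1 h2; have := K.R.ht_pos h2; omega
      | succ n ih =>
        intro k h1 h2
        rcases hc.gen' k h2 with ⟨i, rfl⟩ | ⟨i, s, hs, h⟩
        · rw [K.R.ρ_sim, Chr.ev_mk_single]
        · obtain ⟨_, _, e3⟩ := hc.add' h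
          have e3 : K.R.ρ k = K.R.ρ (K.R.sim i) + K.R.ρ s := e3
          rw [hχ.2 _ _ _ (K.R.sim i).2 s.2 h, e3, Chr.ev_add, K.R.ρ_sim, Chr.ev_mk_single, ih s ?_ hs]
          rw [e3, K.R.ρ_sim] at h1
          simp only [RS.ht, Pi.add_apply, Finset.sum_add_distrib, Finset.sum_pi_single', Finset.mem_univ,
            if_true] at h1 ⊢
          push_cast at h1
          omega
    have hp' : ∀ k : Fin D.nroots, χ k = ψ.ev (K.R.ρ k) := by
      intro k
      by_cases hk : K.R.pos k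
      · exact hp (RS.ht (K.R.ρ k)).toNat k (Int.self_le_toNat _) hk
      · have := hp (RS.ht (K.R.ρ (K.R.neg k))).toNat _ (Int.self_le_toNat _) ((K.R.pos_neg_iff k).2 hk)
        rw [K.neg_val, hχ.1 _ k.2, K.R.ρ_neg, Chr.ev_neg] at this
        exact inv_injective this
    refine ⟨K.gH ⟨g, hg⟩ * K.hH ψ, MulEquiv.ext fun t => Subtype.ext (Units.ext ?_)⟩
    rw [e, (K.charDiag_eq χ ψ hp').1, (K.charDiag_eq χ ψ hp').2, cj_val]
    simp only [gH, hH, Subgroup.coe_mul, _root_.mul_inv_rev, Units.val_mul, Matrix.mul_assoc]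
  · rintro ⟨a, rfl⟩
    obtain ⟨k, ψ, rfl⟩ := K.Hat_eq a
    let χ : ℕ → Fˣ := fun r => if h : r < D.nroots then ψ.ev (K.R.ρ ⟨r, h⟩) else 1
    have hp : ∀ k : Fin D.nroots, χ k = ψ.ev (K.R.ρ k) := fun k => dif_pos k.2
    refine ⟨k, k.2, χ, ⟨fun r hr => ?_, fun r s k hr hs h => ?_⟩, fun t => ?_⟩
    · have := hp (K.R.neg ⟨r, hr⟩)
      rw [K.neg_val] at this
      rw [this, K.R.ρ_neg, Chr.ev_neg, ← hp]
    · obtain ⟨_, hk, e⟩ := hc.add' (r := ⟨r, hr⟩) h
      rw [hp ⟨k, hk⟩, e, Chr.ev_add, ← hp, ← hp]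
    · rw [(K.charDiag_eq χ ψ hp).1, (K.charDiag_eq χ ψ hp).2, cj_val]
      simp only [gH, hH, Subgroup.coe_mul, _root_.mul_inv_rev, Units.val_mul, Matrix.mul_assoc]

theorem entrywise_iff (φ : MulAut (D.group F)) :
    IsEntrywiseFieldAutOn (D.group F) φ ↔ ∃ σ, φ = K.fA σ :=
  ⟨fun ⟨σ, h⟩ => ⟨σ, MulEquiv.ext fun t => Subtype.ext (Units.ext (h t))⟩,
    fun ⟨σ, h⟩ => ⟨σ, fun t => by rw [h]; rfl⟩⟩

end Cert

namespace Chv
variable {Γ : Type*} [Group Γ]

theorem Bal.conj {β : MulAut Γ} {p : ℕ} {N : Subgroup (MulAut Γ)} (h : Bal β p N) (α : MulAut Γ) :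
    Bal (α * β * α⁻¹) p (N.map (MulAut.conj α).toMonoidHom) where
  nd := by rw [Subgroup.card_map_of_injective (MulAut.conj α).injective]; exact h.nd
  comm := by
    rintro _ ⟨ν, hν, rfl⟩
    exact (h.comm ν hν).map (MulAut.conj α)
  norm := by
    rintro g hg _ ⟨ν, hν, rfl⟩
    refine ⟨_, h.norm (α⁻¹ g) (α.injective ?_) ν hν, ?_⟩
    · rw [MulAut.apply_inv_self]; exact hg
    · have : MulAut.conj g = α * MulAut.conj (α⁻¹ g) * α⁻¹ := by ext y; simp
      rw [this]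
      change α * _ * α⁻¹ = _ * (α * ν * α⁻¹) * _
      group

theorem Bal.eq_bot_of_conj {β : MulAut Γ} {p : ℕ} {N : Subgroup (MulAut Γ)} (h : Bal β p N) (α : MulAut Γ)
    (H : ∀ N', Bal (α * β * α⁻¹) p N' → N' = ⊥) : N = ⊥ :=
  (Subgroup.map_eq_bot_iff_of_injective (f := (MulAut.conj α).toMonoidHom) _ (MulAut.conj α).injective).1
    (H _ (h.conj α))

end Chv
end
end Cfsg.Agent.Lib.Chev
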