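import Cfsg.Agent.Lib.Lang.Chev

/-!
The Lang theorem over a finite field: a cocycle with trivial norm is a coboundary in the group
generated by the Chevalley group and the diagonal matrices of all characters.
-/

set_option autoImplicit false

open Matrix Cfsg.Lie Polynomial
open scoped MatrixGroups

namespace Cfsg.Agent.Lib.Chev

section cocycle
variable {Γ : Type*} [Group Γ]

/-- the product `g · s g ⋯ s^(n-1) g` -/
def cn (s : Γ →* Γ) (g : Γ) (n : ℕ) : Γ := ((List.range n).map fun i => s^[i] g).prod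

lemma cn_zero (s : Γ →* Γ) (g : Γ) : cn s g 0 = 1 := by simp [cn]

lemma cn_succ (s : Γ →* Γ) (g : Γ) (n : ℕ) : cn s g (n + 1) = cn s g n * s^[n] g := by
  simp [cn, List.range_succ]

lemma cn_add (s : Γ →* Γ) (g : Γ) (n m : ℕ) : cn s g (n + m) = cn s g n * s^[n] (cn s g m) := by
  induction m with
  | zero => simp [cn_zero]
  | succ m ih =>
    rw [← add_assoc, cn_succ, ih, cn_succ, iterate_map_mul, mul_assoc, Function.iterate_add_apply]

lemma cn_mul (s s' : Γ →* Γ) (j : ℕ) (h : ∀ x, s' x = s^[j] x) (g : Γ) (n : ℕ) :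
    cn s g (j * n) = cn s' (cn s g j) n := by
  have h' : (s' : Γ → Γ) = s^[j] := funext h
  induction n with
  | zero => simp [cn_zero]
  | succ n ih => rw [mul_add, mul_one, cn_add, ih, cn_succ, h', ← Function.iterate_mul]

lemma cn_cob (s : Γ →* Γ) (a : Γ) (n : ℕ) : cn s (a⁻¹ * s a) n = a⁻¹ * s^[n] a := by
  induction n with
  | zero => simp [cn_zero]
  | succ n ih =>
    rw [cn_succ, ih, iterate_map_mul, iterate_map_inv, Function.iterate_succ_apply]
    group

lemma cn_period (s : Γ →* Γ) (g : Γ) {m : ℕ} (h : cn s g m = 1) (n t : ℕ) :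
    cn s g (n + m * t) = cn s g n := by
  induction t with
  | zero => simp
  | succ t ih => rw [mul_add, mul_one, ← add_assoc, cn_add, ih, h, iterate_map_one, mul_one]

lemma cn_mem (s : Γ →* Γ) {H : Subgroup Γ} (hs : ∀ x ∈ H, s x ∈ H) {g : Γ} (hg : g ∈ H) (n : ℕ) :
    cn s g n ∈ H := by
  have : ∀ i, s^[i] g ∈ H := fun i => by
    induction i with
    | zero => exact hg
    | succ i ih => rw [Function.iterate_succ_apply']; exact hs _ ih
  induction n with
  | zero => rw [cn_zero]; exact H.one_mem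
  | succ n ih => rw [cn_succ]; exact H.mul_mem ih (this n)

lemma cn_map {Γ' : Type*} [Group Γ'] (s : Γ →* Γ) (s' : Γ' →* Γ') (f : Γ →* Γ')
    (h : ∀ x, f (s x) = s' (f x)) (g : Γ) (n : ℕ) : f (cn s g n) = cn s' (f g) n := by
  have : ∀ i x, f (s^[i] x) = s'^[i] (f x) := fun i => by
    induction i with
    | zero => exact fun _ => rfl
    | succ i ih => intro x; rw [Function.iterate_succ_apply', Function.iterate_succ_apply', h, ih]
  induction n with
  | zero => simp [cn_zero]
  | succ n ih => rw [cn_succ, cn_succ, map_mul, ih, this]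

end cocycle

lemma mem_range_of_pow_card {F k : Type*} [Field F] [Fintype F] [Field k] (f : F →+* k) {x : k}
    (hx : x ^ Fintype.card F = x) : x ∈ f.range := by
  classical
  have h0 := FiniteField.X_pow_card_sub_X_ne_zero F (Fintype.one_lt_card (α := F))
  have hm : (X ^ Fintype.card F - X : F[X]).Monic :=
    monic_X_pow_sub (by rw [degree_X]; exact_mod_cast Fintype.one_lt_card)
  have h1 := prod_multiset_X_sub_C_of_monic_of_roots_card_eq hm (by
    rw [FiniteField.roots_X_pow_card_sub_X,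
      FiniteField.X_pow_card_sub_X_natDegree_eq F Fintype.one_lt_card]; rfl)
  have h2 := congrArg (eval₂RingHom f x) h1
  rw [map_multiset_prod, FiniteField.roots_X_pow_card_sub_X] at h2
  simp only [coe_eval₂RingHom, eval₂_sub, eval₂_X_pow, eval₂_X, hx, sub_self,
    Multiset.prod_eq_zero_iff, Multiset.mem_map] at h2
  obtain ⟨_, ⟨a, -, rfl⟩, ha⟩ := h2
  simp only [coe_eval₂RingHom, eval₂_sub, eval₂_X, eval₂_C] at ha
  exact ⟨a, (sub_eq_zero.1 ha).symm⟩

lemma map_iter {ι : Type*} [Fintype ι] [DecidableEq ι] {F : Type*} [Field F] (σ : F →+* F) (i : ℕ)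
    (g : GL ι F) (a b : ι) : ((GeneralLinearGroup.map σ)^[i] g).val a b = σ^[i] (g.val a b) := by
  induction i with
  | zero => rfl
  | succ i ih => rw [Function.iterate_succ_apply', Function.iterate_succ_apply', ← ih]; rfl

namespace Cert
variable {D : ChevalleyDatum} (K : Cert D)

/-- non-singular Cartan matrix -/
def NonSing : Prop := ∃ d : ℕ, d ≠ 0 ∧ ∃ B : Fin D.rank → Fin D.rank → ℤ,
  ∀ k j, ∑ i, B k i * K.R.cart i j = if k = j then (d : ℤ) else 0

lemma h_mem_alg (hns : K.NonSing) {k : Type*} [Field k] [IsAlgClosed k] (χ : Chr D.rank k) :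
    K.h χ ∈ D.group k := by
  obtain ⟨d, hd, B, hB⟩ := hns
  have hρ : ∀ j, ∃ ρ : kˣ, ρ ^ d = χ.ev (Pi.single j 1) := by
    intro j
    obtain ⟨z, hz⟩ := IsAlgClosed.exists_pow_nat_eq (χ.ev (Pi.single j 1) : k) (Nat.pos_of_ne_zero hd)
    have h0 : z ≠ 0 := by
      rintro rfl
      rw [zero_pow hd] at hz
      exact Units.ne_zero _ hz.symm
    exact ⟨Units.mk0 z h0, Units.ext (by simpa using hz)⟩
  choose ρ hρ using hρ
  have : χ = ∏ i, K.κ i (∏ l, ρ l ^ B l i) := Chr.ext' fun j => by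
    have : ∀ (s : Finset (Fin D.rank)) (g : Fin D.rank → Chr D.rank k) v,
        Chr.ev (∏ i ∈ s, g i) v = ∏ i ∈ s, (g i).ev v := fun s g v => by
      simp [Chr.ev, MonoidHom.finsetProd_apply]
    rw [this]
    simp only [κ, Chr.ev_mk_single, ← Finset.prod_zpow, ← _root_.zpow_mul]
    rw [Finset.prod_comm]
    have h2 : ∀ l, ∏ i, ρ l ^ (B l i * K.R.cart i j) = ρ l ^ (∑ i, B l i * K.R.cart i j) :=
      fun l => by
      induction (Finset.univ : Finset (Fin D.rank)) using Finset.induction_on with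
      | empty => simp
      | insert a s ha ih => rw [Finset.sum_insert ha, Finset.prod_insert ha, _root_.zpow_add, ih]
    simp only [h2, hB]
    rw [Finset.prod_eq_single j] <;> simp +contextual [hρ]
  rw [this]
  exact Subgroup.prod_mem ((D.group k).comap K.h) (fun i _ => K.h_κ_mem i _)

lemma map_mem_hat {F F' : Type*} [Field F] [Field F'] (f : F →+* F') {g : GL D.Idx F}
    (hg : g ∈ D.group F ⊔ K.h.range) : GeneralLinearGroup.map f g ∈ D.group F' ⊔ K.h.range := by
  have : D.group F ⊔ K.h.range ≤ (D.group F' ⊔ K.h.range).comap (GeneralLinearGroup.map f) := by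
    refine sup_le (fun g hg => Subgroup.mem_sup_left (K.map_mem f hg)) ?_
    rintro _ ⟨χ, rfl⟩
    exact Subgroup.mem_sup_right ⟨_, (K.map_h f χ).symm⟩
  exact this hg

theorem fixed_mem_hat {F : Type*} [Field F] (σ : F →+* F) {F₀ : Type*} [Field F₀] (f : F₀ →+* F)
    (hf : ∀ x, σ x = x → x ∈ f.range) {g : GL D.Idx F} (hg : g ∈ D.group F)
    (hσ : GeneralLinearGroup.map σ g = g) :
    g ∈ (D.group F₀ ⊔ K.h.range).map (GeneralLinearGroup.map f) := by
  rw [K.group_eq] at hg
  refine (K.full F).fixed (GeneralLinearGroup.map σ) ?_ ?_ (K.map_n σ) _ ?_ ?_ ?_ hg hσ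
  · rintro r _ ⟨t, rfl⟩; exact ⟨_, K.map_x σ r t⟩
  · rintro _ ⟨χ, rfl⟩; exact ⟨_, (K.map_h σ χ).symm⟩
  · intro i; exact ⟨_, Subgroup.mem_sup_left (K.n_mem F₀ i), K.map_n f i⟩
  · rintro i _ ⟨t, rfl⟩ h
    rw [map_x] at h
    have := congrArg (fun g : GL D.Idx F => (g : Matrix D.Idx D.Idx F) (Sum.inl i)
      (Sum.inr (K.R.neg (K.R.sim i)))) h
    simp only [x_val, x_entry] at this
    obtain ⟨s, rfl⟩ := hf t this
    exact ⟨_, Subgroup.mem_sup_left (K.x_mem _ s), K.map_x f _ s⟩
  · rintro _ ⟨χ, rfl⟩ h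
    have h1 : ∀ j, ∃ s : F₀ˣ, f s = χ.ev (Pi.single j 1) := by
      intro j
      have := congrArg (fun g : GL D.Idx F => (g : Matrix D.Idx D.Idx F) (Sum.inr (K.R.sim j))
        (Sum.inr (K.R.sim j))) h
      simp only [map_h, h_val, diagonal_apply_eq, wt, Sum.elim_inr, K.R.ρ_sim, Chr.ev_map] at this
      obtain ⟨s, hs⟩ := hf _ this
      have h0 : s ≠ 0 := by rintro rfl; simp at hs; exact Units.ne_zero _ hs.symm
      exact ⟨Units.mk0 s h0, hs⟩
    choose τ hτ using h1
    refine ⟨K.h (Chr.mk τ), Subgroup.mem_sup_right ⟨_, rfl⟩, ?_⟩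
    rw [map_h]
    congr 1
    exact Chr.ext' fun j => Units.ext (by rw [Chr.ev_map, Chr.ev_mk_single, hτ])

/-- The case of a power map `τ x = x ^ q₀` with `|F| = q₀ ^ m`. -/
theorem lang_pow (hns : K.NonSing) {F : Type*} [Field F] [Fintype F] (τ : F →+* F) (q₀ m : ℕ)
    (hτ : ∀ x, τ x = x ^ q₀) (hq : Fintype.card F = q₀ ^ m) (hq2 : 2 ≤ q₀) {g : GL D.Idx F}
    (hg : g ∈ D.group F ⊔ K.h.range) (hN : cn (GeneralLinearGroup.map τ) g m = 1) :
    ∃ a ∈ D.group F ⊔ K.h.range, g = a⁻¹ * GeneralLinearGroup.map τ a := by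
  obtain ⟨r, hr⟩ := CharP.exists F
  obtain ⟨f, hp, hf⟩ := FiniteField.card F r
  have hm : m ≠ 0 := by
    rintro rfl
    have := Fintype.one_lt_card (α := F)
    rw [pow_zero] at hq
    omega
  obtain ⟨e, -, he⟩ := (Nat.dvd_prime_pow hp).1 (show q₀ ∣ r ^ (f : ℕ) by
    rw [← hf, hq]; exact dvd_pow_self _ hm)
  let k := AlgebraicClosure F
  haveI : CharP k r := charP_of_injective_algebraMap (algebraMap F k).injective r
  haveI : ExpChar k r := ExpChar.prime hp
  let ι : F →+* k := algebraMap F k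
  have hinj := Cfsg.Agent.Lib.GL.H90.gl_map_injective (ι := D.Idx) ι ι.injective
  have hle : D.group k ⊔ K.h.range ≤ D.group k :=
    sup_le le_rfl (by rintro _ ⟨χ, rfl⟩; exact K.h_mem_alg hns χ)
  have hcomm : ∀ x : GL D.Idx F, GeneralLinearGroup.map ι (GeneralLinearGroup.map τ x) =
      GeneralLinearGroup.map (iterateFrobenius k r e) (GeneralLinearGroup.map ι x) := by
    intro x
    ext a b
    change ι (τ (x.val a b)) = iterateFrobenius k r e (ι (x.val a b))
    rw [hτ, map_pow, iterateFrobenius_def, he]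
  obtain ⟨a, ha, hag⟩ := K.lang_alg r e (he ▸ hq2) _ (hle (K.map_mem_hat ι hg))
  have h1 := cn_map _ _ _ hcomm g m
  rw [hN, map_one, ← hag, cn_cob, eq_comm, inv_mul_eq_one] at h1
  have hpow : ∀ (i : ℕ) (x : k), (iterateFrobenius k r e)^[i] x = x ^ (q₀ ^ i) := by
    intro i x
    induction i with
    | zero => simp
    | succ i ih => rw [Function.iterate_succ_apply', ih, iterateFrobenius_def, ← he, ← pow_mul, pow_succ]
  have h2 : GeneralLinearGroup.map (iterateFrobenius k r f) a = a := by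
    ext i j
    have := congrArg (fun g : GL D.Idx k => g.val i j) h1
    simp only [map_iter, hpow] at this
    change iterateFrobenius k r f (a.val i j) = _
    rw [iterateFrobenius_def, ← hf, hq]
    exact this.symm
  obtain ⟨b, hb, rfl⟩ := K.fixed_mem_hat (iterateFrobenius k r f) ι
    (fun x hx => mem_range_of_pow_card ι (by rw [hf]; exact hx)) ha h2
  refine ⟨b, hb, hinj ?_⟩
  rw [map_mul, map_inv, hcomm, hag]

theorem lang (hns : K.NonSing) {F : Type*} [Field F] [Finite F] (σ : F ≃+* F) {g : GL D.Idx F}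
    (hg : g ∈ D.group F ⊔ K.h.range)
    (hN : ((List.range (orderOf σ)).map fun i =>
      GeneralLinearGroup.map ((σ ^ i : F ≃+* F) : F →+* F) g).prod = 1) :
    ∃ a ∈ D.group F ⊔ K.h.range, g = a⁻¹ * GeneralLinearGroup.map (σ : F →+* F) a := by
  classical
  letI : Fintype F := Fintype.ofFinite F
  haveI : Finite (F ≃+* F) :=
    Finite.of_injective (fun f : F ≃+* F => (f : F → F)) DFunLike.coe_injective
  have hit : ∀ (ρ : F ≃+* F) (i : ℕ) (x : GL D.Idx F),
      GeneralLinearGroup.map ((ρ ^ i : F ≃+* F) : F →+* F) x =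
        (GeneralLinearGroup.map (ρ : F →+* F))^[i] x := by
    intro ρ i x
    induction i with
    | zero => ext a b; simp
    | succ i ih => rw [Function.iterate_succ_apply', ← ih]; ext a b; simp [pow_succ']
  have hN' : cn (GeneralLinearGroup.map (σ : F →+* F)) g (orderOf σ) = 1 := by
    simpa only [hit, cn] using hN
  let S := Cfsg.Agent.Lib.GL.H90.fixedSub σ
  letI : Fintype S := Fintype.ofFinite S
  let τa := FiniteField.frobeniusAlgEquivOfAlgebraic S F
  let σa : F ≃ₐ[S] F := AlgEquiv.ofRingEquiv (f := σ) (fun x => x.2)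
  let ρ : (F ≃ₐ[S] F) →* (F ≃+* F) :=
    { toFun := fun e => e.toRingEquiv, map_one' := rfl, map_mul' := fun _ _ => rfl }
  have hρ : Function.Injective ρ := fun a b h => AlgEquiv.ext fun x => DFunLike.congr_fun h x
  let τ : F ≃+* F := ρ τa
  have hτo : orderOf τ = orderOf σ := by
    rw [orderOf_injective ρ hρ, FiniteField.orderOf_frobeniusAlgEquivOfAlgebraic,
      Cfsg.Agent.Lib.GL.H90.finrank_fixedSub]
  obtain ⟨⟨i, hi0⟩, hi'⟩ := (FiniteField.bijective_frobeniusAlgEquivOfAlgebraic_pow S F).2 σa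
  have hi : τa ^ i = σa := hi'
  have hστ : σ = τ ^ i := by
    have : ρ σa = σ := rfl
    rw [← this, ← hi, map_pow]
  have hz : Subgroup.zpowers σ = Subgroup.zpowers τ := by
    refine Subgroup.eq_of_le_of_card_ge ?_ ?_
    · rw [Subgroup.zpowers_le, hστ]; exact Subgroup.pow_mem _ (Subgroup.mem_zpowers τ) i
    · rw [Nat.card_zpowers, Nat.card_zpowers, hτo]
  obtain ⟨j, hj⟩ : τ ∈ Submonoid.powers σ := by
    rw [mem_powers_iff_mem_zpowers, hz]; exact Subgroup.mem_zpowers τ
  have hj' : σ ^ j = τ := hj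
  have hs : ∀ x : GL D.Idx F, GeneralLinearGroup.map (τ : F →+* F) x =
      (GeneralLinearGroup.map (σ : F →+* F))^[j] x := fun x => by rw [← hj', hit]
  have hq : Fintype.card F = Fintype.card S ^ orderOf σ := by
    rw [← Nat.card_eq_fintype_card, ← Nat.card_eq_fintype_card]
    exact Cfsg.Agent.Lib.GL.H90.card_eq_card_fixedSub_pow σ
  obtain ⟨a, ha, hag⟩ := K.lang_pow hns (τ : F →+* F) (Fintype.card S) (orderOf σ) (fun x => rfl) hq
    Fintype.one_lt_card (cn_mem _ (fun x hx => K.map_mem_hat (σ : F →+* F) hx) hg j) (by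
      rw [← cn_mul _ _ j hs, mul_comm, ← zero_add (_ * j), cn_period _ _ hN', cn_zero])
  refine ⟨a, ha, ?_⟩
  have h1 := cn_mul _ _ j hs g i
  rw [hag, cn_cob, ← hit, ← hστ] at h1
  rw [← h1]
  have hmod : j * i ≡ 1 [MOD orderOf σ] := by
    rw [← pow_eq_pow_iff_modEq, pow_mul, hj', ← hστ, pow_one]
  have h2 : cn (GeneralLinearGroup.map (σ : F →+* F)) g (j * i + orderOf σ * 1) =
      cn (GeneralLinearGroup.map (σ : F →+* F)) g (j * i) := cn_period _ _ hN' _ _
  have hpos := orderOf_pos σ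
  obtain ⟨t, ht⟩ : ∃ t, j * i + orderOf σ * 1 = 1 + orderOf σ * t := by
    have h3 : 1 ≡ j * i + orderOf σ * 1 [MOD orderOf σ] := by
      rw [mul_one]; exact (Nat.ModEq.trans (by simp [Nat.ModEq]) hmod).symm
    obtain ⟨t, ht⟩ := (Nat.modEq_iff_dvd' (by omega)).1 h3
    exact ⟨t, by omega⟩
  rw [← h2, ht, cn_period _ _ hN']
  simp [cn]

end Cert
end Cfsg.Agent.Lib.Chev
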