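/- Steinberg's theorem on automorphisms, part 1: `N(U) = B`, Sylow subgroups.  Owner: helper2. -/
import Cfsg.Agent.Lib.Chev.Abs2

set_option autoImplicit false
set_option linter.unusedSectionVars false

namespace Cfsg.Agent.Lib.Chev

theorem iff_of_maps {Γ : Type*} [Group Γ] [Finite Γ] (δ : MulAut Γ) {H : Subgroup Γ} (h : ∀ y ∈ H, δ y ∈ H) (y : Γ) :
    δ y ∈ H ↔ y ∈ H := by
  have e : H.map δ.toMonoidHom = H := Subgroup.eq_of_le_of_card_ge (by rintro _ ⟨z, hz, rfl⟩; exact h z hz)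
    (Subgroup.card_map_of_injective δ.injective).ge
  refine ⟨fun hy => ?_, h y⟩
  rw [← e] at hy
  obtain ⟨z, hz, e'⟩ := hy
  rwa [← δ.injective e']

theorem pow_coset {Γ : Type*} [Group Γ] {V : Subgroup Γ} {x u : Γ} (hx : ∀ v ∈ V, x⁻¹ * v * x ∈ V) (hu : u ∈ V) (m : ℕ) :
    ∃ v ∈ V, (x * u) ^ m = x ^ m * v := by
  induction m with
  | zero => exact ⟨1, one_mem _, by simp⟩
  | succ m ih =>
    obtain ⟨v, hv, e⟩ := ih
    exact ⟨_, mul_mem (hx v hv) hu, by rw [pow_succ, e, pow_succ]; group⟩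

namespace Chv
open MulAut (conj)

variable {Φ : Type} {l : ℕ} {R : RS Φ l} {F : Type*} [Field F] {Γ : Type*} [Group Γ] (A : Chv R F Γ)
  {g k : Γ} {p : ℕ}

theorem conjW_US (w : List (Fin l)) {S S' : Set Φ} (h : ∀ r, R.inv w r ∈ S' ↔ r ∈ S) (g : Γ) :
    (A.nW w)⁻¹ * g * A.nW w ∈ US A.X S' ↔ g ∈ US A.X S := by
  refine ⟨fun hg => ?_, fun hg => ?_⟩
  · have := US_conj (A.nW w) (K := US A.X S) (fun r hr z hz => le_US ((h (R.inv w.reverse r)).1
      (by rwa [R.inv_inv_reverse])) (A.conjW' w _ (by rwa [R.inv_inv_reverse]))) hg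
    simpa [mul_assoc] using this
  · have := US_conj (A.nW w)⁻¹ (K := US A.X S') (fun r hr z hz => le_US ((h r).2 hr)
      (by simpa using A.conjW w r hz)) hg
    simpa using this

theorem conjW_X (w : List (Fin l)) (r : Φ) (g : Γ) : (A.nW w)⁻¹ * g * A.nW w ∈ A.X (R.inv w r) ↔ g ∈ A.X r :=
  ⟨fun h => by simpa [mul_assoc] using A.conjW' w r h, A.conjW w r⟩

theorem _root_.Cfsg.Agent.Lib.Chev.RS.w0_iff (R : RS Φ l) {w : List (Fin l)} (hw : ∀ r, R.pos r → ¬ R.pos (R.inv w r))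
    (r : Φ) : ¬ R.pos (R.inv w r) ↔ R.pos r :=
  ⟨fun h => by_contra fun h' => hw _ ((R.pos_neg_iff r).2 h') (by rwa [R.inv_neg, R.pos_neg_iff]), hw r⟩

theorem w0_U {w : List (Fin l)} (hw : ∀ r, R.pos r → ¬ R.pos (R.inv w r)) (g : Γ) :
    (A.nW w)⁻¹ * g * A.nW w ∈ A.Um ↔ g ∈ A.U := A.conjW_US w (R.w0_iff hw) g

theorem w0_Um {w : List (Fin l)} (hw : ∀ r, R.pos r → ¬ R.pos (R.inv w r)) (g : Γ) :
    (A.nW w)⁻¹ * g * A.nW w ∈ A.U ↔ g ∈ A.Um :=
  A.conjW_US w (fun r => by simpa using (not_congr (R.w0_iff hw r))) g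

theorem x_pow (r : Φ) (t : F) (m : ℕ) : A.x r t ^ m = A.x r (m * t) := by
  induction m with
  | zero => simp
  | succ m ih => rw [pow_succ, ih, ← A.x_add]; congr 1; push_cast; ring

theorem std_T (h : g ∈ A.T) : A.Std (conj g) :=
  ⟨fun y => ⟨fun hy => by simpa [mul_assoc] using A.T_U (inv_mem h) hy, A.T_U h⟩,
    fun y => ⟨fun hy => by simpa [mul_assoc] using A.T_US (inv_mem h) hy, A.T_US h⟩⟩

theorem T_pow [Fintype F] (h : g ∈ A.T) : g ^ (Fintype.card F - 1) = 1 := by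
  obtain ⟨χ, h1⟩ := A.T_act g h
  have h2 : ∀ m r t, conj (g ^ m) (A.x r t) = A.x r (χ.ev (R.ρ r) ^ m * t) := fun m r t => by
    induction m with
    | zero => simp
    | succ m ih => rw [pow_succ', map_mul, MulAut.mul_apply, ih, MulAut.conj_apply, h1, pow_succ', mul_assoc]
  refine A.conj_inj (MulEquiv.toMonoidHom_injective (A.hom_ext fun r t => ?_))
  exact (h2 _ r t).trans (by rw [FiniteField.pow_card_sub_one_eq_one _ (Units.ne_zero _)]; simp)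

variable [Finite Φ]

theorem mem_B (h : ∀ u ∈ A.U, g * u * g⁻¹ ∈ A.U) : ∃ h ∈ A.T, ∃ u ∈ A.U, g = h * u := by
  obtain ⟨w, a, ha, t, ht, u, hu, rfl⟩ := A.bruhat g
  have ha' : a ∈ A.U := US_mono (fun r hr => hr.1) ha
  have hw : A.nW w ∈ A.T := A.nW_T' w fun r hr => by_contra fun hr' => by
    have h1 : R.pos (R.inv w (R.neg r)) := by rwa [R.inv_neg, R.pos_neg_iff]
    have h2 := mul_mem (mul_mem (inv_mem ha') (h _ (mul_mem (mul_mem (inv_mem hu) (A.T_U (inv_mem ht) (A.x_U h1 1))) hu))) ha'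
    rw [show ∀ y, a⁻¹ * (a * A.nW w * t * u * (u⁻¹ * (t⁻¹ * y * t⁻¹⁻¹) * u) * (a * A.nW w * t * u)⁻¹) * a =
      A.nW w * y * (A.nW w)⁻¹ by intro; group] at h2
    have h3 := A.U_Um h2 (le_US (S := {r | ¬ R.pos r}) (by simpa [R.pos_neg_iff] using hr) (A.conjW' w _ (A.x_mem _ 1)))
    exact A.x_ne _ (by simpa using h3)
  exact ⟨_, mul_mem hw ht, _, mul_mem (A.T_U (inv_mem (mul_mem hw ht)) ha') hu, by group⟩

theorem eq_one_of_norm (hg : g ∈ A.U) (h : ∀ v ∈ A.Um, g * v * g⁻¹ ∈ A.Um) : g = 1 := by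
  obtain ⟨w, hw⟩ := R.exists_w0
  obtain ⟨t, ht, u, hu, e⟩ := A.mem_B (g := (A.nW w)⁻¹ * g * A.nW w) fun u hu => by
    have := (A.w0_Um hw _).2 (h _ ((A.w0_Um hw (A.nW w * u * (A.nW w)⁻¹)).1 (by simpa [mul_assoc] using hu)))
    simpa [mul_assoc] using this
  obtain ⟨rfl, rfl⟩ := A.ldu _ ((A.w0_U hw g).2 hg) t ht u hu e
  simpa [mul_assoc, inv_mul_eq_one] using e

theorem mem_T (h : A.Std (conj g)) : g ∈ A.T := by
  obtain ⟨t, ht, u, hu, rfl⟩ := A.mem_B fun u hu => (h.U u).2 hu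
  rw [A.eq_one_of_norm hu fun v hv => by simpa [mul_assoc] using A.T_US (inv_mem ht) ((h.Um v).2 hv), mul_one]
  exact ht

theorem eq_one_of_pow (hpr : (p : F) ≠ 0) (hg : g ∈ A.U) (h : g ^ p = 1) : g = 1 := by
  refine A.peel_bot (fun g => g ^ p = 1) (fun i x hx u hu e => ?_) g hg h
  obtain ⟨v, hv, e'⟩ := pow_coset (V := US A.X (R.P' i))
    (fun v hv => by simpa [Fold.P'_eq] using A.normal (R.closed_pos i) (inv_mem hx) hv) hu p
  obtain ⟨t, rfl⟩ := (A.mem_X _ _).1 hx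
  have h1 := A.split_unique (pow_mem hx p) (one_mem _) hv (one_mem _) (by rw [← e', e, one_mul])
  rw [x_pow] at h1
  have h2 : t = 0 := (mul_eq_zero.1 (A.x_inj _ _ h1.1)).resolve_left hpr
  subst h2
  rw [x_zero, one_mul] at e
  exact ⟨A.x_zero _, by simpa [e] using (conj_pow (a := (A.n i)⁻¹) (b := u) (i := p))⟩

variable [Finite Γ]

theorem not_dvd_U (hp : p.Prime) (hpr : (p : F) ≠ 0) {H : Subgroup Γ} (hH : H ≤ A.U) : ¬ p ∣ Nat.card H := fun h => by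
  haveI := Fact.mk hp
  obtain ⟨y, hy⟩ := exists_prime_orderOf_dvd_card' p h
  have : y = 1 := Subtype.ext (A.eq_one_of_pow hpr (hH y.2) (by rw [← Subgroup.coe_pow, ← hy, pow_orderOf_eq_one]; rfl))
  rw [this, orderOf_one] at hy
  exact hp.one_lt.ne hy

theorem pg_U (r : ℕ) [hr : Fact r.Prime] [CharP F r] : IsPGroup r A.U :=
  IsPGroup.of_card (Nat.eq_prime_pow_of_unique_prime_dvd Nat.card_pos.ne' fun {d} hd h => by_contra fun hne =>
    A.not_dvd_U hd (fun h0 => hne ((Nat.prime_dvd_prime_iff_eq hr.out hd).1 ((CharP.cast_eq_zero_iff F r d).1 h0)).symm)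
      le_rfl h)

variable [Finite F]

theorem conj_into_U (r : ℕ) [hr : Fact r.Prime] [CharP F r] {H : Subgroup Γ} (hH : IsPGroup r H) :
    ∃ g, ∀ y ∈ H, g⁻¹ * y * g ∈ A.U := by
  have := Fintype.ofFinite F
  obtain ⟨P, hP⟩ := (A.pg_U r).exists_le_sylow
  obtain ⟨Q, hQ⟩ := hH.exists_le_sylow
  obtain ⟨g, rfl⟩ := MulAction.exists_smul_eq Γ P Q
  have h1 : (A.U.subgroupOf P) = ⊤ := by
    have := P.2.isNilpotent
    refine normalizerCondition_iff_only_full_group_self_normalizing.1 normalizerCondition_of_isNilpotent _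
      (le_antisymm (fun y hy => ?_) Subgroup.le_normalizer)
    obtain ⟨t, ht, u, hu, e⟩ := A.mem_B (g := y) fun u hu => (Subgroup.mem_normalizer_iff.1 hy ⟨u, hP hu⟩).1 hu
    have h2 : t ∈ (P : Subgroup Γ) := by rw [eq_mul_inv_of_mul_eq e.symm]; exact mul_mem y.2 (inv_mem (hP hu))
    obtain ⟨m, hm⟩ := P.2 ⟨t, h2⟩
    obtain ⟨n, -, hn⟩ := FiniteField.card F r
    have h3 : t = 1 := by
      refine orderOf_eq_one_iff.1 (Nat.eq_one_of_dvd_coprimes (k := orderOf t) ?_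
        (orderOf_dvd_of_pow_eq_one (congrArg Subtype.val hm)) (orderOf_dvd_of_pow_eq_one (A.T_pow ht)))
      refine Nat.Coprime.pow_left _ ((Nat.Prime.coprime_iff_not_dvd hr.out).2 fun h => hr.out.one_lt.ne' ?_)
      exact Nat.dvd_one.1 ((Nat.dvd_sub_iff_right Fintype.card_pos (hn ▸ dvd_pow_self r n.ne_zero)).1 h)
    rw [Subgroup.mem_subgroupOf, e, h3, one_mul]; exact hu
  refine ⟨g, fun y hy => Subgroup.subgroupOf_eq_top.1 h1 ?_⟩
  simpa using (Subgroup.mem_pointwise_smul_iff_inv_smul_mem.1 (hQ hy))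

theorem exists_std (ν : MulAut Γ) : ∃ k δ, A.Std δ ∧ ν = conj k * δ := by
  have hr := Fact.mk (CharP.char_is_prime F (ringChar F))
  obtain ⟨w0, hw0⟩ := R.exists_w0
  obtain ⟨g, hg⟩ := A.conj_into_U _ ((A.pg_U (ringChar F)).map ν.toMonoidHom)
  set μ := conj g⁻¹ * ν with hμ
  have h1 : ∀ y, μ y ∈ A.U ↔ y ∈ A.U := iff_of_maps μ fun y hy => by simpa [μ] using hg _ ⟨y, hy, rfl⟩
  obtain ⟨g', hg'⟩ := A.conj_into_U _ ((A.pg_U (ringChar F)).map (μ * conj (A.nW w0)).toMonoidHom)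
  obtain ⟨w, a, ha, t, ht, u, hu, rfl⟩ := A.bruhat g'
  have ha' : a ∈ A.U := US_mono (fun r hr => hr.1) ha
  have h2 : ∀ y, (A.nW w)⁻¹ * (a⁻¹ * μ y * a) * A.nW w ∈ A.U ↔ y ∈ A.Um := fun y => by
    have := iff_of_maps (conj (a * A.nW w)⁻¹ * μ * conj (A.nW w0)) (H := A.U) (fun y hy => by
      have := A.T_U ht (mul_mem (mul_mem hu (hg' _ ⟨y, hy, rfl⟩)) (inv_mem hu))
      simpa [mul_assoc] using this) ((A.nW w0)⁻¹ * y * A.nW w0)
    rw [A.w0_Um hw0] at this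
    simpa [mul_assoc] using this
  have hw : ∀ r, R.pos r → ¬ R.pos (R.inv w r) := fun r hr hr' => by
    have h3 := (h2 (μ⁻¹ (a * A.x r 1 * a⁻¹))).1 (by
      simpa [mul_assoc] using le_US (S := {r | R.pos r}) hr' (A.conjW w r (A.x_mem r 1)))
    have h4 := A.U_Um ((h1 _).1 (by simpa using mul_mem (mul_mem ha' (A.x_U hr 1)) (inv_mem ha'))) h3
    exact A.x_ne r (by simpa using h4)
  refine ⟨g * a, conj a⁻¹ * μ, ⟨fun y => ?_, fun y => ?_⟩, by rw [hμ, map_mul, map_inv, map_inv]; group⟩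
  · rw [← h1 y]; simpa using (Subgroup.mul_mem_cancel_right _ ha').trans (Subgroup.mul_mem_cancel_left _ (inv_mem ha'))
  · rw [← h2 y, A.w0_Um hw]; simp

end Chv
end Cfsg.Agent.Lib.Chev
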