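/- Steinberg's theorem on automorphisms, part 2a: the simple root subgroups are permuted.  Owner: helper2. -/
import Cfsg.Agent.Lib.Chev.Stein1

set_option autoImplicit false
set_option linter.unusedSectionVars false

namespace Cfsg.Agent.Lib.Chev

theorem RS.w0_sim {Φ : Type} {l : ℕ} (R : RS Φ l) {w : List (Fin l)} (hw : ∀ r, R.pos r → ¬ R.pos (R.inv w r))
    (i : Fin l) : ∃ j, R.inv w (R.sim i) = R.neg (R.sim j) := by
  set r := R.neg (R.inv w (R.sim i)) with hr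
  have hp : R.pos r := (R.pos_neg_iff _).2 (hw _ (R.pos_sim i))
  have h1 : R.inv w.reverse r = R.neg (R.sim i) := by rw [hr, R.inv_neg, R.inv_reverse_inv]
  have h2 : ∀ j, RS.ht (R.LW w.reverse (Pi.single j 1)) < 0 := fun j => by
    rw [← R.ρ_sim, ← R.ρ_inv]
    exact R.ht_neg fun h => hw _ h (by rw [R.inv_inv_reverse]; exact R.pos_sim j)
  have h3 : ∑ j, R.ρ r j * RS.ht (R.LW w.reverse (Pi.single j 1)) = -1 := by
    have e : R.ρ r = ∑ j, R.ρ r j • Pi.single j (1:ℤ) := by funext j; simp [Finset.sum_apply, Pi.single_apply]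
    have := congrArg (fun s => RS.ht (R.ρ s)) h1
    simp only [R.ρ_inv, R.ρ_neg, R.ρ_sim] at this
    rw [e, map_sum] at this
    simp only [RS.ht, map_zsmul, Finset.sum_apply, Pi.smul_apply, smul_eq_mul, Pi.neg_apply, Finset.sum_neg_distrib,
      Finset.sum_pi_single', Finset.mem_univ, if_true] at this ⊢
    rw [← this, Finset.sum_comm]; simp [Finset.mul_sum]
  have h4 : ∑ j, R.ρ r j ≤ 1 := by
    have := Finset.sum_le_sum (s := Finset.univ) fun j _ =>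
      show R.ρ r j * RS.ht (R.LW w.reverse (Pi.single j 1)) ≤ - R.ρ r j by
        have := h2 j; have : 0 ≤ R.ρ r j := hp j; nlinarith
    rw [h3, Finset.sum_neg_distrib] at this; omega
  obtain ⟨j, hj⟩ : ∃ j, 0 < R.ρ r j := by
    by_contra hc; push Not at hc
    exact R.ne_zero r (funext fun j => le_antisymm (hc j) (hp j))
  refine ⟨j, by_contra fun hne => ?_⟩
  obtain ⟨k, hk, hk'⟩ := R.exists_coord (i := j) hp fun h => hne (by rw [← h, hr, R.neg_neg'])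
  have := Finset.add_le_sum (s := Finset.univ) (f := R.ρ r) (fun j _ => hp j) (Finset.mem_univ k) (Finset.mem_univ j) hk
  omega

theorem field_of_sq {F : Type*} [Field F] [Finite F] (f : F ≃+ F)
    (h : ∀ t u, f (t ^ 2 * u) * f 1 ^ 2 = f t ^ 2 * f u) : ∃ g : F ≃+* F, ∀ t, f t = f 1 * g t := by
  have hc : f 1 ≠ 0 := by simp
  have key : ∀ t u, f (t * u) * f 1 = f t * f u := fun t u => by
    by_cases h2 : (2 : F) = 0
    · obtain ⟨s, rfl⟩ := FiniteField.isSquare_of_char_two (F := F)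
        ((Nat.prime_dvd_prime_iff_eq (CharP.char_is_prime F _) Nat.prime_two).1 ((ringChar.spec F 2).1 h2)) t
      have h1 := h s 1
      rw [mul_one] at h1
      rw [← sq]
      exact mul_left_cancel₀ (pow_ne_zero 2 hc) (by linear_combination f 1 * h s u - f u * h1)
    · have := h (t + 1) u
      rw [show (t + 1) ^ 2 * u = t ^ 2 * u + t * u + t * u + u by ring, map_add, map_add, map_add, map_add] at this
      exact mul_left_cancel₀ (mul_ne_zero h2 hc) (by linear_combination this - h t u)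
  let g : F →+* F :=
    { toFun := fun t => (f 1)⁻¹ * f t, map_one' := inv_mul_cancel₀ hc, map_zero' := by simp
      map_add' := fun t u => by rw [map_add, mul_add]
      map_mul' := fun t u => by field_simp; exact (mul_comm _ _).trans (key t u) }
  exact ⟨RingEquiv.ofBijective g (Finite.injective_iff_bijective.1 g.injective), fun t => (mul_inv_cancel_left₀ hc _).symm⟩

namespace Chv
open MulAut (conj)

variable {Φ : Type} {l : ℕ} {R : RS Φ l} {F : Type*} [Field F] {Γ : Type*} [Group Γ] (A : Chv R F Γ)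
  {g k y : Γ} {δ δ' : MulAut Γ} {i j : Fin l} {r s : Φ}

/-- the unipotent radical of the minimal parabolic -/
abbrev Q (i : Fin l) : Subgroup Γ := US A.X (R.P' i)
/-- the Borel subgroup -/
abbrev B : Subgroup Γ := Subgroup.normalizer (A.U : Set Γ)

theorem Q_le (i : Fin l) : A.Q i ≤ A.U := US_mono fun _ h => h.1
theorem Q_normal (hg : g ∈ A.U) (hy : y ∈ A.Q i) : g * y * g⁻¹ ∈ A.Q i := by
  obtain ⟨x, hx, u, hu, rfl⟩ := A.split (R.closed_pos i) hg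
  simpa [mul_assoc, Fold.P'_eq] using A.normal (R.closed_pos i) hx (mul_mem (mul_mem hu hy) (inv_mem hu))
theorem Q_neg (hg : g ∈ A.X (R.neg (R.sim i))) (hy : y ∈ A.Q i) : g * y * g⁻¹ ∈ A.Q i := by
  have h1 := A.conj' i _ g hg
  rw [R.refl_neg_sim] at h1
  simpa [mul_assoc] using A.conj_P' (A.Q_normal (le_US (S := {r | R.pos r}) (R.pos_sim i) h1) (A.conj_P'' hy))
theorem U_B (h : g ∈ A.U) : g ∈ A.B := Subgroup.le_normalizer h
theorem T_B (h : g ∈ A.T) : g ∈ A.B := Subgroup.mem_normalizer_iff.2 fun y => ((A.std_T h).U y).symm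
theorem n_sq (i : Fin l) : A.n i * A.n i ∈ A.T := by
  obtain ⟨h, hh, e⟩ := A.n_inv i
  rw [show A.n i * A.n i = h⁻¹ by rw [eq_inv_iff_mul_eq_one, ← mul_inv_eq_iff_eq_mul.2 e]; group]
  exact inv_mem hh

/-- the monomial elements -/
def m (i : Fin l) (t : Fˣ) : Γ := A.x (R.sim i) t * A.x (R.neg (R.sim i)) (-((t⁻¹ : Fˣ) : F)) * A.x (R.sim i) t

theorem m_one (i : Fin l) : A.m i 1 = A.n i := by simp [m, A.n_def]
theorem m_sim (i : Fin l) (t : Fˣ) (u : F) :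
    A.m i t * A.x (R.sim i) u * (A.m i t)⁻¹ = A.x (R.neg (R.sim i)) (-((t⁻¹ : Fˣ) ^ 2 * u)) := by
  obtain ⟨h, -, e, e'⟩ := A.n_t i t
  have : ∑ j, R.cart i j * R.ρ (R.neg (R.sim i)) j = -2 := by
    rw [Finset.sum_eq_single i] <;> simp +contextual [R.ρ_neg, R.ρ_sim, R.cart_self, Pi.single_apply]
  rw [m, e, show ∀ y, h * A.n i * y * (h * A.n i)⁻¹ = h * (A.n i * y * (A.n i)⁻¹) * h⁻¹ by intro; group, A.n_sim, e', this]
  simp [zpow_ofNat]
theorem m_div (i j : Fin l) (t u : Fˣ) (v : F) : A.m i t * (A.m i u)⁻¹ * A.x (R.sim j) v * (A.m i t * (A.m i u)⁻¹)⁻¹ =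
    A.x (R.sim j) (((t : F) / u) ^ R.cart i j * v) := by
  obtain ⟨h, -, e, e'⟩ := A.n_t i t
  obtain ⟨k, -, f, f'⟩ := A.n_t i u
  have : ∑ k, R.cart i k * R.ρ (R.sim j) k = R.cart i j := by simp [R.ρ_sim, Pi.single_apply]
  have h1 := f' (R.sim j) (((u : F) ^ R.cart i j)⁻¹ * v)
  rw [this, Units.val_zpow_eq_zpow_val, mul_inv_cancel_left₀ (zpow_ne_zero _ u.ne_zero)] at h1
  rw [m, m, e, f, ← h1, show ∀ y, h * A.n i * (k * A.n i)⁻¹ * (k * y * k⁻¹) * (h * A.n i * (k * A.n i)⁻¹)⁻¹ = h * y * h⁻¹ by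
    intro; group, e', this, div_zpow, div_eq_mul_inv, mul_assoc, Units.val_zpow_eq_zpow_val]

variable {A}
theorem Std.mul (h : A.Std δ) (h' : A.Std δ') : A.Std (δ * δ') :=
  ⟨fun y => (h.U _).trans (h'.U y), fun y => (h.Um _).trans (h'.Um y)⟩
theorem Std.inv (h : A.Std δ) : A.Std δ⁻¹ :=
  ⟨fun y => by rw [← h.U]; simp, fun y => by rw [← h.Um]; simp⟩
theorem Std.w0 (h : A.Std δ) {w : List (Fin l)} (hw : ∀ r, R.pos r → ¬ R.pos (R.inv w r)) :
    A.Std (conj (A.nW w)⁻¹ * δ * conj (A.nW w)) :=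
  ⟨fun y => by
    rw [MulAut.mul_apply, MulAut.mul_apply, MulAut.conj_apply, inv_inv, A.w0_Um hw, h.Um, ← A.w0_Um hw]; simp [mul_assoc],
   fun y => by
    rw [MulAut.mul_apply, MulAut.mul_apply, MulAut.conj_apply, inv_inv, A.w0_U hw, h.U, ← A.w0_U hw]; simp [mul_assoc]⟩

variable (A) [Finite Φ]

theorem X_eq (hy : y ≠ 1) (h : y ∈ A.X r) (h' : y ∈ A.X s) : r = s := by
  obtain ⟨w, i, e⟩ := R.exists_inv_eq_sim r
  have h1 := A.conjW w r h
  have h2 := A.conjW w s h'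
  rw [e] at h1
  refine R.inv_injective w (e.trans (by_contra fun hne => hy ?_))
  have : (A.nW w)⁻¹ * y * A.nW w = 1 := by
    by_cases hp : R.pos (R.inv w s)
    · exact A.indep i _ h1 (le_US (S := R.P' i) ⟨hp, Ne.symm hne⟩ h2)
    · exact A.U_Um (le_US (S := {r | R.pos r}) (R.pos_sim i) h1) (le_US (S := {r | ¬ R.pos r}) hp h2)
  simpa [mul_assoc, inv_mul_eq_one] using this

theorem B_Um (h : g ∈ A.B) (h' : g ∈ A.Um) : g = 1 := by
  obtain ⟨t, ht, u, hu, e⟩ := A.mem_B fun u hu => (Subgroup.mem_normalizer_iff.1 h u).1 hu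
  obtain ⟨rfl, rfl⟩ := A.ldu g h' t ht u hu e
  simpa using e

theorem inter_NInv {w : List (Fin l)} (hy : y ∈ A.U) (h : (A.nW w)⁻¹ * y * A.nW w ∈ A.U) : y ∈ US A.X (R.NInv w) := by
  obtain ⟨b, hb, c, hc, rfl⟩ := A.factor w y hy
  have := A.U_Um (by simpa [mul_assoc] using mul_mem h (inv_mem (A.conj_NInv hc))) (A.conj_Inv hb)
  rwa [show b = 1 by simpa [mul_assoc, inv_mul_eq_one] using this, one_mul]

theorem inter_le (hg : g ∉ A.B) : ∃ j, ∀ y ∈ A.U, g⁻¹ * y * g ∈ A.U → y ∈ A.Q j := by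
  obtain ⟨w, a, ha, t, ht, u, hu, rfl⟩ := A.bruhat g
  have ha' : a ∈ A.U := US_mono (fun r hr => hr.1) ha
  obtain ⟨j, hj⟩ : ∃ j, ¬ R.pos (R.inv w (R.sim j)) := by
    by_contra hc; push Not at hc
    exact hg (mul_mem (mul_mem (mul_mem (A.U_B ha') (A.T_B (A.nW_T' w fun r => R.pos_inv_of_sim w hc))) (A.T_B ht)) (A.U_B hu))
  refine ⟨j, fun y hy h => ?_⟩
  have := A.inter_NInv (w := w) (mul_mem (mul_mem (inv_mem ha') hy) ha')
    (by simpa [mul_assoc] using A.T_U ht (mul_mem (mul_mem hu h) (inv_mem hu)))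
  simpa [mul_assoc] using A.Q_normal ha' (US_mono (S' := R.P' j) (fun r hr => ⟨hr.1, by rintro rfl; exact hj hr.2⟩) this)

theorem n_notMem_B (i : Fin l) : A.n i ∉ A.B := fun h => by
  have := (Subgroup.mem_normalizer_iff.1 h _).1 (A.x_U (R.pos_sim i) (-1))
  rw [A.n_sim, neg_neg] at this
  exact (R.pos_neg_iff _).1 (A.pos_of_mem this) (R.pos_sim i)

theorem mem_Xneg (hg : g ∈ A.Um) (h : ∀ y ∈ A.Q i, g⁻¹ * y * g ∈ A.U) : g ∈ A.X (R.neg (R.sim i)) := by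
  obtain ⟨w, a, ha, t, ht, u, hu, rfl⟩ := A.bruhat g
  have ha' : a ∈ A.U := US_mono (fun r hr => hr.1) ha
  have h1 : ∀ r ∈ R.P' i, R.pos (R.inv w r) := fun r hr => by_contra fun hn => by
    have h2 := A.T_U ht (mul_mem (mul_mem hu (h _ (A.Q_normal ha' (le_US hr (A.x_mem r 1))))) (inv_mem hu))
    have := A.U_Um (by simpa [mul_assoc] using h2) (le_US (S := {r | ¬ R.pos r}) hn (A.conjW w r (A.x_mem r 1)))
    exact A.x_ne r (by simpa [mul_assoc, inv_mul_eq_one] using this)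
  by_cases hi : R.pos (R.inv w (R.sim i))
  · have h2 : A.nW w ∈ A.T := A.nW_T' w fun r hr => by
      by_cases e : r = R.sim i
      exacts [e ▸ hi, h1 r ⟨hr, e⟩]
    rw [A.B_Um (mul_mem (mul_mem (mul_mem (A.U_B ha') (A.T_B h2)) (A.T_B ht)) (A.U_B hu)) hg]
    exact one_mem _
  have h2 : A.n i * A.nW w ∈ A.T := by
    rw [← A.nW_cons]
    refine A.nW_T' _ fun r hr => ?_
    by_cases e : r = R.sim i
    exacts [e ▸ (R.pos_inv_cons_sim w i).2 hi, h1 _ (R.pos_refl hr e)]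
  obtain ⟨c, rfl⟩ := (A.mem_X _ _).1 (US_le (K := A.X (R.sim i)) (fun r hr => by
    rw [show r = R.sim i from by_contra fun e => hr.2 (h1 r ⟨hr.1, e⟩)]) ha)
  have hb := mul_mem (mul_mem (A.T_B h2) (A.T_B ht)) (A.U_B hu)
  have hn : ¬ R.pos (R.neg (R.sim i)) := fun h => (R.pos_neg_iff _).1 h (R.pos_sim i)
  by_cases hc : c = 0
  · have h3 := (Subgroup.mem_normalizer_iff.1 (inv_mem hb) _).1 (le_US (S := {r | R.pos r}) (R.pos_sim i)
      (R.refl_neg_sim i ▸ A.conj i _ _ (A.x_mem _ 1)))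
    have := A.U_Um h3 (by simpa [mul_assoc, hc] using mul_mem (mul_mem (inv_mem hg) (A.x_Um hn 1)) hg)
    exact (A.x_ne _ (conj_eq_one_iff.1 (conj_eq_one_iff.1 this))).elim
  obtain ⟨k, hk, e, -⟩ := A.n_t i (-Units.mk0 c hc)
  set z := A.x (R.neg (R.sim i)) _
  have h3 : z⁻¹ * (A.x (R.sim i) c * A.nW w * t * u) = A.x (R.sim i) (-c) * ((A.n i)⁻¹ * k⁻¹ * A.n i) *
      (A.n i * A.n i)⁻¹ * (A.n i * A.nW w * t * u) := by
    rw [Units.val_neg, Units.val_mk0, A.x_neg] at e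
    rw [A.x_neg, show k = _ from (mul_inv_eq_iff_eq_mul.2 e).symm]; group
  rw [← inv_mul_eq_one.1 (A.B_Um (h3 ▸ mul_mem (mul_mem (mul_mem (A.U_B (A.x_U (R.pos_sim i) _))
    (A.T_B (A.n_T i _ (inv_mem hk)))) (A.T_B (inv_mem (A.n_sq i)))) hb) (mul_mem (inv_mem (A.x_Um hn _)) hg))]
  exact A.x_mem _ _

variable {A}
theorem Std.T (h : A.Std δ) (t : Γ) : δ t ∈ A.T ↔ t ∈ A.T := by
  have key : ∀ {δ : MulAut Γ}, A.Std δ → ∀ t ∈ A.T, δ t ∈ A.T := fun {δ} h t ht => A.mem_T (by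
    rw [show conj (δ t) = δ * conj t * δ⁻¹ by ext; simp]; exact (h.mul (A.std_T ht)).mul h.inv)
  exact ⟨fun ht => by simpa using key h.inv _ ht, key h t⟩

theorem Std.B (h : A.Std δ) (t : Γ) : δ t ∈ A.B ↔ t ∈ A.B := by
  simp only [Subgroup.mem_normalizer_iff]
  refine ⟨fun h1 y => ?_, fun h1 y => ?_⟩
  · simpa only [← map_inv, ← map_mul, h.U] using h1 (δ y)
  · obtain ⟨y, rfl⟩ := δ.surjective y
    simpa only [← map_inv, ← map_mul, h.U] using h1 y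

theorem Std.Q (h : A.Std δ) (i : Fin l) : ∃ j, ∀ y, δ y ∈ A.Q j ↔ y ∈ A.Q i := by
  have key : ∀ {δ : MulAut Γ}, A.Std δ → ∀ i, ∃ j, ∀ y ∈ A.Q i, δ y ∈ A.Q j := fun {δ} h i => by
    obtain ⟨j, hj⟩ := A.inter_le fun h1 => A.n_notMem_B i ((h.B _).1 h1)
    exact ⟨j, fun y hy => hj _ ((h.U y).2 (A.Q_le i hy))
      (by rw [← map_inv, ← map_mul, ← map_mul, h.U]; exact A.Q_le i (A.conj_P'' hy))⟩
  obtain ⟨j, hj⟩ := key h i
  obtain ⟨k, hk⟩ := key h.inv j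
  obtain rfl : k = i := by_contra fun hne => A.x_ne _ (A.indep k _ (A.x_mem _ 1) (by
    simpa using hk _ (hj _ (le_US (S := R.P' i) ⟨R.pos_sim k, fun e => hne (R.sim_inj e)⟩ (A.x_mem _ 1)))))
  exact ⟨j, fun y => ⟨fun hy => by simpa using hk _ hy, hj y⟩⟩

theorem Std.Xneg (h : A.Std δ) (hQ : ∀ y, δ y ∈ A.Q j ↔ y ∈ A.Q i) (y : Γ) :
    δ y ∈ A.X (R.neg (R.sim j)) ↔ y ∈ A.X (R.neg (R.sim i)) := by
  have key : ∀ {δ : MulAut Γ} {i j}, A.Std δ → (∀ y, δ y ∈ A.Q j ↔ y ∈ A.Q i) → ∀ y ∈ A.X (R.neg (R.sim i)),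
      δ y ∈ A.X (R.neg (R.sim j)) := fun {δ i j} h hQ y hy =>
    A.mem_Xneg ((h.Um y).2 (le_US (S := {r | ¬ R.pos r}) (fun h => (R.pos_neg_iff _).1 h (R.pos_sim i)) hy)) fun z hz => by
      obtain ⟨z, rfl⟩ := δ.surjective z
      rw [← map_inv, ← map_mul, ← map_mul, h.U]
      simpa using A.Q_le i (A.Q_neg (inv_mem hy) ((hQ z).1 hz))
  exact ⟨fun hy => by simpa using key h.inv (fun y => by rw [← hQ]; simp) _ hy, key h hQ y⟩

theorem Std.Xsim (h : A.Std δ) (hQ : ∀ y, δ y ∈ A.Q j ↔ y ∈ A.Q i) (y : Γ) :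
    δ y ∈ A.X (R.sim j) ↔ y ∈ A.X (R.sim i) := by
  obtain ⟨w, hw⟩ := R.exists_w0
  obtain ⟨i', hi⟩ := R.w0_sim hw i
  obtain ⟨j', hj⟩ := (h.w0 hw).Q i'
  obtain ⟨k, hk⟩ := R.w0_sim (w := w.reverse) (fun r hr h => hw _ h (by rwa [R.inv_inv_reverse])) j'
  have hk' : R.inv w (R.sim k) = R.neg (R.sim j') := by rw [← R.neg_neg' (R.sim k), ← hk, R.inv_neg, R.inv_inv_reverse]
  have key : ∀ y, δ y ∈ A.X (R.sim k) ↔ y ∈ A.X (R.sim i) := fun y => by
    rw [← A.conjW_X w, ← A.conjW_X w (R.sim i), hi, hk', ← (h.w0 hw).Xneg hj]; simp [mul_assoc]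
  obtain rfl : k = j := by_contra fun hne => A.x_ne _ (A.indep i _ (A.x_mem _ 1) ((hQ _).1
    (le_US (S := R.P' j) ⟨R.pos_sim k, fun e => hne (R.sim_inj e)⟩ ((key _).2 (A.x_mem _ 1)))))
  exact key y

variable [Finite Γ] [Finite F]

theorem exists_addEquiv (h : ∀ y ∈ A.X r, δ y ∈ A.X s) : ∃ f : F ≃+ F, ∀ t, δ (A.x r t) = A.x s (f t) := by
  choose f hf using fun t => (A.mem_X _ _).1 (h _ (A.x_mem r t))
  let f' : F →+ F := AddMonoidHom.mk' f fun t u => A.x_injective s (by rw [A.x_add, ← hf, ← hf, ← hf, A.x_add, map_mul])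
  exact ⟨AddEquiv.ofBijective f' (Finite.injective_iff_bijective.1 fun t u e => A.x_injective r (δ.injective
    (by rw [hf, hf]; exact congrArg _ e))), hf⟩

theorem Std.pair (h : A.Std δ) (hQ : ∀ y, δ y ∈ A.Q j ↔ y ∈ A.Q i) : A.Pair δ (R.sim i) (R.sim j) := by
  obtain ⟨f, hf⟩ := exists_addEquiv fun y => (h.Xsim hQ y).2
  obtain ⟨g, hg⟩ := exists_addEquiv fun y => (h.Xneg hQ y).2
  have hn : ¬ R.pos (R.neg (R.sim j)) := fun h => (R.pos_neg_iff _).1 h (R.pos_sim j)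
  have h1 : ∀ t : F, g (-t⁻¹) = -(f t)⁻¹ := fun t => by
    by_cases ht : t = 0
    · simp [ht]
    have hs : -(g (-t⁻¹))⁻¹ ≠ 0 := by simpa using ht
    obtain ⟨k, hk, e, -⟩ := A.n_t j (Units.mk0 _ hs)
    obtain ⟨k', hk', e', -⟩ := A.n_t i (Units.mk0 t ht)
    set c := f t + (g (-t⁻¹))⁻¹ with hc
    have h2 : δ (k' * A.n i) = A.x (R.sim j) c * (k * A.n j) * A.x (R.sim j) c := by
      rw [← e, ← e', map_mul, map_mul, hf, hg, ← mul_assoc, ← mul_assoc, ← A.x_add, mul_assoc _ _ (A.x _ c), ← A.x_add]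
      simp [c]
    have h3 : (A.n j)⁻¹ * δ (k' * A.n i) ∈ A.B := Subgroup.mem_normalizer_fintype fun y hy => by
      obtain ⟨y, rfl⟩ := δ.surjective y
      obtain ⟨x, hx, u, hu, rfl⟩ := A.split (R.closed_pos i) ((h.U y).1 hy)
      have h4 := A.conj' j _ _ ((h.Xneg hQ _).2 (A.T_conj _ _ hk' _ (R.refl_sim i ▸ A.conj i _ x hx)))
      rw [R.refl_neg_sim] at h4
      simpa [mul_assoc] using mul_mem (le_US (S := {r | R.pos r}) (R.pos_sim j) h4)
        (A.Q_le j (A.conj_P'' ((hQ _).2 (A.T_US hk' (A.conj_P' hu)))))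
    have h4 := A.B_Um (mul_mem (mul_mem h3 (inv_mem (A.U_B (A.x_U (R.pos_sim j) c)))) (inv_mem (A.T_B (A.n_T j k hk))))
      (by simpa [h2, mul_assoc] using (le_US (S := {r | ¬ R.pos r}) hn (R.refl_sim j ▸ A.conj' j _ _ (A.x_mem (R.sim j) c) :)))
    have h5 : c = 0 := A.x_inj _ _ (by simpa [h2, mul_assoc, inv_mul_eq_one] using h4)
    rw [eq_neg_of_add_eq_zero_left (hc.symm.trans h5)]; simp
  have hc : f 1 ≠ 0 := by simp
  have h2 : ∀ t u, f (t ^ 2 * u) = f t ^ 2 * (f u⁻¹)⁻¹ := fun t u => by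
    by_cases ht : t = 0
    · simp [ht]
    have h3 := congrArg δ (A.m_sim i (Units.mk0 t ht) u⁻¹)
    have h4 : δ (A.m i (Units.mk0 t ht)) = A.m j (Units.mk0 (f t) (by simpa using ht)) := by simp [m, hf, hg, ← h1]
    rw [map_mul, map_mul, map_inv, h4, hf, A.m_sim, hg, Units.val_inv_eq_inv_val, Units.val_inv_eq_inv_val, inv_pow, inv_pow,
      ← mul_inv, h1] at h3
    simpa [mul_comm] using congrArg (fun z => (-z)⁻¹) (A.x_injective _ h3).symm
  have h3 : ∀ u, (f u⁻¹)⁻¹ = (f 1 ^ 2)⁻¹ * f u := fun u => by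
    have := h2 1 u; rw [one_pow, one_mul] at this; rw [this]; field_simp
  obtain ⟨φ, hφ⟩ := field_of_sq f fun t u => by rw [h2, h3]; field_simp
  refine ⟨Units.mk0 _ hc, φ, fun t => ⟨by rw [hf, hφ]; rfl, ?_⟩⟩
  have := h1 (-t⁻¹)
  rw [inv_neg, inv_inv, neg_neg, map_neg, inv_neg, neg_neg, h3, hφ t] at this
  rw [hg, this]; congr 1; simp; field_simp

end Chv
end Cfsg.Agent.Lib.Chev
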