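/- Steinberg's theorem on automorphisms, part 2: the shape of a standard automorphism.  Owner: helper2. -/
import Cfsg.Agent.Lib.Chev.Stein2a

set_option autoImplicit false
set_option linter.unusedSectionVars false

namespace Cfsg.Agent.Lib.Chev.Chv
open MulAut (conj)

variable {Φ : Type} {l : ℕ} {R : RS Φ l} {F : Type*} [Field F] {Γ : Type*} [Group Γ] {A : Chv R F Γ}
  {δ δ' β : MulAut Γ} {π π' : Equiv.Perm (Fin l)} {θ θ' : Equiv.Perm Φ} {g k : Γ} {p : ℕ} {r s u : Φ} {i j : Fin l}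

theorem Pair.X (h : A.Pair δ r s) (y : Γ) : δ y ∈ A.X s ↔ y ∈ A.X r := by
  obtain ⟨c, f, h⟩ := h
  simp only [A.mem_X]
  refine ⟨fun ⟨t, e⟩ => ⟨f.symm ((c⁻¹ : Fˣ) * t), δ.injective (by rw [e, (h _).1]; simp)⟩, ?_⟩
  rintro ⟨t, rfl⟩; exact ⟨_, (h t).1⟩

theorem Pair.neg (h : A.Pair δ r s) : A.Pair δ (R.neg r) (R.neg s) := by
  obtain ⟨c, f, h⟩ := h
  exact ⟨c⁻¹, f, fun t => ⟨(h t).2, by rw [R.neg_neg', R.neg_neg', inv_inv]; exact (h t).1⟩⟩

theorem Pair.mul (h : A.Pair δ s u) (h' : A.Pair δ' r s) : A.Pair (δ * δ') r u := by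
  obtain ⟨c, f, h⟩ := h
  obtain ⟨c', f', h'⟩ := h'
  exact ⟨c * Units.map (f : F →* F) c', f'.trans f, fun t => by simp [h, h', mul_assoc, mul_left_comm]⟩

theorem pair_T (h : g ∈ A.T) (r : Φ) : A.Pair (conj g) r r := by
  obtain ⟨χ, h⟩ := A.T_act g h
  exact ⟨χ.ev (R.ρ r), RingEquiv.refl F, fun t => by simp [h, R.ρ_neg]⟩

theorem pair_nW (w : List (Fin l)) (r : Φ) : A.Pair (conj (A.nW w)⁻¹) r (R.inv w r) := by
  obtain ⟨ε, h0, h1, h2⟩ := A.nW_conj w r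
  exact ⟨⟨ε, ε, h0, h0⟩, RingEquiv.refl F, fun t => ⟨by simpa [Fold.nW] using h1 t, by simpa [Fold.nW] using h2 t⟩⟩

theorem Pair.inv (h : A.Pair δ r s) : A.Pair δ⁻¹ s r := by
  obtain ⟨c, f, h⟩ := h
  refine ⟨Units.map (f.symm : F →* F) c⁻¹, f.symm, fun t => ⟨δ.injective ?_, δ.injective ?_⟩⟩ <;> simp [h]

theorem pair_nW' (w : List (Fin l)) (r : Φ) : A.Pair (conj (A.nW w)) (R.inv w r) r := by
  simpa using (pair_nW (A := A) w r).inv

theorem map_m {c : Fˣ} {f : F ≃+* F} (h : ∀ t, δ (A.x (R.sim i) t) = A.x (R.sim j) (c * f t) ∧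
    δ (A.x (R.neg (R.sim i)) t) = A.x (R.neg (R.sim j)) ((c⁻¹ : Fˣ) * f t)) (t : Fˣ) :
    δ (A.m i t) = A.m j (c * Units.map (f : F →* F) t) := by simp [m, h, mul_comm]

theorem Pair.n (h : A.Pair δ (R.sim i) (R.sim j)) : ∃ h ∈ A.T, δ (A.n i) = h * A.n j := by
  obtain ⟨c, f, h⟩ := h
  obtain ⟨k, hk, e, -⟩ := A.n_t j (c * Units.map (f : F →* F) 1)
  exact ⟨k, hk, by rw [← A.m_one, map_m h]; exact e⟩

theorem rel_aux {i' j' : Fin l} {c c' : Fˣ} {f f' : F ≃+* F} (h : ∀ t, δ (A.x (R.sim i) t) = A.x (R.sim i') (c * f t) ∧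
    δ (A.x (R.neg (R.sim i)) t) = A.x (R.neg (R.sim i')) ((c⁻¹ : Fˣ) * f t))
    (h' : ∀ t, δ (A.x (R.sim j) t) = A.x (R.sim j') (c' * f' t)) (t : F) (ht : t ≠ 0) :
    f' (t ^ R.cart i j) = f t ^ R.cart i' j' := by
  have h1 := congrArg δ (A.m_div i j (Units.mk0 t ht) 1 1)
  rw [map_mul, map_mul, map_inv, map_mul, map_inv, map_m h, map_m h, h', A.m_div, h'] at h1
  simpa [mul_comm] using (A.x_injective _ h1).symm

theorem map_nW (h : ∀ i, ∃ h ∈ A.T, δ (A.n i) = h * A.n (π i)) (w : List (Fin l)) :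
    ∃ t ∈ A.T, δ (A.nW w) = A.nW (w.map π) * t := by
  induction w with
  | nil => exact ⟨1, one_mem _, by simp⟩
  | cons i w ih =>
    obtain ⟨t, ht, e⟩ := ih
    obtain ⟨k, hk, e'⟩ := h i
    exact ⟨_, mul_mem (A.nW_T (π i :: w.map π) hk) ht, by simp [e, e', mul_assoc]⟩

theorem Form.X (h : A.Form δ π θ) (r : Φ) (y : Γ) : δ y ∈ A.X (θ r) ↔ y ∈ A.X r := (h.root r).X y
theorem Form.nW (h : A.Form δ π θ) (w : List (Fin l)) : ∃ t ∈ A.T, δ (A.nW w) = A.nW (w.map π) * t := map_nW h.n w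

theorem inv_map_of (θ0 : Φ → Φ) (h2 : ∀ i r, θ0 (R.refl i r) = R.refl (π i) (θ0 r)) (w : List (Fin l)) (r : Φ) :
    R.inv (w.map π) (θ0 r) = θ0 (R.inv w r) := by
  induction w generalizing r with
  | nil => rfl
  | cons i w ih => rw [List.map_cons, R.inv_cons, R.inv_cons, ← h2, ih]

theorem Form.inv_map (h : A.Form δ π θ) (w : List (Fin l)) (r : Φ) : R.inv (w.map π) (θ r) = θ (R.inv w r) :=
  inv_map_of θ h.refl w r

theorem Form.rel (h : A.Form δ π θ) (i j : Fin l) :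
    ∃ f g : F ≃+* F, ∀ t : F, t ≠ 0 → g (t ^ R.cart i j) = f t ^ R.cart (π i) (π j) := by
  obtain ⟨c, f, h1⟩ := h.root (R.sim i)
  obtain ⟨c', f', h2⟩ := h.root (R.sim j)
  rw [h.sim] at h1 h2
  exact ⟨f, f', rel_aux h1 fun t => (h2 t).1⟩

theorem Form.diag_field (h : A.Form δ 1 θ) (hc : R.Conn) : ∃ (c : Fin l → Fˣ) (f : F ≃+* F), ∀ i t,
    δ (A.x (R.sim i) t) = A.x (R.sim i) (c i * f t) ∧
      δ (A.x (R.neg (R.sim i)) t) = A.x (R.neg (R.sim i)) (((c i)⁻¹ : Fˣ) * f t) := by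
  classical
  choose c f h1 using fun i => h.root (R.sim i)
  simp only [h.sim, Equiv.Perm.coe_one, id] at h1
  rcases isEmpty_or_nonempty (Fin l) with h0 | ⟨⟨i0⟩⟩
  · exact ⟨c, RingEquiv.refl F, fun i => h0.elim i⟩
  have key : ∀ i j, R.cart i j = -1 → f i = f j := fun i j e => RingEquiv.ext fun t => by
    by_cases ht : t = 0
    · simp [ht]
    · simpa [e] using (rel_aux (h1 i) (fun t => (h1 j t).1) t ht).symm
  refine ⟨c, f i0, fun i t => ?_⟩
  have := hc.2 (fun j => decide (f j = f i0)) i0 (by simp) (fun i j hi hij => by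
    rw [decide_eq_true_iff] at hi ⊢
    rcases hc.1 i j hij with rfl | ⟨e | e, -⟩
    exacts [hi, (key _ _ e).symm.trans hi, (key _ _ e).trans hi]) i
  rw [← decide_eq_true_iff.1 this]; exact h1 i t

variable [Finite Φ]

theorem Pair.unique (h : A.Pair δ r s) (h' : A.Pair δ r u) : s = u :=
  A.X_eq (by simpa using A.x_ne r) ((h.X _).2 (A.x_mem r 1)) ((h'.X _).2 (A.x_mem r 1))

theorem Form.theta_eq (h : A.Form δ π θ) (θ0 : Φ → Φ) (h1 : ∀ i, θ0 (R.sim i) = R.sim (π i))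
    (h2 : ∀ i r, θ0 (R.refl i r) = R.refl (π i) (θ0 r)) : ⇑θ = θ0 := funext fun r => by
  obtain ⟨w, i, e⟩ := R.exists_inv_eq_sim r
  exact R.inv_injective (w.map π) (by rw [h.inv_map, inv_map_of θ0 h2, e, h1, h.sim])

theorem Form.unique (h : A.Form δ π θ) (h' : A.Form δ π' θ') : π = π' ∧ θ = θ' := by
  have : θ = θ' := Equiv.ext fun r => (h.root r).unique (h'.root r)
  exact ⟨Equiv.ext fun i => R.sim_inj (by rw [← h.sim, ← h'.sim, this]), this⟩

theorem Std.form_of (h : A.Std δ) (h1 : ∀ r, A.Pair δ r (θ r)) (h2 : ∀ i, θ (R.sim i) = R.sim (π i)) : A.Form δ π θ := by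
  have hn : ∀ i, ∃ h ∈ A.T, δ (A.n i) = h * A.n (π i) := fun i => (h2 i ▸ h1 (R.sim i) :).n
  refine ⟨h, h2, fun i r => ?_, fun r => (h1 _).unique (h1 r).neg, fun r => ?_, h1, h.T, hn⟩
  · obtain ⟨k, hk, e⟩ := hn i
    refine A.X_eq (y := δ (A.n i * A.x r 1 * (A.n i)⁻¹)) (by simpa using A.x_ne r) (((h1 _).X _).2 (A.conj i r _ (A.x_mem r 1))) ?_
    simpa [e, mul_assoc] using A.T_conj _ k hk _ (A.conj (π i) _ _ (((h1 r).X _).2 (A.x_mem r 1)))
  · obtain ⟨c, f, e⟩ := h1 r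
    refine ⟨fun hr => A.pos_of_mem ((h.U _).1 ((e 1).1 ▸ A.x_U hr _)), fun hr => by_contra fun hn => ?_⟩
    exact A.x_ne r (by simpa using A.U_Um ((h.U _).2 (A.x_U hr 1)) ((e 1).1 ▸ A.x_Um hn _))

theorem Form.mul (h : A.Form δ π θ) (h' : A.Form δ' π' θ') : A.Form (δ * δ') (π * π') (θ * θ') :=
  (h.toStd.mul h'.toStd).form_of (fun r => (h.root _).mul (h'.root r)) fun i => by simp [h.sim, h'.sim]

theorem Form.inv (h : A.Form δ π θ) : A.Form δ⁻¹ π⁻¹ θ⁻¹ :=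
  h.toStd.inv.form_of (fun r => by simpa using (h.root (θ⁻¹ r)).inv) fun i => θ.injective (by simp [h.sim])

theorem form_T (h : g ∈ A.T) : A.Form (conj g) 1 1 := (A.std_T h).form_of (pair_T h) fun _ => rfl
theorem form_one : A.Form 1 1 1 := by simpa using form_T (A := A) (one_mem _)

theorem Form.pow' (h : A.Form δ π θ) (m : ℕ) : A.Form (δ ^ m) (π ^ m) (θ ^ m) := by
  induction m with
  | zero => simpa using form_one
  | succ m ih => simpa [pow_succ] using ih.mul h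

theorem Form.type_eq (h : A.Form δ π θ) (h' : A.Form δ' π' θ') (e : δ' = conj g * δ * conj k) : π' = π ∧ θ' = θ := by
  have h1 := h'.mul h.inv
  rw [show δ' * δ⁻¹ = conj (g * δ k) by ext; simp [e, mul_assoc]] at h1
  simpa [mul_inv_eq_one] using h1.unique (form_T (A.mem_T h1.toStd))

theorem Form.pow (h : A.Form δ π θ) (e : (conj k * δ) ^ p = 1) : π ^ p = 1 ∧ θ ^ p = 1 ∧ ∃ t ∈ A.T, δ ^ p = conj t := by
  have key : ∀ m, ∃ k', (conj k * δ) ^ m = conj k' * δ ^ m := fun m => by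
    induction m with
    | zero => exact ⟨1, by simp⟩
    | succ m ih => obtain ⟨k', e⟩ := ih; exact ⟨k * δ k', by rw [pow_succ', e, pow_succ']; ext; simp [mul_assoc]⟩
  obtain ⟨k', e'⟩ := key p
  have h1 := h.pow' p
  have h2 : δ ^ p = conj k'⁻¹ := by rw [map_inv, eq_inv_iff_mul_eq_one, mul_eq_one_comm, ← e', e]
  rw [h2] at h1
  have := h1.unique (form_T (A.mem_T h1.toStd))
  exact ⟨this.1, this.2, _, A.mem_T h1.toStd, h2⟩

variable [Finite Γ] [Finite F]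

theorem Std.form (h : A.Std δ) : ∃ π θ, A.Form δ π θ := by
  choose π hπ using fun i => (h.Q i).imp fun _ => h.pair
  have hπ' : Function.Injective π := fun i j e => R.sim_inj ((hπ i).inv.unique (e ▸ (hπ j).inv))
  let π' := Equiv.ofBijective π (Finite.injective_iff_bijective.1 hπ')
  have key : ∀ r, ∃ s, A.Pair δ r s := fun r => by
    obtain ⟨w, i, e⟩ := R.exists_inv_eq_sim r
    obtain ⟨t, ht, e'⟩ := map_nW (π := π') (fun i => (hπ i).n) w
    have h1 := (pair_nW' (A := A) (w.map π') (R.inv (w.map π').reverse (R.sim (π i))))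
    rw [R.inv_inv_reverse] at h1
    have := ((h1.mul (pair_T ht _)).mul (hπ i)).mul (e ▸ pair_nW w r)
    exact ⟨_, by rwa [← map_mul, ← e', show conj (δ (A.nW w)) * δ * conj (A.nW w)⁻¹ = δ by ext; simp [mul_assoc]] at this⟩
  choose θ hθ using key
  exact ⟨π', Equiv.ofBijective θ (Finite.injective_iff_bijective.1 fun r s e => (hθ r).inv.unique (e ▸ (hθ s).inv)),
    h.form_of hθ fun i => (hθ _).unique (hπ i)⟩

end Cfsg.Agent.Lib.Chev.Chv
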