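/- Steinberg's theorem on automorphisms, part 3: commutation of root subgroups, orbit elements. -/
import Cfsg.Agent.Lib.Chev.Stein1

set_option autoImplicit false
set_option linter.unusedSectionVars false

namespace Cfsg.Agent.Lib.Chev

namespace RS
variable {Φ : Type} {l : ℕ} (R : RS Φ l)

theorem ht_LW_le {w : List (Fin l)} (hw : ∀ r, R.pos r → ¬ R.pos (R.inv w r)) {v : Fin l → ℤ}
    (hv : 0 ≤ v) : ht (R.LW w v) ≤ - ht v := by
  have e : v = ∑ j, v j • (Pi.single j 1 : Fin l → ℤ) := by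
    ext k; simp [Finset.sum_apply, Pi.single_apply]
  have h1 : ∀ j, ht (R.LW w (Pi.single j 1)) ≤ -1 := fun j => by
    have := R.ht_neg (hw _ (R.pos_sim j))
    rw [R.ρ_inv, R.ρ_sim] at this
    omega
  have h2 : ht (R.LW w v) = ∑ j, v j * ht (R.LW w (Pi.single j 1)) := by
    conv_lhs => rw [e]
    simp only [map_sum, map_zsmul, ht, Finset.sum_apply, Pi.smul_apply, smul_eq_mul, Finset.mul_sum]
    exact Finset.sum_comm
  rw [h2, ht, ← Finset.sum_neg_distrib]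
  exact Finset.sum_le_sum fun j _ => by
    have h3 : 0 ≤ v j := hv j
    nlinarith [h1 j]

theorem eq_sim_of_ht {r : Φ} (h : R.pos r) (h1 : ht (R.ρ r) ≤ 1) : ∃ j, r = R.sim j := by
  have : ∃ j, R.ρ r j ≠ 0 := by
    by_contra hc
    push Not at hc
    exact R.ne_zero r (funext hc)
  obtain ⟨j, hj⟩ := this
  refine ⟨j, by_contra fun hne => ?_⟩
  obtain ⟨k, hk, hk'⟩ := R.exists_coord h hne
  have h2 : R.ρ r j + R.ρ r k ≤ ht (R.ρ r) := by
    rw [← Finset.sum_pair (Ne.symm hk)]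
    exact Finset.sum_le_sum_of_subset_of_nonneg (Finset.subset_univ _) fun i _ _ => h i
  have h3 : 0 ≤ R.ρ r j := h j
  omega

theorem w0_neg_sim {w : List (Fin l)} (hw : ∀ r, R.pos r → ¬ R.pos (R.inv w r)) (i : Fin l) :
    ∃ j, R.inv w (R.neg (R.sim i)) = R.sim j := by
  have hp : R.pos (R.inv w (R.neg (R.sim i))) := by
    rw [R.inv_neg, R.pos_neg_iff]; exact hw _ (R.pos_sim i)
  have hw' : ∀ r, R.pos r → ¬ R.pos (R.inv w.reverse r) := fun r hr h =>
    hw _ h (by rwa [R.inv_inv_reverse])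
  refine R.eq_sim_of_ht hp ?_
  have := R.ht_LW_le hw' hp
  rw [← R.ρ_inv, R.inv_reverse_inv, R.ρ_neg, R.ρ_sim] at this
  simp only [ht, Pi.neg_apply, Finset.sum_neg_distrib, Finset.sum_pi_single', Finset.mem_univ,
    if_true] at this ⊢
  omega

theorem exists_inv_sim_pos [Finite Φ] {r s : Φ} (h1 : s ≠ r) (h2 : s ≠ R.neg r) :
    ∃ w i, R.inv w r = R.sim i ∧ R.pos (R.inv w s) ∧ R.inv w s ≠ R.sim i := by
  obtain ⟨w, i, hw⟩ := R.exists_inv_eq_sim r
  by_cases hp : R.pos (R.inv w s)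
  · exact ⟨w, i, hw, hp, fun h => h1 (R.inv_injective w (h.trans hw.symm))⟩
  obtain ⟨w0, hw0⟩ := R.exists_w0
  obtain ⟨j, hj⟩ := R.w0_neg_sim hw0 i
  have e : R.inv (w ++ i :: w0) r = R.sim j := by rw [R.inv_append, hw, R.inv_cons, R.refl_sim, hj]
  refine ⟨w ++ i :: w0, j, e, ?_, fun h => h1 (R.inv_injective _ (h.trans e.symm))⟩
  rw [R.inv_append, R.inv_cons]
  have h3 : R.pos (R.refl i (R.neg (R.inv w s))) :=
    (R.pos_refl ((R.pos_neg_iff _).2 hp) fun h => h2 (R.inv_injective w (by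
      rw [R.inv_neg, hw, ← h, R.neg_neg']))).1
  have h4 := hw0 _ h3
  rwa [R.refl_neg, R.inv_neg, R.pos_neg_iff, not_not] at h4

theorem LW_injective (w : List (Fin l)) : Function.Injective (R.LW w) := by
  induction w with
  | nil => exact fun _ _ h => h
  | cons i w ih =>
    intro a b h
    have := ih h
    rw [← R.sL_sL i a, this, R.sL_sL]

theorem inv_mem_cone (w : List (Fin l)) (r s u : Φ) :
    R.inv w u ∈ R.cone (R.inv w r) (R.inv w s) ↔ u ∈ R.cone r s := by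
  refine exists_congr fun a => exists_congr fun b => and_congr_right fun _ => ?_
  rw [R.ρ_inv, R.ρ_inv, R.ρ_inv, ← map_nsmul, ← map_nsmul, ← map_add, (R.LW_injective w).eq_iff]

theorem cone_swap {i : Fin l} {s : Φ} (hs : R.pos s) (h : R.cone (R.sim i) s ⊆ {s}) :
    R.cone s (R.sim i) ⊆ {R.sim i} := by
  rintro u ⟨a, b, hb, e⟩
  rcases Nat.eq_zero_or_pos a with rfl | ha
  · have hu : R.pos u := by
      unfold pos; rw [e]; simpa using nsmul_nonneg (R.pos_sim i) b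
    by_contra hne
    obtain ⟨j, hj, hj'⟩ := R.exists_coord hu hne
    have := congrFun e j
    simp [R.ρ_sim, hj] at this
    omega
  · have hu : u = s := h ⟨b, a, ha, by rw [e, add_comm]⟩
    subst hu
    have := congrFun e i
    have h2 : 0 ≤ R.ρ u i := hs i
    simp [R.ρ_sim] at this
    nlinarith

end RS

section braid
variable {Γ : Type*} [Group Γ]

/-- the relations of the standard generators of `SL₂` of a prime field -/
def Br (a b : Γ) : Prop := a * b * a = b * a * b ∧ (a * b * a) ^ 4 = 1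

theorem Br.prod_eq {a b a' b' : Γ} (h1 : Commute a a') (h2 : Commute a b') (h3 : Commute b a')
    (h4 : Commute b b') : a * a' * (b * b') * (a * a') = a * b * a * (a' * b' * a') := by
  calc a * a' * (b * b') * (a * a') = a * (a' * b) * (b' * a) * a' := by group
    _ = a * (b * a') * (a * b') * a' := by rw [h3.eq, h2.eq]
    _ = a * b * (a' * a) * b' * a' := by group
    _ = _ := by rw [← h1.eq]; group

theorem Br.mul {a b a' b' : Γ} (h : Br a b) (h' : Br a' b') (h1 : Commute a a') (h2 : Commute a b')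
    (h3 : Commute b a') (h4 : Commute b b') : Br (a * a') (b * b') := by
  refine ⟨?_, ?_⟩
  · rw [Br.prod_eq h1 h2 h3 h4, Br.prod_eq h4 h3 h2 h1, h.1, h'.1]
  · have : Commute (a * b * a) (a' * b' * a') :=
      ((((h1.mul_right h2).mul_right h1).mul_left ((h3.mul_right h4).mul_right h3)).mul_left
        ((h1.mul_right h2).mul_right h1))
    rw [Br.prod_eq h1 h2 h3 h4, this.mul_pow, h.2, h'.2, one_mul]

theorem Br.dvd [Finite Γ] {a b : Γ} (h : Br a b) (hab : a ≠ b) {p : ℕ} (hp : p = 2 ∨ p = 3)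
    {H : Subgroup Γ} (ha : a ∈ H) (hb : b ∈ H) : p ∣ Nat.card H := by
  have key : ∀ {g : Γ} (_ : g ∈ H) (q m : ℕ), q.Prime → g ^ (q ^ m) = 1 → g ≠ 1 → q ∣ Nat.card H := by
    intro g hg q m hq e h1
    obtain ⟨j, -, hj⟩ := (Nat.dvd_prime_pow hq).1 (orderOf_dvd_of_pow_eq_one e)
    have hj0 : j ≠ 0 := by
      rintro rfl
      exact h1 (orderOf_eq_one_iff.1 hj)
    exact (hj ▸ dvd_pow_self q hj0 : q ∣ orderOf g).trans (H.orderOf_dvd_natCard hg)
  have e1 : a * b * a * a * (a * b * a)⁻¹ = b := by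
    rw [mul_inv_eq_iff_eq_mul]
    calc a * b * a * a = b * a * b * a := by rw [h.1]
      _ = _ := by group
  rcases hp with rfl | rfl
  · refine key (mul_mem (mul_mem ha hb) ha) 2 2 Nat.prime_two h.2 fun e => hab ?_
    rw [← e1, e]; group
  · have e2 : (a * b) ^ 3 = (a * b * a) ^ 2 := by
      calc (a * b) ^ 3 = a * b * a * (b * a * b) := by simp only [pow_succ]; group
        _ = _ := by rw [← h.1, pow_two]
    refine key (pow_mem (mul_mem ha hb) 4) 3 1 Nat.prime_three ?_ fun e => hab ?_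
    · rw [pow_one, ← pow_mul, mul_comm 4 3, pow_mul, e2, ← pow_mul, mul_comm 2 4, pow_mul, h.2, one_pow]
    · have e3 : (a * b) ^ 3 = (a * b)⁻¹ := by
        rw [eq_inv_iff_mul_eq_one, ← pow_succ, e]
      have e4 : (a * b * a) ^ 2 * a = a * (a * b * a) ^ 2 := by
        calc (a * b * a) ^ 2 * a = a * b * a * (a * b * a) * a := by rw [pow_two]
          _ = a * b * a * (b * a * b) * a := by rw [h.1]
          _ = a * (b * a * b) * (a * b * a) := by group
          _ = _ := by rw [← h.1, pow_two]; group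
      rw [← e2, e3] at e4
      have e5 : a * b = b * a := by
        have : a * (a * b) = a * b * a := by
          calc a * (a * b) = a * b * ((a * b)⁻¹ * a) * (a * b) := by group
            _ = _ := by rw [e4]; group
        rw [mul_assoc a b a] at this
        exact mul_left_cancel this
      rw [← e1]
      calc a = a * a * b * a * (a * a * b)⁻¹ := by
            rw [mul_assoc (a * a) b a, ← e5]; group
        _ = _ := by rw [mul_assoc a b a, ← e5, ← mul_assoc]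

end braid

namespace Chv
open MulAut (conj)

variable {Φ : Type} {l : ℕ} {R : RS Φ l} {F : Type*} [Field F] {Γ : Type*} [Group Γ] (A : Chv R F Γ)
  [Finite Φ] {β : MulAut Γ} {p : ℕ}

theorem conj_cone' {r s : Φ} (h1 : s ≠ r) (h2 : s ≠ R.neg r) {y z : Γ} (hy : y ∈ A.X r)
    (hz : z ∈ A.X s) : y * z * y⁻¹ ∈ US A.X (R.cone r s) := by
  obtain ⟨w, i, hw, hp, hne⟩ := R.exists_inv_sim_pos h1 h2
  rw [← A.conjW_US w (R.inv_mem_cone w r s), hw]
  have := A.comm i _ hp hne _ (hw ▸ A.conjW w r hy) _ (A.conjW w s hz)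
  simpa [mul_assoc] using this

theorem conj_cone {r s : Φ} (h1 : s ≠ r) (h2 : s ≠ R.neg r) (t u : F) :
    A.x r t * A.x s u * (A.x r t)⁻¹ ∈ US A.X (R.cone r s) :=
  A.conj_cone' h1 h2 (A.x_mem r t) (A.x_mem s u)

theorem US_single (r : Φ) : US A.X {r} = A.X r :=
  le_antisymm (US_le fun _ h => by rw [h]) (le_US (S := {r}) rfl)

theorem comm_of_cone' {r s : Φ} (h1 : s ≠ r) (h2 : s ≠ R.neg r) (h : R.cone r s ⊆ {s}) {y z : Γ}
    (hy : y ∈ A.X r) (hz : z ∈ A.X s) : Commute y z := by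
  obtain ⟨w, i, hw, hp, hne⟩ := R.exists_inv_sim_pos h1 h2
  have hc : R.cone (R.sim i) (R.inv w s) ⊆ {R.inv w s} := fun u hu => by
    rw [← hw, ← R.inv_inv_reverse w u, R.inv_mem_cone] at hu
    rw [Set.mem_singleton_iff, ← R.inv_inv_reverse w u, h hu]
  have hy' : (A.nW w)⁻¹ * y * A.nW w ∈ A.X (R.sim i) := hw ▸ A.conjW w r hy
  have hz' := A.conjW w s hz
  generalize hY : (A.nW w)⁻¹ * y * A.nW w = Y at hy'
  generalize hZ : (A.nW w)⁻¹ * z * A.nW w = Z at hz'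
  have a1 : Y * Z * Y⁻¹ ∈ A.X (R.inv w s) :=
    A.US_single _ ▸ US_mono hc (A.comm i _ hp hne _ hy' _ hz')
  have a2 : Z * Y⁻¹ * Z⁻¹ ∈ A.X (R.sim i) := by
    have := US_mono (R.cone_swap hp hc) (A.conj_cone' hne.symm (fun e => by
      have := R.pos_sim i
      rw [e, R.pos_neg_iff] at this
      exact this hp) hz' (inv_mem hy'))
    rw [A.US_single] at this
    exact this
  have a3 : Y * Z * Y⁻¹ * Z⁻¹ = 1 := by
    refine A.indep i _ (by simpa [mul_assoc] using mul_mem hy' a2) ?_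
    exact le_US (S := R.P' i) ⟨hp, hne⟩ (mul_mem a1 (inv_mem hz'))
  have a4 : Y * Z = Z * Y := by
    rw [mul_inv_eq_one, mul_inv_eq_iff_eq_mul] at a3; exact a3
  subst hY hZ
  have : (A.nW w)⁻¹ * (y * z) * A.nW w = (A.nW w)⁻¹ * (z * y) * A.nW w := by
    simpa [mul_assoc] using a4
  exact mul_left_cancel (mul_right_cancel this)

theorem comm_of_cone {r s : Φ} (h1 : s ≠ r) (h2 : s ≠ R.neg r) (h : R.cone r s ⊆ {s}) (t u : F) :
    Commute (A.x r t) (A.x s u) :=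
  A.comm_of_cone' h1 h2 h (A.x_mem r t) (A.x_mem s u)

theorem comm_of_Nc {r s : Φ} (h : R.Nc r s) (t u : F) : Commute (A.x r t) (A.x s u) :=
  A.comm_of_cone h.ne.1 h.ne.2 h.cone t u

/-- every root pair is carried to a simple pair by an automorphism, with prescribed scaling -/
theorem exists_std_pair (r : Φ) (c : Fˣ) : ∃ (i : Fin l) (α : MulAut Γ),
    (∀ t, α (A.x r (c * t)) = A.x (R.sim i) t) ∧
      ∀ t, α (A.x (R.neg r) ((c⁻¹ : Fˣ) * t)) = A.x (R.neg (R.sim i)) t := by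
  obtain ⟨w, i, hw⟩ := R.exists_inv_eq_sim r
  obtain ⟨ε, hε, h1, h2⟩ := A.nW_conj w r
  have h0 : ε ≠ 0 := by rintro rfl; simp at hε
  obtain ⟨d, hd⟩ := A.diag (Chr.mk fun _ => Units.mk0 ε h0 * c⁻¹)
  refine ⟨i, d * conj (A.nW w)⁻¹, fun t => ?_, fun t => ?_⟩
  · have := h1 (c * t)
    rw [MulAut.mul_apply, MulAut.conj_apply, inv_inv]
    rw [show (A.nW w)⁻¹ * A.x r (c * t) * A.nW w = _ from this, hw, hd, R.ρ_sim, Chr.ev_mk_single]
    congr 1
    simp only [Units.val_mul, Units.val_mk0]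
    calc _ = (ε * ε) * ((c⁻¹ : Fˣ) * c) * t := by ring
      _ = t := by rw [hε]; simp
  · have := h2 ((c⁻¹ : Fˣ) * t)
    rw [MulAut.mul_apply, MulAut.conj_apply, inv_inv]
    rw [show (A.nW w)⁻¹ * A.x (R.neg r) ((c⁻¹ : Fˣ) * t) * A.nW w = _ from this, hw, hd, R.ρ_neg,
      Chr.ev_neg, R.ρ_sim, Chr.ev_mk_single]
    congr 1
    have hi : ε⁻¹ = ε := inv_eq_of_mul_eq_one_right hε
    simp only [mul_inv_rev, inv_inv, Units.val_mul, Units.val_inv_eq_inv_val, Units.val_mk0, hi]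
    calc _ = (ε * ε) * (c * (c : F)⁻¹) * t := by ring
      _ = t := by rw [hε]; simp

theorem n_pow_four (i : Fin l) : A.n i ^ 4 = 1 := by
  obtain ⟨h, -, e, hh⟩ := A.n_t i (-1)
  have e1 : h = (A.n i)⁻¹ * (A.n i)⁻¹ := by
    rw [eq_mul_inv_iff_mul_eq, ← e, A.n_def]
    simp [← A.x_neg, mul_assoc]
  have e2 : h * h = 1 := by
    refine A.conj_inj (MulEquiv.toMonoidHom_injective (A.hom_ext fun r t => ?_))
    change h * h * _ * (h * h)⁻¹ = 1 * _ * 1⁻¹
    rw [show ∀ y, h * h * y * (h * h)⁻¹ = h * (h * y * h⁻¹) * h⁻¹ by intro; group, hh, hh,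
      ← mul_assoc, ← Units.val_mul, ← mul_zpow]
    simp
  rw [e1] at e2
  rw [← inv_eq_one, ← e2]; simp only [pow_succ]; group

theorem br_sim (i : Fin l) : Br (A.x (R.sim i) 1) (A.x (R.neg (R.sim i)) (-1)) := by
  refine ⟨?_, by rw [← A.n_def, n_pow_four]⟩
  have := A.n_sim i 1
  rw [mul_inv_eq_iff_eq_mul, A.n_def] at this
  exact mul_right_cancel (this.trans (by group))

theorem br_root (r : Φ) (c : Fˣ) : Br (A.x r c) (A.x (R.neg r) (-(c⁻¹ : Fˣ))) ∧
    ∀ t, A.x r c * A.x (R.neg r) (-(c⁻¹ : Fˣ)) * A.x r c * A.x r t *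
      (A.x r c * A.x (R.neg r) (-(c⁻¹ : Fˣ)) * A.x r c)⁻¹ ∈ A.X (R.neg r) := by
  obtain ⟨i, α, h1, h2⟩ := A.exists_std_pair r c
  have e1 : α (A.x r c) = A.x (R.sim i) 1 := by simpa using h1 1
  have e2 : α (A.x (R.neg r) (-(c⁻¹ : Fˣ))) = A.x (R.neg (R.sim i)) (-1) := by simpa using h2 (-1)
  have hb := A.br_sim i
  refine ⟨⟨α.injective ?_, α.injective ?_⟩, fun t => ?_⟩
  · simp only [map_mul, e1, e2, hb.1]
  · simp only [map_mul, map_pow, map_one, e1, e2, hb.2]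
  · refine (A.mem_X _ _).2 ⟨(c⁻¹ : Fˣ) * (-((c⁻¹ : Fˣ) * t)), α.injective ?_⟩
    have e3 : α (A.x r t) = A.x (R.sim i) ((c⁻¹ : Fˣ) * t) := by
      rw [← h1]; simp
    simp only [map_mul, map_inv, e1, e2, e3, h2]
    rw [← A.n_def, A.n_sim]

theorem pair_iter (o : ℕ → Φ) (ho : ∀ j, A.Pair β (o j) (o (j + 1))) (j : ℕ) :
    ∃ c : Fˣ, (β ^ j) (A.x (o 0) 1) = A.x (o j) c ∧
      (β ^ j) (A.x (R.neg (o 0)) (-1)) = A.x (R.neg (o j)) (-(c⁻¹ : Fˣ)) := by
  induction j with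
  | zero => exact ⟨1, by simp, by simp⟩
  | succ j ih =>
    obtain ⟨c, h1, h2⟩ := ih
    obtain ⟨c', f, h⟩ := ho j
    refine ⟨c' * Units.map (f : F →* F) c, ?_, ?_⟩
    · rw [pow_succ', MulAut.mul_apply, h1, (h _).1]; rfl
    · rw [pow_succ', MulAut.mul_apply, h2, (h _).2]
      congr 1
      simp [mul_comm]

variable [Finite Γ]

/-- a coset of a subgroup of `U` that is `β`-invariant has a fixed point -/
theorem fix_coset (hp : p.Prime) (hpr : (p : F) ≠ 0) (hβ : β ^ p = 1) {V : Subgroup Γ} (hV : V ≤ A.U)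
    {y : Γ} (h : ∀ z, y⁻¹ * z ∈ V → y⁻¹ * β z ∈ V) : ∃ z, y⁻¹ * z ∈ V ∧ β z = z := by
  classical
  haveI := Fact.mk hp
  letI : Fintype Γ := Fintype.ofFinite Γ
  let σ : Equiv.Perm {z // y⁻¹ * z ∈ V} := Equiv.Perm.subtypePermOfFintype β.toEquiv h
  have hσ : ∀ (m : ℕ) z, ((σ ^ m) z : Γ) = (β ^ m) z := by
    intro m z
    induction m with
    | zero => rfl
    | succ m ih => rw [pow_succ', pow_succ', Equiv.Perm.mul_apply, MulAut.mul_apply, ← ih]; rfl
  have hc : Fintype.card {z // y⁻¹ * z ∈ V} = Nat.card V := by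
    rw [← Nat.card_eq_fintype_card]
    exact Nat.card_congr (Equiv.subtypeEquiv (Equiv.mulLeft y⁻¹) fun z => Iff.rfl)
  obtain ⟨z, hz⟩ := Equiv.Perm.exists_fixed_point_of_prime (p := p) (n := 1) (σ := σ)
    (hc ▸ A.not_dvd_U hp hpr hV) (by
      ext z; rw [pow_one, hσ, hβ]; rfl)
  exact ⟨z, z.2, congrArg Subtype.val hz⟩

theorem orbit_elt (hp : p = 2 ∨ p = 3) (hβ : β ^ p = 1) (o : ℕ → Φ) (hpos : ∀ j < p, R.pos (o j))
    (ho : ∀ j, A.Pair β (o j) (o (j + 1)))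
    (horth : ∀ i < p, ∀ j < p, i ≠ j → R.Orth (o i) (o j)) :
    ∃ a ∈ US A.X (o '' {j | j < p}), ∃ b ∈ US A.X (R.neg '' (o '' {j | j < p})), β a = a ∧ β b = b ∧
      a * b * a * A.x (o 0) 1 * (a * b * a)⁻¹ ∈ A.X (R.neg (o 0)) ∧
        ∀ H : Subgroup Γ, a ∈ H → b ∈ H → p ∣ Nat.card H := by
  choose c hc hc' using A.pair_iter o ho
  set a : ℕ → Γ := fun j => A.x (o j) (c j) with ha
  set b : ℕ → Γ := fun j => A.x (R.neg (o j)) (-((c j)⁻¹ : Fˣ)) with hb
  have ea : ∀ j, β (a j) = a (j + 1) := fun j => by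
    simp only [ha, ← hc]; rw [pow_succ', MulAut.mul_apply]
  have eb : ∀ j, β (b j) = b (j + 1) := fun j => by
    simp only [hb, ← hc']; rw [pow_succ', MulAut.mul_apply]
  have pa : a p = a 0 := by simp only [ha, ← hc, hβ, pow_zero]
  have pb : b p = b 0 := by simp only [hb, ← hc', hβ, pow_zero]
  have ma : ∀ j < p, a j ∈ US A.X (o '' {j | j < p}) := fun j hj =>
    le_US (S := o '' {j | j < p}) ⟨j, hj, rfl⟩ (A.x_mem _ _)
  have mb : ∀ j < p, b j ∈ US A.X (R.neg '' (o '' {j | j < p})) := fun j hj =>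
    le_US (S := R.neg '' (o '' {j | j < p})) ⟨_, ⟨j, hj, rfl⟩, rfl⟩ (A.x_mem _ _)
  have br : ∀ j, Br (a j) (b j) := fun j => (A.br_root (o j) (c j)).1
  have caa : ∀ i < p, ∀ j < p, i ≠ j → Commute (a i) (a j) := fun i hi j hj h =>
    A.comm_of_Nc (horth i hi j hj h).1 _ _
  have cab : ∀ i < p, ∀ j < p, i ≠ j → Commute (a i) (b j) := fun i hi j hj h =>
    A.comm_of_Nc (horth i hi j hj h).2.1 _ _
  have cba : ∀ i < p, ∀ j < p, i ≠ j → Commute (b i) (a j) := fun i hi j hj h =>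
    A.comm_of_Nc (horth i hi j hj h).2.2.1 _ _
  have cbb : ∀ i < p, ∀ j < p, i ≠ j → Commute (b i) (b j) := fun i hi j hj h =>
    A.comm_of_Nc (horth i hi j hj h).2.2.2 _ _
  have xa : ∀ j < p, j ≠ 0 → Commute (A.x (o 0) 1) (a j) := fun j hj h =>
    A.comm_of_Nc (horth 0 (by omega) j hj h.symm).1 _ _
  have xb : ∀ j < p, j ≠ 0 → Commute (A.x (o 0) 1) (b j) := fun j hj h =>
    A.comm_of_Nc (horth 0 (by omega) j hj h.symm).2.1 _ _
  have fin : ∀ a' b' : Γ, Br a' b' → Commute (a 0) a' → Commute (a 0) b' → Commute (b 0) a' →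
      Commute (b 0) b' → Commute (A.x (o 0) 1) a' → Commute (A.x (o 0) 1) b' →
      a 0 * a' ∈ US A.X (o '' {j | j < p}) → b 0 * b' ∈ US A.X (R.neg '' (o '' {j | j < p})) →
      a 0 * a' * (b 0 * b') * (a 0 * a') * A.x (o 0) 1 * (a 0 * a' * (b 0 * b') * (a 0 * a'))⁻¹ ∈
        A.X (R.neg (o 0)) ∧ ∀ H : Subgroup Γ, a 0 * a' ∈ H → b 0 * b' ∈ H → p ∣ Nat.card H := by
    intro a' b' hbr h1 h2 h3 h4 h5 h6 h7 h8
    have hm : a 0 * a' * (b 0 * b') * (a 0 * a') * A.x (o 0) 1 *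
        (a 0 * a' * (b 0 * b') * (a 0 * a'))⁻¹ ∈ A.X (R.neg (o 0)) := by
      rw [Br.prod_eq h1 h2 h3 h4]
      have := ((h5.mul_right h6).mul_right h5).eq
      have e : a 0 * b 0 * a 0 * (a' * b' * a') * A.x (o 0) 1 * (a 0 * b 0 * a 0 * (a' * b' * a'))⁻¹ =
          a 0 * b 0 * a 0 * A.x (o 0) 1 * (a 0 * b 0 * a 0)⁻¹ := by
        rw [mul_assoc _ (a' * b' * a'), ← this]; group
      rw [e]
      exact (A.br_root (o 0) (c 0)).2 1
    refine ⟨hm, fun H hA hB => ((br 0).mul hbr h1 h2 h3 h4).dvd (fun e => ?_) hp hA hB⟩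
    have hU : a 0 * a' ∈ A.U := US_mono (by rintro _ ⟨j, hj, rfl⟩; exact hpos j hj) h7
    have hU' : b 0 * b' ∈ A.Um := US_mono (by
      rintro _ ⟨_, ⟨j, hj, rfl⟩, rfl⟩
      simpa [R.pos_neg_iff] using hpos j hj) h8
    have e1 : a 0 * a' = 1 := A.U_Um hU (e ▸ hU')
    rw [← e, e1] at hm
    simp only [one_mul, inv_one, mul_one] at hm
    exact A.neg_of_mem (le_US (S := {r | ¬ R.pos r})
      (by simpa [R.pos_neg_iff] using hpos 0 (by omega)) hm) (hpos 0 (by omega))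
  rcases hp with rfl | rfl
  · have m1 := mul_mem (ma 0 (by omega)) (ma 1 (by omega))
    have m2 := mul_mem (mb 0 (by omega)) (mb 1 (by omega))
    refine ⟨_, m1, _, m2, ?_, ?_, fin _ _ (br 1) (caa 0 (by omega) 1 (by omega) (by omega))
      (cab 0 (by omega) 1 (by omega) (by omega)) (cba 0 (by omega) 1 (by omega) (by omega))
      (cbb 0 (by omega) 1 (by omega) (by omega)) (xa 1 (by omega) (by omega))
      (xb 1 (by omega) (by omega)) m1 m2⟩
    · rw [map_mul, ea, ea, pa]; exact (caa 1 (by omega) 0 (by omega) (by omega)).eq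
    · rw [map_mul, eb, eb, pb]; exact (cbb 1 (by omega) 0 (by omega) (by omega)).eq
  · have m1 := mul_mem (ma 0 (by omega)) (mul_mem (ma 1 (by omega)) (ma 2 (by omega)))
    have m2 := mul_mem (mb 0 (by omega)) (mul_mem (mb 1 (by omega)) (mb 2 (by omega)))
    have q : ∀ {f g : ℕ → Γ}, (∀ i < 3, ∀ j < 3, i ≠ j → Commute (f i) (g j)) →
        Commute (f 0) (g 1 * g 2) := fun h =>
      (h 0 (by omega) 1 (by omega) (by omega)).mul_right (h 0 (by omega) 2 (by omega) (by omega))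
    refine ⟨_, m1, _, m2, ?_, ?_, fin _ _ ((br 1).mul (br 2)
      (caa 1 (by omega) 2 (by omega) (by omega)) (cab 1 (by omega) 2 (by omega) (by omega))
      (cba 1 (by omega) 2 (by omega) (by omega)) (cbb 1 (by omega) 2 (by omega) (by omega)))
      (q caa) (q cab) (q cba) (q cbb)
      ((xa 1 (by omega) (by omega)).mul_right (xa 2 (by omega) (by omega)))
      ((xb 1 (by omega) (by omega)).mul_right (xb 2 (by omega) (by omega))) m1 m2⟩
    · rw [map_mul, map_mul, ea, ea, ea, pa, ← mul_assoc]; exact (q caa).eq.symm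
    · rw [map_mul, map_mul, eb, eb, eb, pb, ← mul_assoc]; exact (q cbb).eq.symm

end Chv
end Cfsg.Agent.Lib.Chev
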