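/- Local balance for field automorphisms of an abstract Chevalley group. -/
import Cfsg.Agent.Lib.Chev.Stein2
import Cfsg.Agent.Lib.Chev.Stein3
import Cfsg.Agent.Lib.GL.FixedField

set_option autoImplicit false
set_option linter.unusedSectionVars false

namespace Cfsg.Agent.Lib.Chev

theorem not_dvd_sup {G : Type*} [Group G] [Finite G] {H T : Subgroup G} {p : ℕ} (hp : p.Prime)
    (hn : T ≤ Subgroup.normalizer (H : Set G)) (h1 : ¬ p ∣ Nat.card H) (h2 : ¬ p ∣ Nat.card T) :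
    ¬ p ∣ Nat.card ↥(H ⊔ T) := fun h => by
  haveI := Fact.mk hp
  obtain ⟨⟨g, hg⟩, ho⟩ := exists_prime_orderOf_dvd_card' p h
  rw [← Subgroup.orderOf_coe] at ho
  have hg' : g ∈ ((H ⊔ T : Subgroup G) : Set G) := hg
  rw [Subgroup.coe_mul_of_right_le_normalizer_left H T hn] at hg'
  obtain ⟨a, ha, t, ht, rfl⟩ := hg'
  have key : ∀ m : ℕ, ∃ b ∈ H, (a * t) ^ m = b * t ^ m := by
    intro m
    induction m with
    | zero => exact ⟨1, one_mem _, by simp⟩
    | succ m ih =>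
      obtain ⟨b, hb, e⟩ := ih
      exact ⟨b * (t ^ m * a * (t ^ m)⁻¹),
        mul_mem hb ((Subgroup.mem_normalizer_iff.1 (hn (pow_mem ht m)) a).1 ha),
        by rw [pow_succ, e, pow_succ]; group⟩
  obtain ⟨b, hb, e⟩ := key p
  have ho' : orderOf (a * t) = p := ho
  rw [← ho', pow_orderOf_eq_one, ho'] at e
  have h3 : t ^ p ∈ H := by
    rw [eq_inv_of_mul_eq_one_right e.symm]
    exact inv_mem hb
  have h4 : t ∈ Subgroup.zpowers (t ^ p) := mem_zpowers_pow_iff.2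
    ((Nat.Prime.coprime_iff_not_dvd hp).2 fun h => h2 (h.trans (T.orderOf_dvd_natCard ht)))
  have h5 : t ∈ H := (Subgroup.zpowers_le.2 h3) h4
  exact h1 (ho' ▸ H.orderOf_dvd_natCard (mul_mem ha h5))

theorem pow_eq_one_of_fix {F : Type*} [Field F] [Finite F] (σ f : F ≃+* F)
    (h : ∀ t, σ t = t → f t = t) : f ^ orderOf σ = 1 := by
  let S := Cfsg.Agent.Lib.GL.H90.fixedSub σ
  letI : Fintype S := Fintype.ofFinite S
  let fa : F ≃ₐ[S] F := AlgEquiv.ofRingEquiv (f := f) (fun x => h x x.2)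
  let ρ : (F ≃ₐ[S] F) →* (F ≃+* F) :=
    { toFun := fun e => e.toRingEquiv, map_one' := rfl, map_mul' := fun _ _ => rfl }
  have hc : Nat.card (F ≃ₐ[S] F) = orderOf σ := by
    rw [← Nat.card_eq_of_bijective _ (FiniteField.bijective_frobeniusAlgEquivOfAlgebraic_pow S F),
      Nat.card_eq_fintype_card, Fintype.card_fin, Cfsg.Agent.Lib.GL.H90.finrank_fixedSub]
  have : ρ fa = f := rfl
  rw [← this, ← map_pow, ← hc, pow_card_eq_one', map_one]

namespace Chv
open MulAut (conj)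

variable {Φ : Type} {l : ℕ} {R : RS Φ l} {F : Type*} [Field F] {Γ : Type*} [Group Γ] {A : Chv R F Γ}
  [Finite Φ] [Finite Γ] [Finite F] {β : MulAut Γ} {p : ℕ} {N : Subgroup (MulAut Γ)} {σ : F ≃+* F}

/-- the fixed points of an automorphism -/
abbrev fx (β : MulAut Γ) : Subgroup Γ := β.toMonoidHom.eqLocus (MonoidHom.id Γ)

/-- the elements inducing an automorphism in `N` times conjugation by a fixed point in `U` -/
def HH (A : Chv R F Γ) (β : MulAut Γ) (N : Subgroup (MulAut Γ)) : Subgroup Γ :=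
  (N ⊔ (A.U ⊓ fx β).map conj).comap conj

theorem conj_map (ν : MulAut Γ) (g : Γ) : conj (ν g) = ν * conj g * ν⁻¹ := by ext; simp

theorem Bal.nrm (hN : Bal β p N) {g : Γ} (hg : β g = g) :
    conj g ∈ Subgroup.normalizer (N : Set (MulAut Γ)) :=
  Subgroup.mem_normalizer_fintype fun ν hν => hN.norm g hg ν hν

theorem Bal.fix (hN : Bal β p N) {ν : MulAut Γ} (hν : ν ∈ N) {g : Γ} : β (ν g) = ν g ↔ β g = g := by
  have : β (ν g) = ν (β g) := (DFunLike.congr_fun (hN.comm ν hν).eq g).symm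
  rw [this, ν.injective.eq_iff]

theorem Bal.not_dvd_HH (hN : Bal β p N) (hp : p.Prime) (hpr : (p : F) ≠ 0) :
    ¬ p ∣ Nat.card (A.HH β N) := fun h => by
  refine not_dvd_sup (H := N) (T := (A.U ⊓ fx β).map conj) hp ?_ hN.nd (fun h => ?_)
    (h.trans (Subgroup.card_comap_dvd_of_injective _ _ fun _ _ => A.conj_inj))
  · rintro _ ⟨g, hg, rfl⟩
    exact hN.nrm hg.2
  · rw [Subgroup.card_map_of_injective fun _ _ => A.conj_inj] at h
    exact A.not_dvd_U hp hpr inf_le_left h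

theorem mem_HH {g : Γ} (h1 : g ∈ A.U) (h2 : β g = g) : g ∈ A.HH β N :=
  Subgroup.mem_sup_right (S := N) ⟨g, ⟨h1, h2⟩, rfl⟩

theorem Bal.map_mem_HH (hN : Bal β p N) {ν : MulAut Γ} (hν : ν ∈ N) {g : Γ} (h1 : g ∈ A.U)
    (h2 : β g = g) : ν g ∈ A.HH β N := by
  change conj (ν g) ∈ N ⊔ (A.U ⊓ fx β).map conj
  rw [conj_map]
  exact mul_mem (mul_mem (Subgroup.mem_sup_left hν) (mem_HH h1 h2))
    (Subgroup.mem_sup_left (inv_mem hν))

theorem Bal.of_mem_HH (hN : Bal β p N) {g : Γ} (h : g ∈ A.HH β N) :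
    ∃ u ∈ A.U, β u = u ∧ conj (g * u⁻¹) ∈ N := by
  have h' : conj g ∈ ((N ⊔ (A.U ⊓ fx β).map conj : Subgroup (MulAut Γ)) : Set (MulAut Γ)) := h
  rw [Subgroup.coe_mul_of_right_le_normalizer_left _ _ (by
    rintro _ ⟨g, hg, rfl⟩; exact hN.nrm hg.2)] at h'
  obtain ⟨ν, hν, _, ⟨u, hu, rfl⟩, e⟩ := h'
  refine ⟨u, hu.1, hu.2, ?_⟩
  rw [map_mul, map_inv, ← e]
  simpa using hν

theorem Bal.T_norm_HH (hN : Bal β p N) {t : Γ} (ht : t ∈ A.T) (h : β t = t) :
    t ∈ Subgroup.normalizer (A.HH β N : Set Γ) := by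
  refine Subgroup.mem_normalizer_fintype fun g hg => ?_
  obtain ⟨u, hu, hu', h1⟩ := hN.of_mem_HH hg
  have h2 : t * (g * u⁻¹) * t⁻¹ ∈ A.HH β N := by
    refine Subgroup.mem_sup_left (T := (A.U ⊓ fx β).map conj) ?_
    rw [map_mul, map_mul, map_inv]
    exact hN.norm t h _ h1
  have h3 : t * u * t⁻¹ ∈ A.HH β N := mem_HH (A.T_U ht hu) (by simp [h, hu'])
  simpa [mul_assoc] using mul_mem h2 h3

/-- an automorphism in `N` that moves the base chamber to the cell `w` -/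
theorem Bal.mem_HH_of_cell (hN : Bal β p N) (hβ : A.Std β) (hn : ∀ i, β (A.n i) = A.n i)
    (hUS : ∀ S, ∀ g ∈ US A.X S, β g ∈ US A.X S) {k : Γ}
    {δ : MulAut Γ} (hδ : A.Std δ) (hν : conj k * δ ∈ N) {w : List (Fin l)} (hw : A.CellW w k) {r : Φ}
    (hr : R.pos (R.inv w r)) {y : Γ} (hy : y ∈ A.X r) (hy' : β y = y) : y ∈ A.HH β N := by
  obtain ⟨w', a, ha, h, hh, u, hu, rfl⟩ := A.bruhat k
  have ha' : a ∈ A.U := US_mono (fun r hr => hr.1) ha
  rw [CellW.unique A hw (w' := w') ⟨a, ha', h, hh, u, hu, rfl⟩] at hr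
  set ν := conj (a * A.nW w' * h * u) * δ with hνdef
  have mv : ∀ z, (a * A.nW w')⁻¹ * ν z * (a * A.nW w') ∈ A.U ↔ z ∈ A.U := fun z => by
    have e : (a * A.nW w')⁻¹ * ν z * (a * A.nW w') = h * u * δ z * (h * u)⁻¹ := by
      simp only [hνdef, MulAut.mul_apply, MulAut.conj_apply]; group
    rw [e, ← Subgroup.mem_normalizer_iff.1 (mul_mem (A.T_B hh) (A.U_B hu)), hδ.U]
  have hnW : β (A.nW w') = A.nW w' := A.nW_mem (G₀ := fx β) hn w'
  have hfa : β a = a := by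
    obtain ⟨t, ht, v, hv, e⟩ := A.mem_B (g := (a * A.nW w')⁻¹ * (β a * A.nW w')) fun z hz => by
      obtain ⟨z, rfl⟩ := β.surjective z
      obtain ⟨z', hz'⟩ := ν.surjective (a * A.nW w' * z * (a * A.nW w')⁻¹)
      have h1 : z' ∈ A.U := (mv z').1 (by rw [hz']; simpa [mul_assoc] using (hβ.U z).1 hz)
      have h2 := (mv (β z')).2 ((hβ.U z').2 h1)
      have h3 : ν (β z') = β (ν z') := DFunLike.congr_fun (hN.comm ν hν).eq z'
      rw [h3, hz'] at h2
      simpa [hnW, mul_assoc] using h2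
    have h1 : (a * A.nW w')⁻¹ * (β a * A.nW w') ∈ A.Um := by
      simpa [mul_assoc] using A.conj_Inv (mul_mem (inv_mem ha) (hUS _ a ha))
    obtain ⟨rfl, rfl⟩ := A.ldu _ h1 t ht v hv e
    rw [one_mul, inv_mul_eq_one] at e
    exact (mul_right_cancel e).symm
  obtain ⟨z, hz⟩ := ν.surjective (a * y * a⁻¹)
  have h1 : z ∈ A.U := (mv z).1 (by
    rw [hz]
    simpa [mul_assoc] using le_US (S := {r | R.pos r}) hr (A.conjW w' r hy))
  have h2 : β z = z := (hN.fix hν).1 (by rw [hz]; simp [hfa, hy'])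
  have h3 := hN.map_mem_HH hν h1 h2
  rw [hz] at h3
  have h4 : a ∈ A.HH β N := mem_HH ha' hfa
  simpa [mul_assoc] using mul_mem (mul_mem (inv_mem h4) h3) h4

theorem T_U_eq {g : Γ} (h : g ∈ A.T) (h' : g ∈ A.U) : g = 1 :=
  (A.ldu 1 (one_mem _) g⁻¹ (inv_mem h) g h' (by simp)).2

theorem T_Um_eq {g : Γ} (h : g ∈ A.T) (h' : g ∈ A.Um) : g = 1 :=
  (A.ldu g h' g h 1 (one_mem _) (by simp)).1

/-- if all of `N` normalises `U`, it centralises the fixed points in `U` and `U⁻` -/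
theorem Bal.std_of_U (hN : Bal β p N) (hn : ∀ i, β (A.n i) = A.n i)
    (h : ∀ ν ∈ N, ∀ z, ν z ∈ A.U ↔ z ∈ A.U) {ν : MulAut Γ} (hν : ν ∈ N) : A.Std ν := by
  obtain ⟨w, hw⟩ := R.exists_w0
  have hnW : β (A.nW w)⁻¹ = (A.nW w)⁻¹ := inv_mem (A.nW_mem (G₀ := fx β) hn w)
  refine ⟨h ν hν, fun z => ?_⟩
  have := h _ (hN.norm _ hnW ν hν) ((A.nW w)⁻¹ * z * A.nW w)
  rw [A.w0_Um hw] at this
  rw [← this, ← A.w0_Um hw]
  simp [mul_assoc]

theorem Bal.fix_of_std (hN : Bal β p N) (h : ∀ ν ∈ N, A.Std ν) {ν : MulAut Γ} (hν : ν ∈ N) {g : Γ}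
    (hg : g ∈ A.U ∨ g ∈ A.Um) (hg' : β g = g) : ν g = g := by
  have h1 : g * (ν g)⁻¹ ∈ A.T := A.mem_T (h _ (by
    rw [map_mul, map_inv, conj_map]
    simpa [mul_assoc] using mul_mem (hN.norm g hg' ν hν) (inv_mem hν)))
  refine (mul_inv_eq_one.1 ?_).symm
  rcases hg with hg | hg
  · exact T_U_eq h1 (mul_mem hg (inv_mem (((h ν hν).U g).2 hg)))
  · exact T_Um_eq h1 (mul_mem hg (inv_mem (((h ν hν).Um g).2 hg)))

variable (A)

theorem field_case (hc : R.Conn) (σ : F ≃+* F) (hβ : ∀ r t, β (A.x r t) = A.x r (σ t)) (hp : p.Prime)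
    (hpr : (p : F) ≠ 0) (hσ : σ ^ p = 1)
    (hd : p ∣ Nat.card (β.toMonoidHom.eqLocus (MonoidHom.id Γ))) (hN : Bal β p N) : N = ⊥ := by
  classical
  haveI := Fact.mk hp
  have hX : ∀ r, ∀ y ∈ A.X r, β y ∈ A.X r := fun r y hy => by
    obtain ⟨t, rfl⟩ := (A.mem_X _ _).1 hy
    rw [hβ]; exact A.x_mem _ _
  have hUS : ∀ S, ∀ g ∈ US A.X S, β g ∈ US A.X S := fun S g hg =>
    US_map β.toMonoidHom (fun r hr y hy => le_US hr (hX r y hy)) hg
  have hs : A.Std β := ⟨iff_of_maps β (hUS _), iff_of_maps β (hUS _)⟩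
  have hn : ∀ i, β (A.n i) = A.n i := fun i => by simp [A.n_def, hβ]
  have hH := hN.not_dvd_HH (A := A) hp hpr
  let J : Fin l → Prop := fun i => ∀ t, σ t = t → A.x (R.neg (R.sim i)) t ∈ A.HH β N
  have hJ : ∀ {k : Γ} {δ : MulAut Γ} {w : List (Fin l)} {i : Fin l}, A.Std δ → conj k * δ ∈ N →
      A.CellW w k → ¬ R.pos (R.inv w (R.sim i)) → J i := fun hδ hν hw hi t ht =>
    hN.mem_HH_of_cell hs hn hUS hδ hν hw (by rwa [R.inv_neg, R.pos_neg_iff]) (A.x_mem _ t)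
      (by rw [hβ, ht])
  have hxU : ∀ i t, σ t = t → A.x (R.sim i) t ∈ A.HH β N := fun i t ht =>
    mem_HH (A.x_U (R.pos_sim i) t) (by rw [hβ, ht])
  have hnJ : ∀ i, J i → A.n i ∈ A.HH β N := fun i hi => by
    rw [A.n_def]
    exact mul_mem (mul_mem (hxU i 1 (map_one σ)) (hi _ (by simp))) (hxU i 1 (map_one σ))
  by_cases h0 : ∃ i, J i
  · exfalso
    obtain ⟨i₀, hi₀⟩ := h0
    have step : ∀ i j, J i → R.cart i j ≠ 0 → J j := by
      intro i j hi hij
      rcases hc.1 i j hij with rfl | ⟨-, h1, h2⟩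
      · exact hi
      obtain ⟨u, hu, -, hν⟩ := hN.of_mem_HH (hnJ i hi)
      have hν' := hN.norm _ (hn j) _ hν
      rw [← map_inv, ← map_mul, ← map_mul, ← mul_one (conj _)] at hν'
      refine hJ (w := [j, i, j]) form_one.toStd hν' ?_ h1
      obtain ⟨x, hx, u', hu', e⟩ := A.split (R.closed_pos j) (inv_mem hu)
      obtain ⟨h, hh, e'⟩ := A.n_inv j
      have a1 : A.n j * (A.n i * x * (A.n i)⁻¹) * (A.n j)⁻¹ ∈ A.U :=
        le_US (S := {r | R.pos r}) h2 (A.conj j _ _ (A.conj i _ _ hx))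
      refine ⟨_, a1, _, A.n_T j h hh, _, A.Q_le j (A.conj_P' hu'), ?_⟩
      rw [e]
      simp only [Fold.nW_cons, Fold.nW_nil, mul_one]
      calc A.n j * (A.n i * (x * u')) * (A.n j)⁻¹
          = A.n j * A.n i * x * (A.n j)⁻¹ * (A.n j * u' * (A.n j)⁻¹) := by group
        _ = A.n j * A.n i * x * (h * A.n j) * (A.n j * u' * (A.n j)⁻¹) := by rw [← e']
        _ = _ := by group
    have hall : ∀ j, J j := fun j => by
      simpa using hc.2 (fun i => decide (J i)) i₀ (by simpa using hi₀)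
        (fun i j h1 h2 => by simpa using step i j (by simpa using h1) h2) j
    have hle : fx β ≤ A.HH β N ⊔ (A.T ⊓ fx β) := fun g hg =>
      A.toFull.fixed β.toMonoidHom hX (fun h hh => (hs.T h).2 hh) hn (A.HH β N ⊔ (A.T ⊓ fx β))
        (fun i => Subgroup.mem_sup_left (hnJ i (hall i)))
        (fun i x hx h => Subgroup.mem_sup_left
          (mem_HH (le_US (S := {r | R.pos r}) (R.pos_sim i) hx) h))
        (fun h hh h' => Subgroup.mem_sup_right ⟨hh, h'⟩) (A.gen ▸ Subgroup.mem_top g) hg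
    have hT : p ∣ Nat.card ↥(A.T ⊓ fx β) := by
      by_contra hT
      exact not_dvd_sup (T := A.T ⊓ fx β) hp (fun t ht => hN.T_norm_HH ht.1 ht.2) hH hT
        (hd.trans (Subgroup.card_dvd_of_le hle))
    by_cases h2 : p = 2
    · refine hH ((A.br_sim i₀).dvd (fun e => ?_) (.inl h2) (hxU i₀ 1 (map_one σ)) (hi₀ _ (by simp)))
      exact A.x_ne _ (A.U_Um (A.x_U (R.pos_sim i₀) 1)
        (e ▸ A.x_Um (by rw [R.pos_neg_iff, not_not]; exact R.pos_sim i₀) _))
    obtain ⟨⟨t, ht, ht'⟩, ho⟩ := exists_prime_orderOf_dvd_card' p hT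
    rw [← Subgroup.orderOf_coe] at ho
    have ho' : orderOf t = p := ho
    have ht'' : β t = t := ht'
    have act : ∀ {h : Γ} {c : Φ → F}, (∀ r u, h * A.x r u * h⁻¹ = A.x r (c r * u)) →
        ∀ (m : ℕ) r u, h ^ m * A.x r u * (h ^ m)⁻¹ = A.x r (c r ^ m * u) := by
      intro h c hh m r u
      induction m with
      | zero => simp
      | succ m ih =>
        rw [pow_succ', show ∀ y, h * h ^ m * y * (h * h ^ m)⁻¹ = h * (h ^ m * y * (h ^ m)⁻¹) * h⁻¹ by
          intro; group, ih, hh, pow_succ', mul_assoc]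
    have triv : ∀ {h : Γ}, (∀ r u, h * A.x r u * h⁻¹ = A.x r u) → h = 1 := fun hh =>
      A.conj_inj (MulEquiv.toMonoidHom_injective (A.hom_ext fun r u => (hh r u).trans (by simp)))
    obtain ⟨χ, hχ⟩ := A.T_act t ht
    obtain ⟨r, hr⟩ : ∃ r, χ.ev (R.ρ r) ≠ 1 := by
      by_contra hcon
      push Not at hcon
      have := triv (h := t) fun r u => by rw [hχ, hcon]; simp
      rw [this, orderOf_one] at ho'
      exact hp.one_lt.ne ho'
    set c := χ.ev (R.ρ r) with hcdef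
    have hc1 : σ c = c := by
      have := congrArg β (hχ r 1)
      rw [map_mul, map_mul, map_inv, ht'', hβ, hβ, map_one, hχ] at this
      simpa using (A.x_injective r this).symm
    have hc2 : c ^ p = 1 := by
      have := act hχ p r 1
      rw [← ho', pow_orderOf_eq_one, ho'] at this
      simp only [one_mul, inv_one, mul_one] at this
      exact Units.ext (by simpa using (A.x_injective r this).symm)
    obtain ⟨h, -, e, hh⟩ := A.n_t i₀ c
    have hm : h ∈ A.HH β N := by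
      rw [← mul_inv_eq_iff_eq_mul.2 e]
      exact mul_mem (mul_mem (mul_mem (hxU _ _ hc1) (hi₀ _ (by simp [hc1]))) (hxU _ _ hc1))
        (inv_mem (hnJ _ hi₀))
    have h3 : h ^ p = 1 := triv fun r u => by
      rw [act hh, ← Units.val_pow_eq_pow_val, ← zpow_natCast, ← zpow_mul, mul_comm _ (p : ℤ), zpow_mul,
        zpow_natCast, hc2]
      simp
    have h4 : h ≠ 1 := by
      rintro rfl
      have := hh (R.sim i₀) 1
      have e2 : ∑ j, R.cart i₀ j * R.ρ (R.sim i₀) j = 2 := by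
        simp [R.ρ_sim, Pi.single_apply, R.cart_self]
      rw [e2] at this
      simp only [one_mul, inv_one, mul_one] at this
      have h5 : c ^ 2 = 1 := Units.ext (by simpa [zpow_ofNat] using (A.x_injective _ this).symm)
      refine hr (orderOf_eq_one_iff.1 (Nat.eq_one_of_dvd_coprimes
        ((Nat.coprime_primes hp Nat.prime_two).2 h2) (orderOf_dvd_of_pow_eq_one hc2)
        (orderOf_dvd_of_pow_eq_one h5)))
    exact hH (orderOf_eq_prime h3 h4 ▸ Subgroup.orderOf_dvd_natCard _ hm)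
  · push Not at h0
    have hU : ∀ ν ∈ N, ∀ z, ν z ∈ A.U ↔ z ∈ A.U := by
      intro ν hν z
      obtain ⟨k, δ, hδ, rfl⟩ := A.exists_std ν
      obtain ⟨w, a, ha, h, hh, u, hu, e⟩ := A.bruhat k
      have ha' : a ∈ A.U := US_mono (fun r hr => hr.1) ha
      have hw : A.nW w ∈ A.T := A.nW_T' w fun r hr => R.pos_inv_of_sim w
        (fun i => by_contra fun hi => h0 i (hJ hδ hν ⟨a, ha', h, hh, u, hu, e⟩ hi)) hr
      have hk : k ∈ A.B := e ▸ mul_mem (mul_mem (mul_mem (A.U_B ha') (A.T_B hw)) (A.T_B hh)) (A.U_B hu)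
      rw [MulAut.mul_apply, MulAut.conj_apply, ← Subgroup.mem_normalizer_iff.1 hk, hδ.U]
    have hS : ∀ ν ∈ N, A.Std ν := fun ν hν => hN.std_of_U hn hU hν
    refine eq_bot_iff.2 fun ν hν => ?_
    obtain ⟨π, θ, hf⟩ := (hS ν hν).form
    have hfix : ∀ r t, σ t = t → ν (A.x r t) = A.x r t := fun r t ht =>
      hN.fix_of_std hS hν ((em (R.pos r)).imp (fun h => A.x_U h t) fun h => A.x_Um h t)
        (by rw [hβ, ht])
    have hpow : ν ^ p = 1 := by
      refine MulEquiv.toMonoidHom_injective (A.hom_ext fun r u => ?_)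
      obtain ⟨c, f, h⟩ := hf.root r
      have h1 := (h 1).1
      rw [hfix r 1 (map_one σ)] at h1
      have h2 : r = θ r := A.X_eq (A.x_ne r) (A.x_mem r 1) (h1 ▸ A.x_mem _ _)
      rw [← h2] at h h1
      have h3 : (c : F) = 1 := by simpa using (A.x_injective r h1).symm
      have h4 : f ^ p = 1 := by
        have := pow_eq_one_of_fix σ f fun t ht => by
          have := (h t).1
          rw [hfix r t ht, h3, one_mul] at this
          exact (A.x_injective r this).symm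
        obtain ⟨m, hm⟩ := orderOf_dvd_of_pow_eq_one hσ
        rw [hm, pow_mul, this, one_pow]
      have h5 : ∀ m : ℕ, (ν ^ m) (A.x r u) = A.x r ((f ^ m) u) := fun m => by
        induction m with
        | zero => rfl
        | succ m ih => rw [pow_succ', MulAut.mul_apply, ih, (h _).1, h3, one_mul, pow_succ']; rfl
      exact (h5 p).trans (by rw [h4]; rfl)
    rw [Subgroup.mem_bot]
    by_contra hne
    exact hN.nd (orderOf_eq_prime hpow hne ▸ Subgroup.orderOf_dvd_natCard _ hν)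

end Chv
end Cfsg.Agent.Lib.Chev
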