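/- Assembly of the balance criterion for a certified Chevalley datum.  Owner: lead. -/
import Cfsg.Agent.Lib.Chev.Conc
import Cfsg.Agent.Lib.Chev.Lang
import Cfsg.Agent.Lib.Chev.Stein2
import Cfsg.Agent.Lib.Chev.Stein4f
import Cfsg.Agent.Lib.Core.Cores

set_option autoImplicit false
set_option linter.unusedSectionVars false
set_option maxHeartbeats 400000

namespace Cfsg.Agent.Lib.Chev
open Matrix Cfsg.Lie
open scoped MatrixGroups

theorem card_fix_conj {Γ : Type*} [Group Γ] (α β : MulAut Γ) :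
    Nat.card ((α * β * α⁻¹).toMonoidHom.eqLocus (MonoidHom.id Γ)) =
      Nat.card (β.toMonoidHom.eqLocus (MonoidHom.id Γ)) := by
  refine Nat.card_congr (Equiv.subtypeEquiv α.symm.toEquiv fun g => ?_)
  change α (β (α.symm g)) = g ↔ β (α.symm g) = α.symm g
  exact α.eq_symm_apply.symm

namespace Cert
variable {D : ChevalleyDatum} (K : Cert D) {F : Type*} [Field F] [Fintype F]

theorem conj_field (hs : K.Sgn) (hK : IsSimpleGroup (D.group F)) (hns : K.NonSing) {p : ℕ} (hp : p.Prime)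
    (a : K.Hat F) {σ : F ≃+* F} (hβ : (K.cj F a * K.fA σ) ^ p = 1) (hσ : σ ≠ 1) :
    σ ^ p = 1 ∧ ∃ α : MulAut (D.group F), α * (K.cj F a * K.fA σ) * α⁻¹ = K.fA σ := by
  let A := K.chv hs hK
  rw [cj_fA_pow] at hβ
  obtain ⟨k, χ, e⟩ := K.Hat_eq ⟨_, K.nrm_mem σ a.2 p⟩
  have h1 : MulAut.conj k⁻¹ = K.cj F (K.hH χ) * K.fA (σ ^ p) := by
    rw [e, map_mul, cj_gH, mul_assoc] at hβ
    rw [map_inv]; exact inv_eq_of_mul_eq_one_right hβ
  have h2 : ∀ (S : Set (Fin D.nroots)), ∀ y ∈ US A.X S, MulAut.conj k⁻¹ y ∈ US A.X S := fun S y hy => by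
    refine US_map (MulAut.conj k⁻¹).toMonoidHom (fun r hr z hz => ?_) hy
    obtain ⟨t, rfl⟩ := (A.mem_X r z).1 hz
    change MulAut.conj k⁻¹ (K.xG r t) ∈ _
    rw [h1, MulAut.mul_apply, fA_x, cj_hH]
    exact le_US hr (A.x_mem _ _)
  obtain ⟨ψ, hψ⟩ := inv_mem_iff.1 (A.mem_T (g := k⁻¹) ⟨iff_of_maps _ (h2 _), iff_of_maps _ (h2 _)⟩)
  have h3 : K.gH k * K.hH χ = K.hH (ψ * χ) := Subtype.ext (by
    change (k : GL D.Idx F) * K.h χ = K.h (ψ * χ)
    rw [map_mul, hψ]; rfl)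
  rw [e, h3] at hβ
  have h4 : ∀ r t, ((ψ * χ).ev (K.R.ρ r) : F) * (σ ^ p) t = t := fun r t => by
    have := DFunLike.congr_fun hβ (K.xG r t)
    rw [MulAut.mul_apply, fA_x, cj_hH] at this
    exact A.x_injective r this
  have h5 : ψ * χ = 1 := K.chr_ext fun r => Units.ext (by simpa using h4 r 1)
  have h6 : σ ^ p = 1 := RingEquiv.ext fun t => by simpa [h5] using h4 ⟨0, K.npos⟩ t
  haveI := Fact.mk hp
  have h7 : nrm σ (a : GL D.Idx F) (orderOf σ) = 1 := by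
    rw [orderOf_eq_prime h6 hσ]
    have := congrArg Subtype.val (e.trans h3)
    rw [h5] at this
    exact this.trans (map_one K.h)
  obtain ⟨b, hb, e2⟩ := K.lang hns σ a.2 h7
  refine ⟨h6, K.cj F ⟨b, hb⟩, ?_⟩
  have e3 : ⟨b, hb⟩ * a = K.fH σ ⟨b, hb⟩ := Subtype.ext (by
    change b * (a : GL D.Idx F) = _
    rw [e2, mul_inv_cancel_left]; rfl)
  rw [← mul_assoc, ← map_mul, e3, ← fA_cj, mul_inv_cancel_right]

theorem eq_diag_field (δ : MulAut (D.group F)) (c : Fin D.rank → Fˣ) (f : F ≃+* F)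
    (h : ∀ i t, δ (K.xG (K.R.sim i) t) = K.xG (K.R.sim i) (c i * f t) ∧
      δ (K.xG (K.R.neg (K.R.sim i)) t) = K.xG (K.R.neg (K.R.sim i)) (((c i)⁻¹ : Fˣ) * f t)) :
    δ = K.cj F (K.hH (Chr.mk c)) * K.fA f := by
  have h1 : ∀ i t, δ (K.xG (K.R.sim i) t) = (K.cj F (K.hH (Chr.mk c)) * K.fA f) (K.xG (K.R.sim i) t) :=
    fun i t => by rw [MulAut.mul_apply, fA_x, cj_hH, K.R.ρ_sim, Chr.ev_mk_single, (h i t).1]
  have h2 : ∀ i t, δ (K.xG (K.R.neg (K.R.sim i)) t) =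
      (K.cj F (K.hH (Chr.mk c)) * K.fA f) (K.xG (K.R.neg (K.R.sim i)) t) :=
    fun i t => by rw [MulAut.mul_apply, fA_x, cj_hH, K.R.ρ_neg, Chr.ev_neg, K.R.ρ_sim, Chr.ev_mk_single, (h i t).2]
  exact MulEquiv.toMonoidHom_injective (K.hom_ext _ _ h1 h2)

theorem balance (hs : K.Sgn) (hc : K.ChainOK) (hns : K.NonSing) (hcn : K.R.Conn)
    (hK : IsSimpleGroup (D.group F)) (𝒢 : Subgroup (MulAut (D.group F))) (hinn : ∀ k, MulAut.conj k ∈ 𝒢)
    {p : ℕ} [hp : Fact p.Prime] (hpr : (p : F) ≠ 0) (β : MulAut (D.group F)) (hord : orderOf β = p)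
    (hnot : ¬ D.IsInnerDiagonalAutOn (D.group F) β)
    (hgr : ∀ k δ π θ, (K.chv hs hK).Form δ π θ → π ≠ 1 → (MulAut.conj k * δ) ^ p = 1 →
      ∀ N, Chv.Bal (MulAut.conj k * δ) p N → N = ⊥) :
    pPrimeCore p ↥(𝒢 ⊓ Subgroup.centralizer {β}) ≠ ⊥ ↔
      ((∃ γ φ : MulAut (D.group F), D.IsInnerDiagonalAutOn (D.group F) γ ∧
          IsEntrywiseFieldAutOn (D.group F) φ ∧ β = φ.trans γ) ∧
        Nat.Coprime p (Nat.card (β.toMonoidHom.eqLocus (MonoidHom.id (D.group F))))) := by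
  let A := K.chv hs hK
  have hβ : β ^ p = 1 := hord ▸ pow_orderOf_eq_one β
  have hσ : ∀ a σ, β = K.cj F a * K.fA σ → σ ≠ 1 := by
    rintro a σ e rfl
    exact hnot ((K.innerDiag_iff hc β).2 ⟨a, by rw [e, fA_one, mul_one]⟩)
  have hC : ∀ g, β g = g → MulAut.conj g ∈ 𝒢 ⊓ Subgroup.centralizer {β} := fun g hg =>
    ⟨hinn g, Subgroup.mem_centralizer_singleton_iff.2 (by ext1 y; simp [hg])⟩
  constructor
  · intro h
    have hN : Chv.Bal β p (Core.OppOf p (𝒢 ⊓ Subgroup.centralizer {β})) := by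
      refine ⟨Core.OppOf_not_dvd _, ?_, ?_⟩
      · rintro _ ⟨ν, -, rfl⟩
        exact Subgroup.mem_centralizer_singleton_iff.1 ν.2.2
      · rintro g hg _ ⟨ν, hν, rfl⟩
        exact ⟨_, (inferInstance : (pPrimeCore p _).Normal).conj_mem ν hν ⟨_, hC g hg⟩, rfl⟩
    have hN' : Core.OppOf p (𝒢 ⊓ Subgroup.centralizer {β}) ≠ ⊥ := fun e =>
      h ((Subgroup.map_eq_bot_iff_of_injective _ (Subgroup.subtype_injective _)).1 e)
    obtain ⟨k, δ, hδ, rfl⟩ := A.exists_std β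
    obtain ⟨π, θ, hf⟩ := hδ.form
    by_cases hπ : π = 1
    swap
    · exact absurd (hgr k δ π θ hf hπ hβ _ hN) hN'
    subst hπ
    obtain ⟨c, f, hcf⟩ := hf.diag_field hcn
    have e1 : δ = K.cj F (K.hH (Chr.mk c)) * K.fA f := K.eq_diag_field δ c f hcf
    have e2 : MulAut.conj k * δ = K.cj F (K.gH k * K.hH (Chr.mk c)) * K.fA f := by
      rw [e1, map_mul, cj_gH, mul_assoc]
    refine ⟨⟨_, _, (K.innerDiag_iff hc _).2 ⟨_, rfl⟩, (K.entrywise_iff _).2 ⟨_, rfl⟩, e2⟩, ?_⟩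
    rw [hp.out.coprime_iff_not_dvd]
    intro hd
    obtain ⟨h6, α, hα⟩ := K.conj_field hs hK hns hp.out _ (e2 ▸ hβ) (hσ _ _ e2)
    rw [← e2] at hα
    refine hN' (hN.eq_bot_of_conj α fun N' h' => ?_)
    rw [← card_fix_conj α] at hd
    rw [hα] at hd h'
    exact A.field_case hcn f (K.fA_x f) hp.out hpr h6 hd h'
  · rintro ⟨⟨γ, φ, hγ, hφ, e⟩, hd⟩ h
    obtain ⟨a, rfl⟩ := (K.innerDiag_iff hc _).1 hγ
    obtain ⟨σ, rfl⟩ := (K.entrywise_iff _).1 hφ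
    replace e : β = K.cj F a * K.fA σ := e
    obtain ⟨-, α, hα⟩ := K.conj_field hs hK hns hp.out _ (e ▸ hβ) (hσ _ _ e)
    rw [← e] at hα
    let r : Fin D.nroots := ⟨0, K.npos⟩
    have h1 : β (α⁻¹ (K.xG r 1)) = α⁻¹ (K.xG r 1) := by
      have := DFunLike.congr_fun hα (K.xG r 1)
      rw [fA_x, map_one] at this
      exact α.injective (this.trans (α.apply_inv_self _ _).symm)
    let E := β.toMonoidHom.eqLocus (MonoidHom.id (D.group F))
    let C := 𝒢 ⊓ Subgroup.centralizer {β}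
    let M : Subgroup C := (E.map MulAut.conj).subgroupOf C
    have hle : E.map MulAut.conj ≤ C := by rintro _ ⟨g, hg, rfl⟩; exact hC g hg
    haveI : M.Normal := ⟨by
      rintro ⟨_, h0⟩ ⟨g, hg, rfl⟩ ν
      refine ⟨ν.1 g, ?_, ?_⟩
      · have := DFunLike.congr_fun (Subgroup.mem_centralizer_singleton_iff.1 ν.2.2) g
        simp only [MulAut.mul_apply] at this
        change β (ν.1 g) = ν.1 g
        rw [← this, show β g = g from hg]
      · ext1 y; simp⟩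
    have hM : M ≤ pPrimeCore p C := Core.le_pPrimeCore (by
      rw [Nat.card_congr (Subgroup.subgroupOfEquivOfLe hle).toEquiv,
        Subgroup.card_map_of_injective fun _ _ => A.conj_inj]
      exact hp.out.coprime_iff_not_dvd.1 hd)
    have h2 : (⟨_, hC _ h1⟩ : C) ∈ M := ⟨_, h1, rfl⟩
    have h2' := hM h2
    rw [show pPrimeCore p C = ⊥ from h, Subgroup.mem_bot] at h2'
    have h3 : MulAut.conj (α⁻¹ (K.xG r 1)) = 1 := congrArg Subtype.val h2'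
    have h4 : α⁻¹ (K.xG r 1) = 1 := A.conj_inj (h3.trans (map_one MulAut.conj).symm)
    exact A.x_ne r ((map_eq_one_iff _ α⁻¹.injective).1 h4)

end Cert
end Cfsg.Agent.Lib.Chev
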