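import Cfsg.Agent.Lib.Chev.DataB2

set_option autoImplicit false
set_option maxHeartbeats 4000000
set_option maxRecDepth 100000

namespace Cfsg.Agent.Lib.Chev
open Cfsg.Lie

theorem b2_link : b2Data.cLink chevB2 = true := by decide +kernel
theorem b2_hom : b2Data.cHom 8 2 = true := by decide +kernel
theorem b2_rs1 : b2Data.cRS1 8 2 = true := by decide +kernel
theorem b2_rs2 : b2Data.cRS2 8 2 = true := by decide +kernel
theorem b2_add : b2Data.cAdd 8 2 = true := by decide +kernel
theorem b2_neq : b2Data.cNeq 8 2 = true := by decide +kernel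
theorem b2_conj0 : b2Data.cConj 8 2 0 = true := by decide +kernel
theorem b2_conj1 : b2Data.cConj 8 2 1 = true := by decide +kernel
theorem b2_comm0 : b2Data.cComm 8 2 0 = true := by decide +kernel
theorem b2_comm1 : b2Data.cComm 8 2 1 = true := by decide +kernel

noncomputable def b2Cert : Cert chevB2 where
  C := b2Data
  npos := by decide
  link := b2_link
  hom := b2_hom
  rs1 := b2_rs1
  rs2 := b2_rs2
  add := b2_add
  neq := b2_neq
  conj := fun i hi => by
    have hi : i < 2 := hi
    interval_cases i
    exacts [b2_conj0, b2_conj1]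
  comm := fun i hi => by
    have hi : i < 2 := hi
    interval_cases i
    exacts [b2_comm0, b2_comm1]

end Cfsg.Agent.Lib.Chev
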