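import Cfsg.Agent.Lib.Chev.Root

set_option autoImplicit false
set_option maxHeartbeats 400000

namespace Cfsg.Agent.Lib.Chev

variable {Φ : Type} {l : ℕ}

/-- product-subgroup attached to a set of roots -/
def US {Γ : Type*} [Group Γ] (X : Φ → Subgroup Γ) (S : Set Φ) : Subgroup Γ := ⨆ r ∈ S, X r

section US
variable {Γ : Type*} [Group Γ] {X : Φ → Subgroup Γ}

lemma le_US {S : Set Φ} {r : Φ} (h : r ∈ S) : X r ≤ US X S := le_iSup₂ (f := fun r (_ : r ∈ S) => X r) r h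

lemma US_le {S : Set Φ} {K : Subgroup Γ} (h : ∀ r ∈ S, X r ≤ K) : US X S ≤ K := iSup₂_le h

lemma US_mono {S S' : Set Φ} (h : S ⊆ S') : US X S ≤ US X S' := US_le fun _ hr => le_US (h hr)

lemma US_map {Γ' : Type*} [Group Γ'] (f : Γ →* Γ') {S : Set Φ} {K : Subgroup Γ'}
    (h : ∀ r ∈ S, ∀ x ∈ X r, f x ∈ K) {g : Γ} (hg : g ∈ US X S) : f g ∈ K :=
  (US_le (K := K.comap f) (fun r hr x hx => h r hr x hx)) hg

lemma US_conj (a : Γ) {S : Set Φ} {K : Subgroup Γ}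
    (h : ∀ r ∈ S, ∀ x ∈ X r, a * x * a⁻¹ ∈ K) {g : Γ} (hg : g ∈ US X S) : a * g * a⁻¹ ∈ K :=
  US_map (MulAut.conj a).toMonoidHom h hg

lemma US_empty : US X (∅ : Set Φ) = ⊥ := by simp [US]

lemma US_induction {S : Set Φ} (P : Γ → Prop) (h1 : P 1)
    (h : ∀ r ∈ S, ∀ x ∈ X r, ∀ g, P g → P (x * g)) {g : Γ} (hg : g ∈ US X S) : P g := by
  let K : Subgroup Γ :=
    { carrier := {a | (∀ g, P g → P (a * g)) ∧ (∀ g, P g → P (a⁻¹ * g))}
      one_mem' := ⟨fun g hg => by simpa using hg, fun g hg => by simpa using hg⟩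
      mul_mem' := fun {a b} ha hb => ⟨fun g hg => by rw [mul_assoc]; exact ha.1 _ (hb.1 _ hg),
        fun g hg => by rw [mul_inv_rev, mul_assoc]; exact hb.2 _ (ha.2 _ hg)⟩
      inv_mem' := fun {a} ha => ⟨ha.2, by simpa using ha.1⟩ }
  have : US X S ≤ K := US_le fun r hr x hx => ⟨h r hr x hx, h r hr _ (inv_mem hx)⟩
  simpa using (this hg).1 1 h1

end US

/-- Root subgroups with the relations that survive folding. -/
structure Fold (R : RS Φ l) (Γ : Type*) [Group Γ] where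
  X : Φ → Subgroup Γ
  n : Fin l → Γ
  conj : ∀ i r, ∀ x ∈ X r, n i * x * (n i)⁻¹ ∈ X (R.refl i r)
  conj' : ∀ i r, ∀ x ∈ X r, (n i)⁻¹ * x * n i ∈ X (R.refl i r)
  comm : ∀ i s, R.pos s → s ≠ R.sim i → ∀ x ∈ X (R.sim i), ∀ y ∈ X s,
    x * y * x⁻¹ ∈ US X (R.cone (R.sim i) s)
  indep : ∀ i, ∀ x ∈ X (R.sim i), x ∈ US X (R.P' i) → x = 1

namespace Fold
variable {R : RS Φ l} {Γ : Type*} [Group Γ] (A : Fold R Γ)

def nW (w : List (Fin l)) : Γ := (w.map A.n).prod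

@[simp] lemma nW_nil : A.nW [] = 1 := rfl
@[simp] lemma nW_cons (i : Fin l) (w : List (Fin l)) : A.nW (i :: w) = A.n i * A.nW w := by
  simp [nW]

lemma nW_append (w w' : List (Fin l)) : A.nW (w ++ w') = A.nW w * A.nW w' := by simp [nW]

abbrev U : Subgroup Γ := US A.X {r | R.pos r}
abbrev Um : Subgroup Γ := US A.X {r | ¬ R.pos r}

lemma conjW (w : List (Fin l)) (r : Φ) {x : Γ} (hx : x ∈ A.X r) :
    (A.nW w)⁻¹ * x * A.nW w ∈ A.X (R.inv w r) := by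
  induction w generalizing r x with
  | nil => simpa using hx
  | cons i w ih =>
    have := ih (R.refl i r) (A.conj' i r x hx)
    simpa [mul_assoc] using this

lemma conjW' (w : List (Fin l)) (r : Φ) {x : Γ} (hx : x ∈ A.X (R.inv w r)) :
    A.nW w * x * (A.nW w)⁻¹ ∈ A.X r := by
  induction w generalizing r x with
  | nil => simpa using hx
  | cons i w ih =>
    have := A.conj i _ _ (ih (R.refl i r) hx)
    rw [R.refl_refl] at this
    simpa [mul_assoc] using this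

lemma normal {i : Fin l} {S : Set Φ} (hS : R.Closed i S) {x y : Γ} (hx : x ∈ A.X (R.sim i))
    (hy : y ∈ US A.X (S \ {R.sim i})) : x * y * x⁻¹ ∈ US A.X (S \ {R.sim i}) := by
  refine US_conj x (fun s hs y hy => ?_) hy
  refine US_mono (fun u hu => ?_) (A.comm i s (hS.1 s hs.1) hs.2 x hx y hy)
  exact ⟨hS.2 s hs.1 hs.2 hu, (R.cone_pos (hS.1 s hs.1) hs.2 hu).2⟩

lemma split {i : Fin l} {S : Set Φ} (hS : R.Closed i S) {g : Γ} (hg : g ∈ US A.X S) :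
    ∃ x ∈ A.X (R.sim i), ∃ u ∈ US A.X (S \ {R.sim i}), g = x * u := by
  refine US_induction (fun g => ∃ x ∈ A.X (R.sim i), ∃ u ∈ US A.X (S \ {R.sim i}), g = x * u)
    ⟨1, one_mem _, 1, one_mem _, by simp⟩ ?_ hg
  rintro r hr y hy _ ⟨x, hx, u, hu, rfl⟩
  by_cases h : r = R.sim i
  · subst h; exact ⟨y * x, mul_mem hy hx, u, hu, by group⟩
  · refine ⟨x, hx, x⁻¹ * y * x⁻¹⁻¹ * u,
      mul_mem (A.normal hS (inv_mem hx) (le_US (S := S \ {R.sim i}) ⟨hr, h⟩ hy)) hu, by group⟩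

lemma split' {i : Fin l} {S : Set Φ} (hS : R.Closed i S) {g : Γ} (hg : g ∈ US A.X S) :
    ∃ x ∈ A.X (R.sim i), ∃ u ∈ US A.X (S \ {R.sim i}), g = u * x := by
  obtain ⟨x, hx, u, hu, rfl⟩ := A.split hS hg
  exact ⟨x, hx, x * u * x⁻¹, A.normal hS hx hu, by group⟩

lemma P'_eq (i : Fin l) : {r | R.pos r} \ {R.sim i} = R.P' i := rfl

lemma conj_P' {i : Fin l} {u : Γ} (hu : u ∈ US A.X (R.P' i)) :
    A.n i * u * (A.n i)⁻¹ ∈ US A.X (R.P' i) :=
  US_conj _ (fun r hr x hx => le_US (S := R.P' i) (R.pos_refl hr.1 hr.2) (A.conj i r x hx)) hu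

lemma conj_P'' {i : Fin l} {u : Γ} (hu : u ∈ US A.X (R.P' i)) :
    (A.n i)⁻¹ * u * A.n i ∈ US A.X (R.P' i) := by
  have := US_conj (A.n i)⁻¹ (K := US A.X (R.P' i)) (fun r hr x hx =>
    le_US (S := R.P' i) (R.pos_refl hr.1 hr.2) (by simpa using A.conj' i r x hx)) hu
  simpa using this

lemma split_unique {i : Fin l} {x x' u u' : Γ} (hx : x ∈ A.X (R.sim i)) (hx' : x' ∈ A.X (R.sim i))
    (hu : u ∈ US A.X (R.P' i)) (hu' : u' ∈ US A.X (R.P' i)) (h : x * u = x' * u') :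
    x = x' ∧ u = u' := by
  have h1 : x'⁻¹ * x = u' * u⁻¹ := by
    rw [inv_mul_eq_iff_eq_mul, ← mul_assoc, ← h]; simp
  have h2 := A.indep i _ (mul_mem (inv_mem hx') hx) (h1 ▸ mul_mem hu' (inv_mem hu))
  have h3 : x = x' := (inv_mul_eq_one.1 h2).symm
  subst h3
  exact ⟨rfl, mul_left_cancel h⟩

variable [Finite Φ]

/-- `U = U_{Inv w} U_{NInv w}` -/
lemma factor (w : List (Fin l)) : ∀ g ∈ A.U, ∃ a ∈ US A.X (R.Inv w), ∃ b ∈ US A.X (R.NInv w), g = a * b := by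
  refine R.Inv_induction (fun w => ∀ g ∈ A.U, ∃ a ∈ US A.X (R.Inv w), ∃ b ∈ US A.X (R.NInv w),
    g = a * b) ?_ ?_ w
  · intro w hw g hg
    exact ⟨1, one_mem _, g, US_mono (S' := R.NInv w) (fun r hr => ⟨hr, hw r hr⟩) hg, by simp⟩
  · intro w i hi ih g hg
    obtain ⟨x, hx, u, hu, rfl⟩ := A.split (R.closed_pos i) hg
    rw [P'_eq] at hu
    have hu2 := A.conj_P'' hu
    obtain ⟨a, ha, b, hb, hab⟩ := ih _ (US_mono (fun r hr => hr.1) hu2)
    have hp := (R.pos_inv_cons_sim w i).2 hi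
    obtain ⟨y, hy, b', hb', rfl⟩ := A.split' (R.closed_NInv _ i hp) hb
    have haP : a ∈ US A.X (R.P' i) :=
      US_mono (S' := R.P' i) (fun r hr => ⟨hr.1, by rintro rfl; exact hr.2 hp⟩) ha
    have hbP : b' ∈ US A.X (R.P' i) := US_mono (S' := R.P' i) (fun r hr => ⟨hr.1.1, hr.2⟩) hb'
    have hy1 : y = 1 := by
      refine A.indep i y hy ?_
      have : y = (a * b')⁻¹ * ((A.n i)⁻¹ * u * A.n i) := by rw [hab]; group
      rw [this]
      exact mul_mem (inv_mem (mul_mem haP hbP)) hu2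
    subst hy1
    refine ⟨x * (A.n i * a * (A.n i)⁻¹), mul_mem (le_US (S := R.Inv w) ⟨R.pos_sim i, hi⟩ hx) ?_,
      A.n i * b' * (A.n i)⁻¹, ?_, ?_⟩
    · refine US_conj _ (fun r hr z hz => le_US (S := R.Inv w) ?_ (A.conj i r z hz)) ha
      have : R.refl i r ∈ R.refl i '' R.Inv (i :: w) := ⟨r, hr, rfl⟩
      rw [R.Inv_cons_image w i hi] at this
      exact this.1
    · refine US_conj _ (fun r hr z hz => le_US (S := R.NInv w) ?_ (A.conj i r z hz)) hb'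
      exact ⟨(R.pos_refl hr.1.1 hr.2).1, hr.1.2⟩
    · have : u = A.n i * (a * (b' * 1)) * (A.n i)⁻¹ := by rw [← hab]; group
      rw [this]; group

/-- peeling: a property of elements of `U_{Inv w}` that passes to the factors -/
lemma peel (P : Γ → Prop) (G₀ : Subgroup Γ) (hn : ∀ i, A.n i ∈ G₀)
    (hP : ∀ i, ∀ x ∈ A.X (R.sim i), ∀ u ∈ US A.X (R.P' i), P (x * u) →
      x ∈ G₀ ∧ P ((A.n i)⁻¹ * u * A.n i)) (w : List (Fin l)) :
    ∀ g ∈ US A.X (R.Inv w), P g → g ∈ G₀ := by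
  refine R.Inv_induction (fun w => ∀ g ∈ US A.X (R.Inv w), P g → g ∈ G₀) ?_ ?_ w
  · intro w hw g hg _
    have : R.Inv w = ∅ := Set.eq_empty_of_forall_notMem fun r hr => hr.2 (hw r hr.1)
    rw [this, US_empty, Subgroup.mem_bot] at hg
    rw [hg]; exact one_mem _
  · intro w i hi ih g hg hPg
    obtain ⟨x, hx, u, hu, rfl⟩ := A.split (R.closed_Inv w i hi) hg
    obtain ⟨h1, h2⟩ := hP i x hx u (US_mono (S' := R.P' i) (fun r hr => ⟨hr.1.1, hr.2⟩) hu) hPg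
    have h3 : (A.n i)⁻¹ * u * A.n i ∈ US A.X (R.Inv (i :: w)) := by
      have := US_conj (A.n i)⁻¹ (K := US A.X (R.Inv (i :: w))) (fun r hr z hz => ?_) hu
      · simpa using this
      · rw [← R.Inv_cons_image w i hi] at hr
        obtain ⟨s, hs, rfl⟩ := hr
        have := A.conj' i _ z hz
        rw [R.refl_refl] at this
        simpa using le_US (X := A.X) hs this
    have h4 := ih _ h3 h2
    have : u = A.n i * ((A.n i)⁻¹ * u * A.n i) * (A.n i)⁻¹ := by group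
    rw [this]
    exact mul_mem h1 (mul_mem (mul_mem (hn i) h4) (inv_mem (hn i)))

lemma peel_U (P : Γ → Prop) (G₀ : Subgroup Γ) (hn : ∀ i, A.n i ∈ G₀)
    (hP : ∀ i, ∀ x ∈ A.X (R.sim i), ∀ u ∈ US A.X (R.P' i), P (x * u) →
      x ∈ G₀ ∧ P ((A.n i)⁻¹ * u * A.n i)) : ∀ g ∈ A.U, P g → g ∈ G₀ := by
  obtain ⟨w, hw⟩ := R.exists_w0
  intro g hg
  exact A.peel P G₀ hn hP w g (US_mono (S' := R.Inv w) (fun r hr => ⟨hr, hw r hr⟩) hg)

omit [Finite Φ] in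
lemma conj_Inv {w : List (Fin l)} {a : Γ} (ha : a ∈ US A.X (R.Inv w)) :
    (A.nW w)⁻¹ * a * A.nW w ∈ A.Um := by
  have := US_conj (A.nW w)⁻¹ (K := A.Um) (fun r hr z hz =>
    le_US (S := {r | ¬ R.pos r}) hr.2 (by simpa using A.conjW w r hz)) ha
  simpa using this

omit [Finite Φ] in
lemma conj_NInv {w : List (Fin l)} {a : Γ} (ha : a ∈ US A.X (R.NInv w)) :
    (A.nW w)⁻¹ * a * A.nW w ∈ A.U := by
  have := US_conj (A.nW w)⁻¹ (K := A.U) (fun r hr z hz =>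
    le_US (S := {r | R.pos r}) hr.2 (by simpa using A.conjW w r hz)) ha
  simpa using this

omit [Finite Φ] in
lemma nW_mem {G₀ : Subgroup Γ} (hn : ∀ i, A.n i ∈ G₀) (w : List (Fin l)) : A.nW w ∈ G₀ := by
  induction w with
  | nil => exact one_mem _
  | cons i w ih => rw [nW_cons]; exact mul_mem (hn i) ih

end Fold

/-- Root subgroups with a torus: the Bruhat decomposition holds. -/
structure Full (R : RS Φ l) (Γ : Type*) [Group Γ] extends Fold R Γ where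
  T : Subgroup Γ
  T_conj : ∀ r, ∀ h ∈ T, ∀ x ∈ X r, h * x * h⁻¹ ∈ X r
  n_T : ∀ i, ∀ h ∈ T, (n i)⁻¹ * h * n i ∈ T
  n_inv : ∀ i, ∃ h ∈ T, (n i)⁻¹ = h * n i
  rank1 : ∀ i, ∀ x ∈ X (R.neg (R.sim i)), x = 1 ∨
    ∃ a ∈ X (R.sim i), ∃ b ∈ X (R.sim i), ∃ h ∈ T, x = a * h * n i * b
  ldu : ∀ v ∈ US X {r | ¬ R.pos r}, ∀ h ∈ T, ∀ u ∈ US X {r | R.pos r}, v = h * u → h = 1 ∧ u = 1

namespace Full
variable {R : RS Φ l} {Γ : Type*} [Group Γ] (A : Full R Γ)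

lemma T_U {h u : Γ} (hh : h ∈ A.T) (hu : u ∈ A.U) : h * u * h⁻¹ ∈ A.U :=
  US_conj _ (fun r hr x hx => le_US hr (A.T_conj r h hh x hx)) hu

lemma T_US {S : Set Φ} {h u : Γ} (hh : h ∈ A.T) (hu : u ∈ US A.X S) : h * u * h⁻¹ ∈ US A.X S :=
  US_conj _ (fun r hr x hx => le_US hr (A.T_conj r h hh x hx)) hu

lemma nW_T (w : List (Fin l)) {h : Γ} (hh : h ∈ A.T) : (A.nW w)⁻¹ * h * A.nW w ∈ A.T := by
  induction w generalizing h with
  | nil => simpa using hh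
  | cons i w ih => have := ih (A.n_T i h hh); simpa [mul_assoc] using this

def Cell (g : Γ) : Prop := ∃ w, ∃ a ∈ A.U, ∃ h ∈ A.T, ∃ u ∈ A.U, g = a * A.nW w * h * u

lemma Cell.one : A.Cell 1 := ⟨[], 1, one_mem _, 1, one_mem _, 1, one_mem _, by simp⟩

variable {A}
lemma Cell.U_mul {g x : Γ} (hx : x ∈ A.U) (hg : A.Cell g) : A.Cell (x * g) := by
  obtain ⟨w, a, ha, h, hh, u, hu, rfl⟩ := hg
  exact ⟨w, x * a, mul_mem hx ha, h, hh, u, hu, by group⟩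

lemma Cell.T_mul {g x : Γ} (hx : x ∈ A.T) (hg : A.Cell g) : A.Cell (x * g) := by
  obtain ⟨w, a, ha, h, hh, u, hu, rfl⟩ := hg
  exact ⟨w, x * a * x⁻¹, A.T_U hx ha, (A.nW w)⁻¹ * x * A.nW w * h, mul_mem (A.nW_T w hx) hh,
    u, hu, by group⟩

lemma Cell.aux {i : Fin l} {w : List (Fin l)} (hi : R.pos (R.inv w (R.sim i))) {x h u : Γ}
    (hx : x ∈ A.X (R.sim i)) (hh : h ∈ A.T) (hu : u ∈ A.U) :
    A.Cell (A.n i * (x * A.nW w * h * u)) := by
  have h1 : (A.nW w)⁻¹ * x * A.nW w ∈ A.U := le_US (S := {r | R.pos r}) hi (A.conjW w _ hx)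
  refine ⟨i :: w, 1, one_mem _, h, hh, h⁻¹ * ((A.nW w)⁻¹ * x * A.nW w) * h⁻¹⁻¹ * u,
    mul_mem (A.T_U (inv_mem hh) h1) hu, ?_⟩
  rw [Fold.nW_cons]; group

lemma Cell.n_mul (i : Fin l) {g : Γ} (hg : A.Cell g) : A.Cell (A.n i * g) := by
  obtain ⟨w, a, ha, h, hh, u, hu, rfl⟩ := hg
  obtain ⟨x, hx, a', ha', rfl⟩ := A.split' (R.closed_pos i) ha
  have h1 : A.n i * a' * (A.n i)⁻¹ ∈ A.U := US_mono (fun r hr => hr.1) (A.conj_P' ha')
  have : A.n i * (a' * x * A.nW w * h * u) =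
      (A.n i * a' * (A.n i)⁻¹) * (A.n i * (x * A.nW w * h * u)) := by group
  rw [this]
  refine Cell.U_mul h1 ?_
  by_cases hi : R.pos (R.inv w (R.sim i))
  · exact Cell.aux hi hx hh hu
  · have hy := A.conj i _ x hx
    rw [R.refl_sim] at hy
    rcases A.rank1 i _ hy with h2 | ⟨c, hc, d, hd, k, hk, h2⟩
    · refine ⟨i :: w, 1, one_mem _, h, hh, u, hu, ?_⟩
      have : A.n i * (x * A.nW w * h * u) = (A.n i * x * (A.n i)⁻¹) * A.n i * A.nW w * h * u := by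
        group
      rw [this, h2, Fold.nW_cons]; group
    · have : A.n i * (x * A.nW w * h * u) =
          c * (k * (A.n i * (d * A.nW (i :: w) * h * u))) := by
        have : A.n i * (x * A.nW w * h * u) =
          (A.n i * x * (A.n i)⁻¹) * A.n i * A.nW w * h * u := by group
        rw [this, h2, Fold.nW_cons]; group
      rw [this]
      exact Cell.U_mul (le_US (S := {r | R.pos r}) (R.pos_sim i) hc)
        (Cell.T_mul hk (Cell.aux ((R.pos_inv_cons_sim w i).2 hi) hd hh hu))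

lemma Cell.n_inv_mul (i : Fin l) {g : Γ} (hg : A.Cell g) : A.Cell ((A.n i)⁻¹ * g) := by
  obtain ⟨h, hh, h1⟩ := A.n_inv i
  rw [h1, mul_assoc]
  exact Cell.T_mul hh (hg.n_mul i)

lemma Cell.nW_mul (w : List (Fin l)) {g : Γ} (hg : A.Cell g) : A.Cell (A.nW w * g) := by
  induction w with
  | nil => simpa using hg
  | cons i w ih => rw [Fold.nW_cons, mul_assoc]; exact ih.n_mul i

lemma Cell.nW_inv_mul (w : List (Fin l)) {g : Γ} (hg : A.Cell g) : A.Cell ((A.nW w)⁻¹ * g) := by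
  induction w generalizing g with
  | nil => simpa using hg
  | cons i w ih => rw [Fold.nW_cons, mul_inv_rev, mul_assoc]; exact ih (hg.n_inv_mul i)

variable [Finite Φ]

lemma Cell.X_mul (r : Φ) {g x : Γ} (hx : x ∈ A.X r) (hg : A.Cell g) : A.Cell (x * g) := by
  obtain ⟨w, i, hw⟩ := R.exists_inv_eq_sim r
  have h1 := A.conjW w r hx
  rw [hw] at h1
  have : x * g = A.nW w * (((A.nW w)⁻¹ * x * A.nW w) * ((A.nW w)⁻¹ * g)) := by group
  rw [this]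
  exact Cell.nW_mul w (Cell.U_mul (le_US (S := {r | R.pos r}) (R.pos_sim i) h1) (hg.nW_inv_mul w))

variable (A)

/-- Bruhat decomposition in sharp form -/
theorem bruhat' {g : Γ} (hg : A.Cell g) :
    ∃ w, ∃ a ∈ US A.X (R.Inv w), ∃ h ∈ A.T, ∃ u ∈ A.U, g = a * A.nW w * h * u := by
  obtain ⟨w, a, ha, h, hh, u, hu, rfl⟩ := hg
  obtain ⟨b, hb, c, hc, rfl⟩ := A.factor w a ha
  exact ⟨w, b, hb, h, hh, h⁻¹ * ((A.nW w)⁻¹ * c * A.nW w) * h⁻¹⁻¹ * u,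
    mul_mem (A.T_U (inv_mem hh) (A.conj_NInv hc)) hu, by group⟩

theorem cell_of_mem {g : Γ} (hg : g ∈ US A.X Set.univ) : A.Cell g :=
  US_induction A.Cell (Cell.one A) (fun r _ _ hx _ hg => Cell.X_mul r hx hg) hg

theorem bruhat {g : Γ} (hg : g ∈ US A.X Set.univ) :
    ∃ w, ∃ a ∈ US A.X (R.Inv w), ∃ h ∈ A.T, ∃ u ∈ A.U, g = a * A.nW w * h * u :=
  A.bruhat' (A.cell_of_mem hg)

omit [Finite Φ] in
theorem ldu_unique {v v' h h' u u' : Γ} (hv : v ∈ A.Um) (hv' : v' ∈ A.Um) (hh : h ∈ A.T)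
    (hh' : h' ∈ A.T) (hu : u ∈ A.U) (hu' : u' ∈ A.U) (e : v * h * u = v' * h' * u') :
    v = v' ∧ h = h' ∧ u = u' := by
  have e1 : v'⁻¹ * v = (h' * h⁻¹) * (h * (u' * u⁻¹) * h⁻¹) := by
    have : v = v' * h' * u' * u⁻¹ * h⁻¹ := by rw [← e]; group
    rw [this]; group
  obtain ⟨h1, h2⟩ := A.ldu _ (mul_mem (inv_mem hv') hv) _ (mul_mem hh' (inv_mem hh)) _
    (A.T_U hh (mul_mem hu' (inv_mem hu))) e1
  rw [h1, h2, mul_one, inv_mul_eq_one] at e1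
  have h3 : h = h' := (mul_inv_eq_one.1 h1).symm
  subst h3 e1
  exact ⟨rfl, rfl, mul_left_cancel e⟩

/-- fixed points of an endomorphism preserving the root subgroups -/
theorem fixed (σ : Γ →* Γ) (hX : ∀ r, ∀ x ∈ A.X r, σ x ∈ A.X r) (hT : ∀ h ∈ A.T, σ h ∈ A.T)
    (hσn : ∀ i, σ (A.n i) = A.n i) (G₀ : Subgroup Γ) (hn : ∀ i, A.n i ∈ G₀)
    (h0X : ∀ i, ∀ x ∈ A.X (R.sim i), σ x = x → x ∈ G₀) (h0T : ∀ h ∈ A.T, σ h = h → h ∈ G₀)
    {g : Γ} (hg : g ∈ US A.X Set.univ) (hσ : σ g = g) : g ∈ G₀ := by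
  have hUS : ∀ S, ∀ u ∈ US A.X S, σ u ∈ US A.X S := fun S u hu =>
    US_map σ (fun r hr x hx => le_US hr (hX r x hx)) hu
  have hU : ∀ u ∈ A.U, σ u = u → u ∈ G₀ := by
    refine A.peel_U (fun g => σ g = g) G₀ hn fun i x hx u hu h => ?_
    rw [map_mul] at h
    obtain ⟨h1, h2⟩ := A.split_unique (hX _ x hx) hx (hUS _ u hu) hu h
    exact ⟨h0X i x hx h1, by simp [hσn, h2]⟩
  have hσW : ∀ w, σ (A.nW w) = A.nW w := by
    intro w
    induction w with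
    | nil => simp
    | cons i w ih => simp [hσn, ih]
  obtain ⟨w, a, ha, h, hh, u, hu, rfl⟩ := A.bruhat hg
  have hv := A.conj_Inv ha
  obtain ⟨e1, e2, e3⟩ := A.ldu_unique (hUS _ _ hv) hv (hT h hh) hh (hUS _ u hu) hu (by
    simp only [map_mul, map_inv, hσW] at hσ ⊢
    calc _ = (A.nW w)⁻¹ * (σ a * A.nW w * σ h * σ u) := by group
      _ = _ := by rw [hσ]; group)
  have e4 : σ a = a := by simpa [hσW] using e1
  exact mul_mem (mul_mem (mul_mem (hU a (US_mono (fun r hr => hr.1) ha) e4) (A.nW_mem hn w))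
    (h0T h hh e2)) (hU u hu e3)

end Full
end Cfsg.Agent.Lib.Chev
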