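import Cfsg.Agent.Lib.Chev.Sparse
import Cfsg.Agent.Lib.Chev.Bruhat
import Cfsg.Prelude.Def_ChevAutomorphisms

set_option autoImplicit false
set_option maxHeartbeats 400000

namespace Cfsg.Agent.Lib.Chev
open Matrix Cfsg.Lie

noncomputable section

structure RD where
  r : ℕ
  row : ℕ
  ng : ℕ
  negc : Col
  car : ℕ

def forceRD (d : RD) (k : RD → Bool) : Bool := RD.rec (fun a b c d e => k ⟨a, b, c, d, e⟩) d
@[simp] lemma forceRD_eq (d : RD) (k : RD → Bool) : forceRD d k = k d := rfl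

def forceN (z : ℕ) (k : ℕ → Bool) : Bool := Nat.rec (k 0) (fun m _ => k (Nat.succ m)) z
@[simp] lemma forceN_eq (z : ℕ) (k : ℕ → Bool) : forceN z k = k z := by cases z <;> rfl

def dec1 (z k : ℕ) (rest : Col) : Col :=
  Bool.rec ((Nat.div z 8, Int.subNatNat (Nat.mod z 8) 4, k) :: rest) [] (Nat.beq z 0)

def dec' (z : ℕ) : Col :=
  dec1 (Nat.mod z 4096) 1 (dec1 (Nat.mod (Nat.div z 4096) 4096) 2 (dec1 (Nat.div z 16777216) 3 []))

def dec (z : ℕ) : Col := Nat.rec [] (fun m _ => dec' (Nat.succ m)) z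

def fld (w row b : ℕ) : ℕ := Nat.mod (Nat.shiftRight row (Nat.mul w b)) (Nat.pow 2 w)

def fld36 (row b : ℕ) : ℕ := Nat.mod (Nat.shiftRight row (Nat.mul 36 b)) 68719476736
def fld12 (row b : ℕ) : ℕ := Nat.mod (Nat.shiftRight row (Nat.mul 12 b)) 4096
def fld4 (row b : ℕ) : ℕ := Nat.mod (Nat.shiftRight row (Nat.mul 4 b)) 16

def carc (d : RD) (i : ℕ) : Col :=
  Bool.rec [(d.r, Int.subNatNat (fld4 d.car i) 8, 1)] [] (Nat.beq (fld4 d.car i) 8)

def nilF (n nl : ℕ) (d : RD) (b : ℕ) : Col :=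
  Bool.rec (Bool.rec (dec (fld36 d.row b)) d.negc (Nat.beq b d.ng))
    (Bool.rec (carc d (Nat.sub b n)) [] (Nat.ble nl b)) (Nat.ble n b)

lemma nilF_eq (n nl : ℕ) (d : RD) (b : ℕ) : nilF n nl d b =
    if b < n then (if b = d.ng then d.negc else dec (fld36 d.row b))
    else if b < nl then carc d (b - n) else [] := by
  unfold nilF
  by_cases h1 : b < n
  · have : Nat.ble n b = false := by rw [← Bool.not_eq_true, Nat.ble_eq]; omega
    rw [this, if_pos h1]
    by_cases h2 : b = d.ng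
    · rw [if_pos h2, h2, Nat.beq_refl]
    · have : Nat.beq b d.ng = false := by rw [← Bool.not_eq_true, Nat.beq_eq]; exact h2
      rw [this, if_neg h2]
  · have : Nat.ble n b = true := by rw [Nat.ble_eq]; omega
    rw [this, if_neg h1]
    by_cases h2 : b < nl
    · have : Nat.ble nl b = false := by rw [← Bool.not_eq_true, Nat.ble_eq]; omega
      rw [this, if_pos h2]; rfl
    · have : Nat.ble nl b = true := by rw [Nat.ble_eq]; omega
      rw [this, if_neg h2]

def sgn (f : ℕ) : ℤ := Bool.rec (Int.negSucc 0) (Int.ofNat 1) (Nat.beq (Nat.mod f 2) 0)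

lemma sgn_cases (f : ℕ) : sgn f = 1 ∨ sgn f = -1 := by
  unfold sgn; cases Nat.beq (Nat.mod f 2) 0
  · right; rfl
  · left; rfl

def colN (n nl i ntr car : ℕ) (b : ℕ) : Col :=
  Bool.rec [(Nat.div (fld12 ntr b) 2, sgn (fld12 ntr b), 0)]
    (Bool.rec [(b, Int.ofNat 1, 0), (Nat.add n i, Int.subNatNat (fld4 car (Nat.sub b n)) 8, 0)] []
      (Nat.ble nl b)) (Nat.ble n b)

lemma colN_eq (n nl i ntr car b : ℕ) : colN n nl i ntr car b =
    if b < n then [(fld12 ntr b / 2, sgn (fld12 ntr b), 0)]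
    else if b < nl then [(b, 1, 0), (n + i, Int.subNatNat (fld4 car (b - n)) 8, 0)] else [] := by
  unfold colN
  by_cases h1 : b < n
  · have : Nat.ble n b = false := by rw [← Bool.not_eq_true, Nat.ble_eq]; omega
    rw [this, if_pos h1]; rfl
  · have : Nat.ble n b = true := by rw [Nat.ble_eq]; omega
    rw [this, if_neg h1]
    by_cases h2 : b < nl
    · have : Nat.ble nl b = false := by rw [← Bool.not_eq_true, Nat.ble_eq]; omega
      rw [this, if_pos h2]; rfl
    · have : Nat.ble nl b = true := by rw [Nat.ble_eq]; omega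
      rw [this, if_neg h2]

structure Data where
  rds : List RD
  rt : ℕ
  sims : List ℕ
  nt : List ℕ
  cw : List (List Vec)

namespace Data
variable (C : Data) (n l : ℕ)

def rd (r : ℕ) : RD := C.rds.getD r ⟨0, 0, 0, [], 0⟩
def nil (r : ℕ) : ℕ → Col := nilF n (n + l) (C.rd r)
def rho (r i : ℕ) : ℕ := fld4 C.rt (Nat.add (Nat.mul l r) i)
def wtN (b i : ℕ) : ℕ := Bool.rec (C.rho l b i) 8 (Nat.ble n b)
def sim (i : ℕ) : ℕ := C.sims.getD i 0
def ntr (i : ℕ) : ℕ := C.nt.getD i 0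
def rf (i r : ℕ) : ℕ := fld12 (C.ntr i) r / 2
def eta (i r : ℕ) : ℤ := sgn (fld12 (C.ntr i) r)
def cN (i : ℕ) : ℕ → Col := colN n (n + l) i (C.ntr i) (C.rd (C.sim i)).car
def cart (i j : ℕ) : ℤ := 8 - (fld4 (C.rd (C.sim j)).car i : ℤ)
def word (i s : ℕ) : Vec := (C.cw.getD i []).getD s []
def posB (r : ℕ) : Bool := nall (fun i => Nat.ble 8 (C.rho l r i)) l
def negB (r : ℕ) : Bool := nall (fun i => Nat.ble (C.rho l r i) 8) l
def code (r : ℕ) : ℕ := Nat.rec 0 (fun i ih => 16 * ih + C.rho l r i) l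
def pair (i r : ℕ) : ℤ := ((List.range l).map fun j => C.cart i j * ((C.rho l r j : ℤ) - 8)).sum

def cHom : Bool := nall (fun r => forceRD (C.rd r) fun d => nall (fun b =>
  lall (fun e => band (Nat.ble 1 e.2.2) (nall (fun i =>
    Nat.beq (C.wtN n l e.1 i + 8 * e.2.2) (C.wtN n l b i + e.2.2 * C.rho l r i)) l))
    (nilF n (n + l) d b)) (n + l)) n

def cRS1 : Bool := nall (fun r => band (Nat.blt (C.rd r).ng n) (band
  (nall (fun i => Nat.beq (C.rho l (C.rd r).ng i + C.rho l r i) 16) l) (band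
  (C.posB l r || C.negB l r) (band (!(C.posB l r && C.negB l r))
  (Nat.ble n (r + 1) || Nat.blt (C.code l r) (C.code l (r + 1))))))) n

def cRS2 : Bool := nall (fun i => band (Nat.blt (C.sim i) n) (band
  (nall (fun j => Nat.beq (C.rho l (C.sim i) j) (if j = i then 9 else 8)) l) (band
  (decide (C.cart i i = 2)) (nall (fun r => band (Nat.blt (C.rf i r) n) (band
    (nall (fun j => decide ((C.rho l (C.rf i r) j : ℤ) = C.rho l r j - if j = i then C.pair l i r else 0)) l)
    (!(C.posB l r) || Nat.beq r (C.sim i) || C.posB l (C.rf i r)))) n)))) l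

def cAdd : Bool := nall (fun r => forceRD (C.rd r) fun d => nall (fun b =>
  eqv (appU (nilF n (n + l) d) 1 1 0 (appU (nilF n (n + l) d) 1 0 1 (e0 b)))
    (e0 b ++ expand (nilF n (n + l) d b))) (n + l)) n

def cNeq : Bool := nall (fun i => forceRD (C.rd (C.sim i)) fun d => forceRD (C.rd d.ng) fun d' =>
  nall (fun b => eqv (appM (C.cN n l i) 1 0 0 (e0 b))
    (appU (nilF n (n + l) d) 1 0 0 (appU (nilF n (n + l) d') (-1) 0 0
      (appU (nilF n (n + l) d) 1 0 0 (e0 b))))) (n + l)) l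

def cConj (i : ℕ) : Bool := forceN (n + l) fun nl => forceN (C.ntr i) fun ntr =>
  forceN (C.rd (C.sim i)).car fun car => nall (fun s => forceRD (C.rd s) fun d =>
    forceRD (C.rd (C.rf i s)) fun d' => nall (fun b =>
      eqv (appM (colN n nl i ntr car) (Int.ofNat 1) 0 0 (appM (nilF n nl d) (Int.ofNat 1) 1 0 (e0 b)))
        (appM (nilF n nl d') (C.eta i s) 1 0 (appM (colN n nl i ntr car) (Int.ofNat 1) 0 0 (e0 b)))) nl) n

def appW (nl : ℕ) (w : Vec) (v : Vec) : Vec :=
  lf (fun e acc => appU (nilF n nl (C.rd e.1)) e.2.1 e.2.2.1 e.2.2.2 acc) v w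

def cComm (i : ℕ) : Bool := forceN (n + l) fun nl => forceRD (C.rd (C.sim i)) fun d =>
  nall (fun s => Bool.rec (forceRD (C.rd s) fun d' =>
    band (lall (fun e => band (Nat.blt e.1 n) (band (Nat.ble 1 e.2.2.2) (nall (fun j =>
      Nat.beq (C.rho l e.1 j + 8 * (e.2.2.1 + e.2.2.2))
        (8 + e.2.2.1 * C.rho l (C.sim i) j + e.2.2.2 * C.rho l s j)) l))) (C.word i s))
    (nall (fun b => eqv (appU (nilF n nl d) (Int.ofNat 1) 1 0 (appU (nilF n nl d') (Int.ofNat 1) 0 1 (e0 b)))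
      (C.appW n nl (C.word i s) (appU (nilF n nl d) (Int.ofNat 1) 1 0 (e0 b)))) nl)) true
    (!(C.posB l s) || Nat.beq s (C.sim i))) n

variable (D : ChevalleyDatum)

def negcS (r : ℕ) : Col :=
  (r, -1, 2) :: (List.range D.rank).map fun i => (D.nroots + i, (D.coroot.getD r #[]).getD i 0, 1)

def chainL (r : ℕ) : List (ℕ × Col) :=
  (D.chain.getD r #[]).toList.map fun e => (e.1, e.2.toList.zipIdx.map fun q => (q.1.1, q.1.2, q.2 + 1))

def cLink : Bool := band (nall (fun r => forceRD (C.rd r) fun d => band (Nat.beq d.r r) (band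
  (Nat.beq d.ng (D.negIdx.getD r 0)) (band (!(Nat.beq d.ng r)) (band (decide (d.negc = negcS D r)) (band
  (nall (fun i => decide (Int.subNatNat (fld4 d.car i) 8 = - (D.cartanSR.getD i #[]).getD r 0)) D.rank)
  (band (Nat.beq (fld36 d.row r) 0) (band
  (nall (fun s => lall (fun e => Nat.blt e.1 D.nroots) (dec (fld36 d.row s))) D.nroots)
  (decide (chainL D r = (List.range D.nroots).filterMap fun s =>
    if fld36 d.row s = 0 then none else some (s, dec (fld36 d.row s))))))))))) D.nroots)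
  (nall (fun i => band (Nat.beq (C.sim i) (D.simpleIdx.getD i 0))
    (decide ((D.coroot.getD (C.sim i) #[]).getD i 0 = 1))) D.rank)

end Data

structure Cert (D : ChevalleyDatum) where
  C : Data
  npos : 0 < D.nroots
  link : C.cLink D = true
  hom : C.cHom D.nroots D.rank = true
  rs1 : C.cRS1 D.nroots D.rank = true
  rs2 : C.cRS2 D.nroots D.rank = true
  add : C.cAdd D.nroots D.rank = true
  neq : C.cNeq D.nroots D.rank = true
  conj : ∀ i < D.rank, C.cConj D.nroots D.rank i = true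
  comm : ∀ i < D.rank, C.cComm D.nroots D.rank i = true

end
end Cfsg.Agent.Lib.Chev
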