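import Cfsg.Agent.Lib.Chev.DataD4

set_option autoImplicit false
set_option maxHeartbeats 4000000
set_option maxRecDepth 100000

namespace Cfsg.Agent.Lib.Chev
open Cfsg.Lie

theorem d4_link : d4Data.cLink chevD4 = true := by decide +kernel
theorem d4_hom : d4Data.cHom 24 4 = true := by decide +kernel
theorem d4_rs1 : d4Data.cRS1 24 4 = true := by decide +kernel
theorem d4_rs2 : d4Data.cRS2 24 4 = true := by decide +kernel
theorem d4_add : d4Data.cAdd 24 4 = true := by decide +kernel
theorem d4_neq : d4Data.cNeq 24 4 = true := by decide +kernel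
theorem d4_conj0 : d4Data.cConj 24 4 0 = true := by decide +kernel
theorem d4_conj1 : d4Data.cConj 24 4 1 = true := by decide +kernel
theorem d4_conj2 : d4Data.cConj 24 4 2 = true := by decide +kernel
theorem d4_conj3 : d4Data.cConj 24 4 3 = true := by decide +kernel
theorem d4_comm0 : d4Data.cComm 24 4 0 = true := by decide +kernel
theorem d4_comm1 : d4Data.cComm 24 4 1 = true := by decide +kernel
theorem d4_comm2 : d4Data.cComm 24 4 2 = true := by decide +kernel
theorem d4_comm3 : d4Data.cComm 24 4 3 = true := by decide +kernel

noncomputable def d4Cert : Cert chevD4 where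
  C := d4Data
  npos := by decide
  link := d4_link
  hom := d4_hom
  rs1 := d4_rs1
  rs2 := d4_rs2
  add := d4_add
  neq := d4_neq
  conj := fun i hi => by
    have hi : i < 4 := hi
    interval_cases i
    exacts [d4_conj0, d4_conj1, d4_conj2, d4_conj3]
  comm := fun i hi => by
    have hi : i < 4 := hi
    interval_cases i
    exacts [d4_comm0, d4_comm1, d4_comm2, d4_comm3]

end Cfsg.Agent.Lib.Chev
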