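import Cfsg.Agent.Lib.Chev.DataE6

set_option autoImplicit false
set_option maxHeartbeats 4000000
set_option maxRecDepth 100000

namespace Cfsg.Agent.Lib.Chev
open Cfsg.Lie

theorem e6_link : e6Data.cLink chevE6 = true := by decide +kernel
theorem e6_hom : e6Data.cHom 72 6 = true := by decide +kernel
theorem e6_rs1 : e6Data.cRS1 72 6 = true := by decide +kernel
theorem e6_rs2 : e6Data.cRS2 72 6 = true := by decide +kernel
theorem e6_add : e6Data.cAdd 72 6 = true := by decide +kernel
theorem e6_neq : e6Data.cNeq 72 6 = true := by decide +kernel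
theorem e6_conj0 : e6Data.cConj 72 6 0 = true := by decide +kernel
theorem e6_conj1 : e6Data.cConj 72 6 1 = true := by decide +kernel
theorem e6_conj2 : e6Data.cConj 72 6 2 = true := by decide +kernel
theorem e6_conj3 : e6Data.cConj 72 6 3 = true := by decide +kernel
theorem e6_conj4 : e6Data.cConj 72 6 4 = true := by decide +kernel
theorem e6_conj5 : e6Data.cConj 72 6 5 = true := by decide +kernel
theorem e6_comm0 : e6Data.cComm 72 6 0 = true := by decide +kernel
theorem e6_comm1 : e6Data.cComm 72 6 1 = true := by decide +kernel
theorem e6_comm2 : e6Data.cComm 72 6 2 = true := by decide +kernel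
theorem e6_comm3 : e6Data.cComm 72 6 3 = true := by decide +kernel
theorem e6_comm4 : e6Data.cComm 72 6 4 = true := by decide +kernel
theorem e6_comm5 : e6Data.cComm 72 6 5 = true := by decide +kernel

noncomputable def e6Cert : Cert chevE6 where
  C := e6Data
  npos := by decide
  link := e6_link
  hom := e6_hom
  rs1 := e6_rs1
  rs2 := e6_rs2
  add := e6_add
  neq := e6_neq
  conj := fun i hi => by
    have hi : i < 6 := hi
    interval_cases i
    exacts [e6_conj0, e6_conj1, e6_conj2, e6_conj3, e6_conj4, e6_conj5]
  comm := fun i hi => by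
    have hi : i < 6 := hi
    interval_cases i
    exacts [e6_comm0, e6_comm1, e6_comm2, e6_comm3, e6_comm4, e6_comm5]

end Cfsg.Agent.Lib.Chev
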