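import Cfsg.Agent.Lib.Chev.DataE7

set_option autoImplicit false
set_option maxHeartbeats 4000000
set_option maxRecDepth 100000

namespace Cfsg.Agent.Lib.Chev
open Cfsg.Lie

theorem e7_comm0 : e7Data.cComm 126 7 0 = true := by decide +kernel
theorem e7_comm1 : e7Data.cComm 126 7 1 = true := by decide +kernel
theorem e7_comm2 : e7Data.cComm 126 7 2 = true := by decide +kernel
theorem e7_comm3 : e7Data.cComm 126 7 3 = true := by decide +kernel
theorem e7_comm4 : e7Data.cComm 126 7 4 = true := by decide +kernel
theorem e7_comm5 : e7Data.cComm 126 7 5 = true := by decide +kernel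
theorem e7_comm6 : e7Data.cComm 126 7 6 = true := by decide +kernel

end Cfsg.Agent.Lib.Chev
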