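import Cfsg.Agent.Lib.Chev.E7a
import Cfsg.Agent.Lib.Chev.E7b
import Cfsg.Agent.Lib.Chev.E7c

set_option autoImplicit false
set_option maxHeartbeats 4000000
set_option maxRecDepth 100000

namespace Cfsg.Agent.Lib.Chev
open Cfsg.Lie

noncomputable def e7Cert : Cert chevE7 where
  C := e7Data
  npos := by decide
  link := e7_link
  hom := e7_hom
  rs1 := e7_rs1
  rs2 := e7_rs2
  add := e7_add
  neq := e7_neq
  conj := fun i hi => by
    have hi : i < 7 := hi
    interval_cases i
    exacts [e7_conj0, e7_conj1, e7_conj2, e7_conj3, e7_conj4, e7_conj5, e7_conj6]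
  comm := fun i hi => by
    have hi : i < 7 := hi
    interval_cases i
    exacts [e7_comm0, e7_comm1, e7_comm2, e7_comm3, e7_comm4, e7_comm5, e7_comm6]

end Cfsg.Agent.Lib.Chev
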