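import Cfsg.Agent.Lib.Chev.DataE8

set_option autoImplicit false
set_option maxHeartbeats 4000000
set_option maxRecDepth 100000

namespace Cfsg.Agent.Lib.Chev
open Cfsg.Lie

theorem e8_comm0 : e8Data.cComm 240 8 0 = true := by decide +kernel
theorem e8_comm1 : e8Data.cComm 240 8 1 = true := by decide +kernel
theorem e8_comm2 : e8Data.cComm 240 8 2 = true := by decide +kernel
theorem e8_comm3 : e8Data.cComm 240 8 3 = true := by decide +kernel
theorem e8_comm4 : e8Data.cComm 240 8 4 = true := by decide +kernel
theorem e8_comm5 : e8Data.cComm 240 8 5 = true := by decide +kernel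
theorem e8_comm6 : e8Data.cComm 240 8 6 = true := by decide +kernel
theorem e8_comm7 : e8Data.cComm 240 8 7 = true := by decide +kernel

end Cfsg.Agent.Lib.Chev
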