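import Cfsg.Agent.Lib.Chev.E8a
import Cfsg.Agent.Lib.Chev.E8b
import Cfsg.Agent.Lib.Chev.E8c

set_option autoImplicit false
set_option maxHeartbeats 4000000
set_option maxRecDepth 100000

namespace Cfsg.Agent.Lib.Chev
open Cfsg.Lie

noncomputable def e8Cert : Cert chevE8 where
  C := e8Data
  npos := by decide
  link := e8_link
  hom := e8_hom
  rs1 := e8_rs1
  rs2 := e8_rs2
  add := e8_add
  neq := e8_neq
  conj := fun i hi => by
    have hi : i < 8 := hi
    interval_cases i
    exacts [e8_conj0, e8_conj1, e8_conj2, e8_conj3, e8_conj4, e8_conj5, e8_conj6, e8_conj7]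
  comm := fun i hi => by
    have hi : i < 8 := hi
    interval_cases i
    exacts [e8_comm0, e8_comm1, e8_comm2, e8_comm3, e8_comm4, e8_comm5, e8_comm6, e8_comm7]

end Cfsg.Agent.Lib.Chev
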