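import Cfsg.Agent.Lib.Chev.DataF4

set_option autoImplicit false
set_option maxHeartbeats 4000000
set_option maxRecDepth 100000

namespace Cfsg.Agent.Lib.Chev
open Cfsg.Lie

theorem f4_link : f4Data.cLink chevF4 = true := by decide +kernel
theorem f4_hom : f4Data.cHom 48 4 = true := by decide +kernel
theorem f4_rs1 : f4Data.cRS1 48 4 = true := by decide +kernel
theorem f4_rs2 : f4Data.cRS2 48 4 = true := by decide +kernel
theorem f4_add : f4Data.cAdd 48 4 = true := by decide +kernel
theorem f4_neq : f4Data.cNeq 48 4 = true := by decide +kernel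
theorem f4_conj0 : f4Data.cConj 48 4 0 = true := by decide +kernel
theorem f4_conj1 : f4Data.cConj 48 4 1 = true := by decide +kernel
theorem f4_conj2 : f4Data.cConj 48 4 2 = true := by decide +kernel
theorem f4_conj3 : f4Data.cConj 48 4 3 = true := by decide +kernel
theorem f4_comm0 : f4Data.cComm 48 4 0 = true := by decide +kernel
theorem f4_comm1 : f4Data.cComm 48 4 1 = true := by decide +kernel
theorem f4_comm2 : f4Data.cComm 48 4 2 = true := by decide +kernel
theorem f4_comm3 : f4Data.cComm 48 4 3 = true := by decide +kernel

noncomputable def f4Cert : Cert chevF4 where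
  C := f4Data
  npos := by decide
  link := f4_link
  hom := f4_hom
  rs1 := f4_rs1
  rs2 := f4_rs2
  add := f4_add
  neq := f4_neq
  conj := fun i hi => by
    have hi : i < 4 := hi
    interval_cases i
    exacts [f4_conj0, f4_conj1, f4_conj2, f4_conj3]
  comm := fun i hi => by
    have hi : i < 4 := hi
    interval_cases i
    exacts [f4_comm0, f4_comm1, f4_comm2, f4_comm3]

end Cfsg.Agent.Lib.Chev
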