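import Cfsg.Agent.Lib.Chev.DataG2

set_option autoImplicit false
set_option maxHeartbeats 4000000
set_option maxRecDepth 100000

namespace Cfsg.Agent.Lib.Chev
open Cfsg.Lie

theorem g2_link : g2Data.cLink chevG2 = true := by decide +kernel
theorem g2_hom : g2Data.cHom 12 2 = true := by decide +kernel
theorem g2_rs1 : g2Data.cRS1 12 2 = true := by decide +kernel
theorem g2_rs2 : g2Data.cRS2 12 2 = true := by decide +kernel
theorem g2_add : g2Data.cAdd 12 2 = true := by decide +kernel
theorem g2_neq : g2Data.cNeq 12 2 = true := by decide +kernel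
theorem g2_conj0 : g2Data.cConj 12 2 0 = true := by decide +kernel
theorem g2_conj1 : g2Data.cConj 12 2 1 = true := by decide +kernel
theorem g2_comm0 : g2Data.cComm 12 2 0 = true := by decide +kernel
theorem g2_comm1 : g2Data.cComm 12 2 1 = true := by decide +kernel

noncomputable def g2Cert : Cert chevG2 where
  C := g2Data
  npos := by decide
  link := g2_link
  hom := g2_hom
  rs1 := g2_rs1
  rs2 := g2_rs2
  add := g2_add
  neq := g2_neq
  conj := fun i hi => by
    have hi : i < 2 := hi
    interval_cases i
    exacts [g2_conj0, g2_conj1]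
  comm := fun i hi => by
    have hi : i < 2 := hi
    interval_cases i
    exacts [g2_comm0, g2_comm1]

end Cfsg.Agent.Lib.Chev
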