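/- Sign and chain facts for the seven certified Chevalley data.  Owner: lead. -/
import Cfsg.Agent.Lib.Chev.Conc
import Cfsg.Agent.Lib.Chev.G2
import Cfsg.Agent.Lib.Chev.B2
import Cfsg.Agent.Lib.Chev.D4
import Cfsg.Agent.Lib.Chev.F4
import Cfsg.Agent.Lib.Chev.E6
import Cfsg.Agent.Lib.Chev.E7
import Cfsg.Agent.Lib.Chev.E8

set_option autoImplicit false
set_option maxRecDepth 100000
set_option maxHeartbeats 4000000

namespace Cfsg.Agent.Lib.Chev

theorem g2_sgn : g2Cert.Sgn := ⟨by unfold Cert.EtaOK; decide +kernel, by decide +kernel⟩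
theorem g2_chain : g2Cert.ChainOK := ⟨by decide +kernel, by decide +kernel⟩
theorem b2_sgn : b2Cert.Sgn := ⟨by unfold Cert.EtaOK; decide +kernel, by decide +kernel⟩
theorem b2_chain : b2Cert.ChainOK := ⟨by decide +kernel, by decide +kernel⟩
theorem d4_sgn : d4Cert.Sgn := ⟨by unfold Cert.EtaOK; decide +kernel, by decide +kernel⟩
theorem d4_chain : d4Cert.ChainOK := ⟨by decide +kernel, by decide +kernel⟩
theorem f4_sgn : f4Cert.Sgn := ⟨by unfold Cert.EtaOK; decide +kernel, by decide +kernel⟩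
theorem f4_chain : f4Cert.ChainOK := ⟨by decide +kernel, by decide +kernel⟩
theorem e6_sgn : e6Cert.Sgn := ⟨by unfold Cert.EtaOK; decide +kernel, by decide +kernel⟩
theorem e6_chain : e6Cert.ChainOK := ⟨by decide +kernel, by decide +kernel⟩
theorem e7_sgn : e7Cert.Sgn := ⟨by unfold Cert.EtaOK; decide +kernel, by decide +kernel⟩
theorem e7_chain : e7Cert.ChainOK := ⟨by decide +kernel, by decide +kernel⟩
theorem e8_sgn : e8Cert.Sgn := ⟨by unfold Cert.EtaOK; decide +kernel, by decide +kernel⟩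
theorem e8_chain : e8Cert.ChainOK := ⟨by decide +kernel, by decide +kernel⟩

end Cfsg.Agent.Lib.Chev
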