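/- Diagram automorphisms of the seven root systems.  Owner: lead. -/
import Cfsg.Agent.Lib.Chev.Abs2
import Cfsg.Agent.Lib.Chev.Conc7

set_option autoImplicit false
set_option maxRecDepth 100000
set_option maxHeartbeats 4000000
set_option synthInstance.maxSize 100000
set_option synthInstance.maxHeartbeats 400000

namespace Cfsg.Agent.Lib.Chev
open Equiv

namespace RS
variable {Φ : Type} {l : ℕ} (R : RS Φ l)

/-- `π` preserves adjacency in the diagram -/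
def Adj (π : Fin l → Fin l) : Prop := ∀ i j, R.cart (π i) (π j) = 0 ↔ R.cart i j = 0

/-- the compatibility of two values of a partial diagram automorphism -/
def Cp (i j a b : Fin l) : Prop := a ≠ b ∧ (R.cart a b = 0 ↔ R.cart i j = 0)

instance decCp (i j a b : Fin l) : Decidable (R.Cp i j a b) := by unfold Cp; infer_instance

theorem Adj.cp {R : RS Φ l} {π : Perm (Fin l)} (h : R.Adj π) {i j : Fin l} (hij : i ≠ j) : R.Cp i j (π i) (π j) :=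
  ⟨π.injective.ne hij, h i j⟩

theorem refl_sim_eq (i j : Fin l) : R.refl i (R.sim j) = R.sim j ↔ R.cart i j = 0 := by
  have h : (∑ k, R.cart i k * (Pi.single j (1:ℤ) : Fin l → ℤ) k) = R.cart i j := by
    rw [Finset.sum_eq_single j] <;> simp +contextual [Pi.single_apply]
  rw [← R.inj.eq_iff, R.ρ_refl, R.ρ_sim, h, sub_eq_self]
  exact ⟨fun e => by simpa using congrFun e i, fun e => by rw [e, zero_smul]⟩

set_option synthInstance.maxSize 4096 in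
instance decNc [Fintype Φ] [DecidableEq Φ] (r s : Φ) : Decidable (R.Nc r s) := by unfold Nc; infer_instance
instance decOrth [Fintype Φ] [DecidableEq Φ] (r s : Φ) : Decidable (R.Orth r s) := by unfold Orth; infer_instance
instance decGood [Fintype Φ] [DecidableEq Φ] (θ : Φ → Φ) (p : ℕ) (r : Φ) : Decidable (R.Good θ p r) := by
  unfold Good; infer_instance

/-- graph data with an explicit permutation of the roots -/
def GD' (π : Perm (Fin l)) (p : ℕ) : Prop := ∃ θ0 : Φ → Φ, (∀ i, θ0 (R.sim i) = R.sim (π i)) ∧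
  (∀ i r, θ0 (R.refl i r) = R.refl (π i) (θ0 r)) ∧ R.GD π θ0 p

end RS

theorem Chv.Form.adj {Φ : Type} {l : ℕ} {R : RS Φ l} {F : Type*} [Field F] {Γ : Type*} [Group Γ] {A : Chv R F Γ}
    {δ : MulAut Γ} {π : Perm (Fin l)} {θ : Perm Φ} (h : A.Form δ π θ) : R.Adj π := fun i j => by
  rw [← R.refl_sim_eq, ← R.refl_sim_eq, ← h.sim, ← h.refl, θ.injective.eq_iff]

theorem prime_eq {G : Type*} [Group G] {g : G} (h : g ≠ 1) {p q : ℕ} (hp : p.Prime) (hq : q.Prime) (h1 : g ^ p = 1)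
    (h2 : g ^ q = 1) : p = q := by
  haveI := Fact.mk hp
  haveI := Fact.mk hq
  exact (orderOf_eq_prime h1 h).symm.trans (orderOf_eq_prime h2 h)

/-- the root system with literal indices -/
noncomputable abbrev g2R : RS (Fin 12) 2 := g2Cert.R
theorem g2_conn : g2R.Conn := by unfold RS.Conn; simp only [Pi.le_def]; decide +kernel
theorem g2_key : ∀ a0 : Fin 2, ∀ a1 : Fin 2, g2R.Cp 0 1 a0 a1 → [a0, a1] = List.ofFn (1 : Perm (Fin 2)) ∨ [a0, a1] = List.ofFn (swap 0 1 : Perm (Fin 2)) := by decide +kernel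
theorem g2_aut (π : Perm (Fin 2)) (h : g2R.Adj π) : π = 1 ∨ π = swap 0 1 := by
  have h1 := g2_key (π 0) (π 1) (h.cp (by decide))
  rw [show [π 0, π 1] = List.ofFn π from rfl] at h1
  simpa only [List.ofFn_injective.eq_iff, DFunLike.coe_fn_eq] using h1
theorem g2_gd1 : g2R.GD' (swap 0 1) 2 := by
  refine ⟨fun r => ([2, 3, 0, 1, 5, 4, 7, 6, 10, 11, 8, 9] : List (Fin 12)).getD r 0, by decide +kernel, by decide +kernel, Or.inr ?_,
    fun j => ([0, 0] : List ℕ).getD j 0, fun j hj => ⟨([0, 0] : List (Fin 2)).getD j 0, ([[], []] : List (List (Fin 2))).getD j [], ([[], []] : List (List (Fin 2))).getD j [], ?_⟩⟩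
  · simp only [Pi.le_def]; decide +kernel
  · revert j; unfold RS.inv; decide +kernel

/-- the root system with literal indices -/
noncomputable abbrev b2R : RS (Fin 8) 2 := b2Cert.R
theorem b2_conn : b2R.Conn := by unfold RS.Conn; simp only [Pi.le_def]; decide +kernel
theorem b2_key : ∀ a0 : Fin 2, ∀ a1 : Fin 2, b2R.Cp 0 1 a0 a1 → [a0, a1] = List.ofFn (1 : Perm (Fin 2)) ∨ [a0, a1] = List.ofFn (swap 0 1 : Perm (Fin 2)) := by decide +kernel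
theorem b2_aut (π : Perm (Fin 2)) (h : b2R.Adj π) : π = 1 ∨ π = swap 0 1 := by
  have h1 := b2_key (π 0) (π 1) (h.cp (by decide))
  rw [show [π 0, π 1] = List.ofFn π from rfl] at h1
  simpa only [List.ofFn_injective.eq_iff, DFunLike.coe_fn_eq] using h1

/-- the root system with literal indices -/
noncomputable abbrev d4R : RS (Fin 24) 4 := d4Cert.R
theorem d4_conn : d4R.Conn := by unfold RS.Conn; simp only [Pi.le_def]; decide +kernel
theorem d4_key : ∀ a0 : Fin 4, ∀ a1 : Fin 4, d4R.Cp 0 1 a0 a1 → ∀ a2 : Fin 4, d4R.Cp 0 2 a0 a2 → d4R.Cp 1 2 a1 a2 → ∀ a3 : Fin 4, d4R.Cp 0 3 a0 a3 → d4R.Cp 1 3 a1 a3 → d4R.Cp 2 3 a2 a3 → [a0, a1, a2, a3] = List.ofFn (1 : Perm (Fin 4)) ∨ [a0, a1, a2, a3] = List.ofFn (swap 2 3 : Perm (Fin 4)) ∨ [a0, a1, a2, a3] = List.ofFn (swap 0 2 : Perm (Fin 4)) ∨ [a0, a1, a2, a3] = List.ofFn (swap 0 2 * swap 2 3 : Perm (Fin 4)) ∨ [a0, a1, a2, a3] = List.ofFn (swap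 0 3 * swap 2 3 : Perm (Fin 4)) ∨ [a0, a1, a2, a3] = List.ofFn (swap 0 3 : Perm (Fin 4)) := by decide +kernel
theorem d4_aut (π : Perm (Fin 4)) (h : d4R.Adj π) : π = 1 ∨ π = swap 2 3 ∨ π = swap 0 2 ∨ π = swap 0 2 * swap 2 3 ∨ π = swap 0 3 * swap 2 3 ∨ π = swap 0 3 := by
  have h1 := d4_key (π 0) (π 1) (h.cp (by decide)) (π 2) (h.cp (by decide)) (h.cp (by decide)) (π 3) (h.cp (by decide)) (h.cp (by decide)) (h.cp (by decide))
  rw [show [π 0, π 1, π 2, π 3] = List.ofFn π from rfl] at h1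
  simpa only [List.ofFn_injective.eq_iff, DFunLike.coe_fn_eq] using h1
theorem d4_gd1 : d4R.GD' (swap 2 3) 2 := by
  refine ⟨fun r => ([0, 1, 3, 2, 4, 5, 6, 8, 7, 9, 11, 10, 13, 12, 14, 16, 15, 17, 18, 19, 21, 20, 22, 23] : List (Fin 24)).getD r 0, by decide +kernel, by decide +kernel, Or.inl ?_,
    fun j => ([1, 0, 0, 0] : List ℕ).getD j 0, fun j hj => ⟨([2, 2, 0, 0] : List (Fin 4)).getD j 0, ([[0, 1], [1], [], []] : List (List (Fin 4))).getD j [], ([[1, 2], [2], [], []] : List (List (Fin 4))).getD j [], ?_⟩⟩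
  · simp only [Pi.le_def]; decide +kernel
  · revert j; unfold RS.inv; decide +kernel
theorem d4_gd2 : d4R.GD' (swap 0 2) 2 := by
  refine ⟨fun r => ([0, 1, 2, 6, 7, 10, 3, 4, 8, 9, 5, 11, 12, 18, 14, 15, 19, 20, 13, 16, 17, 21, 22, 23] : List (Fin 24)).getD r 0, by decide +kernel, by decide +kernel, Or.inl ?_,
    fun j => ([0, 0, 0, 1] : List ℕ).getD j 0, fun j hj => ⟨([0, 0, 0, 0] : List (Fin 4)).getD j 0, ([[], [1], [], [3, 1]] : List (List (Fin 4))).getD j [], ([[], [0], [], [1, 0]] : List (List (Fin 4))).getD j [], ?_⟩⟩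
  · simp only [Pi.le_def]; decide +kernel
  · revert j; unfold RS.inv; decide +kernel
theorem d4_gd3 : d4R.GD' (swap 0 2 * swap 2 3) 3 := by
  refine ⟨fun r => ([0, 1, 6, 2, 7, 10, 3, 8, 4, 9, 11, 5, 18, 12, 14, 19, 15, 20, 13, 16, 21, 17, 22, 23] : List (Fin 24)).getD r 0, by decide +kernel, by decide +kernel, Or.inl ?_,
    fun j => ([0, 0, 0, 0] : List ℕ).getD j 0, fun j hj => ⟨([0, 0, 0, 0] : List (Fin 4)).getD j 0, ([[], [1], [], []] : List (List (Fin 4))).getD j [], ([[], [0], [], []] : List (List (Fin 4))).getD j [], ?_⟩⟩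
  · simp only [Pi.le_def]; decide +kernel
  · revert j; unfold RS.inv; decide +kernel
theorem d4_gd4 : d4R.GD' (swap 0 3 * swap 2 3) 3 := by
  refine ⟨fun r => ([0, 1, 3, 6, 8, 11, 2, 4, 7, 9, 5, 10, 13, 18, 14, 16, 19, 21, 12, 15, 17, 20, 22, 23] : List (Fin 24)).getD r 0, by decide +kernel, by decide +kernel, Or.inl ?_,
    fun j => ([0, 0, 0, 0] : List ℕ).getD j 0, fun j hj => ⟨([0, 0, 0, 0] : List (Fin 4)).getD j 0, ([[], [1], [], []] : List (List (Fin 4))).getD j [], ([[], [0], [], []] : List (List (Fin 4))).getD j [], ?_⟩⟩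
  · simp only [Pi.le_def]; decide +kernel
  · revert j; unfold RS.inv; decide +kernel
theorem d4_gd5 : d4R.GD' (swap 0 3) 2 := by
  refine ⟨fun r => ([0, 1, 6, 3, 8, 11, 2, 7, 4, 9, 10, 5, 18, 13, 14, 19, 16, 21, 12, 15, 20, 17, 22, 23] : List (Fin 24)).getD r 0, by decide +kernel, by decide +kernel, Or.inl ?_,
    fun j => ([0, 0, 1, 0] : List ℕ).getD j 0, fun j hj => ⟨([0, 0, 0, 0] : List (Fin 4)).getD j 0, ([[], [1], [2, 1], []] : List (List (Fin 4))).getD j [], ([[], [0], [1, 0], []] : List (List (Fin 4))).getD j [], ?_⟩⟩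
  · simp only [Pi.le_def]; decide +kernel
  · revert j; unfold RS.inv; decide +kernel

/-- the root system with literal indices -/
noncomputable abbrev f4R : RS (Fin 48) 4 := f4Cert.R
theorem f4_conn : f4R.Conn := by unfold RS.Conn; simp only [Pi.le_def]; decide +kernel
theorem f4_key : ∀ a0 : Fin 4, ∀ a1 : Fin 4, f4R.Cp 0 1 a0 a1 → ∀ a2 : Fin 4, f4R.Cp 0 2 a0 a2 → f4R.Cp 1 2 a1 a2 → ∀ a3 : Fin 4, f4R.Cp 0 3 a0 a3 → f4R.Cp 1 3 a1 a3 → f4R.Cp 2 3 a2 a3 → [a0, a1, a2, a3] = List.ofFn (1 : Perm (Fin 4)) ∨ [a0, a1, a2, a3] = List.ofFn (swap 0 3 * swap 1 2 : Perm (Fin 4)) := by decide +kernel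
theorem f4_aut (π : Perm (Fin 4)) (h : f4R.Adj π) : π = 1 ∨ π = swap 0 3 * swap 1 2 := by
  have h1 := f4_key (π 0) (π 1) (h.cp (by decide)) (π 2) (h.cp (by decide)) (h.cp (by decide)) (π 3) (h.cp (by decide)) (h.cp (by decide)) (h.cp (by decide))
  rw [show [π 0, π 1, π 2, π 3] = List.ofFn π from rfl] at h1
  simpa only [List.ofFn_injective.eq_iff, DFunLike.coe_fn_eq] using h1

/-- the root system with literal indices -/
noncomputable abbrev e6R : RS (Fin 72) 6 := e6Cert.R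
theorem e6_conn : e6R.Conn := by unfold RS.Conn; simp only [Pi.le_def]; decide +kernel
theorem e6_key : ∀ a0 : Fin 6, ∀ a1 : Fin 6, e6R.Cp 0 1 a0 a1 → ∀ a2 : Fin 6, e6R.Cp 0 2 a0 a2 → e6R.Cp 1 2 a1 a2 → ∀ a3 : Fin 6, e6R.Cp 0 3 a0 a3 → e6R.Cp 1 3 a1 a3 → e6R.Cp 2 3 a2 a3 → ∀ a4 : Fin 6, e6R.Cp 0 4 a0 a4 → e6R.Cp 1 4 a1 a4 → e6R.Cp 2 4 a2 a4 → e6R.Cp 3 4 a3 a4 → ∀ a5 : Fin 6, e6R.Cp 0 5 a0 a5 → e6R.Cp 1 5 a1 a5 → e6R.Cp 2 5 a2 a5 → e6R.Cp 3 5 a3 a5 → e6R.Cp 4 5 a4 a5 → [a0, a1, a2, a3, a4, a5] = List.ofFn (1 : Perm (Fin 6)) ∨ [a0, a1, a2, a3, a4, a5] = List.ofFn (swap 0 5 * swap 2 4 : Perm (Fin 6)) := by decide +kernel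
theorem e6_aut (π : Perm (Fin 6)) (h : e6R.Adj π) : π = 1 ∨ π = swap 0 5 * swap 2 4 := by
  have h1 := e6_key (π 0) (π 1) (h.cp (by decide)) (π 2) (h.cp (by decide)) (h.cp (by decide)) (π 3) (h.cp (by decide)) (h.cp (by decide)) (h.cp (by decide)) (π 4) (h.cp (by decide)) (h.cp (by decide)) (h.cp (by decide)) (h.cp (by decide)) (π 5) (h.cp (by decide)) (h.cp (by decide)) (h.cp (by decide)) (h.cp (by decide)) (h.cp (by decide))
  rw [show [π 0, π 1, π 2, π 3, π 4, π 5] = List.ofFn π from rfl] at h1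
  simpa only [List.ofFn_injective.eq_iff, DFunLike.coe_fn_eq] using h1
theorem e6_gd1 : e6R.GD' (swap 0 5 * swap 2 4) 2 := by
  refine ⟨fun r => ([0, 1, 2, 5, 16, 3, 6, 17, 8, 19, 22, 11, 26, 30, 33, 35, 4, 7, 18, 9, 20, 23, 10, 21, 24, 25, 12, 27, 31, 34, 13, 28, 32, 14, 29, 15, 56, 42, 57, 39, 43, 58, 37, 40, 44, 59, 46, 47, 50, 61, 48, 51, 62, 53, 64, 67, 36, 38, 41, 45, 60, 49, 52, 63, 54, 65, 68, 55, 66, 69, 70, 71] : List (Fin 72)).getD r 0, by decide +kernel, by decide +kernel, Or.inl ?_,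
    fun j => ([0, 1, 0, 0, 0, 0] : List ℕ).getD j 0, fun j hj => ⟨([0, 2, 0, 2, 0, 0] : List (Fin 6)).getD j 0, ([[], [1, 3], [], [3], [], []] : List (List (Fin 6))).getD j [], ([[], [3, 2], [], [2], [], []] : List (List (Fin 6))).getD j [], ?_⟩⟩
  · simp only [Pi.le_def]; decide +kernel
  · revert j; unfold RS.inv; decide +kernel

/-- the root system with literal indices -/
noncomputable abbrev e7R : RS (Fin 126) 7 := e7Cert.R
theorem e7_conn : e7R.Conn := by unfold RS.Conn; simp only [Pi.le_def]; decide +kernel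
theorem e7_key : ∀ a0 : Fin 7, ∀ a1 : Fin 7, e7R.Cp 0 1 a0 a1 → ∀ a2 : Fin 7, e7R.Cp 0 2 a0 a2 → e7R.Cp 1 2 a1 a2 → ∀ a3 : Fin 7, e7R.Cp 0 3 a0 a3 → e7R.Cp 1 3 a1 a3 → e7R.Cp 2 3 a2 a3 → ∀ a4 : Fin 7, e7R.Cp 0 4 a0 a4 → e7R.Cp 1 4 a1 a4 → e7R.Cp 2 4 a2 a4 → e7R.Cp 3 4 a3 a4 → ∀ a5 : Fin 7, e7R.Cp 0 5 a0 a5 → e7R.Cp 1 5 a1 a5 → e7R.Cp 2 5 a2 a5 → e7R.Cp 3 5 a3 a5 → e7R.Cp 4 5 a4 a5 → ∀ a6 : Fin 7, e7R.Cp 0 6 a0 a6 → e7R.Cp 1 6 a1 a6 → e7R.Cp 2 6 a2 a6 → e7R.Cp 3 6 a3 a6 → e7R.Cp 4 6 a4 a6 → e7R.Cp 5 6 a5 a6 → [a0, a1, a2, a3, a4, a5, a6] = List.ofFn (1 : Perm (Fin 7)) := by decide +kernel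
theorem e7_aut (π : Perm (Fin 7)) (h : e7R.Adj π) : π = 1 := by
  have h1 := e7_key (π 0) (π 1) (h.cp (by decide)) (π 2) (h.cp (by decide)) (h.cp (by decide)) (π 3) (h.cp (by decide)) (h.cp (by decide)) (h.cp (by decide)) (π 4) (h.cp (by decide)) (h.cp (by decide)) (h.cp (by decide)) (h.cp (by decide)) (π 5) (h.cp (by decide)) (h.cp (by decide)) (h.cp (by decide)) (h.cp (by decide)) (h.cp (by decide)) (π 6) (h.cp (by decide)) (h.cp (by decide)) (h.cp (by decide)) (h.cp (by decide)) (h.cp (by decide)) (h.cp (by decide))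
  rw [show [π 0, π 1, π 2, π 3, π 4, π 5, π 6] = List.ofFn π from rfl] at h1
  simpa only [List.ofFn_injective.eq_iff, DFunLike.coe_fn_eq] using h1

/-- the root system with literal indices -/
noncomputable abbrev e8R : RS (Fin 240) 8 := e8Cert.R
theorem e8_conn : e8R.Conn := by unfold RS.Conn; simp only [Pi.le_def]; decide +kernel
theorem e8_key : ∀ a0 : Fin 8, ∀ a1 : Fin 8, e8R.Cp 0 1 a0 a1 → ∀ a2 : Fin 8, e8R.Cp 0 2 a0 a2 → e8R.Cp 1 2 a1 a2 → ∀ a3 : Fin 8, e8R.Cp 0 3 a0 a3 → e8R.Cp 1 3 a1 a3 → e8R.Cp 2 3 a2 a3 → ∀ a4 : Fin 8, e8R.Cp 0 4 a0 a4 → e8R.Cp 1 4 a1 a4 → e8R.Cp 2 4 a2 a4 → e8R.Cp 3 4 a3 a4 → ∀ a5 : Fin 8, e8R.Cp 0 5 a0 a5 → e8R.Cp 1 5 a1 a5 → e8R.Cp 2 5 a2 a5 → e8R.Cp 3 5 a3 a5 → e8R.Cp 4 5 a4 a5 → ∀ a6 : Fin 8, e8R.Cp 0 6 a0 a6 → e8R.Cp 1 6 a1 a6 → e8R.Cp 2 6 a2 a6 → e8R.Cp 3 6 a3 a6 → e8R.Cp 4 6 a4 a6 → e8R.Cp 5 6 a5 a6 → ∀ a7 : Fin 8, e8R.Cp 0 7 a0 a7 → e8R.Cp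 1 7 a1 a7 → e8R.Cp 2 7 a2 a7 → e8R.Cp 3 7 a3 a7 → e8R.Cp 4 7 a4 a7 → e8R.Cp 5 7 a5 a7 → e8R.Cp 6 7 a6 a7 → [a0, a1, a2, a3, a4, a5, a6, a7] = List.ofFn (1 : Perm (Fin 8)) := by decide +kernel
theorem e8_aut (π : Perm (Fin 8)) (h : e8R.Adj π) : π = 1 := by
  have h1 := e8_key (π 0) (π 1) (h.cp (by decide)) (π 2) (h.cp (by decide)) (h.cp (by decide)) (π 3) (h.cp (by decide)) (h.cp (by decide)) (h.cp (by decide)) (π 4) (h.cp (by decide)) (h.cp (by decide)) (h.cp (by decide)) (h.cp (by decide)) (π 5) (h.cp (by decide)) (h.cp (by decide)) (h.cp (by decide)) (h.cp (by decide)) (h.cp (by decide)) (π 6) (h.cp (by decide)) (h.cp (by decide)) (h.cp (by decide)) (h.cp (by decide)) (h.cp (by decide)) (h.cp (by decide)) (π 7) (h.cp (by decide)) (h.cp (by decide)) (h.cp (by decide)) (h.cp (by decide)) (h.cp (by decide)) (h.cp (by decide)) (h.cp (by decide))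
  rw [show [π 0, π 1, π 2, π 3, π 4, π 5, π 6, π 7] = List.ofFn π from rfl] at h1
  simpa only [List.ofFn_injective.eq_iff, DFunLike.coe_fn_eq] using h1

end Cfsg.Agent.Lib.Chev
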