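import Cfsg.Agent.Lib.Chev.Cert
import Cfsg.Prelude.Def_ChevB2

set_option autoImplicit false
set_option maxHeartbeats 4000000
set_option maxRecDepth 100000

namespace Cfsg.Agent.Lib.Chev
open Cfsg.Lie

noncomputable section

def b2rd0 : RD := ⟨0, 0x1300000000d000000000000000000000000000000000000000000000, 7, [(0, Int.negSucc 0, 2), (8, Int.negSucc 0, 1), (9, Int.negSucc 0, 1)], 0x8a⟩
def b2rd1 : RD := ⟨1, 0x1d02b00000000000000001a000005015000000000000000006000000000000000000, 6, [(1, Int.negSucc 0, 2), (8, Int.negSucc 0, 1), (9, Int.negSucc 1, 1)], 0x98⟩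
def b2rd2 : RD := ⟨2, 0x2303500000002200000000000000000000000300d000000000000000002000000000, 5, [(2, Int.negSucc 0, 2), (8, Int.negSucc 0, 1), (9, Int.ofNat 0, 1)], 0x7a⟩
def b2rd3 : RD := ⟨3, 0x2d00000000000000000000000000000000000b000000000000000000, 4, [(3, Int.negSucc 0, 2), (8, Int.ofNat 0, 1), (9, Int.negSucc 0, 1)], 0xa6⟩
def b2rd4 : RD := ⟨4, 0x35000000000000000000000000000000000013000000000, 3, [(4, Int.negSucc 0, 2), (8, Int.ofNat 0, 1), (9, Int.ofNat 1, 1)], 0x6a⟩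
def b2rd5 : RD := ⟨5, 0x3e00000000000003b03300000000000000000000000001e00001b00b, 2, [(5, Int.negSucc 0, 2), (8, Int.ofNat 1, 1), (9, Int.ofNat 0, 1)], 0x96⟩
def b2rd6 : RD := ⟨6, 0x3a00000000000003d02b000000026000000000000025015, 1, [(6, Int.negSucc 0, 2), (8, Int.ofNat 1, 1), (9, Int.ofNat 2, 1)], 0x78⟩
def b2rd7 : RD := ⟨7, 0x3300000002d000000000, 0, [(7, Int.negSucc 0, 2), (8, Int.ofNat 1, 1), (9, Int.ofNat 1, 1)], 0x86⟩
def b2rds : List RD := [b2rd0, b2rd1, b2rd2, b2rd3, b2rd4, b2rd5, b2rd6, b2rd7]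
def b2cw0 : List Vec := [[], [], [], [], [(4, Int.ofNat 1, 0, 1), (6, Int.negSucc 0, 1, 1), (7, Int.negSucc 0, 2, 1)], [], [(6, Int.ofNat 1, 0, 1), (7, Int.ofNat 2, 1, 1)], [(7, Int.ofNat 1, 0, 1)]]
def b2cw1 : List Vec := [[], [], [], [], [], [(5, Int.ofNat 1, 0, 1), (6, Int.ofNat 1, 1, 1), (7, Int.negSucc 0, 1, 2)], [(6, Int.ofNat 1, 0, 1)], [(7, Int.ofNat 1, 0, 1)]]
def b2Data : Data := ⟨b2rds, 0x9a99899878877776, [5, 4], [0x900d00500f00100b003007, 0xe00b00c007009002005000], [b2cw0, b2cw1]⟩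

end
end Cfsg.Agent.Lib.Chev
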