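import Cfsg.Agent.Lib.Chev.DataE7

set_option autoImplicit false
set_option maxHeartbeats 4000000
set_option maxRecDepth 100000

namespace Cfsg.Agent.Lib.Chev
open Cfsg.Lie

theorem e7_link : e7Data.cLink chevE7 = true := by decide +kernel
theorem e7_hom : e7Data.cHom 126 7 = true := by decide +kernel
theorem e7_rs1 : e7Data.cRS1 126 7 = true := by decide +kernel
theorem e7_rs2 : e7Data.cRS2 126 7 = true := by decide +kernel
theorem e7_add : e7Data.cAdd 126 7 = true := by decide +kernel
theorem e7_neq : e7Data.cNeq 126 7 = true := by decide +kernel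

end Cfsg.Agent.Lib.Chev
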