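import Cfsg.Agent.Lib.Chev.DataE8

set_option autoImplicit false
set_option maxHeartbeats 4000000
set_option maxRecDepth 100000

namespace Cfsg.Agent.Lib.Chev
open Cfsg.Lie

theorem e8_link : e8Data.cLink chevE8 = true := by decide +kernel
theorem e8_hom : e8Data.cHom 240 8 = true := by decide +kernel
theorem e8_rs1 : e8Data.cRS1 240 8 = true := by decide +kernel
theorem e8_rs2 : e8Data.cRS2 240 8 = true := by decide +kernel
theorem e8_add : e8Data.cAdd 240 8 = true := by decide +kernel
theorem e8_neq : e8Data.cNeq 240 8 = true := by decide +kernel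

end Cfsg.Agent.Lib.Chev
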