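/- A trace argument in the `0`-Hecke algebra: a chamber moved to a short distance.  Owner: helper1. -/
import Cfsg.Agent.Lib.Chev.Stein2

set_option autoImplicit false
set_option linter.unusedSectionVars false

namespace Cfsg.Agent.Lib.Chev
open MulAut (conj)
open Matrix

section tw
variable {Γ : Type*} [Group Γ] (δ : MulAut Γ) (k : Γ)

/-- the twisted norm -/
def nrm : ℕ → Γ
  | 0 => 1
  | n + 1 => k * δ (nrm n)

theorem mul_conj' (g : Γ) : δ * conj g = conj (δ g) * δ := by ext; simp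

theorem conj_tw (g : Γ) : (conj g)⁻¹ * (conj k * δ) * conj g = conj (g⁻¹ * k * δ g) * δ := by ext; simp [mul_assoc]

theorem nrm_spec (n : ℕ) : conj (nrm δ k n) * δ ^ n = (conj k * δ) ^ n := by
  induction n with
  | zero => simp [nrm]
  | succ n ih => rw [pow_succ' (_ * δ), ← ih, nrm, map_mul, pow_succ', mul_assoc, mul_assoc, ← mul_assoc δ, mul_conj',
      mul_assoc]

/-- the action of `conj k * δ` on cosets of a `δ`-invariant subgroup -/
def tw (L : Subgroup Γ) (hL : ∀ g, δ g ∈ L ↔ g ∈ L) : Equiv.Perm (Γ ⧸ L) :=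
  MulAction.toPerm (β := Γ ⧸ L) k * (Quotient.congr δ.toEquiv fun a b => by
    rw [QuotientGroup.leftRel_apply, QuotientGroup.leftRel_apply, ← hL]; simp : Γ ⧸ L ≃ Γ ⧸ L)

theorem tw_mk (L : Subgroup Γ) (hL : ∀ g, δ g ∈ L ↔ g ∈ L) (g : Γ) : tw δ k L hL g = (k * δ g : Γ) := rfl

theorem tw_pow (L : Subgroup Γ) (hL : ∀ g, δ g ∈ L ↔ g ∈ L) (n : ℕ) (g : Γ) :
    (tw δ k L hL ^ n) g = (nrm δ k n * (δ ^ n) g : Γ) := by
  induction n with
  | zero => simp [nrm]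
  | succ n ih => rw [pow_succ', Equiv.Perm.mul_apply, ih, tw_mk, nrm, pow_succ', map_mul, mul_assoc]; rfl

theorem tw_pow_eq_one (L : Subgroup Γ) (hL : ∀ g, δ g ∈ L ↔ g ∈ L) {n : ℕ} (h : (conj k * δ) ^ n = 1)
    (hN : nrm δ k n ∈ L) : tw δ k L hL ^ n = 1 := Equiv.ext fun c => by
  obtain ⟨g, rfl⟩ := QuotientGroup.mk_surjective c
  have := DFunLike.congr_fun ((nrm_spec δ k n).trans h) g
  simp only [MulAut.mul_apply, MulAut.conj_apply, MulAut.one_apply, mul_inv_eq_iff_eq_mul] at this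
  rw [tw_pow, this]
  exact QuotientGroup.mk_mul_of_mem g hN

end tw

namespace Chv
variable {Φ : Type} {l : ℕ} {R : RS Φ l} {F : Type*} [Field F] {Γ : Type*} [Group Γ] {A : Chv R F Γ}
  {δ : MulAut Γ} {π : Equiv.Perm (Fin l)} {θ : Equiv.Perm Φ} {g g' k : Γ} {p : ℕ} {w w' : List (Fin l)} {i : Fin l}

theorem CellW.congr (h : A.CellW w g) (e : R.inv w = R.inv w') : A.CellW w' g := by
  obtain ⟨a, ha, h, hh, u, hu, rfl⟩ := h
  obtain ⟨t, ht, e⟩ := A.nW_eq_of_inv e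
  exact ⟨a, ha, _, mul_mem ht hh, u, hu, by rw [e]; group⟩

theorem CellW.U_mul (hg : g ∈ A.U) (h : A.CellW w g') : A.CellW w (g * g') := by
  obtain ⟨a, ha, h, hh, u, hu, rfl⟩ := h
  exact ⟨_, mul_mem hg ha, h, hh, u, hu, by group⟩

theorem CellW.T_mul (hg : g ∈ A.T) (h : A.CellW w g') : A.CellW w (g * g') := by
  obtain ⟨a, ha, h, hh, u, hu, rfl⟩ := h
  exact ⟨_, A.T_U hg ha, _, mul_mem (A.nW_T w hg) hh, u, hu, by group⟩

theorem CellW.aux (hi : R.pos (R.inv w (R.sim i))) {x h u : Γ} (hx : x ∈ A.X (R.sim i)) (hh : h ∈ A.T) (hu : u ∈ A.U) :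
    A.CellW (i :: w) (A.n i * (x * A.nW w * h * u)) :=
  ⟨1, one_mem _, h, hh, _, mul_mem (A.T_U (inv_mem hh) (le_US (S := {r | R.pos r}) hi (A.conjW w _ hx))) hu, by
    rw [Fold.nW_cons]; group⟩

theorem CellW.n_mul (i : Fin l) (h : A.CellW w g) : A.CellW (i :: w) (A.n i * g) ∨ A.CellW w (A.n i * g) := by
  obtain ⟨a, ha, h, hh, u, hu, rfl⟩ := h
  obtain ⟨x, hx, a', ha', rfl⟩ := A.split' (R.closed_pos i) ha
  have h1 : A.n i * a' * (A.n i)⁻¹ ∈ A.U := US_mono (fun r hr => hr.1) (A.conj_P' ha')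
  rw [show A.n i * (a' * x * A.nW w * h * u) = (A.n i * a' * (A.n i)⁻¹) * (A.n i * (x * A.nW w * h * u)) by group]
  by_cases hi : R.pos (R.inv w (R.sim i))
  · exact .inl ((CellW.aux hi hx hh hu).U_mul h1)
  have hy := A.conj i _ x hx
  rw [R.refl_sim] at hy
  rw [show A.n i * (x * A.nW w * h * u) = A.n i * x * (A.n i)⁻¹ * A.nW (i :: w) * h * u by rw [Fold.nW_cons]; group]
  rcases A.rank1 i _ hy with h2 | ⟨c, hc, d, hd, k, hk, h2⟩ <;> rw [h2]
  · exact .inl (CellW.U_mul h1 ⟨1, one_mem _, h, hh, u, hu, rfl⟩)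
  · have := (((CellW.aux ((R.pos_inv_cons_sim w i).2 hi) hd hh hu).T_mul hk).U_mul
      (le_US (S := {r | R.pos r}) (R.pos_sim i) hc)).U_mul h1
    exact .inr ((by simpa only [mul_assoc] using this : A.CellW (i :: i :: w) _).congr (R.inv_cons_cons i w))

theorem CellW.mul (h : A.CellW w g) (h' : A.CellW w' g') : ∃ v, v.Sublist w ∧ A.CellW (v ++ w') (g * g') := by
  obtain ⟨a, ha, h, hh, u, hu, rfl⟩ := h
  have : ∀ w : List (Fin l), ∃ v, v.Sublist w ∧ A.CellW (v ++ w') (A.nW w * (h * (u * g'))) := fun w => by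
    induction w with
    | nil => exact ⟨[], .slnil, by simpa using (h'.U_mul hu).T_mul hh⟩
    | cons i w ih =>
      obtain ⟨v, hv, ih⟩ := ih
      rw [Fold.nW_cons, mul_assoc]
      exact (ih.n_mul i).elim (fun h => ⟨i :: v, hv.cons_cons i, h⟩) fun h => ⟨v, hv.cons i, h⟩
  obtain ⟨v, hv, e⟩ := this w
  exact ⟨v, hv, by simpa only [mul_assoc] using e.U_mul ha⟩

theorem CellW.inv (h : A.CellW w g) : A.CellW w.reverse g⁻¹ := by
  obtain ⟨a, ha, h, hh, u, hu, rfl⟩ := h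
  have e : A.nW (w ++ w.reverse) ∈ A.T := A.nW_T' _ fun r hr => by rwa [RS.inv_append, RS.inv_reverse_inv]
  have : A.CellW w.reverse _ := (CellW.T_mul (inv_mem hh) ⟨1, one_mem _, _, inv_mem e, _, inv_mem ha, rfl⟩).U_mul (inv_mem hu)
  rw [Fold.nW_append] at this
  simpa [mul_assoc] using this

theorem CellW.map (hδ : A.Form δ π θ) (h : A.CellW w g) : A.CellW (w.map π) (δ g) := by
  obtain ⟨a, ha, h, hh, u, hu, rfl⟩ := h
  obtain ⟨t, ht, e⟩ := hδ.nW w
  exact ⟨_, (hδ.U a).2 ha, _, mul_mem ht ((hδ.T h).2 hh), _, (hδ.U u).2 hu, by simp [e, mul_assoc]⟩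

variable (A) in
/-- minimal parabolic subgroups -/
def Par (i : Fin l) : Subgroup Γ where
  carrier := {g | ∃ w : List (Fin l), w.Sublist [i] ∧ A.CellW w g}
  one_mem' := ⟨[], by simp, 1, one_mem _, 1, one_mem _, 1, one_mem _, by simp⟩
  inv_mem' := by rintro g ⟨w, hw, h⟩; exact ⟨_, hw.reverse, h.inv⟩
  mul_mem' := by
    rintro a b ⟨w, hw, h⟩ ⟨w', hw', h'⟩
    obtain ⟨v, hv, e⟩ := h.mul h'
    obtain rfl | rfl := List.sublist_singleton.1 (hv.trans hw)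
    · exact ⟨_, hw', e⟩
    obtain rfl | rfl := List.sublist_singleton.1 hw'
    exacts [⟨_, .refl _, e⟩, ⟨[], by simp, e.congr (R.inv_cons_cons i [])⟩]

variable (A) in
/-- `k` lies in the Levi subgroup of the node `a` and `conj k * δ` fixes no chamber -/
def Pgu (a : Fin l) (δ : MulAut Γ) (k : Γ) : Prop :=
  k ∈ A.X (R.sim a) ⊔ A.X (R.neg (R.sim a)) ⊔ A.T ∧ ∀ g, ¬ A.CellW [] (g⁻¹ * k * δ g)

variable [Finite Φ]

theorem cell_nil : A.CellW [] g ↔ g ∈ A.B := ⟨by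
    rintro ⟨a, ha, h, hh, u, hu, rfl⟩
    exact mul_mem (mul_mem (mul_mem (A.U_B ha) (one_mem _)) (A.T_B hh)) (A.U_B hu), fun h => by
  obtain ⟨t, ht, u, hu, rfl⟩ := A.mem_B fun u hu => (Subgroup.mem_normalizer_iff.1 h u).1 hu
  exact ⟨1, one_mem _, t, ht, u, hu, by simp⟩⟩

theorem B_le_Par (i : Fin l) : A.B ≤ A.Par i := fun _ h => ⟨[], by simp, cell_nil.2 h⟩

theorem n_mem_Par (i : Fin l) : A.n i ∈ A.Par i := ⟨[i], .refl _, 1, one_mem _, 1, one_mem _, 1, one_mem _, by simp⟩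

theorem nrm_mem_T (h : A.Std δ) (hβ : (conj k * δ) ^ p = 1) : nrm δ k p ∈ A.T := by
  have : ∀ n : ℕ, A.Std (δ ^ n) := fun n => by
    induction n with
    | zero => exact ⟨by simp, by simp⟩
    | succ n ih => rw [pow_succ]; exact ih.mul h
  exact A.mem_T (eq_inv_of_mul_eq_one_left ((nrm_spec δ k p).trans hβ) ▸ (this p).inv)

open Classical in
variable (A) in
/-- adjacency matrices of the chamber system -/
noncomputable def E (i : Fin l) : Matrix (Γ ⧸ A.B) (Γ ⧸ A.B) F := of fun c d =>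
  if Subgroup.quotientMapOfLE (B_le_Par i) c = Subgroup.quotientMapOfLE (B_le_Par i) d then 1 else 0

open Classical in
theorem E_mk (i : Fin l) (g g' : Γ) : A.E i g g' = if g⁻¹ * g' ∈ A.Par i then 1 else 0 := by
  simp only [E, of_apply, Subgroup.quotientMapOfLE_apply_mk, QuotientGroup.eq]

variable [Fintype (Γ ⧸ A.B)] [DecidableEq (Γ ⧸ A.B)] [Fintype F]

theorem E_mulVec (i : Fin l) (f : Γ ⧸ A.B → F) (g : Γ) :
    (A.E i *ᵥ f) g = f g + ∑ t, f (g * (A.x (R.sim i) t * A.n i) : Γ) := by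
  let ψ : Option F → Γ ⧸ A.B := fun o => (g * o.elim 1 fun t => A.x (R.sim i) t * A.n i : Γ)
  have xB : ∀ t, A.x (R.sim i) t ∈ A.B := fun t => A.U_B (A.x_U (R.pos_sim i) t)
  have hn : ∀ t, A.x (R.sim i) t * A.n i ∉ A.B := fun t h => A.n_notMem_B i ((Subgroup.mul_mem_cancel_left _ (xB t)).1 h)
  have inj : Function.Injective ψ := by
    rintro (_ | a) (_ | b) e <;> replace e := QuotientGroup.eq.1 e
    · rfl
    · exact (hn b (by simpa using e)).elim
    · exact (hn a (by simpa using inv_mem e)).elim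
    · have h1 := A.conj' i _ _ (mul_mem (inv_mem (A.x_mem (R.sim i) a)) (A.x_mem _ b))
      have := A.B_Um (by simpa [mul_assoc] using e) (le_US (S := {r | ¬ R.pos r})
        (by simpa [R.refl_sim, R.pos_neg_iff] using R.pos_sim i) h1)
      exact congrArg some (A.x_injective _ (inv_mul_eq_one.1 (conj_eq_one_iff.1 (by rwa [inv_inv]))))
  refine .trans (Finset.sum_of_injOn ψ inj.injOn (by simp) (fun d _ hd => ?_) fun o _ => ?_).symm
    ((Fintype.sum_option fun o => f (ψ o)).trans (by simp [ψ]))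
  · obtain ⟨g', rfl⟩ := QuotientGroup.mk_surjective d
    change A.E i g g' * _ = 0
    rw [E_mk, if_neg, zero_mul]
    rintro ⟨w, hw, h⟩
    obtain rfl | rfl := List.sublist_singleton.1 hw
    · exact hd ⟨none, by simp, QuotientGroup.eq.2 (by simpa using cell_nil.1 h)⟩
    obtain ⟨a, ha, h, hh, u, hu, e⟩ := h
    obtain ⟨x, hx, a', ha', rfl⟩ := A.split (R.closed_pos i) ha
    obtain ⟨t, rfl⟩ := (A.mem_X _ _).1 hx
    refine hd ⟨some t, by simp, QuotientGroup.eq.2 ?_⟩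
    have := mul_mem (mul_mem (A.U_B (A.Q_le i (A.conj_P'' ha'))) (A.T_B hh)) (A.U_B hu)
    simpa [mul_assoc, e] using this
  · change _ = A.E i g (_ : Γ) * _
    rw [E_mk, if_pos, one_mul]
    obtain _ | t := o
    · simpa using one_mem _
    · simpa using mul_mem (B_le_Par i (xB t)) (n_mem_Par i)

variable (A) in
/-- products of adjacency matrices -/
noncomputable def EL (L : List (Fin l)) : Matrix (Γ ⧸ A.B) (Γ ⧸ A.B) F := (L.map A.E).prod

theorem EL_perm {σ : Equiv.Perm (Γ ⧸ A.B)} {π : Fin l → Fin l} (h : ∀ i c d, A.E (π i) (σ c) (σ d) = A.E i c d)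
    (L : List (Fin l)) (c d : Γ ⧸ A.B) : A.EL (L.map π) (σ c) (σ d) = A.EL L c d := by
  induction L generalizing c with
  | nil => simp [EL, one_apply]
  | cons i L ih =>
    simp only [EL, List.map_cons, List.prod_cons, mul_apply] at ih ⊢
    rw [← Equiv.sum_comp σ]; simp only [h, ih]

theorem EL_smul (L : List (Fin l)) (g : Γ) (c d : Γ ⧸ A.B) : A.EL L (g • c) (g • d) = A.EL L c d := by
  have := EL_perm (σ := MulAction.toPerm g) (π := id) (fun i c d => by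
    obtain ⟨a, rfl⟩ := QuotientGroup.mk_surjective c
    obtain ⟨b, rfl⟩ := QuotientGroup.mk_surjective d
    change A.E i (g * a : Γ) (g * b : Γ) = _
    rw [E_mk, E_mk, show (g * a)⁻¹ * (g * b) = a⁻¹ * b by group]) L c d
  simpa using this

theorem EL_append (L L' : List (Fin l)) : A.EL (L ++ L') = A.EL L * A.EL L' := by simp [EL]

theorem EL_supp (L : List (Fin l)) (h : A.EL L g g' ≠ 0) : ∃ w, w.Sublist L ∧ A.CellW w (g⁻¹ * g') := by
  induction L generalizing g with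
  | nil => exact ⟨[], .slnil, cell_nil.2 (QuotientGroup.eq.1 (by_contra fun e => h (one_apply_ne e)))⟩
  | cons i L ih =>
    obtain ⟨c, -, h⟩ := Finset.exists_ne_zero_of_sum_ne_zero (show ∑ c, A.E i g c * A.EL L c g' ≠ 0 from h)
    obtain ⟨a, rfl⟩ := QuotientGroup.mk_surjective c
    obtain ⟨w, hw, h1⟩ := ih (right_ne_zero_of_mul h)
    obtain ⟨v, hv, h2⟩ : g⁻¹ * a ∈ A.Par i := by_contra fun e => left_ne_zero_of_mul h (by rw [E_mk, if_neg e])
    obtain ⟨u, hu, h3⟩ := h2.mul h1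
    exact ⟨_, (hu.trans hv).append hw, by simpa [mul_assoc] using h3⟩

theorem EL_inv (L : List (Fin l)) {f : Γ ⧸ A.B → F} (hf : ∀ u ∈ A.U, ∀ c, f (u • c) = f c) :
    ∀ u ∈ A.U, ∀ c, (A.EL L *ᵥ f) (u • c) = (A.EL L *ᵥ f) c := fun u hu c => by
  simp only [mulVec, dotProduct]
  rw [← Equiv.sum_comp (MulAction.toPerm u)]; simp [EL_smul, hf u hu]

theorem E_pos {f : Γ ⧸ A.B → F} (hf : ∀ u ∈ A.U, ∀ c, f (u • c) = f c) (hi : R.pos (R.inv w (R.sim i))) :
    (A.E i *ᵥ f) ((A.nW w)⁻¹ : Γ) = f ((A.nW w)⁻¹ : Γ) := by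
  have : ∀ t, f ((A.nW w)⁻¹ * (A.x (R.sim i) t * A.n i) : Γ) = f ((A.nW w)⁻¹ * A.n i : Γ) := fun t => by
    rw [← hf _ (le_US (S := {r | R.pos r}) hi (A.conjW w _ (A.x_mem _ t))) ((A.nW w)⁻¹ * A.n i : Γ)]
    simp [mul_assoc]
  simp [E_mulVec, this, FiniteField.cast_card_eq_zero]

theorem EL_key (L : List (Fin l)) {f : Γ ⧸ A.B → F} (hf : ∀ u ∈ A.U, ∀ c, f (u • c) = f c) (w : List (Fin l)) :
    ∃ v, (A.EL L *ᵥ f) ((A.nW w)⁻¹ : Γ) = f ((A.nW v)⁻¹ : Γ) ∧ (R.Inv v).ncard ≤ (R.Inv w).ncard ∧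
      ((∃ i ∈ L, ¬ R.pos (R.inv w (R.sim i))) → (R.Inv v).ncard < (R.Inv w).ncard) := by
  induction L generalizing w with
  | nil => exact ⟨w, by simp [EL], le_rfl, by simp⟩
  | cons i L ih =>
    rw [show A.EL (i :: L) = A.E i * A.EL L from rfl, ← mulVec_mulVec]
    by_cases hi : R.pos (R.inv w (R.sim i))
    · obtain ⟨v, h1, h2, h3⟩ := ih w
      exact ⟨v, (E_pos (EL_inv L hf) hi).trans h1, h2, by simpa [hi] using h3⟩
    · obtain ⟨v, h1, h2, -⟩ := ih (i :: w)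
      have := R.ncard_Inv_cons w i hi
      refine ⟨v, .trans ?_ ((E_pos (EL_inv L hf) ((R.pos_inv_cons_sim w i).2 hi)).trans h1), by omega, fun _ => by omega⟩
      have : Subgroup.quotientMapOfLE (B_le_Par i) ((A.nW w)⁻¹ : Γ) =
          Subgroup.quotientMapOfLE (B_le_Par (A := A) i) ((A.nW (i :: w))⁻¹ : Γ) :=
        QuotientGroup.eq.2 (by simpa using n_mem_Par i)
      exact Finset.sum_congr rfl fun d _ => by simp only [E, of_apply]; rw [this]

theorem chamber [Finite Γ] (c : Γ ⧸ A.B) : ∃ u ∈ A.U, ∃ w, c = u • (((A.nW w)⁻¹ : Γ) : Γ ⧸ A.B) := by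
  obtain ⟨g, rfl⟩ := QuotientGroup.mk_surjective c
  obtain ⟨w, a, ha, h, hh, u, hu, e⟩ := A.bruhat g⁻¹
  refine ⟨u⁻¹, inv_mem hu, w, QuotientGroup.eq.2 ?_⟩
  simpa [e, mul_assoc] using mul_mem (A.U_B (US_mono (fun r hr => hr.1) ha)) (A.T_B (A.nW_T'' w hh))

theorem EL_row [Finite Γ] (L : List (Fin l)) (c : Γ ⧸ A.B) : ∑ d, A.EL L c d = 1 := by
  obtain ⟨u, hu, w, rfl⟩ := chamber c
  obtain ⟨v, h, -⟩ := EL_key (A := A) L (f := fun _ => 1) (fun _ _ _ => rfl) w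
  have := EL_inv (A := A) L (f := fun _ => 1) (fun _ _ _ => rfl) u hu ((A.nW w)⁻¹ : Γ)
  simpa [mulVec, dotProduct] using this.trans h

theorem EL_pow [Finite Γ] {L : List (Fin l)} (hL : ∀ i, i ∈ L) : A.EL L ^ Nat.card Φ = of fun _ _ => 1 := by
  have e : ∀ m, ∃ L', A.EL L ^ m = A.EL L' := fun m => by
    induction m with
    | zero => exact ⟨[], rfl⟩
    | succ m ih => obtain ⟨L', h⟩ := ih; exact ⟨L' ++ L, by rw [pow_succ, h, EL_append]⟩
  let f : Γ ⧸ A.B → F := Pi.single (1 : Γ) 1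
  have hf : ∀ u ∈ A.U, ∀ c, f (u • c) = f c := fun u hu c => by
    have : u⁻¹ • ((1 : Γ) : Γ ⧸ A.B) = (1 : Γ) := QuotientGroup.eq.2 (by simpa using A.U_B hu)
    simp only [f, Pi.single_apply, smul_eq_iff_eq_inv_smul, this]
  have z : ∀ w, (∀ i, R.pos (R.inv w (R.sim i))) → (R.Inv w).ncard = 0 := fun w h => by
    rw [Set.eq_empty_of_forall_notMem (s := R.Inv w) fun r hr => hr.2 (R.pos_inv_of_sim w h hr.1), Set.ncard_empty]
  have key : ∀ m w, (R.Inv w).ncard ≤ m → (A.EL L ^ m *ᵥ f) ((A.nW w)⁻¹ : Γ) = 1 := fun m => by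
    induction m with
    | zero =>
      intro w h
      have : A.nW w ∈ A.T := A.nW_T' w fun r hr => by_contra fun hr' =>
        ((Set.ncard_eq_zero (Set.toFinite _)).1 (Nat.le_zero.1 h)).le (show r ∈ R.Inv w from ⟨hr, hr'⟩)
      rw [show (((A.nW w)⁻¹ : Γ) : Γ ⧸ A.B) = (1 : Γ) from QuotientGroup.eq.2 (by simpa using A.T_B this)]
      simp [f]
    | succ m ih =>
      intro w h
      obtain ⟨L', e⟩ := e m
      obtain ⟨v, h1, h2, h3⟩ := EL_key L (EL_inv L' hf) w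
      rw [pow_succ', ← mulVec_mulVec, e, h1, ← e]
      refine ih v ?_
      by_cases h4 : ∀ i, R.pos (R.inv w (R.sim i))
      · have := z w h4; omega
      · obtain ⟨i, hi⟩ := not_forall.1 h4
        have := h3 ⟨i, hL i, hi⟩; omega
  ext c d
  obtain ⟨g, rfl⟩ := QuotientGroup.mk_surjective d
  obtain ⟨u, hu, w, h⟩ := chamber (g⁻¹ • c)
  obtain ⟨L', e⟩ := e (Nat.card Φ)
  have := key _ w (Set.ncard_le_card _)
  rw [e, ← EL_inv L' hf u hu, ← h] at this
  rw [e, ← EL_smul L' g⁻¹]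
  simpa [f] using this

omit [Fintype (Γ ⧸ A.B)] [DecidableEq (Γ ⧸ A.B)] [Fintype F] in
theorem hecke [Finite Γ] [Finite F] (hδ : A.Form δ π θ) (hp : 0 < p) (hβ : (conj k * δ) ^ p = 1) (J : List (Fin l))
    (hJ : ∀ i, ∃ j : ℕ, (π ^ j) i ∈ J) : ∃ g w, w.Sublist J ∧ A.CellW w (g⁻¹ * k * δ g) := by
  classical
  have := Fintype.ofFinite F
  have := Fintype.ofFinite (Γ ⧸ A.B)
  let σ := tw δ k A.B hδ.toStd.B
  have hσ : σ ^ p = 1 := tw_pow_eq_one δ k _ _ hβ (A.T_B (nrm_mem_T hδ.toStd hβ))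
  have hE : ∀ i c d, A.E (π i) (σ c) (σ d) = A.E i c d := fun i c d => by
    obtain ⟨a, rfl⟩ := QuotientGroup.mk_surjective c
    obtain ⟨b, rfl⟩ := QuotientGroup.mk_surjective d
    rw [tw_mk, tw_mk, E_mk, E_mk, show (k * δ a)⁻¹ * (k * δ b) = δ (a⁻¹ * b) by simp [mul_assoc]]
    exact if_congr ⟨fun ⟨w, hw, h⟩ => ⟨w.map ⇑π⁻¹, by simpa using hw.map ⇑π⁻¹, by simpa using h.map hδ.inv⟩,
      fun ⟨w, hw, h⟩ => ⟨_, hw.map π, h.map hδ⟩⟩ rfl rfl
  let M := (A.EL J).submatrix id σ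
  have hM : ∀ n, ∃ L, (∀ j < n, ∀ i ∈ J, (π ^ j) i ∈ L) ∧ M ^ n = (A.EL L).submatrix id ⇑(σ ^ n) := fun n => by
    induction n with
    | zero => exact ⟨[], by simp, by simp [EL]⟩
    | succ n ih =>
      obtain ⟨L, h1, h2⟩ := ih
      refine ⟨J ++ L.map π, fun j hj i hi => ?_, ?_⟩
      · obtain _ | j := j
        · exact List.mem_append_left _ hi
        · exact List.mem_append_right _ (pow_succ' π j ▸ List.mem_map_of_mem (h1 j (by omega) i hi))
      · ext c d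
        rw [pow_succ', h2, EL_append, submatrix_apply, mul_apply, mul_apply, ← Equiv.sum_comp σ (fun e => A.EL J _ e * _), pow_succ']
        simp [M, EL_perm hE]
  obtain ⟨L, h1, h2⟩ := hM (p * orderOf π)
  rw [pow_mul σ, hσ, one_pow, Equiv.Perm.coe_one, submatrix_id_id] at h2
  have h3 := EL_pow (A := A) (L := L) fun i => by
    obtain ⟨j, hj⟩ := hJ i
    obtain ⟨m, hm, e⟩ := Finset.mem_image.1 ((mem_zpowers_iff_mem_range_orderOf (x := π)).1
      (inv_mem (Subgroup.npow_mem_zpowers π j)))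
    simpa [e] using h1 m (lt_of_lt_of_le (Finset.mem_range.1 hm) (Nat.le_mul_of_pos_left _ hp)) _ hj
  have h4 : ∀ n, M ^ n * of (fun _ _ => 1) = (of fun _ _ => 1 : Matrix _ (Γ ⧸ A.B) F) := fun n => by
    obtain ⟨L, -, h⟩ := hM n
    ext c d
    simpa [h, mul_apply, Equiv.sum_comp (σ ^ n)] using EL_row L c
  have h5 : ∀ n, (M ^ Fintype.card F ^ n).trace = M.trace ^ Fintype.card F ^ n := fun n => by
    induction n with
    | zero => simp
    | succ n ih => rw [pow_succ, pow_mul, pow_mul, FiniteField.trace_pow_card, ih]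
  rw [← h2, ← pow_mul] at h3
  have h6 := congrFun (congrFun (h4 (p * orderOf π * Nat.card Φ)) (1 : Γ)) (1 : Γ)
  obtain ⟨n, hn⟩ := Nat.exists_eq_add_of_le' (Nat.lt_pow_self (n := p * orderOf π * Nat.card Φ) (Fintype.one_lt_card (α := F))).le
  have h7 := h5 (p * orderOf π * Nat.card Φ)
  rw [h3] at h6
  rw [hn, pow_add, h3, h4, ← hn] at h7
  have h8 : M.trace ≠ 0 := fun e => by
    rw [e, zero_pow (by positivity)] at h7
    simp [trace, mul_apply] at h6 h7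
    exact one_ne_zero (h6.symm.trans h7)
  obtain ⟨c, -, h⟩ := Finset.exists_ne_zero_of_sum_ne_zero h8
  obtain ⟨g, rfl⟩ := QuotientGroup.mk_surjective c
  exact ⟨g, by simpa only [mul_assoc] using EL_supp (g' := k * δ g) J h⟩

end Chv
end Cfsg.Agent.Lib.Chev
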