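/- Triality automorphisms of order 3 of `D₄(q)` normalising no Borel subgroup, part 1.  Owner: helper8. -/
import Cfsg.Agent.Lib.Chev.Stein2
import Cfsg.Agent.Lib.Chev.Stein3

set_option autoImplicit false
set_option linter.unusedSectionVars false

namespace Cfsg.Agent.Lib.Chev
open MulAut (conj)
open Subgroup (normalizer)

variable {Φ : Type} {l : ℕ}

namespace RS
variable (R : RS Φ l)

/-- roots cut out by two functionals -/
def SS (c d : Fin l → ℤ) : Set Φ := {r | 1 ≤ ∑ j, c j * R.ρ r j ∧ ∑ j, d j * R.ρ r j = 0}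
def lv (a j : Fin l) : ℤ := if j = a then 0 else 1
def ph (a i j : Fin l) : ℤ := if j = a ∨ j = i then 0 else 1

/-- what is used of the root system `D₄` with central node `a` -/
structure D4H (a : Fin l) : Prop where
  perm : ∀ π : Equiv.Perm (Fin l), (∀ i j, R.refl i (R.sim j) = R.sim j ↔ R.refl (π i) (R.sim (π j)) = R.sim (π j)) →
    π a = a ∧ ∀ i j, R.cart (π i) (π j) = R.cart i j
  orb : ∀ π : Equiv.Perm (Fin l), π a = a → π ^ 3 = 1 → π ≠ 1 →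
    (∀ i, i ≠ a → π i ≠ i ∧ ∀ j, j ≠ a → j = i ∨ j = π i ∨ j = π (π i)) ∧ ∀ π', π' * π = π * π' → π' ^ 3 = 1
  w0 : ∃ w, ∀ r, R.inv w r = R.neg r
  hP : ∀ r, (0 ≤ R.ρ r ∧ r ≠ R.sim a) ↔ r ∈ R.SS (lv a) 0
  ex : ∃ γ ∈ R.SS (lv a) (R.cart a), ∃ i, i ≠ a ∧ R.ρ γ i = 0 ∧ ∀ j, j ≠ i → R.ρ γ j ≠ 0
  hO : ∀ r ∈ R.SS (lv a) (R.cart a), R.Orth (R.sim a) r ∧ ∀ s ∈ R.SS (lv a) (R.cart a), r ≠ s → R.Orth r s
  hY : ∀ i, i ≠ a → (∀ r ∈ R.SS (lv a) (ph a i), ¬ 0 ≤ R.ρ (R.inv [a, i, a] r)) ∧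
    (∀ r ∈ R.SS (ph a i) 0, 0 ≤ R.ρ (R.inv [a, i, a] r) ∧ r ∈ R.SS (lv a) 0) ∧
    (∀ j, j ≠ a → j ≠ i → ∀ r ∈ R.SS (lv a) (ph a j), r ∈ R.SS (ph a i) 0) ∧
    R.sim i ∈ R.SS (lv a) (ph a i) ∧ R.refl i (R.sim a) ∈ R.SS (lv a) (ph a i)

variable {R}

theorem SS_neg {c d : Fin l → ℤ} {r : Φ} : R.neg r ∈ R.SS c d ↔ r ∈ R.SS (-c) d := by
  simp [SS, R.ρ_neg]

theorem SS_map {c d c' d' : Fin l → ℤ} {π : Equiv.Perm (Fin l)} {θ : Φ → Φ} (hρ : ∀ r j, R.ρ (θ r) (π j) = R.ρ r j)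
    (hc : ∀ j, c' (π j) = c j) (hd : ∀ j, d' (π j) = d j) (r : Φ) : θ r ∈ R.SS c' d' ↔ r ∈ R.SS c d := by
  simp only [SS, Set.mem_ofPred_eq, ← Equiv.sum_comp π fun j => c' j * R.ρ (θ r) j,
    ← Equiv.sum_comp π fun j => d' j * R.ρ (θ r) j, hρ, hc, hd]

theorem SS_cone {c d : Fin l → ℤ} {r s : Φ} (h1 : 0 ≤ ∑ j, c j * R.ρ s j) (h2 : ∑ j, d j * R.ρ s j = 0)
    (hr : r ∈ R.SS c d) : R.cone s r ⊆ R.SS c d := by
  rintro u ⟨m, n, hn, e⟩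
  have : ∀ c : Fin l → ℤ, ∑ j, c j * R.ρ u j = m * ∑ j, c j * R.ρ s j + n * ∑ j, c j * R.ρ r j := fun c => by
    simp only [e, Finset.mul_sum, ← Finset.sum_add_distrib]
    exact Finset.sum_congr rfl fun j _ => by simp; ring
  obtain ⟨h3, h4⟩ := hr
  refine ⟨?_, by rw [this, h2, h4]; simp⟩
  rw [this]
  have : (1 : ℤ) ≤ n := by exact_mod_cast hn
  nlinarith [mul_nonneg (Nat.cast_nonneg (α := ℤ) m) h1]

theorem dot_sim (c : Fin l → ℤ) (i : Fin l) : ∑ j, c j * R.ρ (R.sim i) j = c i := by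
  simp [R.ρ_sim, Pi.single_apply]

theorem lv_map {a : Fin l} {π : Equiv.Perm (Fin l)} (h : π a = a) (j : Fin l) : lv a (π j) = lv a j := by
  simp only [lv, ← π.eq_symm_apply, show π.symm a = a from π.symm_apply_eq.2 h.symm]

theorem ph_map {a : Fin l} {π : Equiv.Perm (Fin l)} (h : π a = a) (i j : Fin l) : ph a (π i) (π j) = ph a i j := by
  simp only [ph, ← π.eq_symm_apply, show π.symm a = a from π.symm_apply_eq.2 h.symm, π.symm_apply_apply]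

/-- a Weyl element fixing `a` and commuting with a triality -/
theorem dich {a : Fin l} {w : List (Fin l)} (hw : R.inv w (R.sim a) = R.sim a)
    (h : ∀ i, i ≠ a → ∀ j, j ≠ a → R.pos (R.inv w (R.sim i)) → R.pos (R.inv w (R.sim j))) :
    (∀ r, R.pos r → R.pos (R.inv w r)) ∨ ∀ r ∈ R.P' a, ¬ R.pos (R.inv w r) := by
  by_cases h1 : ∀ i, R.pos (R.inv w (R.sim i))
  · exact Or.inl fun r hr => R.pos_inv_of_sim w h1 hr
  push Not at h1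
  obtain ⟨i, hi⟩ := h1
  have hia : i ≠ a := by rintro rfl; exact hi (hw.symm ▸ R.pos_sim _)
  refine Or.inr fun r hr => ?_
  rw [← R.refl_refl a r, ← R.inv_cons]
  refine R.neg_inv_of_sim _ (fun j => ?_) (R.pos_refl hr.1 hr.2).1
  by_cases hj : j = a
  · rw [hj, R.pos_inv_cons_sim, hw]; exact fun h => h (R.pos_sim a)
  have h2 : R.pos (R.neg (R.inv w (R.sim j))) := (R.pos_neg_iff _).2 fun h' => hi (h j hj i hia h')
  obtain ⟨m, hm, h3⟩ := R.exists_coord (i := a) h2 fun e => by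
    rw [← R.inv_neg, ← hw] at e
    have := R.pos_sim a
    rw [← R.inv_injective w e, R.pos_neg_iff] at this
    exact this (R.pos_sim j)
  intro h4
  have h5 := h4 m
  rw [R.inv_cons, R.ρ_inv, R.ρ_refl, map_sub, map_zsmul, ← R.ρ_sim, ← R.ρ_inv, ← R.ρ_inv, hw, R.ρ_sim a] at h5
  rw [R.ρ_neg] at h3
  simp [Pi.single_apply, hm] at h3 h5
  omega

end RS

namespace Chv
variable {R : RS Φ l} {F : Type*} [Field F] {Γ : Type*} [Group Γ] (A : Chv R F Γ) [Finite Φ] [Finite Γ] [Finite F]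
  {a : Fin l} {c d c' d' : Fin l → ℤ} {δ β : MulAut Γ} {π : Equiv.Perm (Fin l)} {θ : Equiv.Perm Φ} {g k y : Γ}

abbrev Lv (a : Fin l) : Subgroup Γ := A.X (R.sim a) ⊔ A.X (R.neg (R.sim a)) ⊔ A.T
abbrev Rad (c d : Fin l → ℤ) : Subgroup Γ := US A.X (R.SS c d)
abbrev Qp (a : Fin l) : Subgroup Γ := A.Rad (RS.lv a) 0
abbrev Qm (a : Fin l) : Subgroup Γ := A.Rad (-RS.lv a) 0
abbrev Pp (a : Fin l) : Subgroup Γ := normalizer (A.Qp a : Set Γ)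

theorem X_norm {s : Φ} (h1 : 0 ≤ ∑ j, c j * R.ρ s j) (h2 : ∑ j, d j * R.ρ s j = 0) :
    A.X s ≤ normalizer (A.Rad c d : Set Γ) := fun x hx =>
  Subgroup.mem_normalizer_fintype fun y hy => US_conj x (fun r hr z hz => by
    by_cases e : r = s
    · subst e; exact le_US hr (mul_mem (mul_mem hx hz) (inv_mem hx))
    have e' : r ≠ R.neg s := by
      rintro rfl
      have := hr.1
      simp [R.ρ_neg] at this
      omega
    obtain ⟨t, rfl⟩ := (A.mem_X _ _).1 hx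
    obtain ⟨u, rfl⟩ := (A.mem_X _ _).1 hz
    exact US_mono (RS.SS_cone h1 h2 hr) (A.conj_cone e e' t u)) hy

theorem T_norm (S : Set Φ) : A.T ≤ normalizer (US A.X S : Set Γ) := fun _ hx =>
  Subgroup.mem_normalizer_fintype fun _ hy => A.T_US hx hy

theorem L_norm (hc : c a = 0) (hd : d a = 0) : A.Lv a ≤ normalizer (A.Rad c d : Set Γ) :=
  sup_le (sup_le (A.X_norm (by rw [RS.dot_sim, hc]) (by rw [RS.dot_sim, hd]))
    (A.X_norm (by simp [R.ρ_neg, RS.dot_sim, hc]) (by simp [R.ρ_neg, RS.dot_sim, hd]))) (A.T_norm _)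

theorem U_norm (hc : ∀ j, 0 ≤ c j) : A.U ≤ normalizer (A.Rad c 0 : Set Γ) :=
  US_le fun _ hr => A.X_norm (Finset.sum_nonneg fun j _ => mul_nonneg (hc j) (hr j)) (by simp)

theorem L_P : A.Lv a ≤ A.Pp a := A.L_norm (by simp [RS.lv]) rfl
theorem L_Pm : A.Lv a ≤ normalizer (A.Qm a : Set Γ) := A.L_norm (by simp [RS.lv]) rfl
theorem U_P : A.U ≤ A.Pp a := A.U_norm fun j => by unfold RS.lv; split_ifs <;> simp
theorem X_L : A.X (R.sim a) ≤ A.Lv a := le_sup_left.trans le_sup_left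
theorem Xm_L : A.X (R.neg (R.sim a)) ≤ A.Lv a := le_sup_right.trans le_sup_left
theorem T_L : A.T ≤ A.Lv a := le_sup_right
theorem n_L : A.n a ∈ A.Lv a := by
  rw [A.n_def]; exact mul_mem (mul_mem (A.X_L (A.x_mem _ _)) (A.Xm_L (A.x_mem _ _))) (A.X_L (A.x_mem _ _))

theorem w0_Rad {w : List (Fin l)} (hw : ∀ r, R.inv w r = R.neg r) (g : Γ) :
    (A.nW w)⁻¹ * g * A.nW w ∈ A.Rad c d ↔ g ∈ A.Rad (-c) d := A.conjW_US w (fun r => by rw [hw, RS.SS_neg]) g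

variable {A}

theorem Form.map_Rad (hδ : A.Form δ π θ) (hρ : ∀ r j, R.ρ (θ r) (π j) = R.ρ r j) (hg : g ∈ A.Lv a) (hc' : c' a = 0)
    (hd' : d' a = 0) (hc : ∀ j, c' (π j) = c j) (hd : ∀ j, d' (π j) = d j) (hy : y ∈ A.Rad c d) :
    (conj g * δ) y ∈ A.Rad c' d' :=
  (Subgroup.mem_normalizer_iff.1 (A.L_norm hc' hd' hg) _).1 (US_map δ.toMonoidHom
    (fun r hr x hx => le_US ((RS.SS_map hρ hc hd r).2 hr) ((hδ.X r x).2 hx)) hy)

theorem Form.d4 (hδ : A.Form δ π θ) (H : R.D4H a) :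
    π a = a ∧ (∀ i j, R.cart (π i) (π j) = R.cart i j) ∧ ∀ r j, R.ρ (θ r) (π j) = R.ρ r j := by
  obtain ⟨h1, h2⟩ := H.perm π fun i j => by rw [← hδ.sim, ← hδ.refl, θ.apply_eq_iff_eq]
  refine ⟨h1, h2, fun r => ?_⟩
  obtain ⟨w, i, e⟩ := R.exists_inv_eq_sim r
  induction w generalizing r with
  | nil => intro j; rw [show r = R.sim i from e, hδ.sim]; simp [R.ρ_sim, Pi.single_apply]
  | cons m w ih =>
    have h3 := ih _ e
    intro j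
    rw [← R.refl_refl m r, hδ.refl, R.ρ_refl, R.ρ_refl m (R.refl m r), ← Equiv.sum_comp π]
    simp [h2, h3, Pi.single_apply]

theorem Form.Q (hδ : A.Form δ π θ) (H : R.D4H a) (hg : g ∈ A.Lv a) (y : Γ) : (conj g * δ) y ∈ A.Qp a ↔ y ∈ A.Qp a :=
  iff_of_maps _ (fun _ => hδ.map_Rad (hδ.d4 H).2.2 hg (by simp [RS.lv]) rfl (RS.lv_map (hδ.d4 H).1) fun _ => rfl) y

theorem Form.Qm (hδ : A.Form δ π θ) (H : R.D4H a) (hg : g ∈ A.Lv a) (y : Γ) : (conj g * δ) y ∈ A.Qm a ↔ y ∈ A.Qm a :=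
  iff_of_maps _ (fun _ => hδ.map_Rad (hδ.d4 H).2.2 hg (by simp [RS.lv]) rfl
    (fun j => congrArg Neg.neg (RS.lv_map (hδ.d4 H).1 j)) fun _ => rfl) y

variable (A) (H : R.D4H a)
include H

theorem Q_eq : US A.X (R.P' a) = A.Qp a := congrArg _ (Set.ext H.hP)
theorem Q_U : A.Qp a ≤ A.U := US_mono fun r hr => ((H.hP r).2 hr).1
theorem Qm_Um : A.Qm a ≤ A.Um := US_mono fun r hr => (R.pos_neg_iff r).1 ((H.hP _).2 (RS.SS_neg.2 hr)).1

theorem split_Q (hg : g ∈ A.U) : ∃ x ∈ A.X (R.sim a), ∃ q ∈ A.Qp a, g = x * q := A.Q_eq H ▸ A.split (R.closed_pos a) hg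

theorem mem_P (hg : g ∈ A.Pp a) : (∃ h ∈ A.T, ∃ u ∈ A.U, g = h * u) ∨
    ∃ x ∈ A.X (R.sim a), ∃ h ∈ A.T, ∃ u ∈ A.U, g = x * A.n a * h * u := by
  obtain ⟨w, b, hb, t, ht, u, hu, rfl⟩ := A.bruhat g
  have hb' : b ∈ A.U := US_mono (fun r hr => hr.1) hb
  have h1 : A.nW w ∈ A.Pp a := by
    simpa [mul_assoc] using mul_mem (mul_mem (mul_mem (inv_mem (A.U_P hb')) hg) (inv_mem (A.U_P hu)))
      (inv_mem (A.T_norm _ ht))
  have h2 : ∀ r ∈ R.P' a, R.pos (R.inv w r) := fun r hr => by_contra fun h => A.x_ne r (by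
    have := A.U_Um (A.Q_U H ((Subgroup.mem_normalizer_iff''.1 h1 _).1 (le_US ((H.hP r).1 hr) (A.x_mem r 1))))
      (le_US (S := {r | ¬ R.pos r}) h (A.conjW w r (A.x_mem r 1)))
    simpa [mul_assoc, inv_mul_eq_one] using this)
  by_cases h3 : R.pos (R.inv w (R.sim a))
  · have h4 : A.nW w ∈ A.T := A.nW_T' w fun r hr => by
      by_cases e : r = R.sim a
      exacts [e ▸ h3, h2 r ⟨hr, e⟩]
    exact Or.inl ⟨_, mul_mem h4 ht, _, mul_mem (A.T_U (inv_mem (mul_mem h4 ht)) hb') hu, by group⟩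
  have h4 : A.nW (a :: w) ∈ A.T := A.nW_T' _ fun r hr => by
    by_cases e : r = R.sim a
    exacts [e ▸ (R.pos_inv_cons_sim w a).2 h3, h2 _ (R.pos_refl hr e)]
  obtain ⟨h, hh, e⟩ := A.n_inv a
  refine Or.inr ⟨b, US_le (K := A.X (R.sim a)) (fun r hr => ?_) hb, _, mul_mem (mul_mem (A.n_T a h hh) h4) ht, u, hu, ?_⟩
  · rw [show r = R.sim a from by_contra fun e => hr.2 (h2 r ⟨hr.1, e⟩)]
  · rw [Fold.nW_cons, show h = (A.n a)⁻¹ * (A.n a)⁻¹ from eq_mul_inv_of_mul_eq e.symm]; group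

theorem mem_LQ (hg : g ∈ A.Pp a) : ∃ m ∈ A.Lv a, ∃ q ∈ A.Qp a, g = m * q := by
  rcases A.mem_P H hg with ⟨h, hh, u, hu, rfl⟩ | ⟨x, hx, h, hh, u, hu, rfl⟩ <;>
    obtain ⟨x', hx', q, hq, rfl⟩ := A.split_Q H hu
  · exact ⟨_, mul_mem (A.T_L hh) (A.X_L hx'), q, hq, by group⟩
  · exact ⟨_, mul_mem (mul_mem (mul_mem (A.X_L hx) A.n_L) (A.T_L hh)) (A.X_L hx'), q, hq, by group⟩

theorem Qm_P (hg : g ∈ A.Qm a) (hg' : g ∈ A.Pp a) : g = 1 := by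
  rcases A.mem_P H hg' with ⟨h, hh, u, hu, e⟩ | ⟨x, hx, h, hh, u, hu, e⟩
  · obtain ⟨rfl, rfl⟩ := A.ldu g (A.Qm_Um H hg) h hh u hu e
    simpa using e
  exfalso
  have h0 := A.x_mem (R.sim a) 1
  have h1 := (Subgroup.mem_normalizer_iff''.1 (A.L_Pm (A.X_L (mul_mem hx h0))) _).1 hg
  have e1 : A.x (R.neg (R.sim a)) 1 * ((x * A.x (R.sim a) 1)⁻¹ * g * (x * A.x (R.sim a) 1)) =
      h * (h⁻¹ * A.x (R.sim a) 1 * h⁻¹⁻¹ * u * (x * A.x (R.sim a) 1)) := by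
    rw [e, A.n_def, A.x_neg]; group
  obtain ⟨h2, h3⟩ := A.ldu _ (mul_mem (A.x_Um (by simpa [R.pos_neg_iff] using R.pos_sim a) 1) (A.Qm_Um H h1)) h hh _
    (mul_mem (mul_mem (A.T_U (inv_mem hh) (A.x_U (R.pos_sim a) 1)) hu)
      (le_US (S := {r | R.pos r}) (R.pos_sim a) (mul_mem hx h0))) e1
  rw [h3, h2, mul_one, mul_eq_one_iff_eq_inv] at e1
  have h4 := (Subgroup.mem_normalizer_iff.1 (A.L_Pm A.n_L) _).1 (e1 ▸ inv_mem h1)
  have h5 := A.conj a _ _ (A.x_mem (R.neg (R.sim a)) 1)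
  rw [R.refl_neg_sim] at h5
  exact A.x_ne _ (by simpa using A.U_Um (le_US (S := {r | R.pos r}) (R.pos_sim a) h5) (A.Qm_Um H h4))

theorem Q_Pm (hg : g ∈ A.Qp a) (hg' : ∀ z ∈ A.Qm a, g * z * g⁻¹ ∈ A.Qm a) : g = 1 := by
  obtain ⟨w, hw⟩ := H.w0
  have := A.Qm_P H (g := (A.nW w)⁻¹ * g * A.nW w) ((A.w0_Rad hw g).2 (by rwa [neg_neg]))
    (Subgroup.mem_normalizer_fintype fun z hz => by
      have := (A.w0_Rad hw _).2 (hg' (A.nW w * z * (A.nW w)⁻¹) ((A.w0_Rad hw _).1 (by simpa [mul_assoc] using hz)))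
      simpa [mul_assoc] using this)
  simpa [mul_assoc, inv_mul_eq_one] using this

end Chv
end Cfsg.Agent.Lib.Chev
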