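/- Triality automorphisms of order 3 of `D₄(q)` normalising no Borel subgroup, part 2.  Owner: helper8. -/
import Cfsg.Agent.Lib.Chev.Pgu1
import Cfsg.Agent.Lib.Core.Basic

set_option autoImplicit false
set_option linter.unusedSectionVars false

namespace Cfsg.Agent.Lib.Chev
open MulAut (conj)
open Subgroup (normalizer)

theorem norm_map {Γ : Type*} [Group Γ] {μ : MulAut Γ} {V : Subgroup Γ} (h : ∀ y, μ y ∈ V ↔ y ∈ V) {g : Γ}
    (hg : g ∈ normalizer (V : Set Γ)) : μ g ∈ normalizer (V : Set Γ) :=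
  Subgroup.mem_normalizer_iff.2 fun z => by
    obtain ⟨z, rfl⟩ := μ.surjective z
    rw [h, Subgroup.mem_normalizer_iff.1 hg, ← h, map_mul, map_mul, map_inv]

namespace Chv
variable {Φ : Type} {l : ℕ} {R : RS Φ l} {F : Type*} [Field F] {Γ : Type*} [Group Γ] (A : Chv R F Γ) [Finite Φ] [Finite Γ]
  [Finite F] {a : Fin l} {δ β : MulAut Γ} {π : Equiv.Perm (Fin l)} {θ : Equiv.Perm Φ} {g k y : Γ} {w : List (Fin l)}

theorem nW_L (hw : R.inv w (R.sim a) = R.sim a) (hk : k ∈ A.Lv a) : (A.nW w)⁻¹ * k * A.nW w ∈ A.Lv a := by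
  have : A.Lv a ≤ (A.Lv a).comap (conj (A.nW w)⁻¹).toMonoidHom := sup_le (sup_le
    (fun x hx => by simpa using A.X_L (hw ▸ A.conjW w _ hx))
    fun x hx => by simpa using A.Xm_L (hw ▸ R.inv_neg w _ ▸ A.conjW w _ hx))
    fun x hx => by simpa using A.T_L (A.nW_T w hx)
  simpa using this hk

theorem L_orth {s : Φ} (hs : R.Orth (R.sim a) s) (hk : k ∈ A.Lv a) : ∃ e : Fˣ, ∀ t, k * A.x s t * k⁻¹ = A.x s (e * t) ∧
    k * A.x (R.neg s) t * k⁻¹ = A.x (R.neg s) ((e⁻¹ : Fˣ) * t) := by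
  let K : Subgroup Γ :=
    { carrier := {k | ∃ e : Fˣ, ∀ t, conj k (A.x s t) = A.x s (e * t) ∧
        conj k (A.x (R.neg s) t) = A.x (R.neg s) ((e⁻¹ : Fˣ) * t)}
      one_mem' := ⟨1, by simp⟩
      mul_mem' := by
        rintro b c ⟨e, he⟩ ⟨f, hf⟩
        refine ⟨e * f, fun t => ?_⟩
        rw [map_mul, MulAut.mul_apply, MulAut.mul_apply, (hf t).1, (hf t).2, (he _).1, (he _).2]
        constructor <;> congr 1 <;> push_cast <;> ring
      inv_mem' := by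
        rintro b ⟨e, he⟩
        refine ⟨e⁻¹, fun t => ?_⟩
        rw [map_inv, MulAut.inv_def, MulEquiv.symm_apply_eq, MulEquiv.symm_apply_eq, (he _).1, (he _).2]
        simp }
  have h1 : ∀ r, R.Nc r s → R.Nc r (R.neg s) → A.X r ≤ K := fun r h h' x hx => by
    obtain ⟨u, rfl⟩ := (A.mem_X _ _).1 hx
    exact ⟨1, fun t => ⟨by simp [(A.comm_of_cone h.ne.1 h.ne.2 h.cone u t).eq],
      by simp [(A.comm_of_cone h'.ne.1 h'.ne.2 h'.cone u t).eq]⟩⟩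
  refine (sup_le (sup_le (h1 _ hs.1 hs.2.1) (h1 _ hs.2.2.1 hs.2.2.2)) (fun h hh => ?_) : A.Lv a ≤ K) hk
  obtain ⟨χ, hχ⟩ := A.T_act h hh
  exact ⟨χ.ev (R.ρ s), fun t => ⟨hχ s t, (hχ _ t).trans (by rw [R.ρ_neg, Chr.ev_neg])⟩⟩

/-- the situation of the theorem -/
structure Ctx (a : Fin l) (δ : MulAut Γ) (π : Equiv.Perm (Fin l)) (θ : Equiv.Perm Φ) (k : Γ) (β : MulAut Γ) : Prop where
  H : R.D4H a
  form : A.Form δ π θ
  ne : π ≠ 1
  three : ((3 : ℕ) : F) ≠ 0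
  eq : β = conj k * δ
  pow : β ^ 3 = 1
  kL : k ∈ A.Lv a
  nc : ∀ g, ¬ A.CellW [] (g⁻¹ * k * δ g)

namespace Ctx
variable {A} (C : A.Ctx a δ π θ k β)
include C

theorem Q (y : Γ) : β y ∈ A.Qp a ↔ y ∈ A.Qp a := C.eq ▸ C.form.Q C.H C.kL y
theorem Qm (y : Γ) : β y ∈ A.Qm a ↔ y ∈ A.Qm a := C.eq ▸ C.form.Qm C.H C.kL y
theorem P (hy : y ∈ A.Pp a) : β y ∈ A.Pp a := norm_map C.Q hy
theorem orb : (∀ i, i ≠ a → π i ≠ i ∧ ∀ j, j ≠ a → j = i ∨ j = π i ∨ j = π (π i)) ∧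
    ∀ π', π' * π = π * π' → π' ^ 3 = 1 :=
  C.H.orb π (C.form.d4 C.H).1 (C.form.pow (C.eq ▸ C.pow)).1 C.ne

theorem no_syl {W : Subgroup Γ} {r : ℕ} [Fact r.Prime] [CharP F r] (hW : IsPGroup r W) (h : ∀ y ∈ W, β y ∈ W) {c : Γ}
    (hc : ∀ y ∈ A.U, c * y * c⁻¹ ∈ W) : False := by
  obtain ⟨g, hg⟩ := A.conj_into_U r hW
  have h1 := iff_of_maps (conj (g⁻¹ * c)) (H := A.U) fun y hy => by simpa [mul_assoc] using hg _ (hc y hy)
  obtain ⟨t, ht, u, hu, e⟩ := A.mem_B (g := c⁻¹ * k * δ c) fun y hy => by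
    obtain ⟨y, rfl⟩ := δ.surjective y
    refine (h1 _).1 ?_
    simpa [C.eq, mul_assoc] using hg _ (h _ (hc y ((C.form.U y).1 hy)))
  exact C.nc c ⟨1, one_mem _, t, ht, u, hu, by simp [e]⟩

theorem aux (hg : g⁻¹ * β g ∈ A.Pp a) {c : Γ} (hc : c ∈ A.Pp a)
    (h : ∀ x ∈ A.X (R.sim a), g⁻¹ * (c * x * c⁻¹) * g ∈ A.Qp a) : False := by
  have hr := Fact.mk (CharP.char_is_prime F (ringChar F))
  have hQ := (A.pg_U (ringChar F)).to_le (A.Q_U C.H)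
  let W := ((A.Qp a).comap (conj g⁻¹).toMonoidHom ⊓ A.Pp a) ⊔ A.Qp a
  have h1 : W ≤ W.comap β.toMonoidHom := sup_le (fun y hy => Subgroup.mem_sup_left (Subgroup.mem_inf.2 ⟨by
    simpa [mul_assoc] using (Subgroup.mem_normalizer_iff.1 hg _).1 ((C.Q _).2 hy.1), C.P hy.2⟩))
      fun y hy => Subgroup.mem_sup_right ((C.Q y).2 hy)
  refine C.no_syl (W := W) (c := c)
    ((hQ.comap_of_injective _ (conj g⁻¹).injective).to_inf_left.to_sup_of_normal_right' hQ inf_le_right) h1 fun y hy => ?_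
  · obtain ⟨x, hx, q, hq, rfl⟩ := A.split_Q C.H hy
    rw [show c * (x * q) * c⁻¹ = c * x * c⁻¹ * (c * q * c⁻¹) by group]
    exact mul_mem (Subgroup.mem_sup_left (Subgroup.mem_inf.2 ⟨by simpa using h x hx,
      mul_mem (mul_mem hc (A.L_P (A.X_L hx))) (inv_mem hc)⟩))
      (Subgroup.mem_sup_right ((Subgroup.mem_normalizer_iff.1 hc _).1 hq))

theorem key1 (hg : g⁻¹ * β g ∈ A.Pp a) :
    ∃ q ∈ A.Qp a, ∃ w, R.inv w (R.sim a) = R.sim a ∧ ∃ p ∈ A.Pp a, g = q * A.nW w * p := by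
  obtain ⟨w, b, hb, t, ht, u, hu, rfl⟩ := A.bruhat g
  have hb' : b ∈ A.U := US_mono (fun r hr => hr.1) hb
  have h0 : t * u ∈ A.Pp a := mul_mem (A.T_norm _ ht) (A.U_P hu)
  have h1 : (b * A.nW w)⁻¹ * β (b * A.nW w) ∈ A.Pp a := by
    simpa [mul_assoc] using mul_mem (mul_mem h0 hg) (inv_mem (C.P h0))
  have h2 : R.inv w (R.sim a) ∉ R.P' a := fun h => C.aux h1 (A.U_P hb') fun x hx => by
    simpa [mul_assoc] using le_US (X := A.X) ((C.H.hP _).1 h) (A.conjW w _ hx)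
  have h3 : R.inv w (R.neg (R.sim a)) ∉ R.P' a := fun h => C.aux h1 (mul_mem (A.U_P hb') (A.L_P A.n_L)) fun x hx => by
    have := A.conj a _ x hx
    rw [R.refl_sim] at this
    simpa [mul_assoc] using le_US (X := A.X) ((C.H.hP _).1 h) (A.conjW w _ this)
  obtain ⟨x, hx, q, hq, rfl⟩ := A.split_Q C.H hb'
  have h4 := (Subgroup.mem_normalizer_iff.1 (A.L_P (A.X_L hx)) _).1 hq
  have h5 := A.conjW w _ hx
  by_cases h : R.pos (R.inv w (R.sim a))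
  · have e : R.inv w (R.sim a) = R.sim a := by_contra fun e => h2 ⟨h, e⟩
    exact ⟨_, h4, w, e, _, mul_mem (A.L_P (A.X_L (e ▸ h5))) h0, by group⟩
  · have e : R.neg (R.inv w (R.sim a)) = R.sim a := by_contra fun e => h3 (R.inv_neg w _ ▸ ⟨(R.pos_neg_iff _).2 h, e⟩)
    have e' : R.inv w (R.sim a) = R.neg (R.sim a) := by rw [← e, R.neg_neg', e]
    refine ⟨_, h4, w ++ [a], by rw [R.inv_append, e']; exact R.refl_neg_sim a, _,
      mul_mem (inv_mem (A.L_P A.n_L)) (mul_mem (A.L_P (A.Xm_L (e' ▸ h5))) h0), ?_⟩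
    rw [Fold.nW_append, Fold.nW_cons, Fold.nW_nil]; group

theorem key2 {q : Γ} (hq : q ∈ A.Qp a) (hw : R.inv w (R.sim a) = R.sim a) (h1 : (A.nW w)⁻¹ * q * β (A.nW w) ∈ A.Pp a)
    (r : Φ) : R.inv w (θ r) = θ (R.inv w r) := by
  obtain ⟨t, ht, e⟩ := C.form.nW w
  have h2 : R.inv (w.map π) (R.sim a) = R.sim a := by
    have := C.form.inv_map w (R.sim a)
    rwa [hw, C.form.sim, (C.form.d4 C.H).1] at this
  have h3 : (A.nW w)⁻¹ * q * A.nW (w.map π) ∈ A.Pp a := by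
    have := mul_mem h1 (A.L_P (mul_mem (mul_mem C.kL (A.T_L (inv_mem ht))) (inv_mem (A.nW_L h2 C.kL))))
    simpa [C.eq, e, mul_assoc] using this
  have h4 : A.CellW (w.map π) (q * A.nW (w.map π)) := ⟨q, A.Q_U C.H hq, 1, one_mem _, 1, one_mem _, by simp⟩
  rcases A.mem_P C.H h3 with ⟨h, hh, u, hu, e⟩ | ⟨x, hx, h, hh, u, hu, e⟩
  · rw [← C.form.inv_map, h4.unique A (w' := w) ⟨1, one_mem _, h, hh, u, hu, by rw [mul_assoc _ h, ← e]; group⟩]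
  · have := congrFun (h4.unique A (w' := w ++ [a]) ⟨_, le_US (S := {r | R.pos r}) (R.pos_sim a) (A.conjW' w _ (hw.symm ▸ hx)),
      h, hh, u, hu, by
        rw [Fold.nW_append, Fold.nW_cons, Fold.nW_nil,
          show q * A.nW (w.map π) = A.nW w * ((A.nW w)⁻¹ * q * A.nW (w.map π)) by group, e]; group⟩) (R.sim a)
    rw [h2, R.inv_append, hw, R.inv_cons, R.inv_nil, R.refl_sim] at this
    exact absurd (R.pos_sim a) ((R.pos_neg_iff _).1 (this ▸ R.pos_sim a))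

/-- the `β`-invariant conjugates of `Q` -/
theorem key {w0 : List (Fin l)} (hw0 : ∀ r, R.inv w0 r = R.neg r) (hg : g⁻¹ * β g ∈ A.Pp a) :
    g ∈ A.Pp a ∨ ∃ v ∈ A.Qp a, β v = v ∧ ∃ p ∈ A.Pp a, g = v * A.nW w0 * p := by
  obtain ⟨q, hq, w, hw, p, hp, rfl⟩ := C.key1 hg
  have hq' := mul_mem (inv_mem hq) ((C.Q q).2 hq)
  have h1 : (A.nW w)⁻¹ * (q⁻¹ * β q) * β (A.nW w) ∈ A.Pp a := by
    simpa [mul_assoc] using mul_mem (mul_mem hp hg) (inv_mem (C.P hp))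
  have h2 : ∀ i, R.pos (R.inv w (R.sim i)) → R.pos (R.inv w (R.sim (π i))) := fun i h => by
    rwa [← C.form.sim, C.key2 hq' hw h1, C.form.pos]
  rcases RS.dich hw fun i hi j hj h => (by
    rcases (C.orb.1 i hi).2 j hj with rfl | rfl | rfl
    exacts [h, h2 _ h, h2 _ (h2 _ h)]) with h | h
  · exact Or.inl (mul_mem (mul_mem (Subgroup.le_normalizer hq) (A.T_norm _ (A.nW_T' w h))) hp)
  have h3 : ((A.nW w0)⁻¹ * A.nW w)⁻¹ ∈ A.Pp a := Subgroup.mem_normalizer_fintype fun y hy => by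
    have := US_conj (A.nW w)⁻¹ (K := A.Qp a) (fun r hr z hz => le_US ((C.H.hP (R.inv w r)).1 ⟨by
      have := h _ ((C.H.hP _).2 (RS.SS_neg.2 hr))
      rwa [R.inv_neg, R.pos_neg_iff, not_not] at this, fun e => by
        have := hr.1
        rw [R.inv_injective w (e.trans hw.symm), RS.dot_sim] at this
        simp [RS.lv] at this⟩) (by simpa using A.conjW w r hz))
      ((A.w0_Rad hw0 (A.nW w0 * y * (A.nW w0)⁻¹)).1 (by simpa [mul_assoc] using hy))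
    simpa [mul_assoc] using this
  rw [inv_mem_iff] at h3
  have h4 : (A.nW w0)⁻¹ * β (A.nW w0) ∈ A.Pp a := Subgroup.mem_normalizer_fintype fun y hy => by
    obtain ⟨y, rfl⟩ := β.surjective y
    have := (A.w0_Rad hw0 _).2 ((C.Qm _).2 ((A.w0_Rad hw0 (A.nW w0 * y * (A.nW w0)⁻¹)).1
      (by simpa [mul_assoc] using (C.Q y).1 hy)))
    simpa [mul_assoc] using this
  have h5 := A.Qm_P C.H ((A.w0_Rad hw0 (q⁻¹ * β q)).2 (by rwa [neg_neg]))
    (by simpa [mul_assoc] using mul_mem (mul_mem (mul_mem h3 h1) (inv_mem (C.P h3))) (inv_mem h4))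
  exact Or.inr ⟨q, hq, (inv_mul_eq_one.1 (conj_eq_one_iff.1 (by rwa [inv_inv]))).symm, _, mul_mem h3 hp, by group⟩

theorem orbit : ∃ b ∈ A.Qp a, ∃ c ∈ A.Qm a, β b = b ∧ β c = c ∧ b * c * b ∉ A.Pp a ∧
    ∀ H : Subgroup Γ, b ∈ H → c ∈ H → 3 ∣ Nat.card H := by
  obtain ⟨h1, h2, h3⟩ := C.form.d4 C.H
  obtain ⟨γ, hγ, i, hi, e0, e1⟩ := C.H.ex
  have hO : ∀ r ∈ R.SS (RS.lv a) (R.cart a), θ r ∈ R.SS (RS.lv a) (R.cart a) := fun r =>
    (RS.SS_map h3 (RS.lv_map h1) (fun j => by rw [← h2 a j, h1]) r).2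
  have ho : ∀ j, θ^[j] γ ∈ R.SS (RS.lv a) (R.cart a) := fun j => by
    induction j with
    | zero => exact hγ
    | succ j ih => rw [Function.iterate_succ_apply']; exact hO _ ih
  have hQ : ∀ j, θ^[j] γ ∈ R.SS (RS.lv a) 0 := fun j => ⟨(ho j).1, by simp⟩
  have n1 : θ γ ≠ γ := fun e => e1 _ (C.orb.1 i hi).1 (by rw [← e, h3, e0])
  have n2 : θ (θ γ) ≠ γ := fun e => n1 (by
    rw [← congrArg θ e]; exact DFunLike.congr_fun (C.form.pow (C.eq ▸ C.pow)).2.1 γ)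
  have n3 : θ (θ γ) ≠ θ γ := θ.injective.ne n1
  obtain ⟨b, hb, c, hc, e2, e3, h4, h5⟩ := A.orbit_elt (Or.inr rfl) C.pow (fun j => θ^[j] γ)
    (fun j _ => ((C.H.hP _).2 (hQ j)).1) (fun j => by
      rw [Function.iterate_succ_apply']
      obtain ⟨c, f, h⟩ := C.form.root (θ^[j] γ)
      obtain ⟨e, he⟩ := A.L_orth (C.H.hO _ (hO _ (ho j))).1 C.kL
      refine ⟨e * c, f, fun t => ?_⟩
      rw [C.eq, MulAut.mul_apply, MulAut.mul_apply, (h t).1, (h t).2, MulAut.conj_apply, MulAut.conj_apply, (he _).1, (he _).2]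
      constructor <;> congr 1 <;> push_cast <;> ring)
    fun i hi j hj hij => (C.H.hO _ (ho i)).2 _ (ho j) (by
      interval_cases i <;> interval_cases j <;> simp [n1, n2, n3, n1.symm, n2.symm, n3.symm] at hij ⊢)
  refine ⟨b, US_mono (by rintro _ ⟨j, -, rfl⟩; exact hQ j) hb, c,
    US_mono (by rintro _ ⟨_, ⟨j, -, rfl⟩, rfl⟩; exact RS.SS_neg.2 (by rw [neg_neg]; exact hQ j)) hc, e2, e3, fun h => ?_, h5⟩
  have := A.U_Um (A.Q_U C.H ((Subgroup.mem_normalizer_iff.1 h _).1 (le_US (hQ 0) (A.x_mem _ 1))))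
    (le_US (S := {r | ¬ R.pos r}) (fun h => (R.pos_neg_iff _).1 h ((C.H.hP _).2 (hQ 0)).1) h4)
  exact A.x_ne _ (conj_eq_one_iff.1 this)

end Ctx
end Chv
end Cfsg.Agent.Lib.Chev
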