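/- Triality automorphisms of order 3 of `D₄(q)` normalising no Borel subgroup.  Owner: helper8. -/
import Cfsg.Agent.Lib.Chev.Pgu2
import Cfsg.Agent.Lib.Chev.Hecke
import Cfsg.Agent.Lib.Chev.D4

set_option autoImplicit false
set_option linter.unusedSectionVars false

namespace Cfsg.Agent.Lib.Chev
open MulAut (conj)
open Subgroup (normalizer)

namespace Chv
variable {Φ : Type} {l : ℕ} {R : RS Φ l} {F : Type*} [Field F] {Γ : Type*} [Group Γ] {A : Chv R F Γ} [Finite Φ] [Finite Γ]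
  [Finite F] {a : Fin l} {δ δ' β ν : MulAut Γ} {π π' : Equiv.Perm (Fin l)} {θ θ' : Equiv.Perm Φ} {g k y : Γ}
  {w : List (Fin l)} {N : Subgroup (MulAut Γ)}

theorem Bal.cj {p : ℕ} (hN : Bal β p N) (hg : β g = g) (hν : ν ∈ N) : ∃ μ ∈ N, ∀ y, ν y = g * μ (g⁻¹ * y * g) * g⁻¹ :=
  ⟨_, hN.norm g⁻¹ (by rw [map_inv, hg]) ν hν, fun y => by simp [mul_assoc]⟩

theorem Bal.cm {p : ℕ} (hN : Bal β p N) (hν : ν ∈ N) (y : Γ) : β (ν y) = ν (β y) :=
  (DFunLike.congr_fun (hN.comm ν hν).eq y).symm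

namespace Ctx
variable (C : A.Ctx a δ π θ k β)
include C

theorem exists_s (hw : ∀ r, R.inv w r = R.neg r) : ∃ m ∈ A.Lv a, β (A.nW w * m) = A.nW w * m := by
  obtain ⟨b, -, c, -, e1, e2, h1, -⟩ := C.orbit
  have e3 : β (b * c * b) = b * c * b := by simp [e1, e2]
  obtain ⟨v, -, e4, p, hp, e⟩ := (C.key hw (g := b * c * b) (by rw [e3, inv_mul_cancel]; exact one_mem _)).resolve_left h1
  obtain ⟨m, hm, q, hq, rfl⟩ := A.mem_LQ C.H hp
  have e5 : (A.nW w * m)⁻¹ * β (A.nW w * m) = q * (β q)⁻¹ := by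
    rw [e, mul_assoc v, map_mul, e4, mul_right_inj, ← mul_assoc, map_mul] at e3
    rw [eq_mul_inv_of_mul_eq e3]; group
  refine ⟨m, hm, (inv_mul_eq_one.1 (A.Q_Pm C.H (e5 ▸ mul_mem hq (inv_mem ((C.Q q).2 hq))) fun z hz => ?_)).symm⟩
  obtain ⟨z, rfl⟩ := β.surjective z
  have h2 := (A.w0_Rad (c := -RS.lv a) (d := 0) hw (A.nW w * (m * z * m⁻¹) * (A.nW w)⁻¹)).1 (by
    simpa [mul_assoc] using (Subgroup.mem_normalizer_iff.1 (A.L_Pm hm) _).1 ((C.Qm z).1 hz))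
  rw [neg_neg] at h2
  have h3 := (Subgroup.mem_normalizer_iff''.1 (A.L_Pm hm) _).1 ((A.w0_Rad hw _).2 (by rw [neg_neg]; exact (C.Q _).2 h2))
  simpa [mul_assoc] using h3

variable (hN : Bal β 3 N) (hν : ν ∈ N)
include hN hν

theorem N_P (h : A.Form δ' π' θ') (e : ν = conj g * δ') : g ∈ A.Pp a := by
  have h1 : ∀ y, δ' y ∈ A.Qp a ↔ y ∈ A.Qp a := fun y => by simpa using h.Q C.H (one_mem _) y
  obtain ⟨w, hw⟩ := C.H.w0
  refine (C.key hw (Subgroup.mem_normalizer_fintype fun y hy => ?_)).resolve_right ?_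
  · obtain ⟨y, rfl⟩ := (β * δ').surjective y
    have h2 := hN.cm hν y
    simp only [e, MulAut.mul_apply, MulAut.conj_apply, map_mul, map_inv] at h2 hy ⊢
    rw [show g⁻¹ * β g * β (δ' y) * (g⁻¹ * β g)⁻¹ = g⁻¹ * (β g * β (δ' y) * (β g)⁻¹) * g by group, h2]
    simpa [mul_assoc, h1, C.Q] using hy
  rintro ⟨v, hv, e1, p, hp, rfl⟩
  obtain ⟨b, hb, c, hc, e2, e3, -, h2⟩ := C.orbit
  let V := A.Qp a ⊓ β.toMonoidHom.eqLocus (MonoidHom.id Γ)
  have hV : V.map conj ≤ normalizer (N : Set (MulAut Γ)) := by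
    rintro _ ⟨y, hy, rfl⟩
    exact Subgroup.mem_normalizer_fintype fun μ hμ => hN.norm y hy.2 μ hμ
  have h3 : ∀ y ∈ A.Qp a, β y = y → conj y ∈ V.map conj ⊔ N := fun y hy e =>
    Subgroup.mem_sup_left ⟨y, ⟨hy, e⟩, rfl⟩
  have h4 := h3 (ν⁻¹ (v * c * v⁻¹)) ((h1 _).1 (by
    have := (Subgroup.mem_normalizer_iff''.1 hp _).1 ((A.w0_Rad hw c).2 hc)
    simpa [e, mul_assoc] using this)) (by rw [hN.cm (inv_mem hν)]; simp [e1, e3])
  have h5 := (h2 ((V.map conj ⊔ N).comap conj) (h3 b hb e2) (by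
    have h6 := h3 v hv e1
    have h7 : ν ∈ V.map conj ⊔ N := Subgroup.mem_sup_right hν
    have := mul_mem (mul_mem (inv_mem h6) (mul_mem (mul_mem h7 h4) (inv_mem h7))) h6
    rw [Subgroup.mem_comap]
    convert this using 1
    ext z; simp [mul_assoc])).trans ((Subgroup.card_comap_dvd_of_injective _ _ fun _ _ => A.conj_inj).trans
      (Core.card_sup_dvd hV))
  rcases (Nat.Prime.dvd_mul Nat.prime_three).1 h5 with h6 | h6
  · exact A.not_dvd_U Nat.prime_three C.three (inf_le_left.trans (A.Q_U C.H)) (h6.trans (Subgroup.card_map_dvd V _))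
  · exact hN.nd h6

theorem N_Q (hy : y ∈ A.Qp a) : ν y ∈ A.Qp a := by
  obtain ⟨g, δ', h, e⟩ := A.exists_std ν
  obtain ⟨π', θ', h⟩ := h.form
  rw [e]
  exact (Subgroup.mem_normalizer_iff.1 (C.N_P hN hν h e) _).1 (by simpa using (h.Q C.H (one_mem _) y).2 hy)

theorem N_Qm (hy : y ∈ A.Qm a) : ν y ∈ A.Qm a := by
  obtain ⟨w, hw⟩ := C.H.w0
  obtain ⟨m, hm, e⟩ := C.exists_s hw
  obtain ⟨μ, hμ, e'⟩ := hN.cj e hν
  have := (Subgroup.mem_normalizer_iff.1 (A.L_P hm) _).1 (C.N_Q hN hμ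
    ((Subgroup.mem_normalizer_iff''.1 (A.L_P hm) _).1 ((A.w0_Rad hw y).2 hy)))
  exact (A.w0_Rad hw _).1 (by simpa [e', mul_assoc] using this)

theorem N_fix (hy : y ∈ A.Qp a) (e : β y = y) : ν y = y :=
  (mul_inv_eq_one.1 (A.Q_Pm C.H (mul_mem hy (inv_mem (C.N_Q hN hν hy))) fun z hz => by
    simpa [mul_assoc] using C.N_Qm hN (mul_mem (hN.norm y e ν hν) (inv_mem hν)) hz)).symm

theorem N_form : ∃ g ∈ A.Lv a, ∃ δ' θ', A.Form δ' 1 θ' ∧ ν = conj g * δ' := by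
  obtain ⟨g, δ', h, e⟩ := A.exists_std ν
  obtain ⟨π', θ', h⟩ := h.form
  obtain ⟨m, hm, q, hq, rfl⟩ := A.mem_LQ C.H (C.N_P hN hν h e)
  have h1 : q = 1 := A.Q_Pm C.H hq fun z hz => by
    obtain ⟨z, rfl⟩ := δ'.surjective z
    have := (Subgroup.mem_normalizer_iff''.1 (A.L_Pm hm) _).1
      (C.N_Qm hN hν ((h.Qm C.H (one_mem _) z).1 (by simpa using hz)))
    simpa [e, mul_assoc] using this
  subst h1
  have h2 := C.orb.2 π' ((C.form.mul h).type_eq (g := (m * 1 * δ' k)⁻¹ * (k * δ (m * 1))) (k := 1) (h.mul C.form) (by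
    ext z
    have := hN.cm hν z
    simp only [C.eq, e, MulAut.mul_apply, MulAut.conj_apply, map_mul, map_inv, mul_one] at this
    simp only [MulAut.mul_apply, MulAut.conj_apply, mul_one, one_mul, inv_one]
    rw [show ∀ y, (m * δ' k)⁻¹ * (k * δ m) * y * ((m * δ' k)⁻¹ * (k * δ m))⁻¹ = (m * δ' k)⁻¹ *
      (k * δ m * k⁻¹ * (k * y * k⁻¹) * (k * δ m * k⁻¹)⁻¹) * (m * δ' k) by intro; group, this]; group)).1
  have h3 := (h.pow (k := m * 1) (p := Nat.card N)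
    (by rw [← e]; exact congrArg Subtype.val (pow_card_eq_one' (x := (⟨ν, hν⟩ : N))))).1
  obtain rfl : π' = 1 := by
    rw [← pow_one π', ← (Nat.prime_three.coprime_iff_not_dvd.2 hN.nd : Nat.gcd 3 (Nat.card N) = 1), pow_gcd_eq_one]
    exact ⟨h2, h3⟩
  exact ⟨_, mul_mem hm (one_mem _), δ', θ', h, e⟩

theorem N_Y {i : Fin l} (hi : i ≠ a) (hy : y ∈ A.Rad (RS.lv a) (RS.ph a i)) : ν y = y := by
  obtain ⟨g, hg, δ', θ', h, e⟩ := C.N_form hN hν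
  obtain ⟨h1, -, h3⟩ := C.form.d4 C.H
  have ha : ∀ j, j ≠ a → π j ≠ a := fun j hj e => hj (π.injective (e.trans h1.symm))
  have bY : ∀ j, ∀ y ∈ A.Rad (RS.lv a) (RS.ph a j), β y ∈ A.Rad (RS.lv a) (RS.ph a (π j)) := fun j y hy => by
    rw [C.eq]; exact C.form.map_Rad h3 C.kL (by simp [RS.lv]) (by simp [RS.ph]) (RS.lv_map h1) (RS.ph_map h1 j) hy
  have bQ : ∀ j, ∀ y ∈ A.Rad (RS.ph a j) 0, β y ∈ A.Rad (RS.ph a (π j)) 0 := fun j y hy => by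
    rw [C.eq]; exact C.form.map_Rad h3 C.kL (by simp [RS.ph]) rfl (RS.ph_map h1 j) (fun _ => rfl) hy
  have YQ : ∀ j m, j ≠ a → m ≠ a → m ≠ j → A.Rad (RS.lv a) (RS.ph a m) ≤ A.Rad (RS.ph a j) 0 := fun j m hj hm e =>
    US_mono ((C.H.hY j hj).2.2.1 m hm e)
  have QU : ∀ j, j ≠ a → A.Rad (RS.ph a j) 0 ≤ A.U := fun j hj =>
    (US_mono fun r hr => ((C.H.hY j hj).2.1 r hr).2).trans (A.Q_U C.H)
  have YQ' : ∀ j, A.Rad (RS.lv a) (RS.ph a j) ≤ A.Qp a := fun j => US_mono fun r hr => ⟨hr.1, by simp⟩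
  have nQ : ∀ j, ∀ u ∈ A.U, ∀ z ∈ A.Rad (RS.ph a j) 0, u⁻¹ * z * u ∈ A.Rad (RS.ph a j) 0 := fun j u hu z hz =>
    (Subgroup.mem_normalizer_iff''.1 (A.U_norm (fun m => by unfold RS.ph; split_ifs <;> simp) hu) z).1 hz
  have n1 := (C.orb.1 i hi).1
  have n3 := (C.orb.1 _ (ha i hi)).1
  have n2 : π (π i) ≠ i := fun e => n1 (by
    rw [← congrArg π e]; exact DFunLike.congr_fun (C.form.pow (C.eq ▸ C.pow)).1 i)
  have y1 := bY i y hy
  have y2 := bY _ _ y1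
  have hc := mul_mem (YQ i _ hi (ha i hi) n1 y1) (YQ i _ hi (ha _ (ha i hi)) n2 y2)
  obtain ⟨V, hV⟩ : ∃ V : Subgroup Γ, ∀ z, z ∈ V ↔ ∀ j, j ≠ a → z ∈ A.Rad (RS.ph a j) 0 :=
    ⟨⨅ j, ⨅ _ : j ≠ a, A.Rad (RS.ph a j) 0, fun z => by simp only [Subgroup.mem_iInf]⟩
  obtain ⟨z, hz, e1⟩ := A.fix_coset Nat.prime_three C.three C.pow (V := V)
    (fun z hz => QU i hi ((hV z).1 hz i hi)) (y := y * (β y * β (β y))) fun z hz => by
      rw [show (y * (β y * β (β y)))⁻¹ * β z = (β y * β (β y))⁻¹ * y⁻¹ * (β y * β (β y)) * y *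
        β ((y * (β y * β (β y)))⁻¹ * z) by
          simp only [map_mul, map_inv, show β (β (β y)) = y by simpa [pow_succ] using DFunLike.congr_fun C.pow y]; group]
      refine (hV _).2 fun j hj' => mul_mem ?_ ?_
      · by_cases hj : i = j
        · rw [mul_assoc, mul_assoc, ← mul_assoc y⁻¹, ← hj]
          exact mul_mem (inv_mem hc) (nQ i y (A.Q_U C.H (YQ' i hy)) _ hc)
        · have := YQ _ i hj' hi hj hy
          exact mul_mem (nQ _ _ (QU i hi hc) _ (inv_mem this)) this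
      · simpa using bQ _ _ ((hV _).1 hz (π⁻¹ j) fun e => hj' (by rw [← h1, ← e]; simp))
  have h4 : y⁻¹ * z ∈ A.Rad (RS.ph a i) 0 := by
    simpa [mul_assoc] using mul_mem hc ((hV _).1 hz i hi)
  have h5 := C.N_fix hN hν (y := z) (by
    simpa using mul_mem (YQ' i hy) (US_mono (fun r hr => ((C.H.hY i hi).2.1 r hr).2) h4)) e1
  have h6 : ν (y⁻¹ * z) ∈ A.Rad (RS.ph a i) 0 := by
    rw [e]; exact h.map_Rad (h.d4 C.H).2.2 hg (by simp [RS.ph]) rfl (fun _ => rfl) (fun _ => rfl) h4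
  have h7 : ν y ∈ A.Rad (RS.lv a) (RS.ph a i) := by
    rw [e]; exact h.map_Rad (h.d4 C.H).2.2 hg (by simp [RS.lv]) (by simp [RS.ph]) (fun _ => rfl) (fun _ => rfl) hy
  have h8 := A.U_Um (A.conj_NInv (w := [a, i, a]) (a := y⁻¹ * ν y) (US_mono (S := R.SS (RS.ph a i) 0) (S' := R.NInv [a, i, a])
      (fun r hr => ⟨((C.H.hP r).2 ((C.H.hY i hi).2.1 r hr).2).1, ((C.H.hY i hi).2.1 r hr).1⟩)
      (by simpa [h5, mul_assoc] using mul_mem h4 (inv_mem h6))))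
    (A.conj_Inv (US_mono (S' := R.Inv [a, i, a]) (fun r hr => ⟨((C.H.hP r).2 ⟨hr.1, by simp⟩).1, (C.H.hY i hi).1 r hr⟩) (mul_mem (inv_mem hy) h7)))
  exact (inv_mul_eq_one.1 (conj_eq_one_iff.1 (by rwa [inv_inv]))).symm

theorem N_one : ν = 1 := by
  obtain ⟨w, hw⟩ := C.H.w0
  obtain ⟨m, hm, e⟩ := C.exists_s hw
  obtain ⟨μ, hμ, e'⟩ := hN.cj e hν
  let K := ν.toMonoidHom.eqLocus (MonoidHom.id Γ)
  have h1 : ∀ i, i ≠ a → ∀ r ∈ R.SS (RS.lv a) (RS.ph a i), A.X r ≤ K ∧ A.X (R.neg r) ≤ K := fun i hi r hr =>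
    ⟨fun y hy => C.N_Y hN hν hi (le_US hr hy), fun y hy => (e' y).trans (by
      have := C.N_Y hN hμ hi ((Subgroup.mem_normalizer_iff''.1 (A.L_norm (by simp [RS.lv]) (by simp [RS.ph]) hm) _).1
        ((A.w0_Rad hw y).2 (le_US (RS.SS_neg.1 (by rwa [R.neg_neg'])) hy)))
      rw [show (A.nW w * m)⁻¹ * y * (A.nW w * m) = m⁻¹ * ((A.nW w)⁻¹ * y * A.nW w) * m by group, this]
      simp [mul_assoc])⟩
  have h2 : ∀ i, A.X (R.sim i) ≤ K ∧ A.X (R.neg (R.sim i)) ≤ K → A.n i ∈ K := fun i h => by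
    rw [A.n_def]; exact mul_mem (mul_mem (h.1 (A.x_mem _ _)) (h.2 (A.x_mem _ _))) (h.1 (A.x_mem _ _))
  have h3 : ∀ i, A.X (R.sim i) ≤ K ∧ A.X (R.neg (R.sim i)) ≤ K := fun i => by
    by_cases hi : i = a
    swap; · exact h1 i hi _ (C.H.hY i hi).2.2.2.1
    obtain ⟨-, -, j, hj, -⟩ := C.H.ex
    have h4 := h2 j (h1 j hj _ (C.H.hY j hj).2.2.2.1)
    have h5 := h1 j hj _ (C.H.hY j hj).2.2.2.2
    rw [hi]
    exact ⟨fun y hy => by simpa [mul_assoc] using mul_mem (mul_mem (inv_mem h4) (h5.1 (A.conj j _ y hy))) h4,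
      fun y hy => by simpa [mul_assoc] using mul_mem (mul_mem (inv_mem h4) (h5.2 ((R.refl_neg j _).subst
        (motive := fun r => _ ∈ A.X r) (A.conj j _ y hy)))) h4⟩
  refine MulEquiv.toMonoidHom_injective (A.hom_ext fun r t => ?_)
  obtain ⟨v, i, hv⟩ := R.exists_inv_eq_sim r
  have h4 := A.nW_mem (fun i => h2 i (h3 i)) v
  have h5 : A.x r t ∈ K := by
    have := A.conjW v r (A.x_mem r t)
    rw [hv] at this
    simpa [mul_assoc] using mul_mem (mul_mem h4 ((h3 i).1 this)) (inv_mem h4)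
  exact h5

end Ctx
end Chv

instance RS.decSS {Φ : Type} {l : ℕ} (R : RS Φ l) (c d : Fin l → ℤ) (r : Φ) : Decidable (r ∈ R.SS c d) :=
  inferInstanceAs (Decidable (_ ∧ _))

set_option synthInstance.maxSize 4096 in
/-- decidability of `Nc` -/
def RS.decNc' {Φ : Type} {l : ℕ} (R : RS Φ l) [Fintype Φ] [DecidableEq Φ] (r s : Φ) : Decidable (R.Nc r s) := by
  unfold RS.Nc; infer_instance

attribute [local instance] RS.decNc' in
theorem d4H : d4Cert.R.D4H ⟨1, by decide⟩ where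
  perm := by decide +kernel
  orb := by decide +kernel
  w0 := ⟨[0, 2, 3, 1, 0, 2, 3, 1, 0, 2, 3, 1].map (Fin.ofNat 4), by decide +kernel⟩
  hP := by simp only [Pi.le_def]; decide +kernel
  ex := by decide +kernel
  hO := by unfold RS.Orth; decide +kernel
  hY := by simp only [Pi.le_def]; decide +kernel

/-- the case `C(β) ~ PGU₃(q)` -/
theorem Chv.pgu {F : Type*} [Field F] {Γ : Type*} [Group Γ] [Finite Γ] [Finite F] (A : Chv d4Cert.R F Γ) {δ : MulAut Γ}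
    {π : Equiv.Perm (Fin Lie.chevD4.rank)} {θ : Equiv.Perm (Fin Lie.chevD4.nroots)} {k : Γ} {N : Subgroup (MulAut Γ)}
    {a : Fin Lie.chevD4.rank} (ha : a.val = 1) (hδ : A.Form δ π θ) (hπ : π ≠ 1) (h3 : (3 : F) ≠ 0)
    (hβ : (conj k * δ) ^ 3 = 1) (hk : A.Pgu a δ k) (hN : Chv.Bal (conj k * δ) 3 N) : N = ⊥ := by
  obtain rfl : a = ⟨1, by decide⟩ := Fin.ext ha
  exact eq_bot_iff.2 fun ν hν => Chv.Ctx.N_one ⟨d4H, hδ, hπ, by exact_mod_cast h3, rfl, hβ, hk.1, hk.2⟩ hN hν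

end Cfsg.Agent.Lib.Chev
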