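/- Reduction of automorphisms of prime order with a non-trivial graph part.  Owner: helper1. -/
import Cfsg.Agent.Lib.Chev.Hecke
import Cfsg.Agent.Lib.Chev.Stein3
import Cfsg.Agent.Lib.Chev.D4
import Cfsg.Agent.Lib.Chev.E6
import Cfsg.Agent.Lib.Chev.G2

set_option autoImplicit false
set_option linter.unusedSectionVars false
set_option maxRecDepth 100000

namespace Cfsg.Agent.Lib.Chev
open MulAut (conj)
open Cfsg.Lie

theorem exists_fix_tw {Γ : Type*} [Group Γ] [Finite Γ] {δ : MulAut Γ} {L V : Subgroup Γ} (hL : ∀ g, δ g ∈ L ↔ g ∈ L)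
    (hV : ∀ g ∈ V, δ g ∈ V) {p : ℕ} (hp : p.Prime) (hpV : ¬ p ∣ Nat.card V) {q m : Γ} (hβ : (conj (q * m) * δ) ^ p = 1)
    (hN : nrm δ (q * m) p ∈ L) (hq : q ∈ V) (hm : m ∈ L) (hmV : ∀ v ∈ V, m * v * m⁻¹ ∈ V) :
    ∃ v : Γ, v⁻¹ * (q * m) * δ v ∈ L := by
  classical
  have := Fact.mk hp
  have := Fintype.ofFinite (MulAction.orbit V ((1 : Γ) : Γ ⧸ L))
  obtain ⟨⟨_, v, rfl⟩, h⟩ := Equiv.Perm.exists_fixed_point_of_prime (p := p) (n := 1)
    (σ := (tw δ (q * m) L hL).subtypePermOfFintype (p := (· ∈ MulAction.orbit V ((1 : Γ) : Γ ⧸ L))) (by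
      rintro _ ⟨v, rfl⟩
      exact ⟨⟨_, mul_mem hq (hmV _ (hV _ v.2))⟩, QuotientGroup.eq.2 (by simpa [mul_assoc] using hm)⟩))
    (fun h => hpV (h.trans (by
      rw [← Nat.card_eq_fintype_card]
      exact (MulAction.index_stabilizer V ((1 : Γ) : Γ ⧸ L)).symm.dvd.trans (Subgroup.index_dvd_card _))))
    (by rw [pow_one, Equiv.Perm.subtypePerm_pow]; ext x; simp [tw_pow_eq_one δ _ L hL hβ hN])
  exact ⟨v, by simpa [mul_assoc] using QuotientGroup.eq.1 (congrArg Subtype.val h).symm⟩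

/-- possible cells of twisted norms -/
def normWords {l : ℕ} (π : Fin l → Fin l) (w : List (Fin l)) : ℕ → List (List (Fin l))
  | 0 => [w]
  | n + 1 => w.sublists.flatMap fun v => (normWords π w n).map fun u => v ++ u.map π

namespace RS
variable {Φ : Type} {l : ℕ} (R : RS Φ l)

/-- the nodes `a`, `b` span a subsystem of type `A₂` -/
def A2 (a b : Fin l) : Prop := a ≠ b ∧ (∀ k, R.ρ (R.refl a (R.sim b)) k = if k = a ∨ k = b then 1 else 0) ∧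
  ∀ u, (∀ k, 0 ≤ R.ρ u k) → (∀ k, k ≠ a → k ≠ b → R.ρ u k = 0) → u = R.sim a ∨ u = R.sim b ∨ u = R.refl a (R.sim b)

/-- the combinatorial input of the reduction -/
def RedOK (π : Equiv.Perm (Fin l)) (n : ℕ) (P : Fin l → Prop) : Prop :=
  (∀ i, ∃ j < 3, (π ^ j) i ∈ (List.finRange l).filter fun i => i ≤ π i ∧ i ≤ π (π i)) ∧
  ∀ w ∈ ((List.finRange l).filter fun i => i ≤ π i ∧ i ≤ π (π i)).sublists,
    (∃ u ∈ normWords π w n, ∀ i, R.inv u (R.sim i) = R.sim i) → w = [] ∨ ∃ a, w = [a] ∧ π a = a ∧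
      ((n = 1 ∧ ∃ b, π b = b ∧ R.A2 a b) ∨ P a)

instance decA2 [Fintype Φ] [DecidableEq Φ] (a b : Fin l) : Decidable (R.A2 a b) := by unfold A2; infer_instance

instance decRedOK [Fintype Φ] [DecidableEq Φ] (π : Equiv.Perm (Fin l)) (n : ℕ) (P : Fin l → Prop) [DecidablePred P] :
    Decidable (R.RedOK π n P) := by unfold RedOK; infer_instance

variable {R} {a b : Fin l}

theorem A2.facts (h : R.A2 a b) : R.pos (R.refl a (R.sim b)) ∧ R.refl a (R.sim b) ≠ R.sim a ∧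
    R.refl a (R.sim b) ≠ R.sim b ∧ R.cone (R.sim a) (R.sim b) ⊆ {R.sim b, R.refl a (R.sim b)} ∧
    R.cone (R.sim a) (R.refl a (R.sim b)) ⊆ {R.refl a (R.sim b)} ∧
    R.cone (R.sim b) (R.refl a (R.sim b)) ⊆ {R.refl a (R.sim b)} := by
  obtain ⟨h1, h2, h3⟩ := h
  have ea : ∀ u, u = R.sim a → R.ρ u b = 0 := by rintro _ rfl; simp [R.ρ_sim, h1.symm]
  have eb : ∀ u, u = R.sim b → R.ρ u a = 0 := by rintro _ rfl; simp [R.ρ_sim, h1]
  refine ⟨fun k => by rw [h2]; split_ifs <;> simp, fun e => by simpa [h2] using ea _ e, fun e => by simpa [h2] using eb _ e,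
    ?_, ?_, ?_⟩ <;> rintro u ⟨i, j, hj, e⟩ <;>
    have := h3 u (fun k => by simp only [e, Pi.add_apply, Pi.smul_apply, R.ρ_sim, h2, Pi.single_apply]; positivity)
      (fun k ha hb => by simp [e, R.ρ_sim, h2, ha, hb])
  · exact this.resolve_left fun e' => by simpa [e, R.ρ_sim, h1, show j ≠ 0 by omega] using ea u e'
  all_goals exact (this.resolve_left fun e' => by
      have := ea u e'; simp [e, R.ρ_sim, h1, h2] at this; omega).resolve_left (fun e' => by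
      have := eb u e'; simp [e, R.ρ_sim, h1.symm, h2] at this; omega)

end RS

namespace Chv
variable {Φ : Type} {l : ℕ} {R : RS Φ l} {F : Type*} [Field F] {Γ : Type*} [Group Γ] {A : Chv R F Γ}
  {δ : MulAut Γ} {π : Equiv.Perm (Fin l)} {θ : Equiv.Perm Φ} {g g' k : Γ} {p : ℕ} {w w' : List (Fin l)} {a b : Fin l}

theorem Form.cart_zero (h : A.Form δ π θ) (i j : Fin l) : R.cart (π i) (π j) = 0 ↔ R.cart i j = 0 := by
  have e : ∀ i j, R.refl i (R.sim j) = R.sim j ↔ R.cart i j = 0 := fun i j => by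
    rw [← R.inj.eq_iff, R.ρ_refl, R.ρ_sim, sub_eq_self, smul_eq_zero]; simp [Pi.single_apply]
  rw [← e, ← e, ← h.sim, ← h.refl, θ.injective.eq_iff]

theorem cell_nrm (hδ : A.Form δ π θ) (h : A.CellW w k) (n : ℕ) : ∃ u ∈ normWords π w n, A.CellW u (nrm δ k (n + 1)) := by
  induction n with
  | zero => exact ⟨w, by simp [normWords], by simpa [nrm] using h⟩
  | succ n ih =>
    obtain ⟨u, hu, ih⟩ := ih
    obtain ⟨v, hv, e⟩ := h.mul (ih.map hδ)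
    exact ⟨_, List.mem_flatMap.2 ⟨v, List.mem_sublists.2 hv, List.mem_map_of_mem hu⟩, e⟩

theorem tw_pow_one (hβ : (conj k * δ) ^ p = 1) (g : Γ) : (conj (g⁻¹ * k * δ g) * δ) ^ p = 1 := by
  rw [← conj_tw, ← inv_inv (conj g), inv_inv (conj g)⁻¹, conj_pow, hβ]; simp

theorem tw_comp (g g' : Γ) : (g * g')⁻¹ * k * δ (g * g') = g'⁻¹ * (g⁻¹ * k * δ g) * δ g' := by simp [mul_assoc]

variable (A) in
/-- the Levi subgroup of a node -/
abbrev Levi (a : Fin l) : Subgroup Γ := A.X (R.sim a) ⊔ A.X (R.neg (R.sim a)) ⊔ A.T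

theorem X_Levi (h : g ∈ A.X (R.sim a)) : g ∈ A.Levi a := Subgroup.mem_sup_left (Subgroup.mem_sup_left h)

theorem n_Levi (a : Fin l) : A.n a ∈ A.Levi a := A.n_def a ▸ mul_mem (mul_mem (X_Levi (A.x_mem _ _))
  (Subgroup.mem_sup_left (Subgroup.mem_sup_right (A.x_mem _ _)))) (X_Levi (A.x_mem _ _))

theorem Levi_le {H : Subgroup Γ} (h1 : A.X (R.sim a) ≤ H) (h2 : A.n a ∈ H) (h3 : A.T ≤ H) : A.Levi a ≤ H :=
  sup_le (sup_le h1 fun x hx => by
    have := mul_mem (mul_mem h2 (h1 (R.refl_neg_sim a ▸ A.conj' a _ x hx))) (inv_mem h2)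
    simpa [mul_assoc] using this) h3

variable [Finite Φ] [Finite Γ]

theorem red_nil (hδ : A.Std δ) (hp : p.Prime) (hpF : (p : F) ≠ 0) (hβ : (conj k * δ) ^ p = 1) (h : A.CellW [] k) :
    ∃ g, A.Std (conj (g⁻¹ * k * δ g) * δ) := by
  obtain ⟨a, ha, h, hh, u, hu, e⟩ := h
  obtain rfl : k = a * (h * u * h⁻¹) * h := by simp [e, mul_assoc]
  obtain ⟨g, hg⟩ := exists_fix_tw hδ.T (fun g => (hδ.U g).2) hp (A.not_dvd_U hp hpF le_rfl) hβ (nrm_mem_T hδ hβ)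
    (mul_mem ha (A.T_U hh hu)) hh fun v => A.T_U hh
  exact ⟨g, (A.std_T hg).mul hδ⟩

theorem cell_one (h : A.CellW [a] k) : ∃ u ∈ A.U, ∃ h ∈ A.T, ∃ y ∈ A.X (R.sim a), k = u * (A.n a * h * y) := by
  obtain ⟨u, hu, h, hh, v, hv, rfl⟩ := h
  obtain ⟨y, hy, q, hq, rfl⟩ := A.split' (R.closed_pos a) hv
  exact ⟨_, mul_mem hu (A.Q_le a (A.conj_P' (A.T_US hh hq))), h, hh, y, hy, by simp [mul_assoc]⟩

theorem Form.Levi (hδ : A.Form δ π θ) (ha : π a = a) (g : Γ) : δ g ∈ A.Levi a ↔ g ∈ A.Levi a :=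
  have e : θ (R.sim a) = R.sim a := by rw [hδ.sim, ha]
  iff_of_maps δ (sup_le (c := (A.Levi a).comap δ.toMonoidHom) (sup_le (fun y hy => X_Levi (e ▸ (hδ.X _ y).2 hy))
    fun y hy => Subgroup.mem_sup_left (Subgroup.mem_sup_right (e ▸ hδ.neg _ ▸ (hδ.X _ y).2 hy)))
    fun y hy => Subgroup.mem_sup_right ((hδ.T y).2 hy)) g

theorem red_levi (hδ : A.Form δ π θ) (ha : π a = a) (hp : p.Prime) (hpF : (p : F) ≠ 0) (hβ : (conj k * δ) ^ p = 1)
    (h : A.CellW [a] k) : ∃ g, g⁻¹ * k * δ g ∈ A.Levi a := by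
  obtain ⟨u, hu, h, hh, y, hy, e⟩ := cell_one h
  obtain ⟨x, hx, q, hq, rfl⟩ := A.split' (R.closed_pos a) hu
  rw [mul_assoc] at e
  subst e
  have e : θ (R.sim a) = R.sim a := by rw [hδ.sim, ha]
  have hl := mul_mem (X_Levi hx) (mul_mem (mul_mem (n_Levi a) (Subgroup.mem_sup_right hh)) (X_Levi hy))
  have hn : A.Levi a ≤ Subgroup.normalizer (A.Q a : Set Γ) := Levi_le
    (fun x hx => Subgroup.mem_normalizer_fintype fun _ => A.Q_normal (le_US (S := {r | R.pos r}) (R.pos_sim a) hx))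
    (Subgroup.mem_normalizer_fintype fun _ => A.conj_P') fun x hx => Subgroup.mem_normalizer_fintype fun _ => A.T_US hx
  exact exists_fix_tw (hδ.Levi ha) (fun g => US_map δ.toMonoidHom fun r hr y hy => le_US (S := R.P' a)
      ⟨(hδ.pos r).2 hr.1, fun e' => hr.2 (θ.injective (e'.trans e.symm))⟩ ((hδ.X r y).2 hy))
    hp (A.not_dvd_U hp hpF (A.Q_le a)) hβ (Subgroup.mem_sup_right (nrm_mem_T hδ.toStd hβ)) hq hl
    fun v => (Subgroup.mem_normalizer_iff.1 (hn hl) v).1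

theorem mem_B_of_conj (h : R.A2 a b) (hk : k ∈ A.Par a) {v : Γ} (hv : v ∈ A.X (R.refl a (R.sim b))) (v1 : v ≠ 1)
    (hc : k * v * k⁻¹ ∈ A.X (R.refl a (R.sim b))) : k ∈ A.B := by
  obtain ⟨h1, h2, h3, -, h5, -⟩ := h.facts
  obtain ⟨w, hw, hk⟩ := hk
  obtain rfl | rfl := List.sublist_singleton.1 hw
  · exact cell_nil.1 hk
  obtain ⟨u, hu, t, ht, y, hy, rfl⟩ := cell_one hk
  have c := A.comm_of_cone' h2 (fun e => (R.pos_neg_iff _).1 (e ▸ h1) (R.pos_sim a)) h5 hy hv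
  have := A.indep b _ (R.refl_refl a _ ▸ A.conj a _ _ (A.T_conj _ t ht v hv)) (by
    have := A.Q_normal (inv_mem hu) (le_US (S := R.P' b) ⟨h1, h3⟩ hc)
    rwa [show u⁻¹ * (u * (A.n a * t * y) * v * (u * (A.n a * t * y))⁻¹) * u⁻¹⁻¹ =
      A.n a * (t * (y * v * y⁻¹) * t⁻¹) * (A.n a)⁻¹ by group, c.eq, mul_inv_cancel_right] at this)
  exact absurd (by simpa using this) v1

theorem red_two [Finite F] (hδ : A.Form δ π θ) (h : R.A2 a b) (ha : π a = a) (hb : π b = b) (hβ : (conj k * δ) ^ 2 = 1)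
    (hk : k ∈ A.Levi a) : ∃ g, A.CellW [] (g⁻¹ * k * δ g) := by
  obtain ⟨h1, h2, h3, h4, h5, h6⟩ := h.facts
  set c := R.refl a (R.sim b) with hc
  have nn : ∀ i, c ≠ R.neg (R.sim i) := fun i e => (R.pos_neg_iff _).1 (e ▸ h1) (R.pos_sim i)
  have ab : R.sim b ≠ R.sim a := fun e => h.1 (R.sim_inj e).symm
  have hP : A.Levi a ≤ A.Par a := Levi_le (fun x hx => B_le_Par a (A.U_B (le_US (S := {r | R.pos r}) (R.pos_sim a) hx)))
    (n_mem_Par a) fun x hx => B_le_Par a (A.T_B hx)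
  have yb : A.X (R.sim b) ≤ US A.X {R.sim b, c} := le_US (by simp)
  have yc : A.X c ≤ US A.X {R.sim b, c} := le_US (by simp)
  have hn : A.Levi a ≤ Subgroup.normalizer (US A.X {R.sim b, c} : Set Γ) := Levi_le
    (fun x hx => Subgroup.mem_normalizer_fintype fun _ => US_conj _ (by
      rintro _ (rfl | rfl) y hy
      exacts [US_mono h4 (A.comm a _ (R.pos_sim b) ab x hx y hy),
        US_mono (h5.trans (by simp)) (A.comm a _ h1 h2 x hx y hy)]))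
    (Subgroup.mem_normalizer_fintype fun _ => US_conj _ (by
      rintro _ (rfl | rfl) y hy
      exacts [yc (A.conj a _ y hy), yb (R.refl_refl a (R.sim b) ▸ A.conj a _ y hy)]))
    fun x hx => Subgroup.mem_normalizer_fintype fun _ => A.T_US hx
  have eb : θ (R.sim b) = R.sim b := by rw [hδ.sim, hb]
  have ec : θ c = c := by rw [hδ.refl, ha, eb]
  have sp : ∀ v ∈ US A.X {R.sim b, c}, ∃ z ∈ A.X (R.sim b), ∃ y ∈ A.X c, v = z * y := fun v hv => by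
    obtain ⟨z, hz, y, hy, e⟩ := A.split (i := b) ⟨by rintro _ (rfl | rfl); exacts [R.pos_sim b, h1], by
      rintro _ (rfl | rfl) e; exacts [(e rfl).elim, h6.trans (by simp)]⟩ hv
    exact ⟨z, hz, y, US_le (K := A.X c) (by rintro _ ⟨rfl | rfl, e⟩; exacts [(e rfl).elim, le_rfl]) hy, e⟩
  obtain ⟨v, hv, v1, e⟩ : ∃ v ∈ US A.X {R.sim b, c}, v ≠ 1 ∧ ((conj k * δ) v = v ∨ (conj k * δ) v = v⁻¹) := by
    have m : (conj k * δ) (A.x (R.sim b) 1) ∈ US A.X {R.sim b, c} :=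
      (Subgroup.mem_normalizer_iff.1 (hn hk) _).1 (yb (by simpa [eb] using (hδ.X _ _).2 (A.x_mem (R.sim b) 1)))
    by_cases e : (conj k * δ) (A.x (R.sim b) 1) = (A.x (R.sim b) 1)⁻¹
    · exact ⟨_, yb (A.x_mem _ 1), A.x_ne _, .inr e⟩
    refine ⟨_, mul_mem (yb (A.x_mem _ 1)) m, fun e' => e (eq_inv_of_mul_eq_one_right e'), .inl ?_⟩
    rw [map_mul, ← MulAut.mul_apply _ (conj k * δ), ← pow_two, hβ, MulAut.one_apply]
    obtain ⟨z, hz, y, hy, e⟩ := sp _ m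
    obtain ⟨t, rfl⟩ := (A.mem_X _ _).1 hz
    rw [e]
    exact (Commute.mul_right (by rw [Commute, SemiconjBy, ← A.x_add, ← A.x_add, add_comm])
      (A.comm_of_cone' h3 (nn b) h6 (A.x_mem _ 1) hy)).symm
  obtain ⟨m, hm, hm'⟩ : ∃ m ∈ A.Levi a, m⁻¹ * v * m ∈ A.X c := by
    obtain ⟨z, hz, y, hy, rfl⟩ := sp v hv
    by_cases z1 : z = 1
    · exact ⟨1, one_mem _, by simpa [z1] using hy⟩
    have f : ∀ t, ∃ s, z⁻¹ * (A.x (R.sim a) t * z * (A.x (R.sim a) t)⁻¹) = A.x c s := fun t => by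
      obtain ⟨z', hz', y', hy', e⟩ := sp _ (mul_mem (inv_mem (yb hz))
        ((Subgroup.mem_normalizer_iff.1 (hn (X_Levi (A.x_mem _ t))) z).1 (yb hz)))
      have q : A.x (R.sim a) t ∈ A.Q b := le_US (S := R.P' b) ⟨R.pos_sim a, ab.symm⟩ (A.x_mem _ t)
      have := A.indep b z' hz' (by
        rw [eq_mul_inv_of_mul_eq e.symm]
        simpa [mul_assoc] using mul_mem (mul_mem (A.Q_normal (inv_mem (le_US (S := {r | R.pos r}) (R.pos_sim b) hz)) q)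
          (inv_mem q)) (inv_mem (le_US (S := R.P' b) ⟨h1, h3⟩ hy')))
      rw [e, this, one_mul]; exact (A.mem_X _ _).1 hy'
    choose f hf using f
    have inj : Function.Injective f := fun t s e => by
      have e1 := mul_left_cancel ((hf t).trans (e ▸ (hf s).symm))
      have m := mul_mem (inv_mem (A.x_mem (R.sim a) s)) (A.x_mem _ t)
      have m' := R.refl_sim a ▸ A.conj a _ _ m
      have := A.B_Um (mem_B_of_conj h (hP (Subgroup.mem_sup_left (Subgroup.mem_sup_right m'))) (A.conj a _ z hz)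
        (by simpa using z1) (by
          generalize A.x (R.sim a) t = x, A.x (R.sim a) s = x' at e1
          rw [show A.n a * (x'⁻¹ * x) * (A.n a)⁻¹ * (A.n a * z * (A.n a)⁻¹) * (A.n a * (x'⁻¹ * x) * (A.n a)⁻¹)⁻¹ =
            A.n a * (x'⁻¹ * (x * z * x⁻¹) * x') * (A.n a)⁻¹ by group, e1]
          simpa [mul_assoc] using A.conj a _ z hz)) (le_US (S := {r | ¬ R.pos r}) (by simpa [R.pos_neg_iff] using R.pos_sim a) m')
      exact (A.x_injective _ (inv_mul_eq_one.1 (conj_eq_one_iff.1 this))).symm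
    obtain ⟨s, hs⟩ := (A.mem_X _ _).1 (inv_mem hy)
    obtain ⟨t, rfl⟩ := Finite.surjective_of_injective inj s
    refine ⟨_, inv_mem (mul_mem (n_Levi a) (X_Levi (A.x_mem _ t))), ?_⟩
    have e := (hf t).trans hs.symm
    have c := A.comm_of_cone' h2 (nn a) h5 (A.x_mem _ t) hy
    generalize A.x (R.sim a) t = x at e c
    rw [show (A.n a * x)⁻¹⁻¹ * (z * y) * (A.n a * x)⁻¹ = A.n a * (z * (z⁻¹ * (x * z * x⁻¹)) * (x * y * x⁻¹)) * (A.n a)⁻¹ by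
      group, e, c.eq]
    simpa using A.conj a _ z hz
  refine ⟨m, cell_nil.2 (mem_B_of_conj h (hP (mul_mem (mul_mem (inv_mem hm) hk) ((hδ.Levi ha m).2 hm))) (ec ▸ (hδ.X _ _).2 hm')
    (by simpa [mul_assoc, inv_mul_eq_one] using v1) ?_)⟩
  rw [show m⁻¹ * k * δ m * δ (m⁻¹ * v * m) * (m⁻¹ * k * δ m)⁻¹ = m⁻¹ * (conj k * δ) v * m by simp [mul_assoc]]
  obtain e | e := e <;> rw [e]
  exacts [hm', by simpa [mul_assoc] using inv_mem hm']

theorem red_core [Finite F] (hδ : A.Form δ π θ) (hp : p.Prime) (hpF : (p : F) ≠ 0) (hβ : (conj k * δ) ^ p = 1)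
    {P : Fin l → Prop} (h : R.RedOK π (p - 1) P) : (∃ g, A.Std ((conj g)⁻¹ * (conj k * δ) * conj g)) ∨
      ∃ a g k', P a ∧ A.Pgu a δ k' ∧ (conj g)⁻¹ * (conj k * δ) * conj g = conj k' * δ := by
  by_cases hc : ∃ g, A.CellW [] (g⁻¹ * k * δ g)
  · obtain ⟨g, hg⟩ := hc
    obtain ⟨g', h⟩ := red_nil hδ.toStd hp hpF (tw_pow_one hβ g) hg
    exact .inl ⟨g * g', by rwa [conj_tw, tw_comp]⟩
  obtain ⟨g, w, hw, hg⟩ := hecke hδ hp.pos hβ _ fun i => (h.1 i).imp fun _ h => h.2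
  obtain ⟨u, hu, e⟩ := cell_nrm hδ hg (p - 1)
  rw [Nat.sub_add_cancel hp.pos] at e
  obtain rfl | ⟨a, rfl, ha, h0⟩ := h.2 w (List.mem_sublists.2 hw) ⟨u, hu, fun i => congrFun
    (CellW.unique A e (cell_nil.2 (A.T_B (nrm_mem_T hδ.toStd (tw_pow_one hβ g))))) _⟩
  · exact (hc ⟨g, hg⟩).elim
  obtain ⟨g', h'⟩ := red_levi hδ ha hp hpF (tw_pow_one hβ g) hg
  rw [← tw_comp] at h'
  obtain ⟨h1, b, hb, h0⟩ | h0 := h0
  · obtain rfl : p = 2 := by omega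
    obtain ⟨m, hm⟩ := red_two hδ h0 ha hb (tw_pow_one hβ _) h'
    exact (hc ⟨g * g' * m, by rwa [tw_comp]⟩).elim
  · exact .inr ⟨a, _, _, h0, ⟨h', fun m hm => hc ⟨g * g' * m, by rwa [tw_comp]⟩⟩, conj_tw δ k _⟩

theorem Form.two_or_three (hδ : A.Form δ π θ) (hπ : π ≠ 1) (hp : p.Prime) (hβ : (conj k * δ) ^ p = 1) (h : π ^ 6 = 1) :
    π ^ p = 1 ∧ (p = 2 ∨ p = 3) := by
  have := Fact.mk hp
  have h1 := (hδ.pow hβ).1
  have h2 : p ∣ 2 * 3 := orderOf_eq_prime h1 hπ ▸ orderOf_dvd_of_pow_eq_one h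
  exact ⟨h1, (hp.dvd_mul.1 h2).imp (Nat.prime_dvd_prime_iff_eq hp Nat.prime_two).1
    (Nat.prime_dvd_prime_iff_eq hp Nat.prime_three).1⟩

end Chv

theorem g2_redOK : ∀ π : Equiv.Perm (Fin chevG2.rank), π ≠ 1 → π ^ 6 = 1 ∧ π ^ 3 ≠ 1 ∧
    g2Cert.R.RedOK π 1 fun _ => False := by
  decide +kernel

theorem e6_redOK : ∀ π : Equiv.Perm (Fin chevE6.rank),
    (∀ i j, e6Cert.R.cart (π i) (π j) = 0 ↔ e6Cert.R.cart i j = 0) → π ≠ 1 → π ^ 6 = 1 ∧ π ^ 3 ≠ 1 ∧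
    e6Cert.R.RedOK π 1 fun _ => False := by
  decide +kernel

theorem d4_redOK : ∀ π : Equiv.Perm (Fin chevD4.rank),
    (∀ i j, d4Cert.R.cart (π i) (π j) = 0 ↔ d4Cert.R.cart i j = 0) → π ≠ 1 → π ^ 6 = 1 ∧
    (π ^ 2 = 1 → d4Cert.R.RedOK π 1 fun _ => False) ∧ (π ^ 3 = 1 → d4Cert.R.RedOK π 2 fun a => a.val = 1) := by
  decide +kernel

namespace Chv
variable {F : Type*} [Field F] [Finite F] {Γ : Type*} [Group Γ] [Finite Γ] {δ : MulAut Γ} {k : Γ} {p : ℕ}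

theorem red_g2 {A : Chv g2Cert.R F Γ} {π θ} (hδ : A.Form δ π θ) (hπ : π ≠ 1) (hp : p.Prime) (hpF : (p : F) ≠ 0)
    (hβ : (conj k * δ) ^ p = 1) : p = 2 ∧ ∃ g, A.Std ((conj g)⁻¹ * (conj k * δ) * conj g) := by
  obtain ⟨h1, h2, h3⟩ := g2_redOK π hπ
  obtain ⟨h4, rfl | rfl⟩ := hδ.two_or_three hπ hp hβ h1
  exacts [⟨rfl, (red_core hδ hp hpF hβ h3).resolve_right (by simp)⟩, (h2 h4).elim]

theorem red_e6 {A : Chv e6Cert.R F Γ} {π θ} (hδ : A.Form δ π θ) (hπ : π ≠ 1) (hp : p.Prime) (hpF : (p : F) ≠ 0)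
    (hβ : (conj k * δ) ^ p = 1) : p = 2 ∧ ∃ g, A.Std ((conj g)⁻¹ * (conj k * δ) * conj g) := by
  obtain ⟨h1, h2, h3⟩ := e6_redOK π hδ.cart_zero hπ
  obtain ⟨h4, rfl | rfl⟩ := hδ.two_or_three hπ hp hβ h1
  exacts [⟨rfl, (red_core hδ hp hpF hβ h3).resolve_right (by simp)⟩, (h2 h4).elim]

theorem red_d4 {A : Chv d4Cert.R F Γ} {π θ} (hδ : A.Form δ π θ) (hπ : π ≠ 1) (hp : p.Prime) (hpF : (p : F) ≠ 0)
    (hβ : (conj k * δ) ^ p = 1) : (p = 2 ∨ p = 3) ∧ ((∃ g, A.Std ((conj g)⁻¹ * (conj k * δ) * conj g)) ∨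
      (p = 3 ∧ ∃ a g k', a.val = 1 ∧ A.Pgu a δ k' ∧ (conj g)⁻¹ * (conj k * δ) * conj g = conj k' * δ)) := by
  obtain ⟨h1, h2, h3⟩ := d4_redOK π hδ.cart_zero hπ
  obtain ⟨h4, rfl | rfl⟩ := hδ.two_or_three hπ hp hβ h1
  exacts [⟨.inl rfl, .inl ((red_core hδ hp hpF hβ (h2 h4)).resolve_right (by simp))⟩,
    ⟨.inr rfl, (red_core hδ hp hpF hβ (h3 h4)).imp_right fun h => ⟨rfl, h⟩⟩]

end Chv
end Cfsg.Agent.Lib.Chev
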