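/- Local balance, common tools: braid pairs, transport, Bruhat position of a commuting automorphism.  Owner: helper2. -/
import Cfsg.Agent.Lib.Chev.Stein2
import Cfsg.Agent.Lib.Core.Basic

set_option autoImplicit false
set_option linter.unusedSectionVars false

namespace Cfsg.Agent.Lib.Chev

theorem braid_dvd {Γ : Type*} [Group Γ] [Finite Γ] {a b : Γ} (h : a * b * a = b * a * b) (hne : a ≠ b) {p : ℕ}
    (hp : p = 2 ∨ p = 3) {H : Subgroup Γ} (ha : a ∈ H) (hb : b ∈ H) : p ∣ Nat.card H := by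
  by_contra hd
  have key : ∀ g ∈ H, Commute (g ^ p) a → Commute g a := fun g hg hc => by
    have hp' : p.Prime := by rcases hp with rfl | rfl <;> norm_num
    obtain ⟨m, e⟩ := exists_pow_eq_self_of_coprime (x := g)
      ((hp'.coprime_iff_not_dvd.2 hd).coprime_dvd_right (H.orderOf_dvd_natCard hg))
    exact e ▸ hc.pow_left m
  have h1 : a * b * a * a = b * (a * b * a) := by conv_rhs => rw [← mul_assoc, ← mul_assoc, ← h]
  have h2 : a * b * a * b = a * (a * b * a) := by conv_rhs => rw [h, ← mul_assoc, ← mul_assoc]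
  have h3 : Commute ((a * b * a) ^ 2) a := by
    change _ = _; rw [sq, mul_assoc, h1, ← mul_assoc, h2]; group
  rcases hp with rfl | rfl
  · exact hne (mul_right_cancel ((key _ (mul_mem (mul_mem ha hb) ha) h3).eq.symm.trans h1))
  · have h4 := (key _ (mul_mem ha hb) (by
      rwa [show (a * b) ^ 3 = a * b * a * (b * a * b) by simp [pow_succ, mul_assoc], ← h, ← sq])).eq
    rw [mul_assoc, mul_left_cancel_iff] at h4
    rw [h4, mul_assoc a, h4, mul_assoc, mul_left_cancel_iff, ← h4, mul_left_cancel_iff] at h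
    exact hne h

namespace Chv
open MulAut (conj)

variable {Φ : Type} {l : ℕ} {R : RS Φ l} {F : Type*} [Field F] {Γ : Type*} [Group Γ] {A : Chv R F Γ}
  {δ β ν : MulAut Γ} {π : Equiv.Perm (Fin l)} {θ : Equiv.Perm Φ} {g k : Γ} {p : ℕ} {N : Subgroup (MulAut Γ)}
  {w : List (Fin l)}

theorem Bal.tr (h : Bal β p N) (α : MulAut Γ) : Bal (α⁻¹ * β * α) p (N.map (MulAut.conj α⁻¹).toMonoidHom) := by
  refine ⟨by rw [Subgroup.card_map_of_injective (MulAut.conj α⁻¹).injective]; exact h.nd, ?_, ?_⟩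
  · rintro _ ⟨ν, hν, rfl⟩
    simpa using (h.comm ν hν).map (MulAut.conj α⁻¹)
  · rintro g hg _ ⟨ν, hν, rfl⟩
    refine ⟨_, h.norm (α g) (by simpa [MulEquiv.symm_apply_eq] using hg) ν hν, ?_⟩
    rw [show conj (α g) = α * conj g * α⁻¹ by ext; simp]; simp [mul_assoc]

theorem Bal.fixm (h : Bal β p N) (hν : ν ∈ N) (hg : β g = g) : β (ν g) = ν g := by
  rw [← MulAut.mul_apply, ← (h.comm ν hν).eq, MulAut.mul_apply, hg]

variable (A) in
/-- the fixed points of `β` in `U` -/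
abbrev U0 (β : MulAut Γ) : Subgroup Γ := A.U ⊓ β.toMonoidHom.eqLocus (MonoidHom.id Γ)

variable [Finite Φ]

variable (A) in
include A in
theorem inv_eq_id (hw : ∀ r, R.pos r → R.pos (R.inv w r)) : R.inv w = R.inv [] :=
  CellW.unique A (g := A.nW w) ⟨1, one_mem _, 1, one_mem _, 1, one_mem _, by simp⟩
    ⟨1, one_mem _, _, A.nW_T' w hw, 1, one_mem _, by simp [Fold.nW]⟩

theorem Form.w0_comm (h : A.Form β π θ) (hw : ∀ r, R.pos r → ¬ R.pos (R.inv w r)) (r : Φ) :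
    R.inv w (θ r) = θ (R.inv w r) := by
  have := congrFun (A.inv_eq_id (w := w.reverse ++ w.map π) fun r hr => by
    obtain ⟨s, hs⟩ := θ.surjective (R.inv w.reverse r)
    rw [R.inv_append, ← hs, h.inv_map, h.pos]
    exact by_contra fun hn => hw _ ((h.pos s).2 ((R.w0_iff hw s).1 hn)) (by rwa [hs, R.inv_inv_reverse])) (R.inv w (θ r))
  rw [R.inv_append, R.inv_reverse_inv, h.inv_map] at this
  exact this.symm

theorem Form.nW_comm (h : A.Form β π θ) (hw : ∀ r, R.inv w (θ r) = θ (R.inv w r)) : ∃ t ∈ A.T, β (A.nW w) = A.nW w * t := by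
  obtain ⟨t, ht, e⟩ := h.nW w
  obtain ⟨k, hk, e'⟩ := A.nW_eq_of_inv (w := w.map π) (w' := w) (funext fun r => by
    obtain ⟨r, rfl⟩ := θ.surjective r; rw [h.inv_map, hw])
  exact ⟨_, mul_mem hk ht, by rw [e, e', mul_assoc]⟩

theorem Form.tr (h : A.Form β π θ) (hw : ∀ r, R.inv w (θ r) = θ (R.inv w r)) :
    A.Form ((conj (A.nW w))⁻¹ * β * conj (A.nW w)) π θ := by
  obtain ⟨t, ht, e⟩ := h.nW_comm hw
  simpa [show (conj (A.nW w))⁻¹ * β * conj (A.nW w) = conj t * β by ext; simp [e, mul_assoc]] using (form_T ht).mul h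

theorem Form.mapUS (h : A.Form β π θ) {S S' : Set Φ} (hS : ∀ r ∈ S, θ r ∈ S') (hg : g ∈ US A.X S) : β g ∈ US A.X S' :=
  US_map β.toMonoidHom (fun r hr x hx => le_US (hS r hr) ((h.X r x).2 hx)) hg

/-- the Bruhat position of a `β`-invariant conjugate of `U` -/
theorem Form.br (h : A.Form β π θ) {a : Γ} (ha : a ∈ US A.X (R.Inv w))
    (hi : ∀ y, (a * A.nW w)⁻¹ * y * (a * A.nW w) ∈ A.U → (a * A.nW w)⁻¹ * β y * (a * A.nW w) ∈ A.U) :
    (∀ r, R.inv w (θ r) = θ (R.inv w r)) ∧ β a = a := by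
  have ha' : a ∈ A.U := US_mono (fun r hr => hr.1) ha
  obtain ⟨t, ht, u, hu, e⟩ := A.mem_B (g := (a * A.nW w)⁻¹ * β (a * A.nW w)) fun u hu => by
    obtain ⟨u, rfl⟩ := β.surjective u
    simpa [mul_assoc] using hi (a * A.nW w * u * (a * A.nW w)⁻¹) (by simpa [mul_assoc] using (h.U u).1 hu)
  obtain ⟨k, hk, e'⟩ := h.nW w
  have h1 : ∀ r, R.inv w (θ r) = θ (R.inv w r) := fun r => by
    rw [← h.inv_map, CellW.unique A (w' := w.map π) (g := β (a * A.nW w)) ⟨a, ha', t, ht, u, hu, by rw [mul_assoc _ t, ← e]; group⟩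
      ⟨β a, (h.U a).2 ha', k, hk, 1, one_mem _, by simp [e', mul_assoc]⟩]
  obtain ⟨k', hk', e''⟩ := h.nW_comm h1
  have h2 := A.ldu_unique (A.conj_Inv (h.mapUS (fun r hr => ⟨(h.pos r).2 hr.1, by rw [h1, h.pos]; exact hr.2⟩) ha))
    (A.conj_Inv ha) hk' ht (one_mem _) hu (by rw [mul_assoc _ t, ← e, map_mul, e'']; group)
  exact ⟨h1, by simpa using h2.1⟩

variable (A) in
theorem braid (r : Φ) (t : Fˣ) : A.x r t * A.x (R.neg r) (-(t⁻¹ : Fˣ)) * A.x r t =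
    A.x (R.neg r) (-(t⁻¹ : Fˣ)) * A.x r t * A.x (R.neg r) (-(t⁻¹ : Fˣ)) ∧ A.x r t ≠ A.x (R.neg r) (-(t⁻¹ : Fˣ)) := by
  refine ⟨?_, fun e => ?_⟩
  · obtain ⟨w, i, e⟩ := R.exists_inv_eq_sim r
    obtain ⟨ε, h0, h1, h2⟩ := A.nW_conj w r
    let s : Fˣ := ⟨ε, ε, h0, h0⟩ * t
    have h3 := A.m_sim i s s
    rw [mul_inv_eq_iff_eq_mul, m, ← mul_assoc, ← mul_assoc, mul_left_inj, sq, mul_assoc ((s⁻¹ : Fˣ) : F), Units.inv_mul, mul_one,
      ← e, show (s : F) = ε * t from rfl, show -((s⁻¹ : Fˣ) : F) = ε * -(t⁻¹ : Fˣ) by simp [s, mul_comm, inv_eq_of_mul_eq_one_left h0],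
      ← h1, ← h2] at h3
    simpa [← mul_assoc] using (by simpa [mul_assoc] using h3 :)
  · have := A.X_eq (fun h => t.ne_zero (A.x_inj _ _ h)) (A.x_mem r t) (by rw [e]; exact A.x_mem _ _)
    have h1 := R.pos_neg_iff r
    rw [← this] at h1; tauto

variable [Finite Γ]

theorem Bal.nd_sup (h : Bal β p N) (hp : p.Prime) (hpr : (p : F) ≠ 0) :
    ¬ p ∣ Nat.card ((N ⊔ (A.U0 β).map conj).comap (conj : Γ →* MulAut Γ)) := fun hd => by
  have h1 : (A.U0 β).map conj ≤ Subgroup.normalizer (N : Set (MulAut Γ)) := by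
    rintro _ ⟨u, hu, rfl⟩
    exact Subgroup.mem_normalizer_fintype fun ν hν => h.norm u hu.2 ν hν
  have h2 := hd.trans (Subgroup.card_comap_dvd_of_injective _ _ fun _ _ => A.conj_inj)
  rw [sup_comm] at h2
  rcases (Nat.Prime.dvd_mul hp).1 (h2.trans (Core.card_sup_dvd h1)) with h3 | h3
  exacts [A.not_dvd_U hp hpr inf_le_left (h3.trans (Subgroup.card_map_dvd _ _)), h.nd h3]

/-- an automorphism commuting with `β` maps `U` to `a ẇ U ẇ⁻¹ a⁻¹` with `a` fixed by `β` -/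
theorem Form.position [Finite F] (h : A.Form β π θ) (hc : Commute ν β) : ∃ w, ∃ a ∈ US A.X (R.Inv w), β a = a ∧
    (∀ r, R.inv w (θ r) = θ (R.inv w r)) ∧ ∀ y, (a * A.nW w)⁻¹ * ν y * (a * A.nW w) ∈ A.U ↔ y ∈ A.U := by
  obtain ⟨k, δ, hδ, e⟩ := A.exists_std ν
  obtain ⟨w, a, ha, t, ht, u, hu, rfl⟩ := A.bruhat k
  have h1 : ∀ y, (a * A.nW w)⁻¹ * ν y * (a * A.nW w) ∈ A.U ↔ y ∈ A.U := fun y => by
    rw [← hδ.U y, Subgroup.mem_normalizer_iff.1 (mul_mem (A.T_B ht) (A.U_B hu)) (δ y), e]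
    simp [mul_assoc]
  have := h.br ha fun y hy => by
    obtain ⟨y, rfl⟩ := ν.surjective y
    rw [← MulAut.mul_apply, ← hc.eq, MulAut.mul_apply, h1, h.U, ← h1]; exact hy
  exact ⟨w, a, ha, this.2, this.1, h1⟩

end Chv
end Cfsg.Agent.Lib.Chev
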