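/- Local balance for graph automorphisms normalising `U` and `U⁻`.  Owner: helper2. -/
import Cfsg.Agent.Lib.Chev.Stein4a
import Cfsg.Agent.Lib.Chev.Stein3

set_option autoImplicit false
set_option linter.unusedSectionVars false

namespace Cfsg.Agent.Lib.Chev.Chv
open MulAut (conj)
open scoped commutatorElement

variable {Φ : Type} {l : ℕ} {R : RS Φ l} {F : Type*} [Field F] {Γ : Type*} [Group Γ] {A : Chv R F Γ} [Finite Φ]
  {δ β ν : MulAut Γ} {π : Equiv.Perm (Fin l)} {θ : Equiv.Perm Φ} {g k : Γ} {p : ℕ} {N : Subgroup (MulAut Γ)}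
  {w : List (Fin l)} {i : Fin l}

variable (A) in
theorem peel_fix (w : List (Fin l)) : ∀ β : MulAut Γ, (∀ r ∈ R.Inv w, ∀ x ∈ A.X r, β x ∈ A.X r ∧ (β x = x → x = 1)) →
    ∀ a ∈ US A.X (R.Inv w), β a = a → a = 1 := by
  refine R.Inv_induction (fun w => ∀ β : MulAut Γ, (∀ r ∈ R.Inv w, ∀ x ∈ A.X r, β x ∈ A.X r ∧ (β x = x → x = 1)) →
    ∀ a ∈ US A.X (R.Inv w), β a = a → a = 1) (fun w hw β _ a ha _ => ?_) (fun w i hi ih β h a ha e => ?_) w
  · rwa [show R.Inv w = ∅ from Set.eq_empty_of_forall_notMem fun r hr => hr.2 (hw r hr.1), US_empty, Subgroup.mem_bot] at ha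
  obtain ⟨x, hx, u, hu, rfl⟩ := A.split (R.closed_Inv w i hi) ha
  have hQ : US A.X (R.Inv w \ {R.sim i}) ≤ A.Q i := US_mono fun r hr => ⟨hr.1.1, hr.2⟩
  have h0 := h _ ⟨R.pos_sim i, hi⟩ x hx
  obtain ⟨h1, h2⟩ := A.split_unique h0.1 hx (hQ (US_map β.toMonoidHom (fun r hr y hy => le_US hr (h r hr.1 y hy).1) hu))
    (hQ hu) ((map_mul β _ _).symm.trans e)
  have h3 := ih (conj (A.n i)⁻¹ * β * conj (A.n i)) (fun s hs y hy => by
    have h4 := h _ (show R.refl i s ∈ R.Inv w \ {R.sim i} from R.Inv_cons_image w i hi ▸ ⟨s, hs, rfl⟩).1 _ (A.conj i s y hy)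
    refine ⟨by simpa [R.refl_refl] using A.conj' i _ _ h4.1, fun e => conj_eq_one_iff.1 (h4.2 ?_)⟩
    conv_rhs => rw [← e]
    simp [mul_assoc]) ((A.n i)⁻¹ * u * A.n i) (by
    have := US_conj (A.n i)⁻¹ (K := US A.X (R.Inv (i :: w))) (fun r hr z hz => by
      obtain ⟨s, hs, rfl⟩ := (R.Inv_cons_image w i hi ▸ hr : r ∈ R.refl i '' R.Inv (i :: w))
      simpa using le_US (X := A.X) hs (by simpa [R.refl_refl] using A.conj' i _ z hz)) hu
    simpa using this) (by simpa [mul_assoc] using h2)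
  rw [h0.2 h1, one_mul]
  simpa [mul_assoc, inv_mul_eq_one] using h3

variable (A) in
theorem commutator_le_Q (i : Fin l) : ⁅A.U, A.U⁆ ≤ A.Q i := Subgroup.commutator_le.2 fun g hg h hh => by
  obtain ⟨x, hx, u, hu, rfl⟩ := A.split (R.closed_pos i) hg
  obtain ⟨y, hy, v, hv, rfl⟩ := A.split (R.closed_pos i) hh
  have hc : x * y = y * x := by
    obtain ⟨s, rfl⟩ := (A.mem_X _ _).1 hx
    obtain ⟨t, rfl⟩ := (A.mem_X _ _).1 hy
    rw [← A.x_add, ← A.x_add, add_comm]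
  have hU : A.X (R.sim i) ≤ A.U := le_US (S := {r | R.pos r}) (R.pos_sim i)
  have := mul_mem (mul_mem (A.Q_normal (hU hx) hu) (A.Q_normal (hU (mul_mem hx hy)) (mul_mem hv (inv_mem hu))))
    (A.Q_normal (hU hy) (inv_mem hv))
  rw [mul_inv_rev x y, mul_assoc (x * u * x⁻¹), mul_assoc _ (y⁻¹ * x⁻¹), ← mul_inv_rev, hc, mul_inv_rev, ← hc] at this
  simpa [commutatorElement_def, mul_assoc] using this

variable (A) in
theorem eq_one_of_cell (hg : g ∈ A.Um) (h : ∀ y, (A.nW w)⁻¹ * (g * y * g⁻¹) * A.nW w ∈ A.U ↔ y ∈ A.U) : g = 1 := by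
  by_cases hw : ∀ r, R.pos r → R.pos (R.inv w r)
  · exact A.B_Um (Subgroup.mem_normalizer_iff.2 fun y => by
      refine (h y).symm.trans ?_
      simpa using (A.std_T (inv_mem (show A.nW w ∈ A.T from A.nW_T' w hw))).U (g * y * g⁻¹)) hg
  · push Not at hw
    obtain ⟨r, hr, hr'⟩ := hw
    have h1 := (h (g⁻¹ * A.x (R.neg r) 1 * g)).1 (by
      simpa [mul_assoc] using le_US (S := {r | R.pos r}) (by simpa [R.inv_neg, R.pos_neg_iff] using hr')
        (A.conjW w _ (A.x_mem (R.neg r) 1)))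
    have := A.U_Um h1 (mul_mem (mul_mem (inv_mem hg) (A.x_Um (by simpa [R.pos_neg_iff] using hr) 1)) hg)
    exact absurd (by simpa [mul_assoc, inv_mul_eq_one] using this) (A.x_ne (R.neg r))

variable [Finite Γ] [Finite F]

theorem graph_pos (h : A.Form β π θ) (hp : p = 2 ∨ p = 3) (hpr : (p : F) ≠ 0) (hβ : β ^ p = 1) (hd : R.GD π θ p)
    (hN : Bal β p N) (hν : ν ∈ N) : ∃ w, (∀ y, (A.nW w)⁻¹ * ν y * A.nW w ∈ A.U ↔ y ∈ A.U) ∧
      ∀ u ∈ A.U0 β, (A.nW w)⁻¹ * u * A.nW w ∈ A.U := by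
  obtain ⟨w, a, ha, ha1, hw, h1⟩ := h.position (hN.comm ν hν)
  have hd' := hN.nd_sup (A := A) (by rcases hp with rfl | rfl <;> norm_num) hpr
  set H := (N ⊔ (A.U0 β).map conj).comap (conj : Γ →* MulAut Γ)
  have hU : ∀ u ∈ A.U, β u = u → u ∈ H := fun u hu e => Subgroup.mem_sup_right ⟨u, ⟨hu, e⟩, rfl⟩
  have ha2 := hU a (US_mono (fun r hr => hr.1) ha) ha1
  have hUm : ∀ b ∈ US A.X (R.neg '' R.Inv w), β b = b → b ∈ H := fun b hb e => by
    have h2 : (A.nW w)⁻¹ * b * A.nW w ∈ A.U := by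
      simpa using US_conj (A.nW w)⁻¹ (K := A.U) (by
        rintro _ ⟨r, hr, rfl⟩ z hz
        simpa using le_US (S := {r | R.pos r}) (by simpa [R.inv_neg, R.pos_neg_iff] using hr.2) (A.conjW w _ hz)) hb
    have h3 := hU (ν⁻¹ (a * b * a⁻¹)) ((h1 _).1 (by simpa [mul_assoc] using h2)) (hN.fixm (inv_mem hν) (by simp [ha1, e]))
    have h4 : a * b * a⁻¹ ∈ H := by
      rw [Subgroup.mem_comap, show conj (a * b * a⁻¹) = ν * conj (ν⁻¹ (a * b * a⁻¹)) * ν⁻¹ by ext; simp]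
      exact mul_mem (mul_mem (Subgroup.mem_sup_left hν) h3) (inv_mem (Subgroup.mem_sup_left hν))
    simpa [mul_assoc] using mul_mem (mul_mem (inv_mem ha2) h4) ha2
  have hθ : ∀ r ∈ R.Inv w, θ r ∈ R.Inv w := fun r hr => ⟨(h.pos r).2 hr.1, by rw [hw, h.pos]; exact hr.2⟩
  have hθ' : ∀ r ∈ R.Inv w, ∀ j, θ^[j] r ∈ R.Inv w := fun r hr j => Function.Iterate.rec _ hr hθ j
  have noGood : ∀ γ ∈ R.Inv w, ¬ R.Good θ p γ := fun γ hγ hg => by
    obtain ⟨a, ha, b, hb, e1, e2, -, h3⟩ := A.orbit_elt hp hβ (fun j => θ^[j] γ) (fun j _ => (hθ' γ hγ j).1)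
      (fun j => by rw [Function.iterate_succ_apply']; exact h.root _) hg
    have hs : (fun j => θ^[j] γ) '' {j | j < p} ⊆ R.Inv w := by rintro _ ⟨j, -, rfl⟩; exact hθ' γ hγ j
    exact hd' (h3 H (hU a (US_mono (hs.trans fun r hr => hr.1) ha) e1) (hUm b (US_mono (Set.image_mono hs) hb) e2))
  have allFix : ∀ γ ∈ R.Inv w, θ γ = γ := fun γ hγ => by
    rcases hd.1 with h2 | ⟨h2, γ', h3, h4⟩
    · exact by_contra fun hne => noGood γ hγ (h2 γ hγ.1 hne)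
    obtain ⟨i, hi⟩ : ∃ i, ¬ R.pos (R.inv w (R.sim i)) := not_forall.1 fun hc => hγ.2 (R.pos_inv_of_sim w hc hγ.1)
    refine absurd h4 (noGood γ' ⟨h3, R.neg_inv_of_sim w (fun j => ?_) h3⟩)
    obtain ⟨m, -, rfl⟩ := h2 i j
    rw [← (h.pow' m).sim, Equiv.Perm.coe_pow]
    exact (hθ' _ ⟨R.pos_sim i, hi⟩ m).2
  have peel := A.peel_fix w β fun r hr x hx => ⟨allFix r hr ▸ (h.X r x).2 hx, fun e => by_contra fun hne => by
    obtain ⟨t, rfl⟩ := (A.mem_X _ _).1 hx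
    have ht : t ≠ 0 := fun h0 => hne (by simp [h0])
    obtain ⟨c, f, h2⟩ := h.root r
    rw [allFix r hr] at h2
    have h3 := A.x_injective _ (e.symm.trans (h2 t).1)
    exact hd' (braid_dvd (A.braid r (Units.mk0 t ht)).1 (A.braid r (Units.mk0 t ht)).2 hp (hU _ (A.x_U hr.1 _) e)
      (hUm _ (le_US (Set.mem_image_of_mem _ hr) (A.x_mem _ _)) (by
        rw [(h2 _).2]; congr 1; simp only [Units.val_inv_eq_inv_val, Units.val_mk0, map_neg, map_inv₀]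
        conv_rhs => rw [h3]
        ring)))⟩
  obtain rfl := peel a ha ha1
  refine ⟨w, by simpa using h1, fun u hu => ?_⟩
  obtain ⟨b, hb, c, hc, rfl⟩ := A.factor w u hu.1
  have h2 := A.ldu_unique (A.conj_Inv (h.mapUS hθ hb)) (A.conj_Inv hb) (one_mem _) (one_mem _)
    (A.conj_NInv (h.mapUS (S' := R.NInv w) (fun r hr => ⟨(h.pos r).2 hr.1, by rw [hw, h.pos]; exact hr.2⟩) hc)) (A.conj_NInv hc)
    (by simpa [mul_assoc] using congrArg (· * A.nW w) (show β (b * c) = b * c from hu.2))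
  rw [peel b hb (by simpa using h2.1), one_mul]
  exact A.conj_NInv hc

theorem tr_pow (hβ : β ^ p = 1) (α : MulAut Γ) : (α⁻¹ * β * α) ^ p = 1 := by
  simpa [hβ] using conj_pow (a := α⁻¹) (b := β) (i := p)

theorem graph_cent (h : A.Form β π θ) (hp : p = 2 ∨ p = 3) (hpr : (p : F) ≠ 0) (hβ : β ^ p = 1) (hd : R.GD π θ p)
    (hN : Bal β p N) (hν : ν ∈ N) (hg : g ∈ A.U0 β) : ν g = g := by
  obtain ⟨w, h1, h2⟩ := graph_pos h hp hpr hβ hd hN (inv_mem hν)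
  obtain ⟨w', h1', h2'⟩ := graph_pos h hp hpr hβ hd hN hν
  have h3 : ν g ∈ A.U := by
    have := iff_of_maps ν⁻¹ (H := A.U0 β) (fun y hy => ⟨(h1' _).1 (by simpa using h2' y hy), hN.fixm (inv_mem hν) hy.2⟩) (ν g)
    exact (this.1 (by simpa using hg)).1
  have h4 : conj (ν g * g⁻¹) ∈ N := by
    rw [show conj (ν g * g⁻¹) = ν * (conj g * ν⁻¹ * (conj g)⁻¹) by ext; simp [mul_assoc]]
    exact mul_mem hν (hN.norm g hg.2 _ (inv_mem hν))
  obtain ⟨w0, hw0⟩ := R.exists_w0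
  obtain ⟨w, h5, -⟩ := graph_pos (h.tr (h.w0_comm hw0)) hp hpr (tr_pow hβ _) hd (hN.tr _) ⟨_, h4, rfl⟩
  have := A.eq_one_of_cell (w := w) ((A.w0_U hw0 _).2 (mul_mem h3 (inv_mem hg.1))) fun y => by
    simpa [mul_assoc] using h5 y
  exact mul_inv_eq_one.1 (conj_eq_one_iff.1 (by simpa using this : (A.nW w0)⁻¹ * _ * (A.nW w0)⁻¹⁻¹ = 1))

theorem graph_rho (h : A.Form β π θ) (hp : p = 2 ∨ p = 3) (hpr : (p : F) ≠ 0) (hβ : β ^ p = 1) (hd : R.GD π θ p)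
    (hN : Bal β p N) (hν : ν ∈ N) : ∃ ρ : Φ → Φ, ∀ r, A.Pair ν r (ρ r) := by
  obtain ⟨w, h1, -⟩ := graph_pos h hp hpr hβ hd hN hν
  obtain ⟨w0, hw0⟩ := R.exists_w0
  obtain ⟨w', h2, -⟩ := graph_pos (h.tr (h.w0_comm hw0)) hp hpr (tr_pow hβ _) hd (hN.tr _) ⟨_, hν, rfl⟩
  have h3 : ∀ z, (A.nW (w0 ++ w'))⁻¹ * ν z * A.nW (w0 ++ w') ∈ A.U ↔ z ∈ A.Um := fun z => by
    rw [← A.w0_Um hw0 z, ← h2 ((A.nW w0)⁻¹ * z * A.nW w0)]; simp [Fold.nW_append, mul_assoc]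
  have h4 : ∀ r, R.pos (R.inv w r) → ¬ R.pos (R.inv (w0 ++ w') r) := fun r hr hr' => A.x_ne r (by
    simpa using A.U_Um ((h1 (ν⁻¹ (A.x r 1))).1 (by simpa using le_US (S := {r | R.pos r}) hr (A.conjW w _ (A.x_mem r 1))))
      ((h3 _).1 (by simpa using le_US (S := {r | R.pos r}) hr' (A.conjW _ _ (A.x_mem r 1)))))
  obtain ⟨π', θ', h5⟩ := Std.form (A := A) (δ := conj (A.nW w)⁻¹ * ν) ⟨fun y => by simpa using h1 y, fun y => by
    rw [← h3 y, A.conjW_US (w0 ++ w') (S := {r | ¬ R.pos (R.inv w r)}) fun r => ⟨fun hr hr' => h4 r hr' hr, fun hr =>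
      by_contra fun hr' => h4 (R.neg r) (by rwa [R.inv_neg, R.pos_neg_iff]) (by rwa [R.inv_neg, R.pos_neg_iff])⟩,
      ← A.conjW_US w (S := {r | ¬ R.pos (R.inv w r)}) (S' := {r | ¬ R.pos r}) fun r => Iff.rfl]; simp⟩
  refine ⟨fun r => R.inv w.reverse (θ' r), fun r => ?_⟩
  have := pair_nW' (A := A) w (R.inv w.reverse (θ' r))
  rw [R.inv_inv_reverse] at this
  simpa [← mul_assoc, ← map_mul] using this.mul (h5.root r)

theorem graph_sim (h : A.Form β π θ) (hp : p = 2 ∨ p = 3) (hpr : (p : F) ≠ 0) (hβ : β ^ p = 1) (hd : R.GD π θ p)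
    (hN : Bal β p N) (hν : ν ∈ N) (hi : π i ≠ i) (hg : g ∈ A.X (R.sim i)) : ν g = g := by
  have hp' : p.Prime := by rcases hp with rfl | rfl <;> norm_num
  obtain ⟨hπ, hθ, -⟩ := h.pow (k := 1) (by simpa using hβ)
  obtain ⟨ρ, hρ⟩ := graph_rho h hp hpr hβ hd hN hν
  have hc : ∀ r, ρ (θ r) = θ (ρ r) := fun r => ((hρ _).mul (h.root r)).unique ((hN.comm ν hν).eq ▸ (h.root _).mul (hρ r))
  set O : Set Φ := Set.range fun j : ℕ => θ^[j] (R.sim i)
  have hO : ∀ r ∈ O, θ r ∈ O := by rintro _ ⟨j, rfl⟩; exact ⟨j + 1, Function.iterate_succ_apply' _ _ _⟩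
  have hO1 : R.sim i ∈ O := ⟨0, rfl⟩
  have hpos : ∀ r j, R.pos (θ^[j] r) ↔ R.pos r := fun r j => Equiv.Perm.coe_pow θ j ▸ (h.pow' j).pos r
  have hK : US A.X O ≤ A.U := US_mono (by rintro _ ⟨j, rfl⟩; exact (hpos _ _).2 (R.pos_sim i))
  have hQ : US A.X (O \ {R.sim i}) ≤ A.Q i := US_mono (by rintro _ ⟨⟨j, rfl⟩, h⟩; exact ⟨(hpos _ _).2 (R.pos_sim i), h⟩)
  have hV : ⁅US A.X O, US A.X O⁆ ≤ A.Q i := (Subgroup.commutator_mono hK hK).trans (A.commutator_le_Q i)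
  have hmap : ∀ μ : MulAut Γ, (∀ y ∈ US A.X O, μ y ∈ US A.X O) → ∀ v ∈ ⁅US A.X O, US A.X O⁆, μ v ∈ ⁅US A.X O, US A.X O⁆ :=
    fun μ hμ => (Subgroup.commutator_le (H₃ := Subgroup.comap μ.toMonoidHom _)).2 fun a ha b hb => by
      simpa [map_commutatorElement] using Subgroup.commutator_mem_commutator (hμ a ha) (hμ b hb)
  have key : ∀ x ∈ A.X (R.sim i), ∃ y ∈ US A.X (O \ {R.sim i}), ∃ v ∈ ⁅US A.X O, US A.X O⁆, ν (x * (y * v)) = x * (y * v) := by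
    intro x hx
    have e1 : θ (R.sim i) ∈ O \ {R.sim i} := ⟨hO _ hO1, fun e => hi (R.sim_inj ((h.sim i).symm.trans e))⟩
    obtain ⟨y, hy, e⟩ : ∃ y ∈ US A.X (O \ {R.sim i}), β (x * y) = y * x := by
      have e2 := DFunLike.congr_fun hβ x
      rcases hp with rfl | rfl
      · exact ⟨β x, le_US e1 ((h.X _ _).2 hx), by simpa [pow_succ] using e2⟩
      · refine ⟨β x * β (β x), mul_mem (le_US e1 ((h.X _ _).2 hx)) (le_US (S := O \ {R.sim i}) ⟨hO _ e1.1, fun e => e1.2 ?_⟩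
          ((h.X _ _).2 ((h.X _ _).2 hx))), by simpa [pow_succ, mul_assoc] using e2⟩
        simpa [pow_succ, show θ (θ (R.sim i)) = R.sim i from e] using DFunLike.congr_fun hθ (R.sim i)
    have hxy : x * y ∈ US A.X O := mul_mem (le_US hO1 hx) (US_mono Set.diff_subset hy)
    obtain ⟨z, hz, e'⟩ := A.fix_coset hp' hpr hβ (hV.trans (A.Q_le i)) (y := x * y) fun z hz => by
      have := mul_mem (Subgroup.commutator_mem_commutator (inv_mem hxy) (inv_mem (le_US hO1 hx)))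
        (hmap β (fun y => h.mapUS hO) _ hz)
      rw [map_mul, map_inv, e] at this
      simpa [commutatorElement_def, mul_assoc] using this
    have h3 : z = x * (y * ((x * y)⁻¹ * z)) := by group
    refine ⟨y, hy, _, hz, h3 ▸ graph_cent h hp hpr hβ hd hN hν ⟨?_, e'⟩⟩
    simpa [mul_assoc] using mul_mem (hK hxy) (A.Q_le i (hV hz))
  have hKK : ⁅US A.X O, US A.X O⁆ ≤ US A.X O := Subgroup.commutator_le.2 fun a ha b hb =>
    mul_mem (mul_mem (mul_mem ha hb) (inv_mem ha)) (inv_mem hb)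
  have h1 : ρ (R.sim i) = R.sim i := by
    obtain ⟨j, hj⟩ : ∃ j, θ^[j] (ρ (R.sim i)) = R.sim i := by
      by_contra hn
      push Not at hn
      obtain ⟨y, hy, v, hv, e⟩ := key _ (A.x_mem _ 1)
      have h2 := mul_mem (le_US hO1 (A.x_mem _ 1)) (mul_mem (US_mono Set.diff_subset hy) (hKK hv))
      have h3 : ∀ S : Set Φ, (∀ j, θ^[j] (ρ (R.sim i)) ∈ S) → A.x (R.sim i) 1 * (y * v) ∈ US A.X S := fun S hS =>
        e ▸ US_map ν.toMonoidHom (by
          rintro _ ⟨j, rfl⟩ z hz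
          exact le_US (Function.Semiconj.iterate_right hc j _ ▸ hS j) (((hρ _).X z).2 hz)) h2
      refine A.x_ne _ (A.indep i _ (A.x_mem _ 1) ((Subgroup.mul_mem_cancel_right _ (mul_mem (hQ hy) (hV hv))).1 ?_))
      by_cases hr : R.pos (ρ (R.sim i))
      · exact h3 _ fun j => ⟨(hpos _ _).2 hr, hn j⟩
      · rw [A.U_Um (hK h2) (h3 _ fun j => (hpos _ _).not.2 hr)]; exact one_mem _
    have h2 : ∀ n, θ^[j * n] (ρ^[n] (R.sim i)) = R.sim i ∧ A.Pair (ν ^ n) (R.sim i) (ρ^[n] (R.sim i)) := fun n => by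
      induction n with
      | zero => exact ⟨rfl, by simpa using form_one.root (R.sim i)⟩
      | succ n ih =>
        refine ⟨?_, by rw [pow_succ', Function.iterate_succ_apply']; exact (hρ _).mul ih.2⟩
        rw [Nat.mul_succ, add_comm, Function.iterate_add_apply, Function.iterate_succ_apply',
          ← Function.Semiconj.iterate_right hc, ih.1, hj]
    obtain ⟨h3, h4⟩ := h2 (Nat.card N)
    rw [show ν ^ Nat.card N = 1 from congrArg Subtype.val (pow_card_eq_one' (x := (⟨ν, hν⟩ : N)))] at h4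
    rw [h4.unique (form_one.root _), Equiv.Perm.coe_one, id] at h3
    have h5 : ∀ r, Function.IsPeriodicPt θ p r := fun r => by
      change θ^[p] r = r; rw [← Equiv.Perm.coe_pow, hθ]; rfl
    by_cases hj' : p ∣ j
    · exact ((h5 _).trans_dvd hj').symm.trans hj
    · have := (h5 _).gcd h3
      rw [(hp'.coprime_iff_not_dvd.2 (hp'.not_dvd_mul hj' hN.nd)).gcd_eq_one] at this
      exact absurd (R.sim_inj ((h.sim i).symm.trans this)) hi
  have h2 : ∀ S ⊆ O, ∀ y ∈ US A.X S, ν y ∈ US A.X S := fun S hS y => US_map ν.toMonoidHom fun r hr z hz => by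
    obtain ⟨j, e⟩ := hS hr
    have : ρ r = r := by rw [← e, Function.Semiconj.iterate_right hc, h1]
    exact le_US hr (this ▸ ((hρ r).X z).2 hz)
  obtain ⟨y, hy, v, hv, e⟩ := key g hg
  rw [map_mul, map_mul] at e
  exact (A.split_unique (h1 ▸ ((hρ _).X g).2 hg) hg (mul_mem (hQ (h2 _ Set.diff_subset y hy)) (hV (hmap ν (h2 O le_rfl) v hv)))
    (mul_mem (hQ hy) (hV hv)) e).1

theorem graph_case (h : A.Form β π θ) (hp : p = 2 ∨ p = 3) (hpr : (p : F) ≠ 0) (hβ : β ^ p = 1) (hd : R.GD π θ p)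
    (hN : Bal β p N) : N = ⊥ := by
  refine (Subgroup.eq_bot_iff_forall _).2 fun ν hν => ?_
  let C := ν.toMonoidHom.eqLocus (MonoidHom.id Γ)
  have h1 : ∀ w i γ, π i ≠ i → (∀ r, R.inv w (θ r) = θ (R.inv w r)) → R.inv w γ = R.sim i → A.X γ ≤ C :=
    fun w i γ hi hw e y hy => by
      have := graph_sim (h.tr hw) hp hpr (tr_pow hβ _) hd (hN.tr _) ⟨_, hν, rfl⟩ hi (e ▸ A.conjW w γ hy)
      exact show ν y = y by simpa [mul_assoc] using this
  obtain ⟨w0, hw0⟩ := R.exists_w0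
  have h2 : ∀ w i γ, π i ≠ i → (∀ r, R.inv w (θ r) = θ (R.inv w r)) → R.inv w γ = R.sim i → A.X (R.neg γ) ≤ C :=
    fun w i γ hi hw e => by
      obtain ⟨j, hj⟩ := R.w0_sim hw0 i
      refine h1 (w ++ w0) j _ (fun e' => hi (R.sim_inj (R.inv_injective w0 ?_))) (fun r => ?_) ?_
      · rw [← h.sim, h.w0_comm hw0, hj, h.neg, h.sim, e']
      · rw [R.inv_append, R.inv_append, hw, h.w0_comm hw0]
      · rw [R.inv_append, R.inv_neg, e, R.inv_neg, hj, R.neg_neg']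
  have h3 : ∀ i, A.X (R.sim i) ≤ C → A.X (R.neg (R.sim i)) ≤ C → A.n i ∈ C := fun i a b =>
    A.n_def i ▸ mul_mem (mul_mem (a (A.x_mem _ _)) (b (A.x_mem _ _))) (a (A.x_mem _ _))
  have h4 : ∀ (v : List (Fin l)) r, (∀ m ∈ v, A.n m ∈ C) → A.X (R.inv v r) ≤ C → A.X r ≤ C := fun v r hv hr y hy => by
    have : A.nW v ∈ C := list_prod_mem (by simpa using hv)
    simpa [mul_assoc] using mul_mem (mul_mem this (hr (A.conjW v r hy))) (inv_mem this)
  obtain ⟨rk, hrk⟩ := hd.2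
  have h5 : ∀ n j, rk j = n → A.X (R.sim j) ≤ C ∧ A.X (R.neg (R.sim j)) ≤ C := fun n => by
    induction n using Nat.strong_induction_on with | _ n ih => ?_
    rintro j rfl
    by_cases hj : π j = j
    swap; · exact ⟨h1 [] j _ hj (fun _ => rfl) rfl, h2 [] j _ hj (fun _ => rfl) rfl⟩
    obtain ⟨i, w, v, hi, hw, e, hv⟩ := hrk j hj
    rw [R.inv_append] at e
    have hv' : ∀ m ∈ v, A.n m ∈ C := fun m hm => (hv m hm).elim
      (fun hm => h3 m (h1 [] m _ hm (fun _ => rfl) rfl) (h2 [] m _ hm (fun _ => rfl) rfl))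
      fun hm => h3 m (ih _ hm m rfl).1 (ih _ hm m rfl).2
    exact ⟨h4 v _ hv' (h1 w i _ hi hw e), h4 v _ hv' (R.inv_neg v _ ▸ h2 w i _ hi hw e)⟩
  refine MulEquiv.toMonoidHom_injective (A.hom_ext fun r t => ?_)
  obtain ⟨w, i, e⟩ := R.exists_inv_eq_sim r
  exact h4 w r (fun m _ => h3 m (h5 _ m rfl).1 (h5 _ m rfl).2) (e ▸ (h5 _ i rfl).1) (A.x_mem r t)

end Cfsg.Agent.Lib.Chev.Chv
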