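/- Graph-type automorphisms of prime order for the seven types.  Owner: lead. -/
import Cfsg.Agent.Lib.Chev.Stein4
import Cfsg.Agent.Lib.Chev.Red
import Cfsg.Agent.Lib.Chev.Pgu
import Cfsg.Agent.Lib.Chev.Asm
import Cfsg.Agent.Lib.Chev.Comb7

set_option autoImplicit false
set_option linter.unusedSectionVars false

namespace Cfsg.Agent.Lib.Chev.Chv
open MulAut (conj)
open Equiv (Perm swap)

theorem inv_conj_pow {G : Type*} [Group G] (a b : G) (n : ℕ) : (a⁻¹ * b * a) ^ n = a⁻¹ * b ^ n * a := by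
  simpa using (conj_pow (a := a⁻¹) (b := b) (i := n))

section
variable {Φ : Type} {l : ℕ} {R : RS Φ l} {F : Type*} [Field F] {Γ : Type*} [Group Γ] {A : Chv R F Γ}
  [Finite Φ] [Finite Γ] [Finite F] {δ : MulAut Γ} {π : Perm (Fin l)} {θ : Perm Φ} {g k : Γ} {p : ℕ}
  {N : Subgroup (MulAut Γ)}

theorem of_std (h : A.Form δ π θ) (hp : p = 2 ∨ p = 3) (hpr : (p : F) ≠ 0) (hβ : (conj k * δ) ^ p = 1)
    (hd : R.GD' π p) (hg : A.Std ((conj g)⁻¹ * (conj k * δ) * conj g)) (hN : Bal (conj k * δ) p N) : N = ⊥ := by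
  obtain ⟨π', θ', h'⟩ := hg.form
  obtain ⟨rfl, rfl⟩ := h.type_eq h' (g := g⁻¹ * k) (k := g) (by rw [map_mul, map_inv, ← mul_assoc])
  obtain ⟨θ0, h1, h2, h3⟩ := hd
  rw [← h.theta_eq θ0 h1 h2] at h3
  refine hN.eq_bot_of_conj (conj g)⁻¹ fun N' hN' => ?_
  rw [inv_inv] at hN'
  exact A.graph_case h' hp hpr (by rw [inv_conj_pow, hβ, mul_one, inv_mul_cancel]) h3 hN'

theorem not_two (h : A.Form δ π θ) {i j : Fin l} (h1 : R.cart i j = -1) (h2 : R.cart (π i) (π j) = -2) :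
    ((2 : ℕ) : F) = 0 := by
  obtain ⟨f, g, e⟩ := h.rel i j
  have := e (-1) (by simp)
  rw [h1, h2] at this
  simp only [zpow_neg, zpow_one, inv_neg, inv_one, map_neg, map_one] at this
  rw [show (-1 : F) ^ (2 : ℤ) = 1 by norm_num, inv_one] at this
  push_cast
  linear_combination -this

end

variable {F : Type*} [Field F] {Γ : Type*} [Group Γ] [Finite Γ] [Finite F] {p : ℕ}

/-- the conclusion needed for automorphisms inducing a nontrivial symmetry of the diagram -/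
def Gr {Φ : Type} {l : ℕ} {R : RS Φ l} (A : Chv R F Γ) (p : ℕ) : Prop :=
  ∀ k δ π θ, A.Form δ π θ → π ≠ 1 → (conj k * δ) ^ p = 1 → ∀ N, Bal (conj k * δ) p N → N = ⊥

theorem gr_e8 (A : Chv e8R F Γ) : A.Gr p := fun _ _ π _ h hπ _ => absurd (e8_aut π h.adj) hπ

theorem gr_e7 (A : Chv e7R F Γ) : A.Gr p := fun _ _ π _ h hπ _ => absurd (e7_aut π h.adj) hπ

theorem gr_b2 (A : Chv b2R F Γ) (hp : p.Prime) (hpr : (p : F) ≠ 0) : A.Gr p := by
  intro k δ π θ h hπ hβ
  obtain rfl := (b2_aut π h.adj).resolve_left hπ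
  obtain rfl := prime_eq hπ hp Nat.prime_two (h.pow hβ).1 (by decide)
  exact absurd (not_two h (i := 1) (j := 0) (by decide +kernel) (by decide +kernel)) hpr

theorem gr_f4 (A : Chv f4R F Γ) (hp : p.Prime) (hpr : (p : F) ≠ 0) : A.Gr p := by
  intro k δ π θ h hπ hβ
  obtain rfl := (f4_aut π h.adj).resolve_left hπ
  obtain rfl := prime_eq hπ hp Nat.prime_two (h.pow hβ).1 (by decide)
  exact absurd (not_two h (i := 2) (j := 1) (by decide +kernel) (by decide +kernel)) hpr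

theorem gr_g2 (A : Chv g2R F Γ) (hp : p.Prime) (hpr : (p : F) ≠ 0) : A.Gr p := by
  intro k δ π θ h hπ hβ N hN
  obtain ⟨g, hg⟩ := (red_g2 (A := A) h hπ hp hpr hβ).2
  obtain rfl := (g2_aut π h.adj).resolve_left hπ
  obtain rfl := prime_eq hπ hp Nat.prime_two (h.pow hβ).1 (by decide)
  exact of_std h (Or.inl rfl) hpr hβ g2_gd1 hg hN

theorem gr_e6 (A : Chv e6R F Γ) (hp : p.Prime) (hpr : (p : F) ≠ 0) : A.Gr p := by
  intro k δ π θ h hπ hβ N hN
  obtain ⟨g, hg⟩ := (red_e6 (A := A) h hπ hp hpr hβ).2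
  obtain rfl := (e6_aut π h.adj).resolve_left hπ
  obtain rfl := prime_eq hπ hp Nat.prime_two (h.pow hβ).1 (by decide)
  exact of_std h (Or.inl rfl) hpr hβ e6_gd1 hg hN

theorem gr_d4 (A : Chv d4R F Γ) (hp : p.Prime) (hpr : (p : F) ≠ 0) : A.Gr p := by
  intro k δ π θ h hπ hβ N hN
  rcases (red_d4 (A := A) h hπ hp hpr hβ).2 with ⟨g, hg⟩ | ⟨rfl, a, g, k', ha, hk, e⟩
  · have h0 := (h.pow hβ).1
    rcases (d4_aut π h.adj).resolve_left hπ with rfl | rfl | rfl | rfl | rfl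
    · obtain rfl := prime_eq hπ hp Nat.prime_two h0 (by decide)
      exact of_std h (Or.inl rfl) hpr hβ d4_gd1 hg hN
    · obtain rfl := prime_eq hπ hp Nat.prime_two h0 (by decide)
      exact of_std h (Or.inl rfl) hpr hβ d4_gd2 hg hN
    · obtain rfl := prime_eq hπ hp Nat.prime_three h0 (by decide)
      exact of_std h (Or.inr rfl) hpr hβ d4_gd3 hg hN
    · obtain rfl := prime_eq hπ hp Nat.prime_three h0 (by decide)
      exact of_std h (Or.inr rfl) hpr hβ d4_gd4 hg hN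
    · obtain rfl := prime_eq hπ hp Nat.prime_two h0 (by decide)
      exact of_std h (Or.inl rfl) hpr hβ d4_gd5 hg hN
  · refine hN.eq_bot_of_conj (conj g)⁻¹ fun N' hN' => ?_
    rw [inv_inv, e] at hN'
    exact pgu A ha h hπ (by exact_mod_cast hpr) (by rw [← e, inv_conj_pow, hβ, mul_one, inv_mul_cancel]) hk hN'

end Cfsg.Agent.Lib.Chev.Chv
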