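import Cfsg.Agent.Lib.Chev.Link

set_option autoImplicit false
set_option maxHeartbeats 400000

namespace Cfsg.Agent.Lib.Chev
open Matrix Cfsg.Lie
open scoped MatrixGroups

noncomputable section

lemma Mat_map {ι : Type} (e : ι → ℕ) {F F' : Type*} [CommRing F] [CommRing F'] (f : F →+* F')
    (cf : ℕ → Col) (t : F) : (Mat e cf t).map f = Mat e cf (f t) := by
  ext a b
  simp only [Mat, Matrix.map_apply, Matrix.of_apply, map_list_sum, List.map_map]
  congr 2
  funext x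
  simp only [Function.comp]
  split_ifs <;> simp

lemma Mat_ne_zero {ι : Type} {e : ι → ℕ} {F : Type*} [CommRing F] {cf : ℕ → Col} {t : F} {a b : ι}
    (h : Mat e cf t a b ≠ 0) : ∃ x ∈ cf (e b), x.1 = e a := by
  by_contra hc
  push Not at hc
  apply h
  simp only [Mat, Matrix.of_apply]
  refine List.sum_eq_zero fun y hy => ?_
  obtain ⟨x, hx, rfl⟩ := List.mem_map.1 hy
  rw [if_neg (hc x hx)]

/-- characters of the root lattice -/
abbrev Chr (l : ℕ) (F : Type*) [Field F] := Multiplicative (Fin l → ℤ) →* Fˣ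

def Chr.ev {l : ℕ} {F : Type*} [Field F] (χ : Chr l F) (v : Fin l → ℤ) : Fˣ := χ (Multiplicative.ofAdd v)

namespace Chr
variable {l : ℕ} {F : Type*} [Field F]
@[simp] lemma ev_add (χ : Chr l F) (v w : Fin l → ℤ) : χ.ev (v + w) = χ.ev v * χ.ev w := by
  simp [ev, ofAdd_add]
@[simp] lemma ev_zero (χ : Chr l F) : χ.ev 0 = 1 := by simp [ev]
@[simp] lemma ev_neg (χ : Chr l F) (v : Fin l → ℤ) : χ.ev (-v) = (χ.ev v)⁻¹ := by simp [ev, ofAdd_neg]
@[simp] lemma ev_nsmul (χ : Chr l F) (k : ℕ) (v : Fin l → ℤ) : χ.ev (k • v) = χ.ev v ^ k := by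
  rw [ev, ofAdd_nsmul, map_pow]; rfl
@[simp] lemma ev_zsmul (χ : Chr l F) (k : ℤ) (v : Fin l → ℤ) : χ.ev (k • v) = χ.ev v ^ k := by
  rw [ev, ofAdd_zsmul, map_zpow]; rfl
@[simp] lemma ev_mul (χ ψ : Chr l F) (v : Fin l → ℤ) : (χ * ψ).ev v = χ.ev v * ψ.ev v := rfl
@[simp] lemma ev_inv (χ : Chr l F) (v : Fin l → ℤ) : (χ⁻¹).ev v = (χ.ev v)⁻¹ := rfl
@[simp] lemma ev_one (v : Fin l → ℤ) : (1 : Chr l F).ev v = 1 := rfl

def comp (χ : Chr l F) (L : (Fin l → ℤ) →+ (Fin l → ℤ)) : Chr l F :=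
  MonoidHom.comp χ (AddMonoidHom.toMultiplicative L)
@[simp] lemma ev_comp (χ : Chr l F) (L : (Fin l → ℤ) →+ (Fin l → ℤ)) (v : Fin l → ℤ) :
    (χ.comp L).ev v = χ.ev (L v) := rfl

def mk (τ : Fin l → Fˣ) : Chr l F where
  toFun v := ∏ j, τ j ^ (Multiplicative.toAdd v j)
  map_one' := by simp
  map_mul' v w := by simp [_root_.zpow_add, Finset.prod_mul_distrib]

lemma ev_mk (τ : Fin l → Fˣ) (v : Fin l → ℤ) : (mk τ).ev v = ∏ j, τ j ^ v j := rfl

lemma ev_mk_single (τ : Fin l → Fˣ) (i : Fin l) : (mk τ).ev (Pi.single i 1) = τ i := by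
  rw [ev_mk, Finset.prod_eq_single i] <;> simp +contextual [Pi.single_apply]

lemma ev_sum (χ : Chr l F) {α : Type*} (s : Finset α) (f : α → Fin l → ℤ) :
    χ.ev (∑ a ∈ s, f a) = ∏ a ∈ s, χ.ev (f a) := by
  classical
  induction s using Finset.induction_on with
  | empty => simp
  | insert a s ha ih => rw [Finset.sum_insert ha, Finset.prod_insert ha, ev_add, ih]

lemma ext' {χ ψ : Chr l F} (h : ∀ i, χ.ev (Pi.single i 1) = ψ.ev (Pi.single i 1)) : χ = ψ := by
  have : ∀ v, χ.ev v = ψ.ev v := by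
    intro v
    have hv : v = ∑ i, v i • Pi.single i (1:ℤ) := by
      funext j; simp [Finset.sum_apply, Pi.single_apply]
    rw [hv, ev_sum, ev_sum]
    simp only [ev_zsmul, h]
  exact MonoidHom.ext fun v => this (Multiplicative.toAdd v)

def map {F' : Type*} [Field F'] (f : F →+* F') (χ : Chr l F) : Chr l F' :=
  (Units.map f.toMonoidHom).comp χ
@[simp] lemma ev_map {F' : Type*} [Field F'] (f : F →+* F') (χ : Chr l F) (v : Fin l → ℤ) :
    ((map f χ).ev v : F') = f (χ.ev v) := rfl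
end Chr

namespace Cert
variable {D : ChevalleyDatum} (K : Cert D) (F : Type*) [Field F]

include K in
lemma xMat_add (r : Fin D.nroots) (t u : F) : D.xMat F r t * D.xMat F r u = D.xMat F r (t + u) := by
  simp only [K.xMat_eq]
  refine add_of_check (enc_inj D) (nilF_valid D _) (fun b => ?_) t u
  have h := K.add
  unfold Data.cAdd at h
  simp only [forceRD_eq, nall_iff] at h
  exact h r r.2 _ (enc_lt D b)

include K in
lemma xMat_zero (r : Fin D.nroots) : D.xMat F r 0 = 1 := by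
  rw [K.xMat_eq, add_eq_left]
  ext a b
  simp only [Mat, Matrix.of_apply, Matrix.zero_apply]
  refine List.sum_eq_zero fun y hy => ?_
  obtain ⟨x, hx, rfl⟩ := List.mem_map.1 hy
  split_ifs with h
  · have := (K.hom_nil r a b x hx h).1
    rw [zero_pow (by omega), mul_zero]
  · rfl

variable {F}

def x (r : Fin D.nroots) (t : F) : GL D.Idx F :=
  ⟨D.xMat F r t, D.xMat F r (-t), by rw [K.xMat_add, add_neg_cancel, K.xMat_zero],
    by rw [K.xMat_add, neg_add_cancel, K.xMat_zero]⟩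

@[simp] lemma x_val (r : Fin D.nroots) (t : F) : (K.x r t : Matrix D.Idx D.Idx F) = D.xMat F r t := rfl

lemma x_val' (r : Fin D.nroots) (t : F) : (K.x r t : Matrix D.Idx D.Idx F) = D.x F r t := by
  simp [ChevalleyDatum.x]

lemma x_add (r : Fin D.nroots) (t u : F) : K.x r (t + u) = K.x r t * K.x r u :=
  Units.ext (K.xMat_add F r t u).symm

@[simp] lemma x_zero (r : Fin D.nroots) : K.x r (0 : F) = 1 := Units.ext (K.xMat_zero F r)

lemma x_neg (r : Fin D.nroots) (t : F) : K.x r (-t) = (K.x r t)⁻¹ := Units.ext rfl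

variable (F) in
def X (r : Fin D.nroots) : Subgroup (GL D.Idx F) where
  carrier := {g | ∃ t, g = K.x r t}
  one_mem' := ⟨0, by simp⟩
  mul_mem' := by rintro _ _ ⟨t, rfl⟩ ⟨u, rfl⟩; exact ⟨t + u, (K.x_add r t u).symm⟩
  inv_mem' := by rintro _ ⟨t, rfl⟩; exact ⟨-t, (K.x_neg r t).symm⟩

lemma x_mem_X (r : Fin D.nroots) (t : F) : K.x r t ∈ K.X F r := ⟨t, rfl⟩

lemma x_mem (r : Fin D.nroots) (t : F) : K.x r t ∈ D.group F := Subgroup.subset_closure ⟨r, t, rfl⟩

variable (F) in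
lemma group_eq : D.group F = US (K.X F) Set.univ := by
  apply le_antisymm
  · refine (Subgroup.closure_le _).2 ?_
    rintro g ⟨r, t, h⟩
    exact le_US (X := K.X F) (Set.mem_univ r) ⟨t, Units.ext h⟩
  · refine US_le ?_
    rintro r - _ ⟨t, rfl⟩
    exact K.x_mem r t

def h : Chr D.rank F →* GL D.Idx F where
  toFun χ := ⟨diagonal fun a => (χ.ev (K.wt a) : F), diagonal fun a => ((χ.ev (K.wt a))⁻¹ : Fˣ),
    by simp [diagonal_mul_diagonal], by simp [diagonal_mul_diagonal]⟩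
  map_one' := Units.ext (by simp)
  map_mul' χ ψ := Units.ext (by simp [diagonal_mul_diagonal])

lemma h_val (χ : Chr D.rank F) :
    (K.h χ : Matrix D.Idx D.Idx F) = diagonal fun a => (χ.ev (K.wt a) : F) := rfl

lemma h_inv (χ : Chr D.rank F) : K.h χ⁻¹ = (K.h χ)⁻¹ := K.h.map_inv χ

lemma h_x (χ : Chr D.rank F) (r : Fin D.nroots) (t : F) :
    K.h χ * K.x r t = K.x r (χ.ev (K.R.ρ r) * t) * K.h χ := by
  apply Units.ext
  simp only [Units.val_mul, x_val, h_val, K.xMat_eq, mul_add, add_mul, mul_one, one_mul]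
  congr 1
  ext a b
  rw [diagonal_mul, mul_diagonal]
  simp only [Mat, Matrix.of_apply, ← List.sum_map_mul_left, ← List.sum_map_mul_right]
  congr 1
  refine List.map_congr_left fun e he => ?_
  split_ifs with h
  · rw [(K.hom_nil r a b e he h).2]
    simp only [Chr.ev_add, Chr.ev_nsmul, Units.val_mul, Units.val_pow_eq_pow_val]
    ring
  · simp

lemma h_conj (χ : Chr D.rank F) (r : Fin D.nroots) (t : F) :
    K.h χ * K.x r t * (K.h χ)⁻¹ = K.x r (χ.ev (K.R.ρ r) * t) := by rw [h_x]; simp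

variable (F) in
def n (i : Fin D.rank) : GL D.Idx F :=
  K.x (K.R.sim i) 1 * K.x (K.R.neg (K.R.sim i)) (-1) * K.x (K.R.sim i) 1

lemma rep_x (t u : F) (r : Fin D.nroots) (c : ℤ) (i j : ℕ) :
    Rep (enc D) t u (D.xMat F r ((c : F) * t ^ i * u ^ j)) (appU (K.nil r) c i j) := by
  rw [K.xMat_eq]; exact rep_appU (enc_inj D) (nilF_valid D _) c i j

abbrev cN (i : ℕ) : ℕ → Col := K.C.cN D.nroots D.rank i

lemma rep_cN (t u : F) (i : ℕ) : Rep (enc D) t u (Mat (enc D) (K.cN i) (1 : F)) (appM (K.cN i) 1 0 0) := by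
  have := rep_appM (t := t) (u := u) (enc_inj D) (colN_valid D i (K.C.ntr i) (K.C.rd (K.C.sim i)).car) 1 0 0
  simp only [Int.cast_one, pow_zero, mul_one] at this
  exact this

variable (F) in
lemma n_val (i : Fin D.rank) : (K.n F i : Matrix D.Idx D.Idx F) = Mat (enc D) (K.cN i) 1 := by
  have h := K.neq
  unfold Data.cNeq at h
  simp only [forceRD_eq, nall_iff] at h
  have h1 := (K.rep_x (1:F) 1 (K.R.sim i) 1 0 0).mul ((K.rep_x (1:F) 1 (K.R.neg (K.R.sim i)) (-1) 0 0).mul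
    (K.rep_x (1:F) 1 (K.R.sim i) 1 0 0))
  have := (K.rep_cN (1:F) 1 i).eq (enc_inj D) h1 fun b => h i i.2 _ (enc_lt D b)
  rw [this]
  simp [n, mul_assoc]

def η (i : Fin D.rank) (r : Fin D.nroots) : ℤ := K.C.eta i r

lemma η_cases (i : Fin D.rank) (r : Fin D.nroots) : K.η i r = 1 ∨ K.η i r = -1 := sgn_cases _

lemma η_sq (i : Fin D.rank) (r : Fin D.nroots) : (K.η i r : F) * K.η i r = 1 := by
  rcases K.η_cases i r with h | h <;> simp [h]

lemma n_x (i : Fin D.rank) (s : Fin D.nroots) (t : F) :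
    K.n F i * K.x s t = K.x (K.R.refl i s) (K.η i s * t) * K.n F i := by
  have h := K.conj i i.2
  unfold Data.cConj at h
  simp only [forceRD_eq, forceN_eq, nall_iff] at h
  have h1 := (K.rep_cN t 1 i).mul (rep_appM (t := t) (u := 1) (enc_inj D) (nilF_valid D (K.C.rd s)) 1 1 0)
  have h2 := (rep_appM (t := t) (u := 1) (enc_inj D) (nilF_valid D (K.C.rd (K.C.rf i s)))
    (K.C.eta i s) 1 0).mul (K.rep_cN t 1 i)
  have h3 := h1.eq (enc_inj D) h2 fun b => h s s.2 _ (enc_lt D b)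
  apply Units.ext
  simp only [Units.val_mul, x_val, n_val, K.xMat_eq, mul_add, add_mul, mul_one, one_mul]
  congr 1
  simp only [Int.cast_one, pow_zero, mul_one, pow_one, one_mul] at h3
  exact h3

lemma n_conj (i : Fin D.rank) (s : Fin D.nroots) (t : F) :
    K.n F i * K.x s t * (K.n F i)⁻¹ = K.x (K.R.refl i s) (K.η i s * t) := by rw [n_x]; simp

lemma n_conj' (i : Fin D.rank) (s : Fin D.nroots) (t : F) :
    (K.n F i)⁻¹ * K.x s t * K.n F i = K.x (K.R.refl i s) (K.η i (K.R.refl i s) * t) := by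
  have := K.n_x i (K.R.refl i s) (K.η i (K.R.refl i s) * t)
  rw [K.R.refl_refl, ← mul_assoc, η_sq, one_mul] at this
  rw [mul_assoc, ← this]; simp

lemma n_apply_inr (i : Fin D.rank) (a : D.Idx) (r : Fin D.nroots) :
    (K.n F i : Matrix D.Idx D.Idx F) a (Sum.inr r) =
      if a = Sum.inr (K.R.refl i r) then (K.η i r : F) else 0 := by
  rw [n_val]
  have : enc D (Sum.inr r) < D.nroots := r.2
  simp only [Mat, Matrix.of_apply, cN, Data.cN, colN_eq, if_pos this, List.map_cons, List.map_nil,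
    List.sum_cons, List.sum_nil, pow_zero, mul_one, add_zero]
  have h2 : fld12 (K.C.ntr i) (enc D (Sum.inr r)) / 2 = enc D (Sum.inr (K.R.refl i r)) := rfl
  rw [h2]
  simp only [(enc_inj D).eq_iff, eq_comm (a := a)]
  rfl

lemma n_mono (i : Fin D.rank) (a b : D.Idx) (h : (K.n F i : Matrix D.Idx D.Idx F) a b ≠ 0) :
    K.wt a = K.R.sL i (K.wt b) := by
  rcases b with j | r
  · rw [n_val] at h
    obtain ⟨e, he, h1⟩ := Mat_ne_zero h
    have h2 : ¬ enc D (Sum.inl j) < D.nroots := by simp [enc]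
    simp only [cN, Data.cN, colN_eq, if_neg h2, if_pos (enc_lt D _), List.mem_cons, List.not_mem_nil,
      or_false] at he
    rcases a with a | a
    · simp [wt]
    · exfalso
      have := a.2
      rcases he with rfl | rfl <;> simp [enc] at h1 <;> omega
  · rw [n_apply_inr] at h
    split_ifs at h with h1
    · subst h1; exact K.R.ρ_refl' i r
    · exact absurd rfl h

lemma h_n (χ : Chr D.rank F) (i : Fin D.rank) :
    K.h χ * K.n F i = K.n F i * K.h (χ.comp (K.R.sL i)) := by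
  apply Units.ext
  ext a b
  simp only [Units.val_mul, h_val, diagonal_mul, mul_diagonal, Chr.ev_comp]
  by_cases h : (K.n F i : Matrix D.Idx D.Idx F) a b = 0
  · simp [h]
  · rw [K.n_mono i a b h, mul_comm]

lemma rep_word (t u : F) (w : Vec) (hw : ∀ e ∈ w, e.1 < D.nroots) :
    ∃ g : GL D.Idx F, Rep (enc D) t u (g : Matrix D.Idx D.Idx F) (K.C.appW D.nroots (D.nroots + D.rank) w) ∧
      ∀ S : Set (Fin D.nroots), (∀ e ∈ w, ∀ h : e.1 < D.nroots, (⟨e.1, h⟩ : Fin D.nroots) ∈ S) →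
        g ∈ US (K.X F) S := by
  induction w with
  | nil => exact ⟨1, Rep.one, fun S _ => one_mem _⟩
  | cons e w ih =>
    obtain ⟨g, hg, hS⟩ := ih fun e he => hw e (List.mem_cons_of_mem _ he)
    have he := hw e List.mem_cons_self
    refine ⟨K.x ⟨e.1, he⟩ (e.2.1 * t ^ e.2.2.1 * u ^ e.2.2.2) * g,
      (K.rep_x t u ⟨e.1, he⟩ e.2.1 e.2.2.1 e.2.2.2).mul hg, fun S h => ?_⟩
    exact mul_mem (le_US (h e List.mem_cons_self he) (K.x_mem_X _ _))
      (hS S fun e he => h e (List.mem_cons_of_mem _ he))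

lemma x_comm (i : Fin D.rank) (s : Fin D.nroots) (hs : K.R.pos s) (hs' : s ≠ K.R.sim i) (t u : F) :
    K.x (K.R.sim i) t * K.x s u * (K.x (K.R.sim i) t)⁻¹ ∈ US (K.X F) (K.R.cone (K.R.sim i) s) := by
  have h := K.comm i i.2
  unfold Data.cComm at h
  simp only [forceRD_eq, forceN_eq, nall_iff] at h
  have h1 := h s s.2
  have h2 : (!(K.C.posB D.rank s) || Nat.beq s (K.C.sim i)) = false := by
    have h3 : K.C.posB D.rank s = true := (K.pos_iff s).1 hs
    have h4 : Nat.beq s (K.C.sim i) = false := by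
      rw [← Bool.not_eq_true, Nat.beq_eq]; exact fun h => hs' (Fin.ext h)
    simp [h3, h4]
  rw [h2] at h1
  simp only [band_iff, lall_iff, nall_iff, Nat.blt_eq, Nat.ble_eq, Nat.beq_eq] at h1
  obtain ⟨h3, h4⟩ := h1
  obtain ⟨g, hg, hS⟩ := K.rep_word t u (K.C.word i s) fun e he => (h3 e he).1
  have h5 := ((K.rep_x t u (K.R.sim i) 1 1 0).mul (K.rep_x t u s 1 0 1)).eq (enc_inj D)
    (hg.mul (K.rep_x t u (K.R.sim i) 1 1 0)) fun b => h4 _ (enc_lt D b)
  have h6 : K.x (K.R.sim i) t * K.x s u = g * K.x (K.R.sim i) t := Units.ext (by simpa using h5)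
  rw [h6, mul_inv_cancel_right]
  refine hS _ fun e he hlt => ⟨e.2.2.1, e.2.2.2, (h3 e he).2.1, funext fun j => ?_⟩
  have h7 := congrArg (Nat.cast : ℕ → ℤ) ((h3 e he).2.2 j j.2)
  push_cast at h7
  rw [Pi.add_apply, Pi.smul_apply, Pi.smul_apply, nsmul_eq_mul, nsmul_eq_mul]
  simp only [R, ρ]
  linarith

/-- triangularity with respect to a set of weights -/
def Tri (Z : Set (Fin D.rank → ℤ)) (g : Matrix D.Idx D.Idx F) : Prop :=
  ∀ a b, K.wt a - K.wt b ∉ Z → g a b = (1 : Matrix D.Idx D.Idx F) a b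

lemma tri_of_mem {Z : Set (Fin D.rank → ℤ)} (hZ : ∀ v ∈ Z, ∀ w ∈ Z, v + w ∈ Z)
    {S : Set (Fin D.nroots)} (hS : ∀ r ∈ S, K.R.ρ r ∈ Z) {g : GL D.Idx F} (hg : g ∈ US (K.X F) S) :
    K.Tri Z (g : Matrix D.Idx D.Idx F) := by
  have hk : ∀ v ∈ Z, ∀ k : ℕ, 1 ≤ k → k • v ∈ Z := by
    intro v hv k hk
    induction k, hk using Nat.le_induction with
    | base => simpa using hv
    | succ k _ ih => rw [succ_nsmul]; exact hZ _ ih _ hv
  refine US_induction (fun g : GL D.Idx F => K.Tri Z (g : Matrix D.Idx D.Idx F)) (fun _ _ _ => rfl) ?_ hg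
  rintro r hr _ ⟨t, rfl⟩ g hg a b hab
  rw [Units.val_mul, x_val, K.xMat_eq, add_mul, one_mul, Matrix.add_apply, hg a b hab, add_eq_left,
    Matrix.mul_apply]
  refine Finset.sum_eq_zero fun c _ => ?_
  by_contra hc
  obtain ⟨e, he, h1⟩ := Mat_ne_zero (left_ne_zero_of_mul hc)
  obtain ⟨h2, h3⟩ := K.hom_nil r a c e he h1
  have h4 : K.wt a - K.wt c ∈ Z := by rw [h3, add_sub_cancel_left]; exact hk _ (hS r hr) _ h2
  by_cases h5 : K.wt c - K.wt b ∈ Z
  · exact hab (by simpa using hZ _ h4 _ h5)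
  · have h6 := right_ne_zero_of_mul hc
    rw [hg c b h5, Matrix.one_apply] at h6
    split_ifs at h6 with h7
    · subst h7; exact hab h4
    · exact h6 rfl

lemma x_entry (i : Fin D.rank) (t : F) :
    D.xMat F (K.R.sim i) t (Sum.inl i) (Sum.inr (K.R.neg (K.R.sim i))) = t := by
  have h1 : K.R.neg (K.R.sim i) ≠ K.R.sim i := fun h => (K.link_r (K.R.sim i).2).2.2.1 (congrArg Fin.val h)
  have h2 : (K.R.neg (K.R.sim i)).val = D.negIdx.getD (K.R.sim i).val 0 := K.neg_val _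
  have h3 : (D.coroot.getD (K.R.sim i).val #[]).getD i 0 = 1 := (K.link_i i.2).2
  simp only [ChevalleyDatum.xMat, Matrix.of_apply, if_neg h1, if_pos h2, h3]
  simp

lemma tri_U {g : GL D.Idx F} (hg : g ∈ US (K.X F) {r | K.R.pos r}) :
    K.Tri {v | 0 < RS.ht v} (g : Matrix D.Idx D.Idx F) :=
  K.tri_of_mem (fun v hv w hw => by
    simp only [Set.mem_ofPred_eq, RS.ht, Pi.add_apply, Finset.sum_add_distrib] at hv hw ⊢; omega)
    (fun r hr => K.R.ht_pos hr) hg

lemma tri_Um {g : GL D.Idx F} (hg : g ∈ US (K.X F) {r | ¬ K.R.pos r}) :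
    K.Tri {v | RS.ht v < 0} (g : Matrix D.Idx D.Idx F) :=
  K.tri_of_mem (fun v hv w hw => by
    simp only [Set.mem_ofPred_eq, RS.ht, Pi.add_apply, Finset.sum_add_distrib] at hv hw ⊢; omega)
    (fun r hr => K.R.ht_neg hr) hg

lemma entry_P' (i : Fin D.rank) {g : GL D.Idx F} (hg : g ∈ US (K.X F) (K.R.P' i)) :
    (g : Matrix D.Idx D.Idx F) (Sum.inl i) (Sum.inr (K.R.neg (K.R.sim i))) = 0 := by
  have := K.tri_of_mem (Z := {v | 0 ≤ v ∧ ∃ j, j ≠ i ∧ 0 < v j})
    (fun v hv w hw => ⟨add_nonneg hv.1 hw.1, by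
      obtain ⟨j, hj, hj'⟩ := hv.2
      exact ⟨j, hj, by have := hw.1 j; simp only [Pi.add_apply, Pi.zero_apply] at this ⊢; omega⟩⟩)
    (fun r hr => ⟨hr.1, K.R.exists_coord hr.1 hr.2⟩) hg (Sum.inl i) (Sum.inr (K.R.neg (K.R.sim i))) (by
      rintro ⟨-, j, hj, hj'⟩
      simp [wt, K.R.ρ_neg, K.R.ρ_sim, Pi.single_apply, hj] at hj')
  simpa using this

/-- the coroot character -/
def κ (i : Fin D.rank) (t : Fˣ) : Chr D.rank F := Chr.mk fun j => t ^ K.R.cart i j

lemma n_t (i : Fin D.rank) (t : Fˣ) :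
    K.x (K.R.sim i) (t : F) * K.x (K.R.neg (K.R.sim i)) (-((t⁻¹ : Fˣ) : F)) * K.x (K.R.sim i) (t : F) =
      K.h (K.κ i t) * K.n F i := by
  let ψ : Chr D.rank F := Chr.mk (Pi.mulSingle i t)
  have h1 : ψ.ev (K.R.ρ (K.R.sim i)) = t := by rw [K.R.ρ_sim, Chr.ev_mk_single]; simp
  have h2 : K.h ψ * K.n F i * (K.h ψ)⁻¹ = K.x (K.R.sim i) (t : F) *
      K.x (K.R.neg (K.R.sim i)) (-((t⁻¹ : Fˣ) : F)) * K.x (K.R.sim i) (t : F) := by
    have a1 := K.h_conj ψ (K.R.sim i) 1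
    have a2 := K.h_conj ψ (K.R.neg (K.R.sim i)) (-1)
    rw [K.R.ρ_neg, Chr.ev_neg] at a2
    rw [h1] at a1 a2
    rw [mul_one] at a1
    rw [mul_neg_one] at a2
    rw [← a1, ← a2, n]; group
  have h3 : K.κ i t = ψ * (ψ.comp (K.R.sL i))⁻¹ := Chr.ext' fun j => by
    rw [κ, Chr.ev_mk_single, Chr.ev_mul, Chr.ev_inv, Chr.ev_comp, RS.sL_apply, sub_eq_add_neg,
      Chr.ev_add, Chr.ev_neg, Chr.ev_zsmul, ← K.R.ρ_sim i, h1]
    have : (∑ k, K.R.cart i k * (Pi.single j (1:ℤ) : Fin D.rank → ℤ) k) = K.R.cart i j := by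
      rw [Finset.sum_eq_single j] <;> simp +contextual [Pi.single_apply]
    rw [this]; simp
  have h4 := K.h_n (ψ.comp (K.R.sL i))⁻¹ i
  have h5 : Chr.comp (ψ.comp (K.R.sL i))⁻¹ (K.R.sL i) = ψ⁻¹ := Chr.ext' fun j => by
    simp [RS.sL_sL]
  rw [← h2, h3, map_mul, mul_assoc (K.h ψ) _ (K.n F i), h4, h5, h_inv, mul_assoc]

variable (F) in
lemma n_mem (i : Fin D.rank) : K.n F i ∈ D.group F :=
  mul_mem (mul_mem (K.x_mem _ _) (K.x_mem _ _)) (K.x_mem _ _)

lemma h_κ_mem (i : Fin D.rank) (t : Fˣ) : K.h (K.κ i t) ∈ D.group F := by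
  have : K.h (K.κ i t) = K.h (K.κ i t) * K.n F i * (K.n F i)⁻¹ := by simp
  rw [this, ← n_t]
  exact mul_mem (mul_mem (mul_mem (K.x_mem _ _) (K.x_mem _ _)) (K.x_mem _ _)) (inv_mem (K.n_mem F i))

variable (F) in
def full : Full K.R (GL D.Idx F) where
  X := K.X F
  n := K.n F
  conj := by rintro i r _ ⟨t, rfl⟩; exact ⟨_, K.n_conj i r t⟩
  conj' := by rintro i r _ ⟨t, rfl⟩; exact ⟨_, K.n_conj' i r t⟩
  comm := by rintro i s hs hs' _ ⟨t, rfl⟩ _ ⟨u, rfl⟩; exact K.x_comm i s hs hs' t u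
  indep := by
    rintro i _ ⟨t, rfl⟩ h
    have := K.entry_P' i h
    rw [x_val, x_entry] at this
    rw [this, x_zero]
  T := K.h.range
  T_conj := by rintro r _ ⟨χ, rfl⟩ _ ⟨t, rfl⟩; exact ⟨_, K.h_conj χ r t⟩
  n_T := by
    rintro i _ ⟨χ, rfl⟩
    exact ⟨χ.comp (K.R.sL i), by rw [mul_assoc, h_n]; simp⟩
  n_inv i := ⟨_, ⟨K.κ i (-1), rfl⟩, by
    rw [← n_t, n]; simp [← x_neg, mul_assoc]⟩
  rank1 := by
    rintro i _ ⟨s, rfl⟩
    by_cases hs : s = 0
    · left; rw [hs, x_zero]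
    · right
      have := K.n_t i (-(Units.mk0 s hs)⁻¹)
      simp only [inv_neg, inv_inv, Units.val_neg, neg_neg, Units.val_mk0] at this
      refine ⟨_, inv_mem (K.x_mem_X _ (-((Units.mk0 s hs)⁻¹ : Fˣ) : F)), _,
        inv_mem (K.x_mem_X _ (-((Units.mk0 s hs)⁻¹ : Fˣ) : F)), _, ⟨K.κ i (-(Units.mk0 s hs)⁻¹), rfl⟩, ?_⟩
      rw [mul_assoc _ (K.h _), ← this]; group
  ldu := by
    rintro v hv _ ⟨χ, rfl⟩ u hu e
    have h1 := K.tri_Um hv
    have h2 := K.tri_U hu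
    have h3 : K.h χ = 1 := by
      apply Units.ext
      rw [h_val, Units.val_one, ← diagonal_one]
      congr 1
      funext a
      have a1 := h1 a a (by simp [RS.ht])
      have a2 := h2 a a (by simp [RS.ht])
      rw [e, Units.val_mul, h_val, diagonal_mul, a2] at a1
      simpa using a1
    refine ⟨h3, Units.ext ?_⟩
    rw [h3, one_mul] at e
    subst e
    ext a b
    by_cases h4 : 0 < RS.ht (K.wt a - K.wt b)
    · exact h1 a b (by simp only [Set.mem_ofPred_eq]; omega)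
    · exact h2 a b h4

/-! ### change of field -/
variable {F' : Type*} [Field F'] (f : F →+* F')

lemma map_x (r : Fin D.nroots) (t : F) :
    Matrix.GeneralLinearGroup.map f (K.x r t) = K.x r (f t) := by
  apply Units.ext
  change (D.xMat F r t).map f = D.xMat F' r (f t)
  rw [K.xMat_eq, K.xMat_eq, Matrix.map_add _ (map_add f), Mat_map, Matrix.map_one _ (map_zero f) (map_one f)]

lemma map_n (i : Fin D.rank) : Matrix.GeneralLinearGroup.map f (K.n F i) = K.n F' i := by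
  simp [n, map_x]

lemma map_h (χ : Chr D.rank F) : Matrix.GeneralLinearGroup.map f (K.h χ) = K.h (χ.map f) := by
  apply Units.ext
  change (diagonal _).map f = _
  rw [diagonal_map (map_zero f)]; rfl

/-- unimodular Cartan matrix -/
def Uni : Prop := ∃ B : Fin D.rank → Fin D.rank → ℤ,
  ∀ k j, ∑ i, B k i * K.R.cart i j = if k = j then 1 else 0

lemma h_mem (hU : K.Uni) (χ : Chr D.rank F) : K.h χ ∈ D.group F := by
  obtain ⟨B, hB⟩ := hU
  have : χ = ∏ i, K.κ i (∏ k, χ.ev (Pi.single k 1) ^ B k i) := Chr.ext' fun j => by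
    have : ∀ (s : Finset (Fin D.rank)) (g : Fin D.rank → Chr D.rank F) v,
        Chr.ev (∏ i ∈ s, g i) v = ∏ i ∈ s, (g i).ev v := fun s g v => by
      simp [Chr.ev, MonoidHom.finsetProd_apply]
    rw [this]
    simp only [κ, Chr.ev_mk_single, ← Finset.prod_zpow, ← _root_.zpow_mul]
    rw [Finset.prod_comm]
    have h2 : ∀ k, ∏ i, χ.ev (Pi.single k 1) ^ (B k i * K.R.cart i j) =
        χ.ev (Pi.single k 1) ^ (∑ i, B k i * K.R.cart i j) := fun k => by
      induction (Finset.univ : Finset (Fin D.rank)) using Finset.induction_on with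
      | empty => simp
      | insert a s ha ih => rw [Finset.sum_insert ha, Finset.prod_insert ha, _root_.zpow_add, ih]
    simp only [h2, hB]
    rw [Finset.prod_eq_single j] <;> simp +contextual
  rw [this]
  exact Subgroup.prod_mem ((D.group F).comap K.h) (fun i _ => K.h_κ_mem i _)

end Cert
end
end Cfsg.Agent.Lib.Chev
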