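import Cfsg.Agent.Lib.Chev.Lang
import Cfsg.Agent.Lib.Chev.B2
import Cfsg.Agent.Lib.Chev.G2
import Cfsg.Agent.Lib.Chev.D4
import Cfsg.Agent.Lib.Chev.F4
import Cfsg.Agent.Lib.Chev.E6
import Cfsg.Agent.Lib.Chev.E7
import Cfsg.Agent.Lib.Chev.E8

set_option autoImplicit false

namespace Cfsg.Agent.Lib.Chev

theorem b2_nonSing : b2Cert.NonSing :=
  ⟨2, by decide, ![![2, 2], ![1, 2]], by decide +kernel⟩

theorem d4_nonSing : d4Cert.NonSing :=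
  ⟨4, by decide, ![![4, 4, 2, 2], ![4, 8, 4, 4], ![2, 4, 4, 2], ![2, 4, 2, 4]], by decide +kernel⟩

theorem e6_nonSing : e6Cert.NonSing :=
  ⟨3, by decide, ![![4, 3, 5, 6, 4, 2], ![3, 6, 6, 9, 6, 3], ![5, 6, 10, 12, 8, 4], ![6, 9, 12, 18, 12, 6], ![4, 6, 8, 12, 10, 5], ![2, 3, 4, 6, 5, 4]], by decide +kernel⟩

theorem e7_nonSing : e7Cert.NonSing :=
  ⟨2, by decide, ![![4, 4, 6, 8, 6, 4, 2], ![4, 7, 8, 12, 9, 6, 3], ![6, 8, 12, 16, 12, 8, 4], ![8, 12, 16, 24, 18, 12, 6], ![6, 9, 12, 18, 15, 10, 5], ![4, 6, 8, 12, 10, 8, 4], ![2, 3, 4, 6, 5, 4, 3]], by decide +kernel⟩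

theorem g2_nonSing : g2Cert.NonSing := ⟨1, by decide, ![![2, 3], ![1, 2]], by decide +kernel⟩

theorem f4_nonSing : f4Cert.NonSing :=
  ⟨1, by decide, ![![2, 3, 4, 2], ![3, 6, 8, 4], ![2, 4, 6, 3], ![1, 2, 3, 2]], by decide +kernel⟩

theorem e8_nonSing : e8Cert.NonSing :=
  ⟨1, by decide, ![![4, 5, 7, 10, 8, 6, 4, 2], ![5, 8, 10, 15, 12, 9, 6, 3], ![7, 10, 14, 20, 16, 12, 8, 4], ![10, 15, 20, 30, 24, 18, 12, 6], ![8, 12, 16, 24, 20, 15, 10, 5], ![6, 9, 12, 18, 15, 12, 8, 4], ![4, 6, 8, 12, 10, 8, 6, 3], ![2, 3, 4, 6, 5, 4, 3, 2]], by decide +kernel⟩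

end Cfsg.Agent.Lib.Chev
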