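import Cfsg.Agent.Lib.Chev.Cert

set_option autoImplicit false
set_option maxHeartbeats 400000

namespace Cfsg.Agent.Lib.Chev
open Matrix Cfsg.Lie

noncomputable section

def enc (D : ChevalleyDatum) : D.Idx → ℕ := Sum.elim (fun i => D.nroots + i.val) (fun s => s.val)

lemma enc_inj (D : ChevalleyDatum) : Function.Injective (enc D) := by
  rintro (a | a) (b | b) h <;> simp only [enc, Sum.elim_inl, Sum.elim_inr] at h
  · congr 1; exact Fin.ext (by omega)
  · have := b.2; omega
  · have := a.2; omega
  · congr 1; exact Fin.ext h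

lemma enc_lt (D : ChevalleyDatum) (a : D.Idx) : enc D a < D.nroots + D.rank := by
  rcases a with a | a <;> simp only [enc, Sum.elim_inl, Sum.elim_inr] <;> have := a.2 <;> omega

lemma le_of_not_enc (D : ChevalleyDatum) {b : ℕ} (h : ∀ a, enc D a ≠ b) : D.nroots + D.rank ≤ b := by
  by_contra hc
  by_cases h1 : b < D.nroots
  · exact h (Sum.inr ⟨b, h1⟩) rfl
  · exact h (Sum.inl ⟨b - D.nroots, by omega⟩) (by simp [enc]; omega)

lemma nilF_valid (D : ChevalleyDatum) (d : RD) (b : ℕ) (h : ∀ a, enc D a ≠ b) :
    nilF D.nroots (D.nroots + D.rank) d b = [] := by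
  have := le_of_not_enc D h
  rw [nilF_eq, if_neg (by omega), if_neg (by omega)]

lemma colN_valid (D : ChevalleyDatum) (i ntr car b : ℕ) (h : ∀ a, enc D a ≠ b) :
    colN D.nroots (D.nroots + D.rank) i ntr car b = [] := by
  have := le_of_not_enc D h
  rw [colN_eq, if_neg (by omega), if_neg (by omega)]

lemma filter_filterMap_range (f : ℕ → ℕ) (g : ℕ → Col) (hg : ∀ s, f s = 0 → g s = []) (n s : ℕ)
    (hs : s < n) : ((((List.range n).filterMap fun s => if f s = 0 then none else some (s, g s)).filter
      (fun e => e.1 = s)).flatMap fun e => e.2) = g s := by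
  have key : ∀ n, ((((List.range n).filterMap fun s => if f s = 0 then none else some (s, g s)).filter
      (fun e => e.1 = s)).flatMap fun e => e.2) = if s < n then g s else [] := by
    intro n
    induction n with
    | zero => simp
    | succ n ih =>
      rw [List.range_succ, List.filterMap_append, List.filter_append, List.flatMap_append, ih]
      by_cases h1 : s < n
      · rw [if_pos h1, if_pos (by omega)]
        have h3 : n ≠ s := by omega
        by_cases h2 : f n = 0 <;> simp [h2, h3]
      · rw [if_neg h1]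
        by_cases h3 : s = n
        · subst h3
          by_cases h2 : f s = 0 <;> simp [h2, hg]
        · rw [if_neg (by omega)]
          by_cases h2 : f n = 0 <;> simp [h2, Ne.symm h3]
  rw [key, if_pos hs]

lemma chainCoeff_eq (D : ChevalleyDatum) (r s u : ℕ) : D.chainCoeff r s u =
    (((((Data.chainL D r).filter (fun e => e.1 = s)).flatMap fun e => e.2).filter
      (fun e => e.1 = u)).map fun e => (e.2.2, e.2.1)) := by
  unfold ChevalleyDatum.chainCoeff Data.chainL
  induction (D.chain.getD r #[]).toList with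
  | nil => simp
  | cons e L ih =>
    simp only [List.map_cons, List.filter_cons]
    split_ifs with h
    · simp only [List.flatMap_cons, List.filter_append, List.map_append, ih, List.filter_map,
        List.map_map]
      rfl
    · exact ih

lemma sum_filter_map {F : Type*} [CommRing F] (L : Col) (u : ℕ) (t : F) :
    (((L.filter (fun e => e.1 = u)).map fun e => (e.2.2, e.2.1)).map
      fun km : ℕ × ℤ => ((km.2 : ℤ) : F) * t ^ km.1).sum =
    (L.map fun e => if e.1 = u then (e.2.1 : F) * t ^ e.2.2 else 0).sum := by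
  induction L with
  | nil => simp
  | cons e L ih =>
    simp only [List.filter_cons, List.map_cons, List.sum_cons, decide_eq_true_eq]
    split_ifs with h
    · simp only [List.map_cons, List.sum_cons, ih]
    · rw [ih, zero_add]

lemma dec_zero : dec 0 = [] := rfl

namespace Cert
variable {D : ChevalleyDatum} (K : Cert D)

lemma link_r {r : ℕ} (hr : r < D.nroots) : (K.C.rd r).r = r ∧ (K.C.rd r).ng = D.negIdx.getD r 0 ∧
    (K.C.rd r).ng ≠ r ∧ (K.C.rd r).negc = Data.negcS D r ∧
    (∀ i < D.rank, Int.subNatNat (fld4 (K.C.rd r).car i) 8 = - (D.cartanSR.getD i #[]).getD r 0) ∧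
    fld36 (K.C.rd r).row r = 0 ∧
    (∀ s < D.nroots, ∀ e ∈ dec (fld36 (K.C.rd r).row s), e.1 < D.nroots) ∧
    Data.chainL D r = (List.range D.nroots).filterMap fun s =>
      if fld36 (K.C.rd r).row s = 0 then none else some (s, dec (fld36 (K.C.rd r).row s)) := by
  have h := K.link
  unfold Data.cLink at h
  rw [band_iff, nall_iff] at h
  have h1 := h.1 r hr
  simp only [forceRD_eq, band_iff, nall_iff, lall_iff, Nat.beq_eq, decide_eq_true_eq,
    Bool.not_eq_true', Nat.blt_eq] at h1
  obtain ⟨a1, a2, a3, a4, a5, a6, a7, a8⟩ := h1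
  refine ⟨a1, a2, ?_, a4, a5, a6, a7, a8⟩
  intro h; rw [h, Nat.beq_refl] at a3; exact absurd a3 (by simp)

lemma link_i {i : ℕ} (hi : i < D.rank) : K.C.sim i = D.simpleIdx.getD i 0 ∧
    (D.coroot.getD (K.C.sim i) #[]).getD i 0 = 1 := by
  have h := K.link
  unfold Data.cLink at h
  rw [band_iff, nall_iff, nall_iff] at h
  simpa only [band_iff, Nat.beq_eq, decide_eq_true_eq] using h.2 i hi

abbrev nil (r : ℕ) : ℕ → Col := nilF D.nroots (D.nroots + D.rank) (K.C.rd r)

theorem xMat_eq (F : Type*) [Field F] (r : Fin D.nroots) (t : F) :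
    D.xMat F r t = 1 + Mat (enc D) (K.nil r) t := by
  obtain ⟨a1, a2, a3, a4, a5, a6, a7, a8⟩ := K.link_r r.2
  ext a b
  rw [Matrix.add_apply, Matrix.one_apply]
  simp only [ChevalleyDatum.xMat, Mat, Matrix.of_apply, nil, nilF_eq]
  rcases b with i | s
  · have h1 : ¬ enc D (Sum.inl i) < D.nroots := by simp [enc]
    have h2 : enc D (Sum.inl i) - D.nroots = i := by simp [enc]
    rw [if_neg h1, if_pos (enc_lt D _), h2]
    have h3 : ((carc (K.C.rd r) i).map fun e => if e.1 = enc D a then (e.2.1 : F) * t ^ e.2.2 else 0).sum =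
        if r.val = enc D a then - (((D.cartanSR.getD i.val #[]).getD r.val 0 : ℤ) : F) * t else 0 := by
      have h4 := a5 i i.2
      unfold carc
      cases h5 : Nat.beq (fld4 (K.C.rd r).car i) 8
      · simp [a1, h4]
      · rw [Nat.beq_eq] at h5
        rw [h5] at h4
        have : (D.cartanSR.getD i #[]).getD r 0 = 0 := by
          have : Int.subNatNat 8 8 = 0 := rfl
          omega
        simp only [this]; simp
    rw [h3]
    rcases a with j | u
    · have : r.val ≠ enc D (Sum.inl j) := by simp only [enc, Sum.elim_inl]; have := r.2; omega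
      simp [this]
    · simp [enc, Fin.ext_iff, eq_comm]
  · have h1 : enc D (Sum.inr s) = s.val := rfl
    rw [h1, if_pos s.2]
    dsimp only
    by_cases hs : s = r
    · subst hs
      rw [if_pos rfl, if_neg (Ne.symm a3), a6, dec_zero]
      rcases a with j | u <;> simp
    · rw [if_neg hs, ← a2]
      by_cases hn : s.val = (K.C.rd r).ng
      · rw [if_pos hn, if_pos hn, a4]
        unfold Data.negcS
        rw [List.map_cons, List.sum_cons, List.map_map, ← List.sum_toFinset _ List.nodup_range,
          List.toFinset_range]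
        rcases a with j | u
        · have : r.val ≠ enc D (Sum.inl j) := by simp only [enc, Sum.elim_inl]; have := r.2; omega
          rw [Finset.sum_eq_single j.val, if_neg this]
          · simp [enc]
          · intro b _ hb; simp [enc, hb]
          · intro h; exact absurd (Finset.mem_range.2 j.2) h
        · rw [Finset.sum_eq_zero]
          · by_cases h2 : u = s
            · subst h2
              have : r.val ≠ u.val := fun h => hs (Fin.ext h.symm)
              simp [enc, this]
            · by_cases h3 : u = r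
              · subst h3; simp [enc, h2]
              · have : r.val ≠ u.val := fun h => h3 (Fin.ext h.symm)
                simp [enc, h2, h3, this]
          · intro b _
            have : D.nroots + b ≠ u.val := by have := u.2; omega
            simp [enc, this]
      · rw [if_neg hn, if_neg hn]
        rcases a with j | u
        · rw [List.sum_eq_zero]
          · simp
          · intro x hx
            obtain ⟨e, he, rfl⟩ := List.mem_map.1 hx
            have := a7 s s.2 e he
            rw [if_neg (by simp only [enc, Sum.elim_inl]; omega)]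
        · simp only
          rw [chainCoeff_eq, a8, filter_filterMap_range (fun s => fld36 (K.C.rd r).row s)
            (fun s => dec (fld36 (K.C.rd r).row s)) (fun s h => by simp only [h]; rfl) _ _ s.2,
            sum_filter_map]
          simp only [enc, Sum.elim_inr, Sum.inr.injEq]
          rfl

/-! ### the root system -/

lemma posB_iff (r : ℕ) : K.C.posB D.rank r = true ↔ ∀ i < D.rank, 8 ≤ K.C.rho D.rank r i := by
  simp [Data.posB, nall_iff, Nat.ble_eq]

lemma negB_iff (r : ℕ) : K.C.negB D.rank r = true ↔ ∀ i < D.rank, K.C.rho D.rank r i ≤ 8 := by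
  simp [Data.negB, nall_iff, Nat.ble_eq]

lemma rs1_r {r : ℕ} (hr : r < D.nroots) : (K.C.rd r).ng < D.nroots ∧
    (∀ i < D.rank, K.C.rho D.rank (K.C.rd r).ng i + K.C.rho D.rank r i = 16) ∧
    (K.C.posB D.rank r = true ∨ K.C.negB D.rank r = true) ∧
    ¬ (K.C.posB D.rank r = true ∧ K.C.negB D.rank r = true) ∧
    (D.nroots ≤ r + 1 ∨ K.C.code D.rank r < K.C.code D.rank (r + 1)) := by
  have h := K.rs1
  unfold Data.cRS1 at h
  rw [nall_iff] at h
  have h1 := h r hr
  simp only [band_iff, nall_iff, Nat.beq_eq, Nat.blt_eq, Bool.or_eq_true, Nat.ble_eq,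
    Bool.not_eq_true', ← Bool.not_eq_true, Bool.and_eq_true] at h1
  exact h1

lemma rs2_i {i : ℕ} (hi : i < D.rank) : K.C.sim i < D.nroots ∧
    (∀ j < D.rank, K.C.rho D.rank (K.C.sim i) j = if j = i then 9 else 8) ∧
    K.C.cart i i = 2 ∧ ∀ r < D.nroots, K.C.rf i r < D.nroots ∧
      (∀ j < D.rank, (K.C.rho D.rank (K.C.rf i r) j : ℤ) =
        K.C.rho D.rank r j - if j = i then K.C.pair D.rank i r else 0) ∧
      (¬ K.C.posB D.rank r = true ∨ r = K.C.sim i ∨ K.C.posB D.rank (K.C.rf i r) = true) := by
  have h := K.rs2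
  unfold Data.cRS2 at h
  rw [nall_iff] at h
  have h1 := h i hi
  simp only [band_iff, nall_iff, Nat.beq_eq, Nat.blt_eq, Bool.or_eq_true, decide_eq_true_eq,
    Bool.not_eq_true', ← Bool.not_eq_true, or_assoc] at h1
  exact h1

def ρ (r : Fin D.nroots) (i : Fin D.rank) : ℤ := (K.C.rho D.rank r i : ℤ) - 8

lemma code_congr {r s : ℕ} (m : ℕ) (h : ∀ i < m, K.C.rho D.rank r i = K.C.rho D.rank s i) :
    (Nat.rec 0 (fun i ih => 16 * ih + K.C.rho D.rank r i) m : ℕ) =
      Nat.rec 0 (fun i ih => 16 * ih + K.C.rho D.rank s i) m := by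
  induction m with
  | zero => rfl
  | succ m ih => simp only [ih (fun i hi => h i (by omega)), h m (by omega)]

lemma ρ_inj : Function.Injective K.ρ := by
  have mono : ∀ s < D.nroots, ∀ r < s, K.C.code D.rank r < K.C.code D.rank s := by
    intro s
    induction s with
    | zero => intro _ r hr; omega
    | succ s ih =>
      intro hs r hr
      have h1 := ((K.rs1_r (r := s) (by omega)).2.2.2.2).resolve_left (by omega)
      rcases Nat.lt_succ_iff_lt_or_eq.1 hr with h | rfl
      · exact (ih (by omega) r h).trans h1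
      · exact h1
  intro r s h
  have hc : K.C.code D.rank r = K.C.code D.rank s := K.code_congr _ fun i hi => by
    have := congrFun h ⟨i, hi⟩
    simp only [ρ] at this; omega
  rcases lt_trichotomy r.val s.val with h1 | h1 | h1
  · have := mono s s.2 r h1; omega
  · exact Fin.ext h1
  · have := mono r r.2 s h1; omega

lemma pos_iff (r : Fin D.nroots) : 0 ≤ K.ρ r ↔ K.C.posB D.rank r = true := by
  rw [posB_iff]
  constructor
  · intro h i hi; have := h ⟨i, hi⟩; simp only [ρ, Pi.zero_apply] at this; omega
  · intro h i; have := h i i.2; simp only [ρ, Pi.zero_apply]; omega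

lemma neg_iff (r : Fin D.nroots) : K.ρ r ≤ 0 ↔ K.C.negB D.rank r = true := by
  rw [negB_iff]
  constructor
  · intro h i hi; have := h ⟨i, hi⟩; simp only [ρ, Pi.zero_apply] at this; omega
  · intro h i; have := h i i.2; simp only [ρ, Pi.zero_apply]; omega

def R : RS (Fin D.nroots) D.rank where
  ρ := K.ρ
  neg r := ⟨(K.C.rd r).ng, (K.rs1_r r.2).1⟩
  sim i := ⟨K.C.sim i, (K.rs2_i i.2).1⟩
  refl i r := ⟨K.C.rf i r, ((K.rs2_i i.2).2.2.2 r r.2).1⟩
  cart i j := K.C.cart i j
  inj := K.ρ_inj
  ρ_neg r := funext fun i => by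
    have := (K.rs1_r r.2).2.1 i i.2
    simp only [ρ, Pi.neg_apply]; omega
  ρ_sim i := funext fun j => by
    have := (K.rs2_i i.2).2.1 j j.2
    simp only [ρ, this, Pi.single_apply, Fin.ext_iff]
    split_ifs <;> simp
  ρ_refl i r := funext fun j => by
    have := ((K.rs2_i i.2).2.2.2 r r.2).2.1 j j.2
    have h2 : K.C.pair D.rank i r = ∑ j : Fin D.rank, K.C.cart i j * K.ρ r j := by
      unfold Data.pair
      rw [← List.sum_toFinset _ List.nodup_range, List.toFinset_range, Finset.sum_range]
      rfl
    simp only [ρ, this, Pi.sub_apply, Pi.smul_apply, Pi.single_apply, Fin.ext_iff, h2]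
    split_ifs <;> simp; ring
  cart_self i := (K.rs2_i i.2).2.2.1
  pos_or r := by rw [pos_iff, neg_iff]; exact (K.rs1_r r.2).2.2.1
  ne_zero r h := (K.rs1_r r.2).2.2.2.1 ⟨(K.pos_iff r).1 h.ge, (K.neg_iff r).1 h.le⟩
  refl_pos i r h hr := by
    rw [pos_iff] at h ⊢
    rcases ((K.rs2_i i.2).2.2.2 r r.2).2.2 with h1 | h1 | h1
    · exact absurd h h1
    · exact absurd (Fin.ext h1) hr
    · exact h1

lemma neg_val (r : Fin D.nroots) : (K.R.neg r).val = D.neg r := (K.link_r r.2).2.1
lemma sim_val (i : Fin D.rank) : (K.R.sim i).val = D.simple i := (K.link_i i.2).1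

def wt : D.Idx → Fin D.rank → ℤ := Sum.elim (fun _ => 0) K.R.ρ

lemma wtN_enc (a : D.Idx) (i : Fin D.rank) :
    (K.C.wtN D.nroots D.rank (enc D a) i : ℤ) = K.wt a i + 8 := by
  unfold Data.wtN
  rcases a with a | a
  · have : Nat.ble D.nroots (enc D (Sum.inl a)) = true := by rw [Nat.ble_eq]; simp [enc]
    rw [this]; simp [wt]
  · have : Nat.ble D.nroots (enc D (Sum.inr a)) = false := by
      rw [← Bool.not_eq_true, Nat.ble_eq]; simp [enc]
    rw [this]; simp [wt, R, ρ, enc]

lemma hom_nil (r : Fin D.nroots) (a b : D.Idx) : ∀ e ∈ K.nil r (enc D b), e.1 = enc D a →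
    1 ≤ e.2.2 ∧ K.wt a = K.wt b + e.2.2 • K.R.ρ r := by
  intro e he ha
  have h := K.hom
  unfold Data.cHom at h
  simp only [forceRD_eq, nall_iff, lall_iff, band_iff, Nat.ble_eq, Nat.beq_eq] at h
  obtain ⟨h1, h2⟩ := h r r.2 _ (enc_lt D b) e he
  refine ⟨h1, funext fun i => ?_⟩
  have h3 := congrArg (Nat.cast : ℕ → ℤ) (h2 i i.2)
  push_cast at h3
  rw [ha, wtN_enc, wtN_enc] at h3
  rw [Pi.add_apply, Pi.smul_apply, nsmul_eq_mul]
  simp only [R, ρ]
  linarith

end Cert
end
end Cfsg.Agent.Lib.Chev
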