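import Mathlib

set_option autoImplicit false
set_option maxHeartbeats 400000

namespace Cfsg.Agent.Lib.Chev

/-- Combinatorial root system data in coordinates on the simple roots. -/
structure RS (Φ : Type) (l : ℕ) where
  ρ : Φ → Fin l → ℤ
  neg : Φ → Φ
  sim : Fin l → Φ
  refl : Fin l → Φ → Φ
  cart : Fin l → Fin l → ℤ
  inj : Function.Injective ρ
  ρ_neg : ∀ r, ρ (neg r) = - ρ r
  ρ_sim : ∀ i, ρ (sim i) = Pi.single i 1
  ρ_refl : ∀ i r, ρ (refl i r) = ρ r - (∑ j, cart i j * ρ r j) • Pi.single i 1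
  cart_self : ∀ i, cart i i = 2
  pos_or : ∀ r, 0 ≤ ρ r ∨ ρ r ≤ 0
  ne_zero : ∀ r, ρ r ≠ 0
  refl_pos : ∀ i r, 0 ≤ ρ r → r ≠ sim i → 0 ≤ ρ (refl i r)

namespace RS
variable {Φ : Type} {l : ℕ} (R : RS Φ l)

def pos (r : Φ) : Prop := 0 ≤ R.ρ r

/-- the simple reflection on the lattice -/
def sL (i : Fin l) : (Fin l → ℤ) →+ (Fin l → ℤ) where
  toFun v := v - (∑ j, R.cart i j * v j) • Pi.single i 1
  map_zero' := by simp
  map_add' v w := by
    simp only [Pi.add_apply, mul_add, Finset.sum_add_distrib, add_smul]; abel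

lemma sL_apply (i : Fin l) (v : Fin l → ℤ) :
    R.sL i v = v - (∑ j, R.cart i j * v j) • Pi.single i 1 := rfl

lemma ρ_refl' (i : Fin l) (r : Φ) : R.ρ (R.refl i r) = R.sL i (R.ρ r) := R.ρ_refl i r

lemma sL_single (i : Fin l) : R.sL i (Pi.single i 1) = - Pi.single i 1 := by
  rw [sL_apply]
  have : (∑ j, R.cart i j * (Pi.single i (1:ℤ) : Fin l → ℤ) j) = 2 := by
    rw [Finset.sum_eq_single i] <;> simp +contextual [R.cart_self, Pi.single_apply]
  rw [this, two_smul]; abel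

lemma sL_sL (i : Fin l) (v : Fin l → ℤ) : R.sL i (R.sL i v) = v := by
  conv_lhs => rw [R.sL_apply i v, map_sub, map_zsmul, sL_single, R.sL_apply i v]
  simp

lemma refl_refl (i : Fin l) (r : Φ) : R.refl i (R.refl i r) = r :=
  R.inj (by rw [ρ_refl', ρ_refl', sL_sL])

lemma refl_sim (i : Fin l) : R.refl i (R.sim i) = R.neg (R.sim i) :=
  R.inj (by rw [ρ_refl', R.ρ_neg, R.ρ_sim, sL_single])

lemma neg_neg' (r : Φ) : R.neg (R.neg r) = r := R.inj (by simp [R.ρ_neg])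

lemma refl_neg (i : Fin l) (r : Φ) : R.refl i (R.neg r) = R.neg (R.refl i r) :=
  R.inj (by rw [ρ_refl', R.ρ_neg, R.ρ_neg, ρ_refl', map_neg])

lemma refl_neg_sim (i : Fin l) : R.refl i (R.neg (R.sim i)) = R.sim i := by
  rw [refl_neg, refl_sim, neg_neg']

lemma not_pos_iff (r : Φ) : ¬ R.pos r ↔ R.ρ r ≤ 0 := by
  constructor
  · intro h; exact (R.pos_or r).resolve_left h
  · intro h h'; exact R.ne_zero r (le_antisymm h h')

lemma pos_neg_iff (r : Φ) : R.pos (R.neg r) ↔ ¬ R.pos r := by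
  rw [not_pos_iff, pos, R.ρ_neg, neg_nonneg]

lemma pos_sim (i : Fin l) : R.pos (R.sim i) := by
  unfold pos; rw [R.ρ_sim]; intro j; by_cases h : j = i <;> simp [Pi.single_apply, h]

lemma sim_inj {i j : Fin l} (h : R.sim i = R.sim j) : i = j := by
  have := congrFun (congrArg R.ρ h) i
  rw [R.ρ_sim, R.ρ_sim] at this
  by_contra hne
  simp [Pi.single_apply, hne] at this

lemma pos_refl {i : Fin l} {r : Φ} (h : R.pos r) (hr : r ≠ R.sim i) :
    R.pos (R.refl i r) ∧ R.refl i r ≠ R.sim i := by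
  refine ⟨R.refl_pos i r h hr, fun h' => ?_⟩
  have : r = R.neg (R.sim i) := by rw [← R.refl_refl i r, h', refl_sim]
  rw [this, pos_neg_iff] at h
  exact h (R.pos_sim i)

lemma exists_coord {i : Fin l} {r : Φ} (h : R.pos r) (hr : r ≠ R.sim i) :
    ∃ j, j ≠ i ∧ 0 < R.ρ r j := by
  by_contra hc
  push_neg at hc
  have h0 : ∀ j, j ≠ i → R.ρ r j = 0 := fun j hj => le_antisymm (hc j hj) (h j)
  have h1 := (R.pos_refl h hr).1 i
  rw [R.ρ_refl] at h1
  have : (∑ j, R.cart i j * R.ρ r j) = 2 * R.ρ r i := by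
    rw [Finset.sum_eq_single i] <;> simp +contextual [R.cart_self, h0]
  rw [this] at h1
  simp at h1
  apply R.ne_zero r
  funext j
  by_cases hj : j = i
  · subst hj; have := h j; simp at this ⊢; omega
  · exact h0 j hj

/-- action of the inverse of the word -/
def inv (w : List (Fin l)) (r : Φ) : Φ := w.foldl (fun r i => R.refl i r) r

@[simp] lemma inv_nil (r : Φ) : R.inv [] r = r := rfl
@[simp] lemma inv_cons (i : Fin l) (w : List (Fin l)) (r : Φ) :
    R.inv (i :: w) r = R.inv w (R.refl i r) := rfl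

lemma inv_append (w w' : List (Fin l)) (r : Φ) : R.inv (w ++ w') r = R.inv w' (R.inv w r) := by
  simp [inv, List.foldl_append]

def LW : List (Fin l) → ((Fin l → ℤ) →+ (Fin l → ℤ))
  | [] => AddMonoidHom.id _
  | i :: w => (LW w).comp (R.sL i)

lemma ρ_inv (w : List (Fin l)) (r : Φ) : R.ρ (R.inv w r) = R.LW w (R.ρ r) := by
  induction w generalizing r with
  | nil => rfl
  | cons i w ih => rw [inv_cons, ih, ρ_refl']; rfl

lemma inv_neg (w : List (Fin l)) (r : Φ) : R.inv w (R.neg r) = R.neg (R.inv w r) :=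
  R.inj (by rw [ρ_inv, R.ρ_neg, R.ρ_neg, ρ_inv, map_neg])

lemma inv_injective (w : List (Fin l)) : Function.Injective (R.inv w) := by
  induction w with
  | nil => exact fun _ _ h => h
  | cons i w ih =>
    intro a b h
    have : R.refl i a = R.refl i b := ih h
    rw [← R.refl_refl i a, this, refl_refl]

lemma inv_reverse_inv (w : List (Fin l)) (r : Φ) : R.inv w.reverse (R.inv w r) = r := by
  induction w generalizing r with
  | nil => rfl
  | cons i w ih => rw [List.reverse_cons, inv_append, R.inv_cons i w r, ih]; simp [refl_refl]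

lemma inv_inv_reverse (w : List (Fin l)) (r : Φ) : R.inv w (R.inv w.reverse r) = r := by
  simpa using R.inv_reverse_inv w.reverse r

lemma map_nonneg (L : (Fin l → ℤ) →+ (Fin l → ℤ)) (hL : ∀ i, 0 ≤ L (Pi.single i 1))
    (v : Fin l → ℤ) (hv : 0 ≤ v) : 0 ≤ L v := by
  have : v = ∑ i, v i • Pi.single i (1:ℤ) := by
    funext j; simp [Finset.sum_apply, Pi.single_apply]
  rw [this, map_sum]
  refine Finset.sum_nonneg fun i _ => ?_
  rw [map_zsmul]
  exact smul_nonneg (hv i) (hL i)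

lemma pos_inv_of_sim (w : List (Fin l)) (h : ∀ i, R.pos (R.inv w (R.sim i))) {r : Φ}
    (hr : R.pos r) : R.pos (R.inv w r) := by
  unfold pos; rw [ρ_inv]
  refine map_nonneg _ (fun i => ?_) _ hr
  have := h i; rwa [pos, ρ_inv, R.ρ_sim] at this

lemma neg_inv_of_sim (w : List (Fin l)) (h : ∀ i, ¬ R.pos (R.inv w (R.sim i))) {r : Φ}
    (hr : R.pos r) : ¬ R.pos (R.inv w r) := by
  rw [not_pos_iff, ρ_inv]
  have := map_nonneg (- R.LW w) (fun i => ?_) _ hr
  · simpa using this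
  · have := h i; rw [not_pos_iff, ρ_inv, R.ρ_sim] at this; simpa using this

def Inv (w : List (Fin l)) : Set Φ := {r | R.pos r ∧ ¬ R.pos (R.inv w r)}
def NInv (w : List (Fin l)) : Set Φ := {r | R.pos r ∧ R.pos (R.inv w r)}
def P' (i : Fin l) : Set Φ := {r | R.pos r ∧ r ≠ R.sim i}

/-- the cone of roots `a p + b s`, `b ≥ 1` -/
def cone (p s : Φ) : Set Φ := {u | ∃ a b : ℕ, 1 ≤ b ∧ R.ρ u = a • R.ρ p + b • R.ρ s}

def Closed (i : Fin l) (S : Set Φ) : Prop :=
  (∀ s ∈ S, R.pos s) ∧ ∀ s ∈ S, s ≠ R.sim i → R.cone (R.sim i) s ⊆ S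

lemma cone_pos {i : Fin l} {s u : Φ} (hs : R.pos s) (hs' : s ≠ R.sim i)
    (hu : u ∈ R.cone (R.sim i) s) : R.pos u ∧ u ≠ R.sim i := by
  obtain ⟨a, b, hb, h⟩ := hu
  refine ⟨?_, ?_⟩
  · unfold pos; rw [h]
    exact add_nonneg (nsmul_nonneg (R.pos_sim i) a) (nsmul_nonneg hs b)
  · rintro rfl
    obtain ⟨j, hj, hj'⟩ := R.exists_coord hs hs'
    have := congrFun h j
    simp [R.ρ_sim, Pi.single_apply, hj] at this
    omega

lemma closed_pos (i : Fin l) : R.Closed i {r | R.pos r} :=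
  ⟨fun _ h => h, fun _ hs hs' _ hu => (R.cone_pos hs hs' hu).1⟩

lemma closed_Inv (w : List (Fin l)) (i : Fin l) (hi : ¬ R.pos (R.inv w (R.sim i))) :
    R.Closed i (R.Inv w) := by
  refine ⟨fun _ h => h.1, fun s hs hs' u hu => ⟨(R.cone_pos hs.1 hs' hu).1, ?_⟩⟩
  obtain ⟨a, b, -, h⟩ := hu
  have h2 := hs.2
  rw [not_pos_iff, ρ_inv] at hi h2 ⊢
  rw [h, map_add, map_nsmul, map_nsmul]
  exact add_nonpos (nsmul_nonpos hi a) (nsmul_nonpos h2 b)

lemma closed_NInv (w : List (Fin l)) (i : Fin l) (hi : R.pos (R.inv w (R.sim i))) :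
    R.Closed i (R.NInv w) := by
  refine ⟨fun _ h => h.1, fun s hs hs' u hu => ⟨(R.cone_pos hs.1 hs' hu).1, ?_⟩⟩
  obtain ⟨a, b, -, h⟩ := hu
  have h2 := hs.2
  rw [pos, ρ_inv] at hi h2 ⊢
  rw [h, map_add, map_nsmul, map_nsmul]
  exact add_nonneg (nsmul_nonneg hi a) (nsmul_nonneg h2 b)

lemma pos_inv_cons_sim (w : List (Fin l)) (i : Fin l) :
    R.pos (R.inv (i :: w) (R.sim i)) ↔ ¬ R.pos (R.inv w (R.sim i)) := by
  rw [inv_cons, refl_sim, inv_neg, pos_neg_iff]

lemma Inv_cons_image (w : List (Fin l)) (i : Fin l) (hi : ¬ R.pos (R.inv w (R.sim i))) :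
    R.refl i '' R.Inv (i :: w) = R.Inv w \ {R.sim i} := by
  ext r
  constructor
  · rintro ⟨s, ⟨hs, hs2⟩, rfl⟩
    have hne : s ≠ R.sim i := by
      rintro rfl; exact hs2 ((R.pos_inv_cons_sim w i).2 hi)
    exact ⟨⟨(R.pos_refl hs hne).1, hs2⟩, (R.pos_refl hs hne).2⟩
  · rintro ⟨⟨hr, hr2⟩, hne⟩
    exact ⟨R.refl i r, ⟨(R.pos_refl hr hne).1, by rwa [inv_cons, refl_refl]⟩, R.refl_refl i r⟩

lemma refl_injective (i : Fin l) : Function.Injective (R.refl i) :=
  Function.LeftInverse.injective (R.refl_refl i)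

lemma ncard_Inv_cons [Finite Φ] (w : List (Fin l)) (i : Fin l) (hi : ¬ R.pos (R.inv w (R.sim i))) :
    (R.Inv (i :: w)).ncard + 1 = (R.Inv w).ncard := by
  rw [← Set.ncard_image_of_injective _ (R.refl_injective i), R.Inv_cons_image w i hi]
  exact Set.ncard_diff_singleton_add_one (show R.sim i ∈ R.Inv w from ⟨R.pos_sim i, hi⟩)

lemma Inv_congr {w w' : List (Fin l)} (h : R.inv w = R.inv w') : R.Inv w = R.Inv w' := by
  unfold Inv; rw [h]

lemma inv_cons_cons (i : Fin l) (w : List (Fin l)) : R.inv (i :: i :: w) = R.inv w := by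
  funext r; simp [refl_refl]

/-- induction on the number of inversions -/
lemma Inv_induction [Finite Φ] (P : List (Fin l) → Prop)
    (h0 : ∀ w, (∀ r, R.pos r → R.pos (R.inv w r)) → P w)
    (h1 : ∀ w i, ¬ R.pos (R.inv w (R.sim i)) → P (i :: w) → P w) (w : List (Fin l)) : P w := by
  induction' hn : (R.Inv w).ncard using Nat.strong_induction_on with n ih generalizing w
  by_cases h : ∀ i, R.pos (R.inv w (R.sim i))
  · exact h0 w fun r hr => R.pos_inv_of_sim w h hr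
  · push_neg at h
    obtain ⟨i, hi⟩ := h
    have := R.ncard_Inv_cons w i hi
    exact h1 w i hi (ih _ (by omega) _ rfl)

lemma exists_w0 [Finite Φ] : ∃ w : List (Fin l), ∀ r, R.pos r → ¬ R.pos (R.inv w r) := by
  have hb : BddAbove (Set.range fun w : List (Fin l) => (R.Inv w).ncard) := by
    refine ⟨(Set.univ : Set Φ).ncard, ?_⟩
    rintro _ ⟨w, rfl⟩
    exact Set.ncard_le_ncard (Set.subset_univ _)
  obtain ⟨w, hw⟩ := Nat.sSup_mem (Set.range_nonempty _) hb
  refine ⟨w, fun r hr => R.neg_inv_of_sim w (fun i hi => ?_) hr⟩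
  have h1 := R.ncard_Inv_cons (i :: w) i (by rw [pos_inv_cons_sim]; exact fun h => h hi)
  rw [R.Inv_congr (R.inv_cons_cons i w)] at h1
  have h2 : (R.Inv (i :: w)).ncard ≤ _ := le_csSup hb ⟨i :: w, rfl⟩
  simp only at hw
  omega

def ht (v : Fin l → ℤ) : ℤ := ∑ j, v j

lemma ht_pos {r : Φ} (h : R.pos r) : 0 < ht (R.ρ r) := by
  unfold ht
  refine Finset.sum_pos' (fun j _ => h j) ?_
  by_contra hc
  push_neg at hc
  exact R.ne_zero r (funext fun j => le_antisymm (hc j (Finset.mem_univ _)) (h j))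

lemma ht_neg {r : Φ} (h : ¬ R.pos r) : ht (R.ρ r) < 0 := by
  have := R.ht_pos ((R.pos_neg_iff r).2 h)
  rw [R.ρ_neg] at this
  simp only [ht, Pi.neg_apply, Finset.sum_neg_distrib] at this ⊢
  omega

/-- every root is conjugate to a simple root -/
lemma exists_inv_eq_sim [Finite Φ] (r : Φ) : ∃ w i, R.inv w r = R.sim i := by
  have key : ∀ w : List (Fin l), ∀ r, R.pos r → ¬ R.pos (R.inv w r) →
      ∃ w' i, R.inv w' r = R.sim i := by
    intro w
    induction w with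
    | nil => intro r h h'; exact absurd h h'
    | cons j w ih =>
      intro r h h'
      by_cases hr : r = R.sim j
      · exact ⟨[], j, hr⟩
      · obtain ⟨w', i, hw⟩ := ih (R.refl j r) (R.pos_refl h hr).1 h'
        exact ⟨j :: w', i, hw⟩
  obtain ⟨w0, hw0⟩ := R.exists_w0
  by_cases h : R.pos r
  · exact key w0 r h (hw0 r h)
  · obtain ⟨w, i, hw⟩ := key w0 (R.neg r) ((R.pos_neg_iff r).2 h) (hw0 _ ((R.pos_neg_iff r).2 h))
    refine ⟨w ++ [i], i, ?_⟩
    rw [inv_append, ← R.neg_neg' r, inv_neg, hw]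
    simp [refl_neg_sim]

end RS
end Cfsg.Agent.Lib.Chev
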