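import Mathlib

set_option autoImplicit false
set_option maxHeartbeats 400000

namespace Cfsg.Agent.Lib.Chev
open Matrix

noncomputable section

abbrev Col := List (ℕ × ℤ × ℕ)
abbrev Vec := List (ℕ × ℤ × ℕ × ℕ)

def lf {α β : Type} (f : α → β → β) (z : β) (l : List α) : β :=
  List.rec z (fun a _ ih => f a ih) l

@[simp] lemma lf_nil {α β : Type} (f : α → β → β) (z : β) : lf f z [] = z := rfl
@[simp] lemma lf_cons {α β : Type} (f : α → β → β) (z : β) (a : α) (l : List α) :
    lf f z (a :: l) = f a (lf f z l) := rfl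

def band (a b : Bool) : Bool := Bool.rec false b a
lemma band_iff (a b : Bool) : band a b = true ↔ a = true ∧ b = true := by
  cases a <;> simp [band]

def lall {α : Type} (p : α → Bool) (l : List α) : Bool := lf (fun a ih => band (p a) ih) true l
lemma lall_iff {α : Type} (p : α → Bool) (l : List α) : lall p l = true ↔ ∀ a ∈ l, p a = true := by
  induction l with
  | nil => simp [lall]
  | cons a l ih => unfold lall at ih ⊢; rw [lf_cons, band_iff, ih]; simp

def nall (p : ℕ → Bool) (n : ℕ) : Bool := Nat.rec true (fun b ih => band (p b) ih) n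
lemma nall_iff (p : ℕ → Bool) (n : ℕ) : nall p n = true ↔ ∀ b < n, p b = true := by
  induction n with
  | zero => simp [nall]
  | succ n ih =>
    have : nall p (n+1) = band (p n) (nall p n) := rfl
    rw [this, band_iff, ih]
    constructor
    · rintro ⟨h1, h2⟩ b hb
      rcases Nat.lt_succ_iff_lt_or_eq.1 hb with h | rfl
      · exact h2 b h
      · exact h1
    · intro h; exact ⟨h n (by omega), fun b hb => h b (by omega)⟩

def ibeq (x y : ℤ) : Bool :=
  Int.rec (fun a => Int.rec (fun b => Nat.beq a b) (fun _ => false) y)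
    (fun a => Int.rec (fun _ => false) (fun b => Nat.beq a b) y) x

lemma ibeq_iff (x y : ℤ) : ibeq x y = true ↔ x = y := by
  cases x <;> cases y <;> simp [ibeq, Nat.beq_eq_true_eq] <;> omega

def ipw (c : ℤ) (k : ℕ) : ℤ := Nat.rec (Int.ofNat 1) (fun _ ih => Int.mul c ih) k
lemma ipw_eq (c : ℤ) (k : ℕ) : ipw c k = c ^ k := by
  induction k with
  | zero => rw [pow_zero]; rfl
  | succ k ih => rw [pow_succ', ← ih]; rfl

def app1 (c : ℤ) (i j : ℕ) (d : ℤ) (m n : ℕ) (col : Col) (acc : Vec) : Vec :=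
  lf (fun e acc => (e.1, Int.mul d (Int.mul e.2.1 (ipw c e.2.2)), Nat.add m (Nat.mul i e.2.2),
    Nat.add n (Nat.mul j e.2.2)) :: acc) acc col

def appM (cf : ℕ → Col) (c : ℤ) (i j : ℕ) (v : Vec) : Vec :=
  lf (fun e acc => app1 c i j e.2.1 e.2.2.1 e.2.2.2 (cf e.1) acc) [] v

def appU (cf : ℕ → Col) (c : ℤ) (i j : ℕ) (v : Vec) : Vec :=
  lf (fun e acc => e :: app1 c i j e.2.1 e.2.2.1 e.2.2.2 (cf e.1) acc) [] v

def coef (a m n : ℕ) (v : Vec) : ℤ :=
  lf (fun e acc => Bool.rec acc (Int.add e.2.1 acc)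
    (band (Nat.beq e.1 a) (band (Nat.beq e.2.2.1 m) (Nat.beq e.2.2.2 n)))) (Int.ofNat 0) v

def leq (v : Vec) : Vec → Bool :=
  List.rec (fun w => List.rec true (fun _ _ _ => false) w)
    (fun e _ ih w => List.rec false (fun e' w' _ => band (Nat.beq e.1 e'.1) (band (ibeq e.2.1 e'.2.1)
      (band (Nat.beq e.2.2.1 e'.2.2.1) (band (Nat.beq e.2.2.2 e'.2.2.2) (ih w'))))) w) v

lemma eq_of_leq {v w : Vec} (h : leq v w = true) : v = w := by
  induction v generalizing w with
  | nil => cases w with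
    | nil => rfl
    | cons _ _ => simp [leq] at h
  | cons e v ih => cases w with
    | nil => simp [leq] at h
    | cons e' w =>
      have : leq (e :: v) (e' :: w) = band (Nat.beq e.1 e'.1) (band (ibeq e.2.1 e'.2.1)
        (band (Nat.beq e.2.2.1 e'.2.2.1) (band (Nat.beq e.2.2.2 e'.2.2.2) (leq v w)))) := rfl
      rw [this] at h
      simp only [band_iff, ibeq_iff, Nat.beq_eq] at h
      obtain ⟨h1, h2, h3, h4, h5⟩ := h
      rw [ih h5, Prod.ext h1 (Prod.ext h2 (Prod.ext h3 h4))]

def eqs (v w : Vec) : Bool :=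
  band (lall (fun e => ibeq (coef e.1 e.2.2.1 e.2.2.2 v) (coef e.1 e.2.2.1 e.2.2.2 w)) v)
    (lall (fun e => ibeq (coef e.1 e.2.2.1 e.2.2.2 v) (coef e.1 e.2.2.1 e.2.2.2 w)) w)

def eqv (v w : Vec) : Bool := Bool.rec (eqs v w) true (leq v w)

def expand (col : Col) : Vec :=
  col.flatMap fun e => (List.range (e.2.2 + 1)).map fun j => (e.1, e.2.1 * (e.2.2.choose j : ℕ), j, e.2.2 - j)

variable {ι : Type} (enc : ι → ℕ) {F : Type*} [CommRing F]

def Mat (cf : ℕ → Col) (τ : F) : Matrix ι ι F := Matrix.of fun a b =>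
  ((cf (enc b)).map fun e => if e.1 = enc a then (e.2.1 : F) * τ ^ e.2.2 else 0).sum

def ev (t u : F) (v : Vec) : ι → F := fun a =>
  (v.map fun e => if e.1 = enc a then (e.2.1 : F) * t ^ e.2.2.1 * u ^ e.2.2.2 else 0).sum

variable (t u : F)

lemma ev_nil : ev enc t u [] = 0 := by funext a; simp [ev]

lemma ev_cons (e : ℕ × ℤ × ℕ × ℕ) (v : Vec) : ev enc t u (e :: v) =
    (fun a => if e.1 = enc a then (e.2.1 : F) * t ^ e.2.2.1 * u ^ e.2.2.2 else 0) + ev enc t u v := by
  funext a; simp [ev]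

lemma ev_eq_sum (v : Vec) (K : Finset (ℕ × ℕ × ℕ)) (hK : ∀ e ∈ v, (e.1, e.2.2) ∈ K) (a : ι) :
    ev enc t u v a = ∑ k ∈ K, if k.1 = enc a then (coef k.1 k.2.1 k.2.2 v : F) * t ^ k.2.1 * u ^ k.2.2
      else 0 := by
  induction v with
  | nil => simp [ev, coef]
  | cons e v ih =>
    rw [ev_cons, Pi.add_apply, ih (fun e he => hK e (List.mem_cons_of_mem _ he))]
    have hc : ∀ k : ℕ × ℕ × ℕ, coef k.1 k.2.1 k.2.2 (e :: v) =
        (if k = (e.1, e.2.2) then e.2.1 else 0) + coef k.1 k.2.1 k.2.2 v := by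
      intro k
      have : coef k.1 k.2.1 k.2.2 (e :: v) = Bool.rec (coef k.1 k.2.1 k.2.2 v)
        (Int.add e.2.1 (coef k.1 k.2.1 k.2.2 v))
        (band (Nat.beq e.1 k.1) (band (Nat.beq e.2.2.1 k.2.1) (Nat.beq e.2.2.2 k.2.2))) := rfl
      rw [this]
      by_cases h : k = (e.1, e.2.2)
      · subst h; simp [band, Nat.beq_refl]
      · have : band (Nat.beq e.1 k.1) (band (Nat.beq e.2.2.1 k.2.1) (Nat.beq e.2.2.2 k.2.2)) = false := by
          rw [← Bool.not_eq_true, band_iff, band_iff]
          simp only [Nat.beq_eq]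
          rintro ⟨h1, h2, h3⟩
          exact h (Prod.ext h1.symm (Prod.ext h2.symm h3.symm))
        rw [this]; simp [h]
    have h2 : (if e.1 = enc a then (e.2.1 : F) * t ^ e.2.2.1 * u ^ e.2.2.2 else 0) =
        ∑ k ∈ K, if k = (e.1, e.2.2) then
          (if k.1 = enc a then (e.2.1 : F) * t ^ k.2.1 * u ^ k.2.2 else 0) else 0 := by
      rw [Finset.sum_ite_eq' K, if_pos (hK e List.mem_cons_self)]
    rw [h2, ← Finset.sum_add_distrib]
    refine Finset.sum_congr rfl fun k _ => ?_
    rw [hc]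
    split_ifs <;> push_cast <;> ring

lemma ev_eq_of_eqv {v w : Vec} (h : eqv v w = true) : ev enc t u v = ev enc t u w := by
  unfold eqv at h
  cases h1 : leq v w
  · rw [h1] at h
    change eqs v w = true at h
    unfold eqs at h
    rw [band_iff, lall_iff, lall_iff] at h
    funext a
    let K := ((v ++ w).map fun e => (e.1, e.2.2)).toFinset
    rw [ev_eq_sum enc t u v K (fun e he => by simp only [K, List.mem_toFinset]; exact List.mem_map_of_mem (by simp [he])),
      ev_eq_sum enc t u w K (fun e he => by simp only [K, List.mem_toFinset]; exact List.mem_map_of_mem (by simp [he]))]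
    refine Finset.sum_congr rfl fun k hk => ?_
    simp only [K, List.mem_toFinset, List.mem_map, List.mem_append] at hk
    obtain ⟨e, he, rfl⟩ := hk
    have : coef e.1 e.2.2.1 e.2.2.2 v = coef e.1 e.2.2.1 e.2.2.2 w := by
      rcases he with he | he
      · exact (ibeq_iff _ _).1 (h.1 e he)
      · exact (ibeq_iff _ _).1 (h.2 e he)
    simp only [this]
  · rw [eq_of_leq h1]

lemma ev_app1 (c : ℤ) (i j : ℕ) (d : ℤ) (m n : ℕ) (col : Col) (acc : Vec) (a : ι) :
    ev enc t u (app1 c i j d m n col acc) a =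
      (col.map fun e => if e.1 = enc a then (e.2.1 : F) * ((c : F) * t ^ i * u ^ j) ^ e.2.2 else 0).sum *
        ((d : F) * t ^ m * u ^ n) + ev enc t u acc a := by
  induction col with
  | nil => simp [app1]
  | cons e col ih =>
    have : app1 c i j d m n (e :: col) acc = (e.1, Int.mul d (Int.mul e.2.1 (ipw c e.2.2)),
      Nat.add m (Nat.mul i e.2.2), Nat.add n (Nat.mul j e.2.2)) :: app1 c i j d m n col acc := rfl
    rw [this, ev_cons, Pi.add_apply, ih, List.map_cons, List.sum_cons]
    simp only [Int.mul_def, Nat.add_eq, Nat.mul_eq, ipw_eq]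
    split_ifs
    · push_cast; ring
    · ring

variable [Fintype ι] [DecidableEq ι]

def Rep (M : Matrix ι ι F) (f : Vec → Vec) : Prop := ∀ v, M *ᵥ ev enc t u v = ev enc t u (f v)

variable {enc t u}

lemma Rep.mul {M N : Matrix ι ι F} {f g : Vec → Vec} (hM : Rep enc t u M f) (hN : Rep enc t u N g) :
    Rep enc t u (M * N) (fun v => f (g v)) := fun v => by
  rw [← Matrix.mulVec_mulVec, hN, hM]

lemma Rep.one : Rep enc t u (1 : Matrix ι ι F) (fun v => v) := fun v => by simp

lemma mulVec_single' (henc : Function.Injective enc) {cf : ℕ → Col}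
    (hcf : ∀ b, (∀ a, enc a ≠ b) → cf b = []) (τ z : F) (k : ℕ) (a : ι) :
    (Mat enc cf τ *ᵥ fun a => if k = enc a then z else 0) a =
      ((cf k).map fun e => if e.1 = enc a then (e.2.1 : F) * τ ^ e.2.2 else 0).sum * z := by
  by_cases h : ∃ b, enc b = k
  · obtain ⟨b, rfl⟩ := h
    simp only [Matrix.mulVec, dotProduct, henc.eq_iff]
    rw [Finset.sum_eq_single b] <;> simp +contextual [Mat, eq_comm]
  · push_neg at h
    rw [hcf k h]
    simp [Matrix.mulVec, dotProduct, fun a => (h a).symm]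

lemma rep_appM (henc : Function.Injective enc) {cf : ℕ → Col}
    (hcf : ∀ b, (∀ a, enc a ≠ b) → cf b = []) (c : ℤ) (i j : ℕ) :
    Rep enc t u (Mat enc cf ((c : F) * t ^ i * u ^ j)) (appM cf c i j) := by
  intro v
  induction v with
  | nil => simp [ev_nil, appM]
  | cons e v ih =>
    have : appM cf c i j (e :: v) = app1 c i j e.2.1 e.2.2.1 e.2.2.2 (cf e.1) (appM cf c i j v) := rfl
    funext a
    rw [this, ev_app1, ev_cons, Matrix.mulVec_add, Pi.add_apply, ih, mulVec_single' henc hcf]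

lemma rep_appU (henc : Function.Injective enc) {cf : ℕ → Col}
    (hcf : ∀ b, (∀ a, enc a ≠ b) → cf b = []) (c : ℤ) (i j : ℕ) :
    Rep enc t u (1 + Mat enc cf ((c : F) * t ^ i * u ^ j)) (appU cf c i j) := by
  intro v
  induction v with
  | nil => simp [ev_nil, appU]
  | cons e v ih =>
    have : appU cf c i j (e :: v) =
      e :: app1 c i j e.2.1 e.2.2.1 e.2.2.2 (cf e.1) (appU cf c i j v) := rfl
    funext a
    rw [this, ev_cons enc t u e (app1 _ _ _ _ _ _ _ _), Pi.add_apply, ev_app1, ev_cons,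
      Matrix.mulVec_add, Pi.add_apply, ih, Matrix.add_mulVec, Pi.add_apply,
      mulVec_single' henc hcf, Matrix.one_mulVec, add_assoc]

def e0 (b : ℕ) : Vec := [(b, Int.ofNat 1, 0, 0)]

lemma ev_e0 (henc : Function.Injective enc) (b : ι) : ev enc t u (e0 (enc b)) = Pi.single b 1 := by
  funext a; simp [ev, e0, henc.eq_iff, Pi.single_apply, eq_comm]

lemma Rep.apply (henc : Function.Injective enc) {M : Matrix ι ι F} {f : Vec → Vec}
    (hM : Rep enc t u M f) (a b : ι) : M a b = ev enc t u (f (e0 (enc b))) a := by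
  rw [← hM, ev_e0 henc]; simp

lemma Rep.eq (henc : Function.Injective enc) {M N : Matrix ι ι F} {f g : Vec → Vec}
    (hM : Rep enc t u M f) (hN : Rep enc t u N g)
    (h : ∀ b, eqv (f (e0 (enc b))) (g (e0 (enc b))) = true) : M = N := by
  ext a b
  rw [hM.apply henc, hN.apply henc, ev_eq_of_eqv enc t u (h b)]

omit [Fintype ι] [DecidableEq ι] in
lemma ev_expand (col : Col) (a : ι) : ev enc t u (expand col) a =
    (col.map fun e => if e.1 = enc a then (e.2.1 : F) * (t + u) ^ e.2.2 else 0).sum := by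
  induction col with
  | nil => simp [expand, ev]
  | cons e col ih =>
    rw [List.map_cons, List.sum_cons, ← ih]
    simp only [expand, List.flatMap_cons, ev, List.map_append, List.sum_append, List.map_map]
    congr 1
    split_ifs with h
    · rw [add_pow, Finset.mul_sum, ← List.sum_toFinset _ List.nodup_range]
      simp only [List.toFinset_range, Function.comp, h, if_true]
      refine Finset.sum_congr rfl fun j _ => ?_
      push_cast; ring
    · simp [Function.comp_def, h]

lemma add_of_check (henc : Function.Injective enc) {cf : ℕ → Col}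
    (hcf : ∀ b, (∀ a, enc a ≠ b) → cf b = [])
    (h : ∀ b, eqv (appU cf 1 1 0 (appU cf 1 0 1 (e0 (enc b)))) (e0 (enc b) ++ expand (cf (enc b))) = true)
    (t u : F) : (1 + Mat enc cf t) * (1 + Mat enc cf u) = 1 + Mat enc cf (t + u) := by
  have h1 := (rep_appU (t := t) (u := u) henc hcf 1 1 0).mul (rep_appU henc hcf 1 0 1)
  simp only [Int.cast_one, pow_one, pow_zero, one_mul, mul_one] at h1
  ext a b
  rw [h1.apply henc, ev_eq_of_eqv enc t u (h b)]
  have : ev enc t u (e0 (enc b) ++ expand (cf (enc b))) a =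
      ev enc t u (e0 (enc b)) a + ev enc t u (expand (cf (enc b))) a := by simp [ev]
  rw [this, ev_e0 henc, ev_expand]
  simp [Mat, Matrix.one_apply, Pi.single_apply]

end
end Cfsg.Agent.Lib.Chev
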